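import Cfsg.Agent.H2.SigBasic
import Cfsg.Agent.FT.BG01
import Cfsg.Agent.FT.BG03a
import Cfsg.Agent.FT.B.helper1_Core
import Cfsg.Agent.FT.B.helper1_Sec

/-! Fixed points of `[H, P]` are generated by the fixed points of the `[h, P]`: local steps. -/

set_option autoImplicit false
set_option linter.unusedSectionVars false

namespace Cfsg.Agent.H7.FC

open Subgroup Cfsg Cfsg.Agent Cfsg.Agent.FT
open scoped commutatorElement Pointwise

universe u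

section Basic

variable {G : Type u} [Group G]

/-- The subgroup `[g, P]`. -/
def Bc (P : Subgroup G) (g : G) : Subgroup G := closure {c | ∃ y ∈ P, c = ⁅g, y⁆}

variable {P R K : Subgroup G} {g : G}

theorem comm_mem_Bc {y : G} (hy : y ∈ P) (g : G) : ⁅g, y⁆ ∈ Bc P g :=
  subset_closure ⟨y, hy, rfl⟩

theorem Bc_le_iff : Bc P g ≤ R ↔ ∀ y ∈ P, ⁅g, y⁆ ∈ R := by
  rw [Bc, closure_le]
  exact ⟨fun h y hy => h ⟨y, hy, rfl⟩, by rintro h _ ⟨y, hy, rfl⟩; exact h y hy⟩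

theorem Bc_le_comm (hg : g ∈ R) : Bc P g ≤ ⁅R, P⁆ :=
  Bc_le_iff.2 fun _ hy => commutator_mem_commutator hg hy

theorem Bc_le (hg : g ∈ R) (hP : P ≤ 𝐍(R)) : Bc P g ≤ R :=
  (Bc_le_comm hg).trans (comm_le_left_iff.2 hP)

theorem conj_Bc_le {a : G} (ha : a ∈ P) : Bc P g ^ᵍ a ≤ Bc P g := by
  rw [conj_le_iff, Bc_le_iff]
  intro y hy
  rw [mem_conj]
  have : a⁻¹⁻¹ * ⁅g, y⁆ * a⁻¹ = ⁅g, a⁆⁻¹ * ⁅g, a * y⁆ := by
    simp only [commutatorElement_def]; group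
  rw [this]
  exact mul_mem (inv_mem (comm_mem_Bc ha g)) (comm_mem_Bc (mul_mem ha hy) g)

theorem norm_Bc (P : Subgroup G) (g : G) : P ≤ 𝐍(Bc P g) := fun a ha => by
  rw [← conj_eq_self_iff]
  refine le_antisymm (conj_Bc_le ha) ?_
  rw [le_conj_iff]
  exact conj_Bc_le (inv_mem ha)

theorem conj_le_Bc_sup (P : Subgroup G) (g : G) : P ^ᵍ g ≤ Bc P g ⊔ P := fun z hz => by
  obtain ⟨y, hy, rfl⟩ := mem_conj'.1 hz
  have : g * y * g⁻¹ = ⁅g, y⁆ * y := by simp only [commutatorElement_def]; group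
  rw [this]
  exact mul_mem_sup (comm_mem_Bc hy g) hy

theorem Bc_le_sup_conj (P : Subgroup G) (g : G) : Bc P g ≤ P ⊔ P ^ᵍ g :=
  Bc_le_iff.2 fun y hy => by
    rw [commutatorElement_def, sup_comm]
    exact mul_mem_sup (conj_mem_conj hy g) (inv_mem hy)

theorem Bc_conj {c : G} (hc : c ∈ 𝐂(P)) : Bc P g ^ᵍ c ≤ Bc P (c * g) := by
  rw [conj_le_iff, Bc_le_iff]
  intro y hy
  rw [mem_conj]
  have e := mem_cent.1 hc y⁻¹ (inv_mem hy)
  have : c⁻¹⁻¹ * ⁅g, y⁆ * c⁻¹ = ⁅c * g, y⁆ := by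
    simp only [commutatorElement_def]
    calc c⁻¹⁻¹ * (g * y * g⁻¹ * y⁻¹) * c⁻¹ = c * g * y * g⁻¹ * c⁻¹ * (c * y⁻¹) * c⁻¹ := by group
      _ = _ := by rw [← e]; group
  rw [this]
  exact comm_mem_Bc hy _

theorem Bc_map {G' : Type u} [Group G'] (f : G →* G') (P : Subgroup G) (g : G) :
    (Bc P g).map f = Bc (P.map f) (f g) := by
  rw [Bc, Bc, MonoidHom.map_closure]
  congr 1
  ext c
  constructor
  · rintro ⟨_, ⟨y, hy, rfl⟩, rfl⟩
    exact ⟨f y, mem_map_of_mem f hy, map_commutatorElement f g y⟩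
  · rintro ⟨_, ⟨y, hy, rfl⟩, rfl⟩
    exact ⟨_, ⟨y, hy, rfl⟩, map_commutatorElement f g y⟩

theorem Bc_bar {Y N : Subgroup G} [(N.subgroupOf Y).Normal] (hP : P ≤ Y) (g : Y) :
    H1.bar Y N (Bc P g) = Bc (H1.bar Y N P) (H1.qmk Y N g) := by
  have h : (Bc (P.subgroupOf Y) g).map Y.subtype = Bc P g := by
    rw [Bc_map, map_subgroupOf_eq_of_le hP]; rfl
  rw [H1.bar, H1.bar, ← Bc_map, ← h]
  congr 1
  exact comap_map_eq_self_of_injective Y.subtype_injective _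

theorem Bc_le_sup_mul {v : G} (hv : v ∈ K) (hP : P ≤ 𝐍(K)) (hg : g ∈ 𝐍(K)) :
    Bc P g ≤ K ⊔ Bc P (v * g) :=
  Bc_le_iff.2 fun y hy => by
    have : ⁅g, y⁆ = ((g * y * g⁻¹) * v * (g * y * g⁻¹)⁻¹ * v⁻¹) * ⁅v * g, y⁆ := by
      simp only [commutatorElement_def]; group
    rw [this]
    refine mul_mem_sup (mul_mem ?_ (inv_mem hv)) (comm_mem_Bc hy _)
    exact H1.conj_mem_of_le_normalizer le_rfl (mul_mem (mul_mem hg (hP hy)) (inv_mem hg)) hv

theorem exists_Bc_mul [Finite G] (hg : g ∈ R) (hP : P ≤ 𝐍(R)) (hc : 𝐨(P).Coprime 𝐨(R))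
    (hs : Group.IsSolvable P) : ∃ b ∈ Bc P g, b * g ∈ 𝐂(P) :=
  H1.exists_mul_mem_centralizer (norm_Bc P g) (H1.coprime_of_le hc le_rfl (Bc_le hg hP))
    (Or.inl hs) fun a ha => by
      have : a * g * a⁻¹ * g⁻¹ = ⁅g, a⁆⁻¹ := by simp only [commutatorElement_def]; group
      rw [this]
      exact inv_mem (comm_mem_Bc ha g)

end Basic

variable {G : Type u} [Group G] [Finite G]

theorem solv_prime {p : ℕ} (hp : p.Prime) {P : Subgroup G} (hP : 𝐨(P) = p) :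
    Group.IsSolvable P :=
  isSolvable_of_isNilpotent (isNilpotent_of_isPGroup hp (isPGroup_of_card_prime hP))

/-- The Frobenius step. -/
theorem frob_step {p q r : ℕ} (hp : p.Prime) (hp2 : p ≠ 2) (hq : q.Prime) (hr : r.Prime)
    (hqp : q ≠ p) (hqr : q ≠ r) {K R P : Subgroup G} (hP : 𝐨(P) = p) (hK : IsPGroup q K)
    (hKa : IsMulCommutative K) (hR : IsPGroup r R) (hRK : R ≤ 𝐍(K)) (hPK : P ≤ 𝐍(K))
    (hF : Frob R P) {h : G} (hh : h ∈ R) (hB : R ≤ Bc P h)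
    (hv : ∀ v ∈ K, IsPGroup r (Bc P (v * h))) : K ≤ 𝐂(R) := by
  haveI := Fact.mk hr
  have hPp := isPGroup_of_card_prime hP
  have hrp : r ≠ p := fun e => by
    have := hF.coprime
    rw [hP, ← e] at this
    exact ((Nat.Prime.coprime_iff_not_dvd hr).1 this.symm)
      (prime_dvd_card_of_isPGroup hr hR hF.ne_botK)
  have cKR := coprime_card_of_isPGroup hq hr hqr hK hR
  have cKP := coprime_card_of_isPGroup hq hp hqp hK hPp
  have cPR := coprime_card_of_isPGroup hp hr hrp.symm hPp hR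
  have cK : 𝐨(K).Coprime 𝐨((R ⊔ P : Subgroup G)) := by
    rw [hF.sdProd.card]; exact cKR.mul_right cKP
  have cP : 𝐨(P).Coprime 𝐨((K ⊔ R : Subgroup G)) := by
    rw [(sdProd_of_coprime hRK cKR).card]; exact cKP.symm.mul_right cPR
  have nP : P ≤ 𝐍(K ⊔ R) := H1.le_normalizer_sup hPK hF.norm
  have sP := solv_prime hp hP
  have syl : ∀ B : Subgroup G, B ≤ 𝐍(K) → R ≤ K ⊔ B → B ≤ K ⊔ R → ¬ r ∣ B.relIndex (K ⊔ R) := by
    intro B h1 h2 h3 hd
    have e : K ⊔ R = K ⊔ B := le_antisymm (sup_le le_sup_left h2) (sup_le le_sup_left h3)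
    have e1 := card_sup_mul_card_inf h1
    have e2 := H1.card_mul_relIndex (le_sup_right : B ≤ K ⊔ B)
    rw [e] at hd
    have : B.relIndex (K ⊔ B) ∣ 𝐨(K) := ⟨𝐨((K ⊓ B : Subgroup G)), by
      apply Nat.eq_of_mul_eq_mul_right (Nat.pos_of_ne_zero (card_ne_zero B))
      rw [← e1, ← e2]; ring⟩
    exact hqr (eq_of_prime_dvd_card_of_isPGroup hq hr hK (hd.trans this)).symm
  have key : K ≤ (K ⊓ 𝐂(P)) ⊔ (K ⊓ 𝐂(P ^ᵍ h)) := by
    intro v hvK
    have hvh : v * h ∈ K ⊔ R := mul_mem_sup hvK hh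
    have b1 : Bc P (v * h) ≤ K ⊔ R := Bc_le hvh nP
    have b2 : Bc P (v * h) ≤ 𝐍(K) := b1.trans (sup_le (le_norm_self K) hRK)
    obtain ⟨u, hu, e⟩ := H1.invariant_sylow_conj nP cP (Or.inl sP) le_sup_right hR
      (syl R hRK le_sup_right le_sup_right) hF.norm b1 (hv v hvK)
      (syl _ b2 (hB.trans (Bc_le_sup_mul hvK hPK (hRK hh))) b1) (norm_Bc P _)
    have huK : u ∈ K := by
      obtain ⟨k, hk, s, hs, rfl⟩ := (mem_sup_of_norm hRK).1 hu.1
      obtain ⟨k', hk', s', hs', e'⟩ := H2.exists_mul_centralizer_of_mul hPK hF.norm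
        (H1.coprime_of_le cPR le_rfl inf_le_right) sP hk hs hu.2
      rw [hF.cent_eq_bot, mem_bot] at hs'
      rw [e', hs', mul_one]; exact hk'.1
    have hw : u * v ∈ 𝐂(P ^ᵍ h) := by
      rw [mem_cent]
      intro z hz
      obtain ⟨y, hy, rfl⟩ := mem_conj'.1 hz
      have z1 : h * y * h⁻¹ ∈ R ⊔ P :=
        mul_mem (mul_mem_sup hh hy) (inv_mem (mem_sup_left hh))
      have z2 : (u * v) * (h * y * h⁻¹) * (u * v)⁻¹ ∈ R ⊔ P := by
        have e1 : (u * v) * (h * y * h⁻¹) * (u * v)⁻¹ = u * ⁅v * h, y⁆ * u⁻¹ * y := by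
          have := mem_cent.1 hu.2 y hy
          simp only [commutatorElement_def]
          calc _ = u * (v * h * y * (v * h)⁻¹ * y⁻¹) * u⁻¹ * (u * y) * u⁻¹ := by group
            _ = _ := by rw [← this]; group
        rw [e1]
        exact mul_mem_sup (e ▸ conj_mem_conj (comm_mem_Bc hy _) u) hy
      have z3 : ⁅u * v, h * y * h⁻¹⁆ ∈ K ⊓ (R ⊔ P) := by
        refine ⟨(comm_le_left_iff.2 (sup_le hRK hPK))
          (commutator_mem_commutator (mul_mem huK hvK) z1), ?_⟩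
        rw [commutatorElement_def]
        exact (R ⊔ P).mul_mem z2 ((R ⊔ P).inv_mem z1)
      rw [H1.inf_eq_bot_of_coprime' cK, mem_bot, commutatorElement_eq_one_iff_mul_comm] at z3
      exact z3.symm
    have : v = u⁻¹ * (u * v) := by group
    rw [this]
    exact mul_mem_sup (mem_inf.2 ⟨inv_mem huK, inv_mem (mem_inf.1 hu).2⟩)
      (mem_inf.2 ⟨mul_mem huK hvK, hw⟩)
  have hKK := isMulComm_iff_le_cent.1 hKa
  have e1 := card_sup_mul_card_inf (A := K ⊓ 𝐂(P)) (B := K ⊓ 𝐂(P ^ᵍ h))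
    ((inf_le_left.trans (hKK.trans (cent_anti inf_le_left))).trans (cent_le_norm _))
  have e2 : (K ⊓ 𝐂(P)) ⊓ (K ⊓ 𝐂(P ^ᵍ h)) = K ⊓ 𝐂(R ⊔ P) := by
    have : R ⊔ P = P ⊔ P ^ᵍ h := le_antisymm (sup_le (hB.trans (Bc_le_sup_conj P h)) le_sup_left)
      (sup_le le_sup_right (conj_le_of_mem le_sup_right (mem_sup_left hh)))
    rw [this, cent_sup, ← inf_inf_distrib_left]
  have e3 : 𝐨((K ⊓ 𝐂(P ^ᵍ h) : Subgroup G)) = 𝐨((K ⊓ 𝐂(P) : Subgroup G)) := by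
    rw [← card_conj (K ⊓ 𝐂(P)) h, conj_inf, conj_eq_of_mem_norm (hRK hh), cent_conj]
  rw [le_antisymm (sup_le inf_le_left inf_le_left) key, e2, e3] at e1
  have e4 := hF.wielandt_fix hRK hPK cK (isSolvable_of_isNilpotent (isNilpotent_of_isMulComm hKa))
  rw [hP] at e4
  have l1 : 𝐨((K ⊓ 𝐂(R ⊔ P) : Subgroup G)) ≤ 𝐨((K ⊓ 𝐂(P) : Subgroup G)) :=
    card_le_of_le (inf_le_inf_left _ (cent_anti le_sup_right))
  have l2 : 𝐨((K ⊓ 𝐂(R ⊔ P) : Subgroup G)) ≤ 𝐨((K ⊓ 𝐂(R) : Subgroup G)) :=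
    card_le_of_le (inf_le_inf_left _ (cent_anti le_sup_left))
  have p1 : 0 < 𝐨((K ⊓ 𝐂(R ⊔ P) : Subgroup G)) := Nat.card_pos
  have fin : K ⊓ 𝐂(R ⊔ P) = K := by
    refine H1.eq_of_le_of_card_le inf_le_left ?_
    generalize 𝐨((K ⊓ 𝐂(R ⊔ P) : Subgroup G)) = a at *
    generalize 𝐨((K ⊓ 𝐂(P) : Subgroup G)) = c at *
    generalize 𝐨((K ⊓ 𝐂(R) : Subgroup G)) = e at *
    generalize 𝐨(K) = k at *
    obtain ⟨n, rfl⟩ : ∃ n, p = n + 3 := ⟨p - 3, by have := hp.two_le; omega⟩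
    have hca : c ≤ a := by
      by_contra hlt
      rw [not_le] at hlt
      have h1 : a ^ (n + 1) < c ^ (n + 1) := Nat.pow_lt_pow_left hlt (by omega)
      have h2 : a ^ (n + 2) * (c * c) = c ^ (n + 1) * e * (c * c) := by
        rw [← e1]
        calc a ^ (n + 2) * (k * a) = a ^ (n + 3) * k := by ring
          _ = c ^ (n + 3) * e := e4
          _ = c ^ (n + 1) * e * (c * c) := by ring
          _ = _ := by rw [← e1]
      have h3 := Nat.eq_of_mul_eq_mul_right (by nlinarith) h2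
      have h4 : a ^ (n + 1) * a < c ^ (n + 1) * e := by
        calc a ^ (n + 1) * a < c ^ (n + 1) * a := Nat.mul_lt_mul_of_pos_right h1 p1
          _ ≤ _ := Nat.mul_le_mul_left _ l2
      rw [← h3] at h4
      exact absurd h4 (by rw [pow_succ a (n + 1)]; exact lt_irrefl _)
    have : c = a := le_antisymm hca l1
    subst this
    exact (Nat.eq_of_mul_eq_mul_right p1 e1).le
  exact fin.ge.trans (inf_le_right.trans (cent_anti le_sup_left))

end Cfsg.Agent.H7.FC
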