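import Cfsg.Agent.H7.FC1

/-! Fixed points of `[H, P]` are generated by the fixed points of the `[h, P]`: coprime step. -/

set_option autoImplicit false
set_option linter.unusedSectionVars false

namespace Cfsg.Agent.H7.FC

open Subgroup Cfsg Cfsg.Agent Cfsg.Agent.FT
open scoped commutatorElement Pointwise

universe u

variable {G : Type u} [Group G] [Finite G]

theorem exists_pow_mem {r : ℕ} {K R : Subgroup G} (hR : IsPGroup r R) (hRK : R ≤ 𝐍(K)) {b : G}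
    (hb : b ∈ K ⊔ R) : ∃ n : ℕ, b ^ r ^ n ∈ K := by
  haveI := H1.normal_subgroupOf_of_le (sup_le (le_norm_self K) hRK)
  have h1 : H1.qmk (K ⊔ R) K ⟨b, hb⟩ ∈ H1.bar (K ⊔ R) K R :=
    (H1.qmk_mem_bar_iff le_sup_left le_sup_right).2 (by rw [sup_comm]; exact hb)
  obtain ⟨n, hn⟩ := H1.isPGroup_bar (Y := K ⊔ R) (N := K) hR ⟨_, h1⟩
  refine ⟨n, ?_⟩
  have h2 : H1.qmk (K ⊔ R) K (⟨b, hb⟩ ^ r ^ n) = 1 := by
    rw [map_pow]; exact congrArg Subtype.val hn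
  exact H1.qmk_eq_one_iff.1 h2

theorem step_b {p q r : ℕ} (hp : p.Prime) (hp2 : p ≠ 2) (hq : q.Prime) (hr : r.Prime)
    (hqp : q ≠ p) (hqr : q ≠ r) {H K W P : Subgroup G} (hP : 𝐨(P) = p)
    (hc : 𝐨(P).Coprime 𝐨(H)) (hK : IsPGroup q K) (hKa : IsMulCommutative K) (hKH : K ≤ H)
    (hHK : H ≤ 𝐍(K)) (hPK : P ≤ 𝐍(K)) (hWK : W ≤ K) (hPW : P ≤ 𝐍(W))
    (hB : ∀ g ∈ H, Bc P g ⊓ K ≤ W) (hC : H ⊓ 𝐂(P) ≤ centMod K W) (R : Subgroup G) :
    R ≤ H → IsPGroup r R → P ≤ 𝐍(R) → R ≤ centMod K W := by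
  refine H1.subgroup_strong_induction (P := fun R => R ≤ H → IsPGroup r R → P ≤ 𝐍(R) →
    R ≤ centMod K W) ?_ R
  intro R ih hRH hR hPR
  by_contra hn
  have sP := solv_prime hp hP
  have cPR : 𝐨(P).Coprime 𝐨(R) := H1.coprime_of_le hc le_rfl hRH
  have hKK := isMulComm_iff_le_cent.1 hKa
  have hRK : R ≤ 𝐍(K) := hRH.trans hHK
  set S := R ⊓ centMod K W with hS
  have hSR : S < R := lt_of_le_of_ne inf_le_left fun e => hn (e.ge.trans inf_le_right)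
  have hPS : P ≤ 𝐍(S) := H1.le_normalizer_inf hPR (norm_le_norm_centMod hPK hPW)
  have small : ∀ U : Subgroup G, U < R → P ≤ 𝐍(U) → U ≤ S := fun U h1 h2 =>
    le_inf h1.le (ih U h1 (h1.le.trans hRH) (hR.to_le h1.le) h2)
  have hRS : R ≤ 𝐍(S) := by
    by_contra h1
    exact (lt_inf_norm_of_isNilpotent (isNilpotent_of_isPGroup hr hR) hSR).not_ge
      (small _ (lt_of_le_of_ne inf_le_left fun e => h1 (e.ge.trans inf_le_right))
        (H1.le_normalizer_inf hPR (H1.le_normalizer_normalizer hPS)))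
  have hCS : R ⊓ 𝐂(P) ≤ S := le_inf inf_le_left ((inf_le_inf_right _ hRH).trans hC)
  obtain ⟨h, hh, hhS⟩ := SetLike.exists_of_lt hSR
  have hBR : R ≤ Bc P h := by
    by_contra h1
    have h2 := small _ (lt_of_le_of_ne (Bc_le hh hPR) fun e => h1 e.ge) (norm_Bc P h)
    obtain ⟨b, hb, hbc⟩ := exists_Bc_mul hh hPR cPR sP
    have h3 := hCS (mem_inf.2 ⟨mul_mem (Bc_le hh hPR hb) hh, hbc⟩)
    exact hhS ((mul_mem_cancel_left (h2 hb)).1 h3)
  set W0 : Subgroup G := ⨅ a ∈ R ⊔ P, W ^ᵍ a with hW0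
  have mW0 : ∀ w, w ∈ W0 ↔ ∀ a ∈ R ⊔ P, a⁻¹ * w * a ∈ W := fun w => by
    simp only [hW0, mem_iInf, mem_conj]
  have W0W : W0 ≤ W := fun w hw => by simpa using (mW0 w).1 hw 1 (one_mem _)
  have W0K := W0W.trans hWK
  have nW0 : R ⊔ P ≤ 𝐍(W0) := fun t ht => mem_norm_of_conj_le fun w hw => by
    rw [mW0]
    intro a ha
    have := (mW0 _).1 (mem_conj.1 hw) (t⁻¹ * a) (mul_mem (inv_mem ht) ha)
    simpa [mul_assoc] using this
  have TK : R ⊔ P ≤ 𝐍(K) := sup_le hRK hPK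
  have TS : R ⊔ P ≤ 𝐍(S) := sup_le hRS hPS
  have KS : ⁅K, S⁆ ≤ W0 := commutator_le.2 fun k hk s hs => (mW0 _).2 fun a ha => by
    have := (mem_centMod.1 (H1.conj_mem_of_le_normalizer' TS ha hs).2).2 _
      (H1.conj_mem_of_le_normalizer' TK ha hk)
    convert this using 1
    simp only [commutatorElement_def]; group
  have hY : K ⊔ (R ⊔ P) ≤ 𝐍(W0 ⊔ S) := by
    refine sup_le (comm_le_right_iff.1 (comm_sup_le (le_sup_left.trans (le_norm_self _))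
      (le_sup_right.trans (le_norm_self _)) ?_ (KS.trans le_sup_left)))
      (H1.le_normalizer_sup nW0 TS)
    rw [comm_eq_bot_iff.2 (hKK.trans (cent_anti W0K))]; exact bot_le
  haveI := H1.normal_subgroupOf_of_le hY
  have RY : R ≤ K ⊔ (R ⊔ P) := le_sup_left.trans le_sup_right
  have PY : P ≤ K ⊔ (R ⊔ P) := le_sup_right.trans le_sup_right
  have cKR := coprime_card_of_isPGroup hq hr hqr hK hR
  have NH : W0 ⊔ S ≤ H := sup_le (W0K.trans hKH) (hSR.le.trans hRH)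
  have dP : (W0 ⊔ S) ⊓ P = ⊥ := H1.inf_eq_bot_of_coprime' (H1.coprime_of_le hc.symm NH le_rfl)
  have SW0 : S ≤ 𝐍(W0) := (hSR.le.trans le_sup_left).trans nW0
  have cP := (card_bar_of_disj PY dP).trans hP
  have key := frob_step (K := H1.bar (K ⊔ (R ⊔ P)) (W0 ⊔ S) K) hp hp2 hq hr hqp hqr cP
    (H1.isPGroup_bar hK) (H1.isMulCommutative_bar hKa) (H1.isPGroup_bar hR)
    (H1.bar_le_normalizer hRK) (H1.bar_le_normalizer hPK)
    ⟨fun e => ?_, ne_bot_of_card_prime (cP ▸ hp), H1.bar_le_normalizer hPR,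
      semiReg_of_card_prime (cP ▸ hp) ?_⟩
    (h := H1.qmk _ _ ⟨h, RY hh⟩) (H1.qmk_mem_bar hh) ?_ ?_
  · rw [H1.bar_le_centralizer_iff le_sup_left RY] at key
    refine hn (le_centMod_iff.2 ⟨?_, ?_⟩)
    all_goals
      have k1 : ⁅K, R⁆ ≤ W := by
        refine (le_inf key (comm_le_left_iff.2 hRK)).trans ?_
        rw [sup_inf_of_le_left SW0 W0K,
          H1.inf_eq_bot_of_coprime' (H1.coprime_of_le cKR.symm hSR.le le_rfl), sup_bot_eq]
        exact W0W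
    · refine comm_le_left_iff.1 ((commutator_mono hWK le_rfl).trans k1)
    · exact k1
  · have h1 := (H1.bar_eq_bot_iff RY).1 e
    have h2 := sup_inf_of_le_right SW0 hSR.le
    rw [inf_eq_right.2 h1, H1.inf_eq_bot_of_coprime' (H1.coprime_of_le cKR W0K le_rfl),
      bot_sup_eq] at h2
    exact hSR.ne' h2
  · rw [H1.bar_inf_centralizer_bar PY RY hPR cPR (Or.inl sP),
      H1.bar_eq_bot_iff (inf_le_left.trans RY)]
    exact hCS.trans le_sup_right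
  · rw [← Bc_bar PY]; exact H1.bar_mono hBR
  · intro vb hvb
    obtain ⟨v, hv, rfl⟩ := H1.mem_bar.1 hvb
    rw [← map_mul, ← Bc_bar PY]
    have hvh : (v : G) * h ∈ K ⊔ R := mul_mem_sup hv hh
    have b1 : Bc P (v * h) ≤ K ⊔ R := Bc_le hvh (H1.le_normalizer_sup hPK hPR)
    have b2 : Bc P (v * h) ≤ 𝐍(K) := b1.trans (sup_le (le_norm_self K) hRK)
    have b3 : Bc P (v * h) ⊓ K ≤ W0 := fun w hw => (mW0 w).2 fun a ha => by
      have a1 : a ∈ K ⊔ (Bc P (v * h) ⊔ P) :=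
        (sup_le ((hBR.trans (Bc_le_sup_mul hv hPK (hRK hh))).trans
          (sup_le_sup_left le_sup_left _)) (le_sup_right.trans le_sup_right)) ha
      obtain ⟨k, hk, t, ht, rfl⟩ := (mem_sup_of_norm (sup_le b2 hPK)).1 a1
      have e1 : (k * t)⁻¹ * w * (k * t) = t⁻¹ * w * t := by
        have := mem_cent.1 (hKK hk) w hw.2
        calc (k * t)⁻¹ * w * (k * t) = t⁻¹ * k⁻¹ * (w * k) * t := by group
          _ = _ := by rw [this]; group
      rw [e1]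
      refine hB _ (mul_mem (hKH hv) (hRH hh)) (H1.conj_mem_of_le_normalizer'
        (H1.le_normalizer_inf (sup_le (le_norm_self _) (norm_Bc P _)) (sup_le b2 hPK)) ht hw)
    rintro ⟨z, hz⟩
    obtain ⟨b, hb, rfl⟩ := H1.mem_bar.1 hz
    obtain ⟨n, hn⟩ := exists_pow_mem hR hRK (b1 hb)
    refine ⟨n, Subtype.ext ?_⟩
    have : H1.qmk (K ⊔ (R ⊔ P)) (W0 ⊔ S) (b ^ r ^ n) = 1 :=
      H1.qmk_eq_one_iff.2 (mem_sup_left (b3 ⟨pow_mem hb _, hn⟩))
    rw [map_pow] at this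
    exact this

end Cfsg.Agent.H7.FC
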