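import Cfsg.Agent.H7.FC2

/-! Fixed points of `[H, P]` are generated by the fixed points of the `[h, P]`. -/

set_option autoImplicit false
set_option linter.unusedSectionVars false

namespace Cfsg.Agent.H7.FC

open Subgroup Cfsg Cfsg.Agent Cfsg.Agent.FT
open scoped commutatorElement Pointwise

universe u

variable {G : Type u} [Group G] [Finite G]

/-- The subgroup generated by the fixed points of the `[g, P]`. -/
def Dc (P H : Subgroup G) : Subgroup G := ⨆ g ∈ H, Bc P g ⊓ 𝐂(P)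

theorem le_Dc {P H : Subgroup G} {g : G} (hg : g ∈ H) : Bc P g ⊓ 𝐂(P) ≤ Dc P H :=
  le_iSup₂ (f := fun g (_ : g ∈ H) => Bc P g ⊓ 𝐂(P)) g hg

theorem Dc_le {P H L : Subgroup G} (h : ∀ g ∈ H, Bc P g ⊓ 𝐂(P) ≤ L) : Dc P H ≤ L := iSup₂_le h

theorem Dc_mono {P H L : Subgroup G} (h : H ≤ L) : Dc P H ≤ Dc P L :=
  Dc_le fun _ hg => le_Dc (h hg)

theorem comm_mem_of_zpowers {M : Subgroup G} {a b y : G} (ha : a ∈ 𝐍(M)) (h : ⁅a, b⁆ ∈ M)
    (hy : y ∈ zpowers a) : ⁅y, b⁆ ∈ M := by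
  let S : Subgroup G :=
    { carrier := {y | y ∈ 𝐍(M) ∧ ⁅y, b⁆ ∈ M}
      one_mem' := ⟨one_mem _, by simp⟩
      mul_mem' := by
        rintro y z ⟨h1, h2⟩ ⟨h3, h4⟩
        refine ⟨mul_mem h1 h3, ?_⟩
        have : ⁅y * z, b⁆ = y * ⁅z, b⁆ * y⁻¹ * ⁅y, b⁆ := by
          simp only [commutatorElement_def]; group
        rw [this]
        exact mul_mem (H1.conj_mem_of_le_normalizer le_rfl h1 h4) h2
      inv_mem' := by
        rintro y ⟨h1, h2⟩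
        refine ⟨inv_mem h1, ?_⟩
        have : ⁅y⁻¹, b⁆ = y⁻¹ * ⁅y, b⁆⁻¹ * y := by
          simp only [commutatorElement_def]; group
        rw [this]
        exact H1.conj_mem_of_le_normalizer' le_rfl h1 (inv_mem h2) }
  exact ((zpowers_le (H := S)).2 ⟨ha, h⟩ hy).2

/-- A minimal counterexample. -/
structure Min (p : ℕ) (P H : Subgroup G) : Prop where
  hp : p.Prime
  hp2 : p ≠ 2
  hP : 𝐨(P) = p
  hn : P ≤ 𝐍(H)
  hc : 𝐨(P).Coprime 𝐨(H)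
  hs : Group.IsSolvable H
  comm : ⁅H, P⁆ = H
  sub : ∀ U : Subgroup G, U < H → P ≤ 𝐍(U) → ⁅U, P⁆ ⊓ 𝐂(P) ≤ Dc P H
  quot : ∀ N : Subgroup G, N ⊲ H → N ≠ ⊥ → P ≤ 𝐍(N) → H ⊓ 𝐂(P) ≤ Dc P H ⊔ N
  bad : ¬ H ⊓ 𝐂(P) ≤ Dc P H

namespace Min

variable {p : ℕ} {P H : Subgroup G} (h : Min p P H)
include h

theorem sP : Group.IsSolvable P := solv_prime h.hp h.hP

theorem D_le : Dc P H ≤ H ⊓ 𝐂(P) := Dc_le fun _ hg => inf_le_inf_right _ (Bc_le hg h.hn)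

theorem norm_D : H ⊓ 𝐂(P) ≤ 𝐍(Dc P H) := fun c hc => mem_norm_of_conj_le (by
  rw [conj_le_iff]
  refine Dc_le fun g hg => ?_
  rw [← conj_le_iff, conj_inf]
  exact (inf_le_inf (Bc_conj hc.2) (conj_le_of_mem le_rfl hc.2)).trans (le_Dc (mul_mem hc.1 hg)))

theorem quot' {N : Subgroup G} (h1 : N ⊲ H) (h2 : N ≠ ⊥) (h3 : P ≤ 𝐍(N)) :
    H ⊓ 𝐂(P) ≤ Dc P H ⊔ (N ⊓ 𝐂(P)) := by
  have e := H1.dedekind_left (S := H ⊓ 𝐂(P)) ((h.D_le.trans inf_le_left).trans h1.2) h.D_le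
  rw [inf_eq_left.2 (h.quot N h1 h2 h3)] at e
  refine e.le.trans (sup_le_sup_left (le_inf inf_le_right (inf_le_left.trans inf_le_right)) _)

theorem cent_of {K : Subgroup G} (h1 : H ≤ 𝐍(K)) (h2 : P ≤ 𝐂(K)) : H ≤ 𝐂(K) :=
  h.comm.ge.trans ((commutator_mono le_rfl h2).trans
    (comm_le_right_iff.2 (H1.le_normalizer_centralizer h1)))

section

variable {K : Subgroup G} (hK : K ⊲ H) (hPK : P ≤ 𝐍(K)) (hKa : IsMulCommutative K)
include hK hPK hKa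

theorem le_W {U : Subgroup G} (h1 : U ≤ K) (h2 : P ≤ 𝐍(U)) (h3 : U ⊓ 𝐂(P) ≤ Dc P H) :
    U ≤ (Dc P H ⊓ K) ⊔ ⁅K, P⁆ := by
  rw [← H1.commutator_sup_centralizer h2 (H1.coprime_of_le h.hc le_rfl (h1.trans hK.1))
    (Or.inl h.sP), sup_comm]
  exact sup_le_sup (le_inf h3 (inf_le_left.trans h1)) (commutator_mono h1 le_rfl)

theorem W_le : (Dc P H ⊓ K) ⊔ ⁅K, P⁆ ≤ K := sup_le inf_le_right (comm_le_left_iff.2 hPK)

theorem le_centMod {A : Subgroup G} (h1 : ⁅K, A⁆ ≤ (Dc P H ⊓ K) ⊔ ⁅K, P⁆) :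
    A ≤ centMod K ((Dc P H ⊓ K) ⊔ ⁅K, P⁆) :=
  le_centMod_iff.2 ⟨comm_le_left_iff.1 ((commutator_mono (h.W_le hK hPK hKa) le_rfl).trans h1), h1⟩

theorem norm_W : P ≤ 𝐍((Dc P H ⊓ K) ⊔ ⁅K, P⁆) :=
  (le_centMod_iff.1 (h.le_centMod hK hPK hKa le_sup_right)).1

theorem C_le (hK1 : K ≠ ⊥) : H ⊓ 𝐂(P) ≤ centMod K ((Dc P H ⊓ K) ⊔ ⁅K, P⁆) := by
  have hKK := isMulComm_iff_le_cent.1 hKa
  have nK : ∀ A B : Subgroup G, A ≤ K → B ≤ K → A ≤ 𝐍(B) := fun A B h1 h2 =>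
    (h1.trans (hKK.trans (cent_anti h2))).trans (cent_le_norm _)
  have CK : H ⊓ 𝐂(P) ≤ 𝐍(K) := inf_le_left.trans hK.2
  have WK := h.W_le hK hPK hKa
  refine h.le_centMod hK hPK hKa ?_
  rw [commutator_comm]
  refine (commutator_mono le_rfl (H1.commutator_sup_centralizer hPK
    (H1.coprime_of_le h.hc le_rfl hK.1) (Or.inl h.sP)).ge).trans
    (comm_sup_le (nK _ _ (comm_le_left_iff.2 hPK) WK) (nK _ _ inf_le_left WK) ?_ ?_)
  · exact (comm_le_right_iff.2 (H1.le_normalizer_commutator CK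
      (inf_le_right.trans (cent_le_norm P)))).trans le_sup_right
  · rw [commutator_comm]
    refine ((commutator_mono le_rfl (h.quot' hK hK1 hPK)).trans (comm_sup_le
      (H1.le_normalizer_inf (le_norm_self _) (h.D_le.trans CK)) (nK _ _ inf_le_left inf_le_right)
      (le_inf ?_ ?_) ?_)).trans le_sup_left
    · exact comm_le_right_iff.2 ((inf_le_inf_right _ hK.1).trans h.norm_D)
    · exact (commutator_mono inf_le_left le_rfl).trans (comm_le_left_iff.2 (h.D_le.trans CK))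
    · rw [comm_eq_bot_iff.2 (inf_le_left.trans (hKK.trans (cent_anti inf_le_left)))]
      exact bot_le

theorem W_bot (hW : H ≤ 𝐍((Dc P H ⊓ K) ⊔ ⁅K, P⁆)) : Dc P H ⊓ K = ⊥ ∧ P ≤ 𝐂(K) := by
  have hKK := isMulComm_iff_le_cent.1 hKa
  have : (Dc P H ⊓ K) ⊔ ⁅K, P⁆ = ⊥ := by
    by_contra hne
    refine h.bad ((h.quot' ⟨(h.W_le hK hPK hKa).trans hK.1, hW⟩ hne
      (h.norm_W hK hPK hKa)).trans (sup_le le_rfl ?_))
    rw [sup_inf_of_le_left (((comm_le_left_iff.2 hPK).trans (hKK.trans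
      (cent_anti inf_le_right))).trans (cent_le_norm _))
      (inf_le_left.trans (h.D_le.trans inf_le_right)), inf_comm ⁅K, P⁆,
      H1.centralizer_inf_commutator_eq_bot hKa hPK (H1.coprime_of_le h.hc le_rfl hK.1), sup_bot_eq]
    exact inf_le_left
  rw [sup_eq_bot_iff] at this
  exact ⟨this.1, cent_comm.1 (comm_eq_bot_iff.1 this.2)⟩

end

theorem core_cent {q : ℕ} (hq : q.Prime) (hH : ¬ IsPGroup q H) : P ≤ 𝐂(pCoreOf q H) := by
  haveI := Fact.mk hq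
  set O := pCoreOf q H with hO
  have hOp : IsPGroup q O := H2.isPGroup_pCoreOf q H
  have hOn : O ⊲ H := pCoreOf_normal q H
  have hPO : P ≤ 𝐍(O) := h.hn.trans (H2.normalizer_le_normalizer_pCoreOf q H)
  by_contra hne
  have hO1 : O ≠ ⊥ := fun e => hne (by rw [e, cent_bot]; exact le_top)
  have hqp : q ≠ p := fun e => by
    have := h.hc
    rw [h.hP, ← e] at this
    exact (Nat.Prime.coprime_iff_not_dvd hq).1 this
      ((prime_dvd_card_of_isPGroup hq hOp hO1).trans (FT.card_dvd_of_le hOn.1))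
  have hK : 𝐙(O) ⊲ H := ⟨inf_le_left.trans hOn.1, hOn.2.trans (norm_le_norm_center O)⟩
  have hPK : P ≤ 𝐍(𝐙(O)) := hPO.trans (norm_le_norm_center O)
  have hKa := isMulComm_center O
  have hK1 := center_ne_bot (isNilpotent_of_isPGroup hq hOp) hO1
  have hC := h.C_le hK hPK hKa hK1
  obtain ⟨Q, hQH, hQp, hQi, hPQ⟩ := H1.exists_invariant_sylow h.hn h.hc (Or.inl h.sP) q
  have hOQ : O ≤ Q := (⟨hQH, hQp, hQi⟩ : IsSyl q Q H).pCoreOf_le hq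
  have hQ := h.sub Q (lt_of_le_of_ne hQH fun e => hH (e ▸ hQp)) hPQ
  have hX : H ≤ centMod 𝐙(O) ((Dc P H ⊓ 𝐙(O)) ⊔ ⁅𝐙(O), P⁆) := by
    refine H1.le_of_forall_exists_sylow_le fun r hr => ?_
    by_cases hrq : r = q
    · subst hrq
      refine ⟨Q, hQi, ?_⟩
      rw [← H1.commutator_sup_centralizer hPQ (H1.coprime_of_le h.hc le_rfl hQH) (Or.inl h.sP)]
      refine sup_le (h.le_centMod hK hPK hKa ?_) ((inf_le_inf_right _ hQH).trans hC)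
      have e1 : ⁅𝐙(O), ⁅Q, P⁆⁆ ≤ 𝐙(O) ⊓ ⁅Q, P⁆ :=
        le_inf (comm_le_left_iff.2 (((comm_le_left_iff.2 hPQ).trans hQH).trans hK.2))
          (comm_le_right_iff.2 ((inf_le_left.trans hOQ).trans (normalizer_commutator_ge_left Q P)))
      refine e1.trans (h.le_W hK hPK hKa inf_le_left
        (H1.le_normalizer_inf hPK H1.le_normalizer_commutator_self)
        ((inf_le_inf_right _ inf_le_right).trans hQ))
    · haveI := Fact.mk hr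
      obtain ⟨R, hRH, hRp, hRi, hPR⟩ := H1.exists_invariant_sylow h.hn h.hc (Or.inl h.sP) r
      refine ⟨R, hRi, step_b h.hp h.hp2 hq hr hqp (Ne.symm hrq) h.hP h.hc (hOp.to_le inf_le_left)
        hKa hK.1 hK.2 hPK (h.W_le hK hPK hKa) (h.norm_W hK hPK hKa) (fun g hg => ?_) hC R hRH
        hRp hPR⟩
      exact h.le_W hK hPK hKa inf_le_right (H1.le_normalizer_inf (norm_Bc P g) hPK)
        ((inf_le_inf_right _ inf_le_left).trans (le_Dc hg))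
  obtain ⟨h1, h2⟩ := h.W_bot hK hPK hKa (le_centMod_iff.1 hX).1
  refine inf_center_ne_bot (isNilpotent_of_isPGroup hq hOp)
    ⟨comm_le_left_iff.2 hPO, normalizer_commutator_ge_left O P⟩
    (fun e => hne (cent_comm.1 (comm_eq_bot_iff.1 e))) (eq_bot_iff.2 ?_)
  have h3 : ⁅O, P⁆ ⊓ 𝐂(O) ≤ 𝐙(O) := inf_le_inf_right _ (comm_le_left_iff.2 hPO)
  rw [← h1]
  exact le_inf ((le_inf (inf_le_left.trans (commutator_mono hOQ le_rfl))
    (h3.trans (cent_comm.1 h2))).trans hQ) h3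

theorem ne_bot : H ≠ ⊥ := fun e => h.bad (by rw [e, bot_inf_eq]; exact bot_le)

theorem not_cent : ¬ P ≤ 𝐂(H) := fun e =>
  h.ne_bot (h.comm.symm.trans (comm_eq_bot_iff.2 (cent_comm.1 e)))

theorem exists_pgroup : ∃ q : ℕ, q.Prime ∧ IsPGroup q H := by
  by_contra hne
  refine h.not_cent (coprime_cent_fitting h.hn h.hc h.hs ?_)
  rw [cent_comm, H2.fittingOf_eq_iSup_pCoreOf]
  exact iSup_le fun q => cent_comm.1 (h.core_cent q.2 fun e => hne ⟨q, q.2, e⟩)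

theorem false : False := by
  obtain ⟨q, hq, hH⟩ := h.exists_pgroup
  have hnil := isNilpotent_of_isPGroup hq hH
  have hK : 𝐙(H) ⊲ H := center_normal H
  have hPK : P ≤ 𝐍(𝐙(H)) := h.hn.trans (norm_le_norm_center H)
  have hKa := isMulComm_center H
  have nZ : ∀ A : Subgroup G, A ≤ 𝐙(H) → H ≤ 𝐍(A) := fun A hA =>
    (cent_comm.1 (hA.trans inf_le_right)).trans (cent_le_norm A)
  obtain ⟨hD, hPZ⟩ := h.W_bot hK hPK hKa (nZ _ (h.W_le hK hPK hKa))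
  have hZP := cent_comm.1 hPZ
  set Z2 := H ⊓ centMod H 𝐙(H) with hZ2
  have nZ2 : H ≤ 𝐍(Z2) := H1.le_normalizer_inf (le_norm_self H)
    (norm_le_norm_centMod (le_norm_self H) hK.2)
  have PZ2 : P ≤ 𝐍(Z2) := H1.le_normalizer_inf h.hn (norm_le_norm_centMod h.hn hPK)
  have cZ2 : ⁅H, Z2⁆ ≤ 𝐙(H) := (le_centMod_iff.1 inf_le_right).2
  have cZ2' : ⁅Z2, H⁆ ≤ 𝐙(H) := by rw [commutator_comm]; exact cZ2
  have Z2H : Z2 ≤ H := inf_le_left
  have ZZ2 : 𝐙(H) ≤ Z2 := le_inf inf_le_left (le_centMod_iff.2 ⟨le_norm_self _,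
    comm_le_right_iff.2 hK.2⟩)
  have claim1 : ∀ γ ∈ Z2, ∀ g ∈ H, ⁅Bc P (γ * g), Bc P (γ * g)⁆ ≤ ⁅Bc P g, Bc P g⁆ := by
    intro γ hγ g hg
    have hγg := mul_mem (Z2H hγ) hg
    have BH := Bc_le hg h.hn
    have b1 : Bc P (γ * g) ≤ Z2 ⊔ Bc P g := by
      simpa using Bc_le_sup_mul (g := γ * g) (inv_mem hγ) PZ2 (nZ2 hγg)
    have EH : ⁅Bc P g, Bc P g⁆ ⊔ 𝐙(H) ≤ H := sup_le ((der_le _).trans BH) inf_le_left
    have b2 : ⁅Bc P (γ * g), Bc P (γ * g)⁆ ≤ ⁅Bc P g, Bc P g⁆ ⊔ 𝐙(H) :=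
      (commutator_mono b1 b1).trans (der_sup_le
        (comm_le_left_iff.1 (((commutator_mono EH le_rfl).trans cZ2).trans le_sup_right))
        (H1.le_normalizer_sup (der_normal _).2 (BH.trans hK.2))
        (((commutator_mono le_rfl Z2H).trans cZ2').trans le_sup_right)
        (((commutator_mono le_rfl BH).trans cZ2').trans le_sup_right) le_sup_left)
    have nU := (norm_Bc P (γ * g)).trans (norm_le_norm_der _)
    have ZB : 𝐙(H) ≤ 𝐍(⁅Bc P g, Bc P g⁆) :=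
      (inf_le_right.trans (cent_anti ((der_le _).trans BH))).trans (cent_le_norm _)
    rw [← H1.commutator_sup_centralizer nU (H1.coprime_of_le h.hc le_rfl (b2.trans EH))
      (Or.inl h.sP)]
    refine sup_le ?_ fun e he => ?_
    · rw [commutator_comm]
      refine (commutator_mono le_rfl b2).trans (comm_sup_le (le_norm_self _) ZB
        (comm_le_right_iff.2 ((norm_Bc P g).trans (norm_le_norm_der _))) ?_)
      rw [comm_eq_bot_iff.2 hPZ]; exact bot_le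
    · obtain ⟨b, hb, z, hz, rfl⟩ := (mem_sup_of_norm ZB).1 (b2 he.1)
      have h1 : b ∈ Dc P H :=
        le_Dc hg (mem_inf.2 ⟨der_le _ hb, (mul_mem_cancel_right (hZP hz)).1 (mem_inf.1 he).2⟩)
      have h2 : b * z ∈ Dc P H := le_Dc hγg (mem_inf.2 ⟨der_le _ he.1, he.2⟩)
      have h3 : z ∈ Dc P H ⊓ 𝐙(H) := mem_inf.2 ⟨(mul_mem_cancel_left h1).1 h2, hz⟩
      rw [hD, mem_bot] at h3
      rwa [h3, mul_one]
  have hPp : 𝐨(P).Prime := h.hP ▸ h.hp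
  obtain ⟨x, hx, hx1⟩ : ∃ x ∈ P, x ≠ 1 := by
    obtain ⟨x, hx⟩ := ne_bot_iff_exists_ne_one.1 (ne_bot_of_card_prime hPp)
    exact ⟨x, x.2, fun e => hx (Subtype.ext e)⟩
  have hPx := zpowers_eq_of_card_prime hPp hx hx1
  have cen : ∀ z ∈ 𝐙(H), ∀ u ∈ H, u * z = z * u := fun z hz u hu => mem_cent.1 hz.2 u hu
  have cm : ∀ s ∈ Z2, ∀ u ∈ H, ⁅s, u⁆ ∈ 𝐙(H) := fun s hs u hu =>
    cZ2' (commutator_mem_commutator hs hu)
  have zl : ∀ z ∈ 𝐙(H), ∀ s ∈ H, ∀ u ∈ H, ⁅z * s, u⁆ = ⁅s, u⁆ := fun z hz s hs u hu => by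
    have := cen z hz _ (mul_mem (mul_mem hs hu) (inv_mem hs))
    simp only [commutatorElement_def]
    calc _ = z * (s * u * s⁻¹) * z⁻¹ * u⁻¹ := by group
      _ = _ := by rw [← this]; group
  have claim2 : ∀ γ ∈ Z2, ∀ g ∈ H, ⁅⁅γ, x⁆, x * ⁅g, x⁆ * x⁻¹⁆ * ⁅⁅γ, x⁆, x * ⁅γ, x⁆ * x⁻¹⁆ *
      ⁅x * ⁅γ, x⁆ * x⁻¹, ⁅g, x⁆⁻¹⁆ = 1 := by
    intro γ hγ g hg
    have BH := Bc_le hg h.hn
    have hb := comm_mem_Bc hx g
    have hb1 := comm_mem_Bc hx (γ * g)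
    have hν : ⁅γ, x⁆ ∈ Z2 := comm_le_left_iff.2 PZ2 (commutator_mem_commutator hγ hx)
    have k1 := claim1 γ hγ g hg (commutator_mem_commutator hb1
      (H1.conj_mem_of_le_normalizer (norm_Bc P _) hx hb1))
    have hc := H1.conj_mem_of_le_normalizer (norm_Bc P _) hx hb
    have k2 := commutator_mem_commutator hb hc
    have e1 : ⁅γ * g, x⁆ = ⁅g, x⁆ * (⁅⁅g, x⁆⁻¹, γ⁆ * ⁅γ, x⁆) := by
      simp only [commutatorElement_def]; group
    have hζ : ⁅⁅g, x⁆⁻¹, γ⁆ ∈ 𝐙(H) := cZ2 (commutator_mem_commutator (inv_mem (BH hb)) hγ)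
    rw [e1] at k1
    generalize ⁅g, x⁆ = b at *
    generalize ⁅γ, x⁆ = ν at *
    generalize ⁅b⁻¹, γ⁆ = ζ at *
    have hμ := H1.conj_mem_of_le_normalizer PZ2 hx hν
    have e2 : x * (b * (ζ * ν)) * x⁻¹ = (x * b * x⁻¹) * (ζ * (x * ν * x⁻¹)) := by
      have := mem_cent.1 (hZP hζ) x hx
      calc _ = x * b * x⁻¹ * (x * ζ) * ν * x⁻¹ := by group
        _ = _ := by rw [this]; group
    rw [e2] at k1
    generalize x * b * x⁻¹ = c at *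
    generalize x * ν * x⁻¹ = μ at *
    have hs := mul_mem (ZZ2 hζ) hν
    have ht := mul_mem (ZZ2 hζ) hμ
    have e3 : ⁅b * (ζ * ν), c * (ζ * μ)⁆ =
        ⁅b, c⁆ * (⁅ζ * ν, c⁆ * ⁅ζ * ν, ζ * μ⁆ * ⁅ζ * μ, b⁻¹⁆) := by
      have z1 := cm _ hs c (BH hc)
      have z2 := mul_mem (cm _ hs _ (Z2H ht)) (cm _ ht _ (inv_mem (BH hb)))
      have e4 : ⁅b * (ζ * ν), c * (ζ * μ)⁆ =
          b * ⁅ζ * ν, c⁆ * c * (⁅ζ * ν, ζ * μ⁆ * ⁅ζ * μ, b⁻¹⁆) * (b⁻¹ * c⁻¹) := by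
        simp only [commutatorElement_def]; group
      rw [e4, mul_assoc ⁅ζ * ν, c⁆]
      generalize ⁅ζ * ν, c⁆ = z1' at *
      generalize ⁅ζ * ν, ζ * μ⁆ * ⁅ζ * μ, b⁻¹⁆ = z2' at *
      have f1 := cen _ z1 _ (mul_mem (BH hc) (mul_mem (inv_mem (BH hb)) (inv_mem (BH hc))))
      have f2 := cen _ z2 _ (mul_mem (inv_mem (BH hb)) (inv_mem (BH hc)))
      rw [commutatorElement_def]
      calc _ = b * z1' * c * (z2' * (b⁻¹ * c⁻¹)) := by group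
        _ = b * (z1' * (c * (b⁻¹ * c⁻¹))) * z2' := by rw [← f2]; group
        _ = _ := by rw [← f1]; group
    rw [e3] at k1
    have k3 := (mul_mem_cancel_left k2).1 k1
    have k4 : ⁅ζ * ν, c⁆ * ⁅ζ * ν, ζ * μ⁆ * ⁅ζ * μ, b⁻¹⁆ ∈ 𝐙(H) :=
      mul_mem (mul_mem (cm _ hs c (BH hc)) (cm _ hs _ (Z2H ht))) (cm _ ht _ (inv_mem (BH hb)))
    have k5 := mem_inf.2 ⟨le_Dc hg (mem_inf.2 ⟨der_le _ k3, hZP k4⟩), k4⟩
    rw [hD, mem_bot, zl ζ hζ ν (Z2H hν) c (BH hc), zl ζ hζ ν (Z2H hν) _ (Z2H ht),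
      zl ζ hζ μ (Z2H hμ) _ (inv_mem (BH hb)), ← commutatorElement_inv (ζ * μ) ν,
      zl ζ hζ μ (Z2H hμ) ν (Z2H hν), commutatorElement_inv] at k5
    exact k5
  have claim3 : ∀ γ ∈ Z2, ∀ g ∈ H, Commute ⁅γ, x⁆ (x * ⁅g, x⁆ * x⁻¹ * (x⁻¹ * ⁅g, x⁆⁻¹ * x)) := by
    intro γ hγ g hg
    have k1 := claim2 γ hγ g hg
    have k2 := claim2 γ hγ 1 (one_mem _)
    have hb := Bc_le hg h.hn (comm_mem_Bc hx g)
    have hν : ⁅γ, x⁆ ∈ Z2 := comm_le_left_iff.2 PZ2 (commutator_mem_commutator hγ hx)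
    simp only [commutatorElement_one_left, mul_one, mul_inv_cancel, commutatorElement_one_right,
      one_mul, inv_one] at k2
    rw [k2, mul_one] at k1
    generalize ⁅g, x⁆ = b at *
    generalize ⁅γ, x⁆ = ν at *
    have hd := H1.conj_mem_of_le_normalizer' h.hn hx (inv_mem hb)
    have hc := H1.conj_mem_of_le_normalizer h.hn hx hb
    have e1 : ⁅x * ν * x⁻¹, b⁻¹⁆ = ⁅ν, x⁻¹ * b⁻¹ * x⁆ := by
      have := mem_cent.1 (hZP (cm _ hν _ hd)) x hx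
      calc _ = x * ⁅ν, x⁻¹ * b⁻¹ * x⁆ * x⁻¹ := by simp only [commutatorElement_def]; group
        _ = _ := by rw [this]; group
    rw [e1] at k1
    generalize x⁻¹ * b⁻¹ * x = d at *
    generalize x * b * x⁻¹ = c at *
    rw [← commutatorElement_eq_one_iff_commute, ← k1]
    have := cen _ (cm _ hν _ hd) c hc
    calc _ = ⁅ν, c⁆ * (c * ⁅ν, d⁆) * c⁻¹ := by simp only [commutatorElement_def]; group
      _ = _ := by rw [this]; group
  set M := H ⊓ centralizer {ν | ∃ γ ∈ Z2, ν = ⁅γ, x⁆} with hM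
  have mM : ∀ u, u ∈ M ↔ u ∈ H ∧ ∀ γ ∈ Z2, ⁅γ, x⁆ * u = u * ⁅γ, x⁆ := fun u => by
    rw [hM, mem_inf, mem_centralizer_iff]
    exact and_congr_right fun _ => ⟨fun k γ hγ => k _ ⟨γ, hγ, rfl⟩,
      by rintro k _ ⟨γ, hγ, rfl⟩; exact k γ hγ⟩
  have dM : ⁅H, H⁆ ≤ M := fun u hu => (mM u).2 ⟨der_le H hu, fun γ hγ => by
    have k := commutator_commutator_eq_bot_of_rotate
      (comm_eq_bot_iff.2 (cZ2.trans inf_le_right)) (comm_eq_bot_iff.2 (cZ2'.trans inf_le_right))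
    exact mem_cent.1 (comm_eq_bot_iff.1 k hu) _
      (comm_le_left_iff.2 PZ2 (commutator_mem_commutator hγ hx))⟩
  have HM : H ≤ 𝐍(M) := le_norm_of_der_le dM inf_le_left
  have PM : P ≤ 𝐍(M) := by
    rw [← hPx, zpowers_le]
    refine mem_norm_of_conj_le fun u hu => ?_
    obtain ⟨w, hw, rfl⟩ := mem_conj'.1 hu
    rw [mM] at hw ⊢
    refine ⟨H1.conj_mem_of_le_normalizer h.hn hx hw.1, fun γ hγ => ?_⟩
    have k := hw.2 _ (H1.conj_mem_of_le_normalizer' PZ2 hx hγ)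
    have e : ⁅γ, x⁆ = x * ⁅x⁻¹ * γ * x, x⁆ * x⁻¹ := by simp only [commutatorElement_def]; group
    rw [e]
    calc _ = x * (⁅x⁻¹ * γ * x, x⁆ * w) * x⁻¹ := by group
      _ = _ := by rw [k]; group
  have hx2 : (x * x)⁻¹ ≠ 1 := fun e => by
    have k : orderOf x ∣ 2 := orderOf_dvd_of_pow_eq_one (by rw [pow_two]; exact inv_eq_one.1 e)
    rw [← Nat.card_zpowers, hPx, h.hP] at k
    exact h.hp2 ((Nat.prime_dvd_prime_iff_eq h.hp Nat.prime_two).1 k)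
  have hxx := inv_mem (mul_mem hx hx)
  have HL : ⁅H, P⁆ ≤ H ⊓ centMod P M := by
    conv_lhs => rw [← hPx]
    refine H1.commutator_zpowers_le (H1.le_normalizer_inf h.hn
      (norm_le_norm_centMod (le_norm_self P) PM) hx) fun g hg => ?_
    have hb := Bc_le hg h.hn (comm_mem_Bc hx g)
    refine mem_inf.2 ⟨hb, mem_centMod.2 ⟨HM hb, fun y hy => ?_⟩⟩
    rw [← zpowers_eq_of_card_prime hPp hxx hx2] at hy
    refine comm_mem_of_zpowers (PM hxx) ?_ hy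
    have k : x * ⁅g, x⁆ * x⁻¹ * (x⁻¹ * ⁅g, x⁆⁻¹ * x) ∈ M :=
      (mM _).2 ⟨mul_mem (H1.conj_mem_of_le_normalizer h.hn hx hb)
        (H1.conj_mem_of_le_normalizer' h.hn hx (inv_mem hb)), fun γ hγ => claim3 γ hγ g hg⟩
    have k2 := inv_mem (H1.conj_mem_of_le_normalizer' PM hx k)
    convert k2 using 1
    generalize ⁅g, x⁆ = b
    simp only [commutatorElement_def]; group
  have HM' : H ≤ M := by
    rw [h.comm] at HL
    have := (le_centMod_iff.1 (HL.trans inf_le_right)).2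
    rwa [commutator_comm, h.comm] at this
  have Z2P : ⁅Z2, P⁆ ≤ 𝐙(H) := by
    conv_lhs => rw [← hPx]
    refine H1.commutator_zpowers_le (hPK hx) fun γ hγ => mem_inf.2
      ⟨Z2H (comm_le_left_iff.2 PZ2 (commutator_mem_commutator hγ hx)), mem_cent.2 fun u hu => ?_⟩
    exact (((mM u).1 (HM' hu)).2 γ hγ).symm
  have fin := h.cent_of nZ2 (H1.le_centralizer_of_commutator_le PZ2
    (H1.coprime_of_le h.hc le_rfl Z2H) Z2P hPZ)
  obtain ⟨γ, h1, h2, h3⟩ := BG01.exists_mem_centMod hnil hK.2 ⟨le_rfl, le_norm_self H⟩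
    fun e => h.not_cent (hPZ.trans (cent_anti e))
  exact h2 (mem_inf.2 ⟨h1, cent_comm.1 fin (mem_inf.2 ⟨h1, h3⟩)⟩)

end Min

theorem main {p : ℕ} (hp : p.Prime) (hp2 : p ≠ 2) (n : ℕ) : ∀ (G : Type u) [Group G] [Finite G]
    (P H : Subgroup G), 𝐨(H) = n → 𝐨(P) = p → P ≤ 𝐍(H) → 𝐨(P).Coprime 𝐨(H) →
      Group.IsSolvable H → ⁅H, P⁆ ⊓ 𝐂(P) ≤ Dc P H := by
  induction n using Nat.strong_induction_on with
  | _ n ih =>
  intro G _ _ P H hn hP hPH hc hs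
  have sub : ∀ U : Subgroup G, U < H → P ≤ 𝐍(U) → ⁅U, P⁆ ⊓ 𝐂(P) ≤ Dc P H := fun U h1 h2 =>
    (ih _ (hn ▸ H1.card_lt_of_lt h1) G P U rfl hP h2 (H1.coprime_of_le hc le_rfl h1.le)
      (H1.isSolvable_of_le h1.le hs)).trans (Dc_mono h1.le)
  by_cases hcomm : ⁅H, P⁆ = H
  swap
  · have := sub _ (lt_of_le_of_ne (comm_le_left_iff.2 hPH) hcomm) H1.le_normalizer_commutator_self
    rwa [H1.commutator_commutator_eq hPH hc] at this
  rw [hcomm]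
  by_contra bad
  refine Min.false ⟨hp, hp2, hP, hPH, hc, hs, hcomm, sub, fun N hN hN1 hPN => ?_, bad⟩
  haveI := H1.normal_subgroupOf_of_le (sup_le hN.2 hPN)
  have sP := solv_prime hp hP
  have HY : H ≤ H ⊔ P := le_sup_left
  have PY : P ≤ H ⊔ P := le_sup_right
  have k := ih _ (hn ▸ card_bar_lt (N := N) HY (by rwa [inf_eq_left.2 hN.1])) _
    (H1.bar (H ⊔ P) N P) _ rfl ((card_bar_of_disj PY (H1.inf_eq_bot_of_coprime'
      (H1.coprime_of_le hc.symm hN.1 le_rfl))).trans hP) (H1.bar_le_normalizer hPH)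
    (H1.coprime_bar hc) (H1.isSolvable_bar hs)
  rw [← H1.bar_commutator HY PY, hcomm, H1.bar_inf_centralizer_bar PY HY hPH hc (Or.inl sP)] at k
  have DH : Dc P H ≤ H := Dc_le fun g hg => inf_le_left.trans (Bc_le hg hPH)
  rw [← H1.bar_le_bar_iff (hN.1.trans HY) (inf_le_left.trans HY) (DH.trans HY)]
  refine k.trans (Dc_le fun gb hgb => ?_)
  obtain ⟨g, hg, rfl⟩ := H1.mem_bar.1 hgb
  rw [← Bc_bar PY, H1.bar_inf_centralizer_bar PY ((Bc_le hg hPH).trans HY) (norm_Bc P _)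
    (H1.coprime_of_le hc le_rfl (Bc_le hg hPH)) (Or.inl sP)]
  exact H1.bar_mono (le_Dc hg)

end Cfsg.Agent.H7.FC
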