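/-
Hk, chapter K2: final form.
-/
import Cfsg.Agent.H7.Hk3
import Cfsg.Agent.H5.Irr4

set_option autoImplicit false

namespace Cfsg.Agent.H7.Hk

open Subgroup Cfsg Cfsg.Agent Cfsg.Agent.FT Module
open Cfsg.Agent.H2.Hk (el)
open scoped commutatorElement

theorem pr {Γ : Type*} [Group Γ] [Finite Γ] [Group.IsSolvable Γ] {p m e : ℕ} {D : Subgroup Γ}
    (h : Wt p D m e) :
    ∃ E, 1 ≤ E ∧ E ≤ e ∧ D.relIndex 𝐂(D) ≤ el E ∧ (E = 2 → ∃ X : Subgroup Γ, D ≤ X ∧ X ≤ 𝐂(D) ∧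
      𝐂(D) ≤ 𝐍(X) ∧ D.relIndex X = 4 ∧ (∀ c ∈ 𝐂(D), (∀ x ∈ X, ⁅c, x⁆ ∈ D) → c ∈ X) ∧
      X.relIndex 𝐂(D) ∣ 6) :=
  pr_of (fun a b c d e f g => H5.irr4 a b c d e f g) (fun a b c d e => H5.two6 a b c d e) h

end Cfsg.Agent.H7.Hk
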