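/-
Hk: transfer of the structure to the linear group.
-/
import Cfsg.Agent.H7.Hk4
import Cfsg.Agent.H2.Hk4

set_option autoImplicit false

namespace Cfsg.Agent.H7.Hk

open Subgroup Cfsg Cfsg.Agent Cfsg.Agent.FT Module
open scoped commutatorElement

universe u

theorem ks : H2.Hk.KS.{u} := by
  intro p _ H V _ _ _ _ _ _ _ ρ hf irr
  obtain ⟨N, Γ, _, _, π, D, m, e, hs, hc, hd, h⟩ := k1 ρ hf irr
  haveI := Group.isSolvable_of_surjective hs
  obtain ⟨E, E1, Ee, hle, h2⟩ := pr h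
  let φ : Subgroup Γ → Subgroup H := fun A => (A.comap π).map N.subtype
  have mono : ∀ {A B}, A ≤ B → φ A ≤ φ B := fun h => map_mono (comap_mono h)
  have mem : ∀ {A} {x : N}, (x : H) ∈ φ A ↔ π x ∈ A := fun {A x} =>
    mem_map_iff_mem N.subtype_injective
  have idx : ∀ A B, (φ A).relIndex (φ B) = A.relIndex B := fun A B => by
    rw [relIndex_map_map_of_injective _ _ N.subtype_injective, relIndex_comap,
      map_comap_eq_self_of_surjective hs]
  have top : φ ⊤ = N := by simp [φ, ← MonoidHom.range_eq_map]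
  have nm : ∀ {A B}, B ≤ 𝐍(A) → φ B ≤ 𝐍(φ A) := by
    rintro A B hAB _ ⟨x, hx, rfl⟩
    refine mem_norm_of_conj_le fun y hy => ?_
    obtain ⟨_, ⟨a, ha, rfl⟩, rfl⟩ := mem_conj'.1 hy
    refine (mem (x := x * a * x⁻¹)).2 ?_
    rw [map_mul, map_mul, map_inv]
    exact (mem_normalizer_iff.1 (hAB hx) _).1 ha
  haveI := h.cyc
  obtain ⟨d, hd'⟩ := IsCyclic.exists_generator (α := D)
  obtain ⟨d0, hd0⟩ := hs d
  refine ⟨N, φ ⊥, φ D, φ 𝐂(D), m, e, E, mono bot_le, mono h.comm, map_subtype_le _,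
    top.ge.trans (nm lnn), hc, ?_, ⟨d0, le_antisymm ?_ (sup_le (zpowers_le.2
      (mem.2 (hd0 ▸ d.2))) (mono bot_le))⟩, hd, ?_, E1, Ee, fun a b => ?_, (idx _ _).trans_le hle,
    fun a => ?_⟩
  · rintro _ ⟨x, hx, rfl⟩ _ ⟨y, hy, rfl⟩
    refine (mem (x := ⁅x, y⁆)).2 ?_
    rw [map_commutatorElement, mem_bot, commutatorElement_eq_one_iff_mul_comm]
    exact (mem_cent.1 hx _ hy).symm
  · rintro _ ⟨x, hx, rfl⟩
    obtain ⟨k, hk⟩ := hd' ⟨_, hx⟩
    have h1 : ((d0 ^ k)⁻¹ * x : N).1 ∈ φ ⊥ := mem.2 (by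
      rw [map_mul, map_inv, map_zpow, hd0, mem_bot, inv_mul_eq_one]
      exact congrArg Subtype.val hk)
    have h3 := mul_mem (mem_sup_left (zpow_mem_zpowers (d0 : H) k)) (mem_sup_right h1)
    simpa using h3
  · rw [← top, idx, relIndex_top_right]
    exact h.dim
  · rintro _ ⟨x, hx, rfl⟩
    refine (mem (x := x ^ (p - 1))).2 ?_
    rw [map_pow]
    exact h.sc a b _ hx
  · obtain ⟨X, x1, x2, x3, x4, x5, x6⟩ := h2 a
    refine ⟨φ X, mono x1, mono x2, nm x3, (idx _ _).trans x4, ?_, (idx _ _).symm ▸ x6⟩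
    rintro _ ⟨c, hc, rfl⟩ h7
    refine mem.2 (x5 _ hc fun x hx => ?_)
    obtain ⟨y, rfl⟩ := hs x
    rw [← map_commutatorElement]
    exact mem.1 (h7 y (mem.2 hx))

end Cfsg.Agent.H7.Hk
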