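import Mathlib

/-! Kreknin's theorem and the Higman–Kreknin–Kostrikin bound for `ZMod n`-graded families of
additive subgroups of a Lie ring. -/

set_option autoImplicit false

namespace Cfsg.Agent.H7.Krek

variable {L : Type*} [LieRing L]

/-- the additive subgroup generated by brackets -/
def brU (X Y : AddSubgroup L) : AddSubgroup L :=
  AddSubgroup.closure {z | ∃ x ∈ X, ∃ y ∈ Y, z = ⁅x, y⁆}

theorem lie_mem_brU {X Y : AddSubgroup L} {x y : L} (hx : x ∈ X) (hy : y ∈ Y) : ⁅x, y⁆ ∈ brU X Y :=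
  AddSubgroup.subset_closure ⟨x, hx, y, hy, rfl⟩

theorem brU_le {X Y Z : AddSubgroup L} : brU X Y ≤ Z ↔ ∀ x ∈ X, ∀ y ∈ Y, ⁅x, y⁆ ∈ Z := by
  refine ⟨fun h x hx y hy => h (lie_mem_brU hx hy), fun h => (AddSubgroup.closure_le _).2 ?_⟩
  rintro _ ⟨x, hx, y, hy, rfl⟩
  exact h x hx y hy

theorem brU_mono {X X' Y Y' : AddSubgroup L} (h1 : X ≤ X') (h2 : Y ≤ Y') : brU X Y ≤ brU X' Y' :=
  brU_le.2 fun _ hx _ hy => lie_mem_brU (h1 hx) (h2 hy)

/-- `{x | ⁅x, y⁆ ∈ Z}` -/
def lq (y : L) (Z : AddSubgroup L) : AddSubgroup L where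
  carrier := {x | ⁅x, y⁆ ∈ Z}
  zero_mem' := by simp
  add_mem' := fun {a b} ha hb => by simpa [add_lie] using Z.add_mem ha hb
  neg_mem' := fun {a} ha => by simpa [neg_lie] using Z.neg_mem ha

/-- `{y | ⁅x, y⁆ ∈ Z}` -/
def rq (x : L) (Z : AddSubgroup L) : AddSubgroup L where
  carrier := {y | ⁅x, y⁆ ∈ Z}
  zero_mem' := by simp
  add_mem' := fun {a b} ha hb => by simpa [lie_add] using Z.add_mem ha hb
  neg_mem' := fun {a} ha => by simpa [lie_neg] using Z.neg_mem ha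

theorem mem_lq {x y : L} {Z : AddSubgroup L} : x ∈ lq y Z ↔ ⁅x, y⁆ ∈ Z := Iff.rfl
theorem mem_rq {x y : L} {Z : AddSubgroup L} : y ∈ rq x Z ↔ ⁅x, y⁆ ∈ Z := Iff.rfl

section graded

variable {ι : Type*} [AddCommGroup ι]

/-- graded bracket of two families -/
def br (A B : ι → AddSubgroup L) (k : ι) : AddSubgroup L :=
  AddSubgroup.closure {z | ∃ u v, u + v = k ∧ ∃ x ∈ A u, ∃ y ∈ B v, z = ⁅x, y⁆}

theorem lie_mem_br {A B : ι → AddSubgroup L} {u v : ι} {x y : L} (hx : x ∈ A u) (hy : y ∈ B v) :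
    ⁅x, y⁆ ∈ br A B (u + v) :=
  AddSubgroup.subset_closure ⟨u, v, rfl, x, hx, y, hy, rfl⟩

theorem br_apply_le {A B : ι → AddSubgroup L} {k : ι} {Z : AddSubgroup L} :
    br A B k ≤ Z ↔ ∀ u v, u + v = k → ∀ x ∈ A u, ∀ y ∈ B v, ⁅x, y⁆ ∈ Z := by
  refine ⟨fun h u v e x hx y hy => h (e ▸ lie_mem_br hx hy),
    fun h => (AddSubgroup.closure_le _).2 ?_⟩
  rintro _ ⟨u, v, e, x, hx, y, hy, rfl⟩
  exact h u v e x hx y hy

theorem br_le {A B C : ι → AddSubgroup L} :
    br A B ≤ C ↔ ∀ u v, ∀ x ∈ A u, ∀ y ∈ B v, ⁅x, y⁆ ∈ C (u + v) :=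
  ⟨fun h _ _ _ hx _ hy => h _ (lie_mem_br hx hy),
    fun h _ => br_apply_le.2 fun u v e x hx y hy => e ▸ h u v x hx y hy⟩

theorem br_mono {A A' B B' : ι → AddSubgroup L} (h1 : A ≤ A') (h2 : B ≤ B') :
    br A B ≤ br A' B' :=
  br_le.2 fun u v _ hx _ hy => lie_mem_br (h1 u hx) (h2 v hy)

/-- graded subring generated by a family -/
def gen (X : ι → AddSubgroup L) : ι → AddSubgroup L := sInf {B | X ≤ B ∧ br B B ≤ B}

theorem gen_le {X B : ι → AddSubgroup L} (h1 : X ≤ B) (h2 : br B B ≤ B) : gen X ≤ B :=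
  sInf_le ⟨h1, h2⟩

theorem le_gen (X : ι → AddSubgroup L) : X ≤ gen X := le_sInf fun _ h => h.1

theorem br_gen (X : ι → AddSubgroup L) : br (gen X) (gen X) ≤ gen X :=
  le_sInf fun _ h => (br_mono (sInf_le h) (sInf_le h)).trans h.2

theorem br_gen_le {A X : ι → AddSubgroup L} (hA : br A A ≤ A) (hX : X ≤ A) :
    br A (gen X) ≤ br A X := by
  let B : ι → AddSubgroup L := fun v => A v ⊓ ⨅ u, ⨅ x ∈ A u, rq x (br A X (u + v))
  have hB : ∀ v y, y ∈ B v ↔ y ∈ A v ∧ ∀ u, ∀ x ∈ A u, ⁅x, y⁆ ∈ br A X (u + v) := by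
    intro v y
    simp only [B, AddSubgroup.mem_inf, AddSubgroup.mem_iInf, mem_rq]
  have h1 : gen X ≤ B := by
    refine gen_le (fun v y hy => (hB v y).2 ⟨hX v hy, fun u x hx => lie_mem_br hx hy⟩) ?_
    rw [br_le]
    intro v1 v2 y1 h1 y2 h2
    rw [hB] at h1 h2 ⊢
    refine ⟨br_le.1 hA _ _ _ h1.1 _ h2.1, fun u x hx => ?_⟩
    have e : ⁅x, ⁅y1, y2⁆⁆ = ⁅⁅x, y1⁆, y2⁆ - ⁅⁅x, y2⁆, y1⁆ := by
      rw [leibniz_lie, ← lie_skew y1 ⁅x, y2⁆, sub_eq_add_neg]
    rw [e]
    refine sub_mem ?_ ?_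
    · have := h2.2 _ _ (br_le.1 hA _ _ _ hx _ h1.1)
      rwa [add_assoc] at this
    · have := h1.2 _ _ (br_le.1 hA _ _ _ hx _ h2.1)
      rwa [add_assoc, add_comm v2 v1] at this
  rw [br_le]
  intro u v x hx y hy
  exact ((hB v y).1 (h1 v hy)).2 u x hx

/-- graded derived series -/
def der (A : ι → AddSubgroup L) : ℕ → ι → AddSubgroup L
  | 0 => A
  | s + 1 => br (der A s) (der A s)

theorem der_sub {A : ι → AddSubgroup L} (hA : br A A ≤ A) (s : ℕ) :
    der A s ≤ A ∧ br (der A s) (der A s) ≤ der A s := by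
  induction s with
  | zero => exact ⟨le_rfl, hA⟩
  | succ s ih => exact ⟨ih.2.trans ih.1, br_mono ih.2 ih.2⟩

theorem der_add (A : ι → AddSubgroup L) (s t : ℕ) : der (der A s) t = der A (s + t) := by
  induction t with
  | zero => rfl
  | succ t ih => rw [← add_assoc, der, der, ih]

/-- graded lower central series -/
def lcsF (A : ι → AddSubgroup L) : ℕ → ι → AddSubgroup L
  | 0 => A
  | c + 1 => br (lcsF A c) A

/-- iterated bracket with a fixed subgroup -/
def itU (T : AddSubgroup L) : ℕ → AddSubgroup L → AddSubgroup L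
  | 0, X => X
  | m + 1, X => brU (itU T m X) T

theorem itU_add (T X : AddSubgroup L) (m k : ℕ) : itU T (m + k) X = itU T k (itU T m X) := by
  induction k with
  | zero => rfl
  | succ k ih => rw [← add_assoc, itU, itU, ih]

theorem itU_mono (T : AddSubgroup L) {X Y : AddSubgroup L} (h : X ≤ Y) (m : ℕ) :
    itU T m X ≤ itU T m Y := by
  induction m with
  | zero => exact h
  | succ m ih => exact brU_mono ih le_rfl

theorem brU_iSup_le {A B : ι → AddSubgroup L} {Z : AddSubgroup L}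
    (h : ∀ u v, ∀ x ∈ A u, ∀ y ∈ B v, ⁅x, y⁆ ∈ Z) : brU (⨆ i, A i) (⨆ i, B i) ≤ Z := by
  rw [brU_le]
  intro x hx y hy
  have h1 : (⨆ i, A i) ≤ lq y Z := by
    refine iSup_le fun u x hx => ?_
    have h2 : (⨆ i, B i) ≤ rq x Z := iSup_le fun v y hy => h u v x hx y hy
    exact h2 hy
  exact h1 hx

theorem iSup_br (A B : ι → AddSubgroup L) : (⨆ i, br A B i) = brU (⨆ i, A i) (⨆ i, B i) := by
  apply le_antisymm
  · exact iSup_le fun k => br_apply_le.2 fun u v _ x hx y hy =>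
      lie_mem_brU (le_iSup A u hx) (le_iSup B v hy)
  · exact brU_iSup_le fun u v x hx y hy => le_iSup (br A B) (u + v) (lie_mem_br hx hy)

theorem iSup_lcsF (A : ι → AddSubgroup L) (c : ℕ) :
    (⨆ i, lcsF A c i) = itU (⨆ i, A i) c (⨆ i, A i) := by
  induction c with
  | zero => rfl
  | succ c ih => rw [lcsF, iSup_br, ih, itU]

theorem br_br_le {A V W : ι → AddSubgroup L} (hV : br V A ≤ V) (hW : br W A ≤ W) :
    br (br V W) A ≤ br V W := by
  rw [br_le]
  intro k d z hz x hx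
  have : br V W k ≤ lq x (br V W (k + d)) := by
    rw [br_apply_le]
    rintro u v rfl a ha b hb
    rw [mem_lq]
    have e : ⁅⁅a, b⁆, x⁆ = ⁅⁅a, x⁆, b⁆ + ⁅a, ⁅b, x⁆⁆ := by
      rw [lie_lie, ← lie_skew ⁅a, x⁆ b]; abel
    rw [e]
    refine add_mem ?_ ?_
    · have := lie_mem_br (br_le.1 hV _ _ _ ha _ hx) hb
      rwa [add_right_comm] at this
    · have := lie_mem_br ha (br_le.1 hW _ _ _ hb _ hx)
      rwa [← add_assoc] at this
  exact this hz

theorem lcsF_ideal {A B : ι → AddSubgroup L} (hB : br B A ≤ B) (hBB : br B B ≤ B) (c : ℕ) :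
    br (lcsF B c) A ≤ lcsF B c ∧ lcsF B c ≤ B := by
  induction c with
  | zero => exact ⟨hB, le_rfl⟩
  | succ c ih => exact ⟨br_br_le ih.1 hB, (br_mono ih.2 le_rfl).trans hBB⟩

end graded

section krek

variable {n : ℕ} [NeZero n]

/-- the part of the family in degrees `≥ k` -/
def cut (A : ZMod n → AddSubgroup L) (k : ℕ) (j : ZMod n) : AddSubgroup L :=
  if k ≤ j.val then A j else ⊥

theorem cut_le (A : ZMod n → AddSubgroup L) (k : ℕ) : cut A k ≤ A := by
  intro j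
  unfold cut
  split_ifs
  exacts [le_rfl, bot_le]

omit [NeZero n] in
theorem cut_of_le (A : ZMod n → AddSubgroup L) {k : ℕ} {j : ZMod n} (h : k ≤ j.val) :
    cut A k j = A j := if_pos h

theorem kreknin_aux (k : ℕ) : ∀ A : ZMod n → AddSubgroup L, br A A ≤ A → A 0 = ⊥ →
    der A (2 ^ k - 1) ≤ gen (cut A (k + 1)) := by
  induction k with
  | zero =>
    intro A _ h0
    refine le_trans ?_ (le_gen _)
    intro j
    show A j ≤ cut A 1 j
    unfold cut
    split_ifs with h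
    · exact le_rfl
    · have : j = 0 := (ZMod.val_eq_zero j).1 (by omega)
      rw [this, h0]
  | succ k ih =>
    intro A hA h0
    have hpos : 0 < 2 ^ k := Nat.two_pow_pos k
    have hM := der_sub hA (2 ^ k)
    have h1 := ih (der A (2 ^ k)) hM.2 (le_bot_iff.1 (h0 ▸ hM.1 0))
    rw [der_add, show 2 ^ k + (2 ^ k - 1) = 2 ^ (k + 1) - 1 by rw [pow_succ]; omega] at h1
    refine h1.trans (gen_le ?_ (br_gen _))
    intro j
    unfold cut
    split_ifs with hj
    swap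
    · exact bot_le
    rcases hj.lt_or_eq with hj | hj
    · refine (hM.1 j).trans (le_trans ?_ (le_gen _ j))
      exact (cut_of_le A (by omega)).ge
    · have h2 : der A (2 ^ k) ≤ br A (cut A (k + 1)) := by
        have e : der A (2 ^ k) = br (der A (2 ^ k - 1)) (der A (2 ^ k - 1)) := by
          conv_lhs => rw [show 2 ^ k = (2 ^ k - 1) + 1 by omega]
          rfl
        rw [e]
        exact (br_mono (der_sub hA _).1 (ih A hA h0)).trans (br_gen_le hA (cut_le A _))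
      refine (h2 j).trans (br_apply_le.2 fun s t e a ha b hb => ?_)
      unfold cut at hb
      split_ifs at hb with ht
      swap
      · rw [AddSubgroup.mem_bot.1 hb, lie_zero]; exact zero_mem _
      rcases ht.lt_or_eq with ht | ht
      · have h3 : (s.val + t.val) % n = j.val := by rw [← ZMod.val_add, e]
        have hs := ZMod.val_lt s
        have ht' := ZMod.val_lt t
        have h4 : k + 1 + 1 ≤ s.val := by
          by_contra hlt
          rcases lt_or_ge (s.val + t.val) n with h5 | h5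
          · rw [Nat.mod_eq_of_lt h5] at h3; omega
          · rw [Nat.mod_eq_sub_mod h5, Nat.mod_eq_of_lt (by omega)] at h3; omega
        rw [← e]
        refine br_gen _ _ (lie_mem_br (le_gen _ s ?_) (le_gen _ t ?_))
        · rw [if_pos h4]; exact ha
        · rw [if_pos (by omega)]; exact hb
      · have h3 : t = j := ZMod.val_injective n (by omega)
        have h4 : s = 0 := by rw [h3] at e; simpa using e
        rw [h4, h0] at ha
        rw [AddSubgroup.mem_bot.1 ha, zero_lie]; exact zero_mem _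

/-- **Kreknin's theorem** -/
theorem kreknin (A : ZMod n → AddSubgroup L) (hA : br A A ≤ A) (h0 : A 0 = ⊥) :
    der A (2 ^ (n - 1) - 1) = ⊥ := by
  refine le_bot_iff.1 ((kreknin_aux (n - 1) A hA h0).trans (gen_le ?_ ?_))
  · intro j
    have := ZMod.val_lt j
    rw [cut, if_neg (by omega)]
    exact le_rfl
  · rw [br_le]
    intro u v x hx y _
    rw [show x = 0 from hx, zero_lie]
    exact zero_mem _

end krek

section prime

variable {p : ℕ} [hp : Fact p.Prime]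

theorem eq_univ_of_add_mem (S : Finset (ZMod p)) (hS : S.Nonempty) {d : ZMod p} (hd : d ≠ 0)
    (h : ∀ t ∈ S, t + d ∈ S) : S = Finset.univ := by
  obtain ⟨t, ht⟩ := hS
  have h1 : ∀ k : ℕ, t + k * d ∈ S := by
    intro k
    induction k with
    | zero => simpa using ht
    | succ k ih => have := h _ ih; rwa [add_assoc, ← add_one_mul, ← Nat.cast_succ] at this
  rw [Finset.eq_univ_iff_forall]
  intro s
  have := h1 ((s - t) / d).val
  rwa [ZMod.natCast_zmod_val, div_mul_cancel₀ _ hd, add_sub_cancel] at this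

theorem itU_le_of_graded {A V : ZMod p → AddSubgroup L} (hA0 : A 0 = ⊥) (hV0 : V 0 = ⊥)
    (hV : br V A ≤ V) (W : AddSubgroup L) (hW : brU W (⨆ i, A i) ≤ W)
    (hVW : brU (⨆ i, V i) (brU (⨆ i, A i) (⨆ i, A i)) ≤ W) :
    itU (⨆ i, A i) (p - 1) (⨆ i, V i) ≤ W := by
  classical
  set T := ⨆ i, A i with hT
  set U := ⨆ i, V i with hU
  have hUT : ∀ u ∈ U, ∀ x ∈ T, ⁅u, x⁆ ∈ U :=
    brU_le.1 (brU_iSup_le fun u v x hx y hy => le_iSup V (u + v) (br_le.1 hV _ _ _ hx _ hy))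
  let Pg : (L → L) → Prop := fun g => g 0 = 0 ∧ (∀ u ∈ U, g u ∈ U) ∧
    ∀ x ∈ T, ∀ u ∈ U, ⁅g u, x⁆ - g ⁅u, x⁆ ∈ W
  have hPg : ∀ g, Pg g → ∀ y ∈ T, Pg fun u => ⁅g u, y⁆ := by
    intro g hg y hy
    refine ⟨by simp [hg.1], fun u hu => hUT _ (hg.2.1 u hu) y hy, fun x hx u hu => ?_⟩
    have e : ⁅⁅g u, y⁆, x⁆ - ⁅g ⁅u, x⁆, y⁆ = ⁅g u, ⁅y, x⁆⁆ + ⁅⁅g u, x⁆ - g ⁅u, x⁆, y⁆ := by
      rw [sub_lie, leibniz_lie (g u) y x, ← lie_skew y ⁅g u, x⁆]; abel
    rw [e]
    exact add_mem (hVW (lie_mem_brU (hg.2.1 u hu) (lie_mem_brU hy hx)))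
      (hW (lie_mem_brU (hg.2.2 x hx u hu) hy))
  let Q : Finset (ZMod p) → L → Prop := fun S w => ∀ t ∈ S, ∃ v ∈ V t, ∃ g, Pg g ∧ w - g v ∈ W
  have key : ∀ m, m + 1 ≤ p → itU T m U ≤ AddSubgroup.closure {w | ∃ S, m + 1 ≤ S.card ∧ Q S w} := by
    intro m
    induction m with
    | zero =>
      intro _
      refine iSup_le fun t v hv => AddSubgroup.subset_closure ⟨{t}, by simp, fun s hs => ?_⟩
      rw [Finset.mem_singleton.1 hs]
      exact ⟨v, hv, id, ⟨rfl, fun _ h => h, fun _ _ _ _ => by simp⟩, by simp⟩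
    | succ m ih =>
      intro hm
      refine (brU_mono (ih (by omega)) le_rfl).trans (brU_le.2 fun w hw x hx => ?_)
      refine mem_lq.1 (((AddSubgroup.closure_le (lq x _)).2 ?_) hw)
      rintro w ⟨S, hS, hQ⟩
      refine mem_lq.2 (mem_rq.1 ((iSup_le (a := rq w _) fun d x hx => ?_) hx))
      rw [mem_rq]
      by_cases hd : d = 0
      · rw [hd, hA0] at hx
        rw [AddSubgroup.mem_bot.1 hx, lie_zero]
        exact zero_mem _
      have hxT : x ∈ T := le_iSup A d hx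
      refine AddSubgroup.subset_closure ⟨S ∪ S.image (· + d), ?_, ?_⟩
      · by_cases hc : ∀ t ∈ S, t + d ∈ S
        · have := eq_univ_of_add_mem S (Finset.card_pos.1 (by omega)) hd hc
          refine le_trans ?_ (Finset.card_le_card Finset.subset_union_left)
          rw [this, Finset.card_univ, ZMod.card]
          exact hm
        · push Not at hc
          obtain ⟨t, ht, ht'⟩ := hc
          refine le_trans (Nat.succ_le_succ hS) (Finset.card_lt_card ⟨Finset.subset_union_left, ?_⟩)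
          exact fun h => ht' (h (Finset.mem_union_right _ (Finset.mem_image_of_mem _ ht)))
      · intro t ht
        rcases Finset.mem_union.1 ht with ht | ht
        · obtain ⟨v, hv, g, hg, hw⟩ := hQ t ht
          refine ⟨v, hv, fun u => ⁅g u, x⁆, hPg g hg x hxT, ?_⟩
          rw [← sub_lie]
          exact hW (lie_mem_brU hw hxT)
        · obtain ⟨t, ht', rfl⟩ := Finset.mem_image.1 ht
          obtain ⟨v, hv, g, hg, hw⟩ := hQ t ht'
          refine ⟨⁅v, x⁆, br_le.1 hV _ _ _ hv _ hx, g, hg, ?_⟩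
          have e : ⁅w, x⁆ - g ⁅v, x⁆ = ⁅w - g v, x⁆ + (⁅g v, x⁆ - g ⁅v, x⁆) := by
            rw [sub_lie]; abel
          rw [e]
          exact add_mem (hW (lie_mem_brU hw hxT)) (hg.2.2 x hxT v (le_iSup V t hv))
  have hp1 := hp.out.one_le
  refine (key (p - 1) (by omega)).trans ((AddSubgroup.closure_le _).2 ?_)
  rintro w ⟨S, hS, hQ⟩
  have h1 : S = Finset.univ := by
    apply Finset.eq_univ_of_card
    rw [ZMod.card]
    have := S.card_le_univ
    rw [ZMod.card] at this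
    omega
  obtain ⟨v, hv, g, hg, hw⟩ := hQ 0 (h1 ▸ Finset.mem_univ _)
  rw [hV0] at hv
  rwa [AddSubgroup.mem_bot.1 hv, hg.1, sub_zero] at hw

theorem nilpotent_of_der (s : ℕ) : ∀ A : ZMod p → AddSubgroup L, br A A ≤ A → A 0 = ⊥ →
    der A s = ⊥ →
    itU (⨆ i, A i) (∑ i ∈ Finset.range s, (p - 1) ^ i) (⨆ i, A i) = ⊥ := by
  induction s with
  | zero =>
    intro A _ _ h
    have : A = ⊥ := h
    simp [itU, this]
  | succ s ih =>
    intro A hA h0 h
    set B := br A A with hB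
    have hB0 : B 0 = ⊥ := le_bot_iff.1 (h0 ▸ hA 0)
    have hBB : br B B ≤ B := br_mono hA hA
    have hBA : br B A ≤ B := br_mono hA le_rfl
    have h1 := ih B hBB hB0 (by rw [← h, add_comm, ← der_add]; rfl)
    rw [← iSup_lcsF] at h1
    have h2 : ∀ c, itU (⨆ i, A i) (1 + (p - 1) * c) (⨆ i, A i) ≤ ⨆ i, lcsF B c i := by
      intro c
      induction c with
      | zero => exact (iSup_br A A).ge
      | succ c ihc =>
        rw [mul_add, mul_one, ← add_assoc, itU_add]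
        refine (itU_mono _ ihc _).trans ?_
        refine itU_le_of_graded h0 (le_bot_iff.1 (hB0 ▸ (lcsF_ideal hBA hBB c).2 0))
          (lcsF_ideal hBA hBB c).1 _ ?_ ?_
        · rw [← iSup_br]
          exact iSup_mono (lcsF_ideal hBA hBB (c + 1)).1
        · rw [← iSup_br, ← iSup_br]
          exact le_rfl
    have e : ∑ i ∈ Finset.range (s + 1), (p - 1) ^ i =
        1 + (p - 1) * ∑ i ∈ Finset.range s, (p - 1) ^ i := by
      rw [Finset.sum_range_succ', Finset.mul_sum, pow_zero, add_comm]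
      simp only [pow_succ']
    rw [e]
    exact le_bot_iff.1 (h1 ▸ h2 _)

/-- **Higman–Kreknin–Kostrikin** for graded families -/
theorem higman (A : ZMod p → AddSubgroup L) (hA : br A A ≤ A) (h0 : A 0 = ⊥) :
    itU (⨆ i, A i) (∑ i ∈ Finset.range (2 ^ (p - 1) - 1), (p - 1) ^ i) (⨆ i, A i) = ⊥ :=
  nilpotent_of_der _ A hA h0 (kreknin A hA h0)

end prime

theorem higman_three (A : ZMod 3 → AddSubgroup L) (hA : br A A ≤ A) (h0 : A 0 = ⊥) :
    itU (⨆ i, A i) 2 (⨆ i, A i) = ⊥ := by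
  rw [← iSup_lcsF, iSup_eq_bot]
  have hz : ∀ u v, u + v = 0 → ∀ x ∈ A u, ∀ y ∈ A v, ⁅x, y⁆ = 0 := by
    intro u v e x hx y hy
    have := br_le.1 hA _ _ _ hx _ hy
    rwa [e, h0, AddSubgroup.mem_bot] at this
  have hz0 : ∀ x ∈ A 0, x = 0 := fun x hx => by rwa [h0] at hx
  intro t
  refine le_bot_iff.1 (br_apply_le.2 fun s k _ z hz' c hc => ?_)
  refine (br_apply_le (Z := lq c ⊥)).2 (fun i j _ a ha b hb => ?_) hz'
  rw [mem_lq, AddSubgroup.mem_bot]
  have : ∀ i j k : ZMod 3,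
      i = 0 ∨ j = 0 ∨ k = 0 ∨ i + j = 0 ∨ i + j + k = 0 ∨ (j + k = 0 ∧ i + k = 0) := by
    decide
  rcases this i j k with h | h | h | h | h | h
  · rw [hz0 a (h ▸ ha)]; simp
  · rw [hz0 b (h ▸ hb)]; simp
  · rw [hz0 c (h ▸ hc)]; simp
  · rw [hz _ _ h a ha b hb]; simp
  · exact hz _ _ h _ (br_le.1 hA _ _ _ ha _ hb) c hc
  · rw [lie_lie, hz _ _ h.1 b hb c hc, hz _ _ h.2 a ha c hc]; simp

end Cfsg.Agent.H7.Krek
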