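import Cfsg.Agent.H7.Kreknin
import Cfsg.Agent.H7.AssocLie

/-! Lie rings and groups with an automorphism of prime order: reduction to graded families by
extension of scalars. -/

set_option autoImplicit false

namespace Cfsg.Agent.H7

open scoped TensorProduct
open Krek

universe u

/-- `h` bounds the class of `ZMod p`-graded families with trivial zero component -/
def HigBound (p h : ℕ) : Prop :=
  ∀ (L : Type u) [LieRing L] (A : ZMod p → AddSubgroup L), br A A ≤ A → A 0 = ⊥ →
    itU (⨆ i, A i) h (⨆ i, A i) = ⊥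

theorem higBound_prime (p : ℕ) [Fact p.Prime] :
    HigBound.{u} p (∑ i ∈ Finset.range (2 ^ (p - 1) - 1), (p - 1) ^ i) :=
  fun _ _ A hA h0 => higman A hA h0

theorem higBound_three : HigBound.{u} 3 2 := fun _ _ A hA h0 => higman_three A hA h0

theorem exists_cyc_ring (p : ℕ) [hp : Fact p.Prime] :
    ∃ (R : Type) (_ : CommRing R) (w : ZMod p → R) (r : R →+ ℤ),
      w 0 = 1 ∧ (∀ a b, w (a + b) = w a * w b) ∧ ∑ a, w a = 0 ∧ r 1 = 1 := by
  set ω := AdjoinRoot.root (Polynomial.cyclotomic p ℤ) with hω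
  have h1 : ∑ i ∈ Finset.range p, ω ^ i = 0 := by
    have h := AdjoinRoot.aeval_eq (f := Polynomial.cyclotomic p ℤ) (Polynomial.cyclotomic p ℤ)
    rw [AdjoinRoot.mk_self] at h
    rw [← h]
    conv_rhs => enter [2]; rw [Polynomial.cyclotomic_prime]
    simp [hω]
  have h2 : ω ^ p = 1 := by
    have := geom_sum_mul ω p
    rw [h1, zero_mul] at this
    exact sub_eq_zero.1 this.symm
  let pb := AdjoinRoot.powerBasis' (Polynomial.cyclotomic.monic p ℤ)
  have hdim : 0 < pb.dim := by
    show 0 < (Polynomial.cyclotomic p ℤ).natDegree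
    rw [Polynomial.natDegree_cyclotomic]
    exact Nat.totient_pos.2 hp.out.pos
  refine ⟨_, inferInstance, fun a => ω ^ a.val, (pb.basis.coord ⟨0, hdim⟩).toAddMonoidHom, by simp,
    fun a b => ?_, ?_, ?_⟩
  · show ω ^ (a + b).val = ω ^ a.val * ω ^ b.val
    rw [ZMod.val_add, ← pow_add, ← pow_eq_pow_mod _ h2]
  · rw [← h1]
    exact Finset.sum_bij' (fun a _ => a.val) (fun i _ => (i : ZMod p))
      (fun a _ => Finset.mem_range.2 (ZMod.val_lt a)) (fun _ _ => Finset.mem_univ _)
      (fun a _ => ZMod.natCast_zmod_val a)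
      (fun i hi => ZMod.val_natCast_of_lt (Finset.mem_range.1 hi)) (fun _ _ => rfl)
  · have : pb.basis ⟨0, hdim⟩ = 1 := by rw [pb.basis_eq_pow]; simp
    show pb.basis.coord ⟨0, hdim⟩ 1 = 1
    rw [← this, Module.Basis.coord_apply, Module.Basis.repr_self, Finsupp.single_eq_same]

theorem lie_aut_aux {R : Type} [CommRing R] {M : Type u} [LieRing M] [LieAlgebra R M] {p : ℕ}
    [hp : Fact p.Prime] (w : ZMod p → R) (w0 : w 0 = 1) (wadd : ∀ a b, w (a + b) = w a * w b)
    (wsum : ∑ a, w a = 0) (ψ : Module.End R M) (hψ : ∀ a b, ψ ⁅a, b⁆ = ⁅ψ a, ψ b⁆)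
    (hψp : ψ ^ p = 1) (m : ℕ) (hψtr : ∀ a, m • ∑ k ∈ Finset.range p, (ψ ^ k) a = 0)
    {h : ℕ} (H : HigBound.{u} p h) :
    ∀ y ∈ itU (⊤ : AddSubgroup M) h ⊤, (p ^ (h + 2) * m) • y = 0 := by
  let A : ZMod p → AddSubgroup M := fun a =>
    { carrier := {y | ψ y = w a • y}
      zero_mem' := by simp
      add_mem' := fun {x y} hx hy => by
        show ψ (x + y) = _
        rw [map_add, show ψ x = _ from hx, show ψ y = _ from hy, smul_add]
      neg_mem' := fun {x} hx => by
        show ψ (-x) = _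
        rw [map_neg, show ψ x = _ from hx, smul_neg] }
  have hA : ∀ a b, ∀ x ∈ A a, ∀ y ∈ A b, ⁅x, y⁆ ∈ A (a + b) := by
    intro a b x hx y hy
    show ψ ⁅x, y⁆ = _
    rw [hψ, show ψ x = _ from hx, show ψ y = _ from hy, smul_lie, lie_smul, wadd, mul_smul]
  have hT : ∀ y, p • y ∈ ⨆ a, A a := by
    intro y
    have h1 : ∀ a, ∑ k : ZMod p, w (-(a * k)) • (ψ ^ k.val) y ∈ A a := by
      intro a
      show ψ _ = _
      rw [map_sum, Finset.smul_sum, ← Equiv.sum_comp (Equiv.addRight (1 : ZMod p))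
        (fun k => w a • w (-(a * k)) • (ψ ^ k.val) y)]
      refine Finset.sum_congr rfl fun k _ => ?_
      rw [map_smul, Equiv.coe_addRight, ← mul_smul, ← wadd, ZMod.val_add, ← pow_eq_pow_mod _ hψp,
        ZMod.val_one, pow_succ', Module.End.mul_apply]
      congr 2
      ring
    have h2 : ∑ a : ZMod p, ∑ k : ZMod p, w (-(a * k)) • (ψ ^ k.val) y = p • y := by
      rw [Finset.sum_comm, Finset.sum_eq_single (0 : ZMod p)]
      · simp [w0]
      · intro k _ hk
        rw [← Finset.sum_smul]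
        have := Equiv.sum_comp (Equiv.mulRight₀ (-k) (neg_ne_zero.2 hk)) w
        simp only [Equiv.mulRight₀_apply, mul_neg] at this
        rw [this, wsum, zero_smul]
      · simp
    rw [← h2]
    exact sum_mem fun a _ => le_iSup A a (h1 a)
  let I : LieIdeal R M :=
    { carrier := {y | (p * m) • y = 0}
      zero_mem' := by simp
      add_mem' := fun {x y} hx hy => by
        show (p * m) • (x + y) = 0
        rw [smul_add, show (p * m) • x = 0 from hx, show (p * m) • y = 0 from hy, add_zero]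
      smul_mem' := fun c x hx => by
        show (p * m) • (c • x) = 0
        rw [smul_comm, show (p * m) • x = 0 from hx, smul_zero]
      lie_mem := fun {x y} hy => by
        show (p * m) • ⁅x, y⁆ = 0
        rw [← lie_nsmul, show (p * m) • y = 0 from hy, lie_zero] }
  let π : M →+ M ⧸ I := (LieSubmodule.Quotient.mk' I).toLinearMap.toAddMonoidHom
  have hπ : ∀ x y, π ⁅x, y⁆ = ⁅π x, π y⁆ := fun x y => LieSubmodule.Quotient.mk_bracket I x y
  have hπ0 : ∀ x, π x = 0 ↔ (p * m) • x = 0 := fun x => LieSubmodule.Quotient.mk_eq_zero I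
  have h1 := H _ (fun a => (A a).map π) (by
    rw [br_le]
    rintro a b _ ⟨x, hx, rfl⟩ _ ⟨y, hy, rfl⟩
    exact ⟨_, hA a b x hx y hy, hπ x y⟩) (by
    rw [eq_bot_iff]
    rintro _ ⟨x, hx, rfl⟩
    rw [AddSubgroup.mem_bot, hπ0]
    have hx' : ψ x = x := by rw [show ψ x = _ from hx, w0, one_smul]
    have h2 : ∀ k : ℕ, (ψ ^ k) x = x := by
      intro k
      induction k with
      | zero => rfl
      | succ k ih => rw [pow_succ, Module.End.mul_apply, hx', ih]
    have := hψtr x
    simp only [h2, Finset.sum_const, Finset.card_range] at this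
    rw [mul_comm, mul_smul, this])
  rw [← AddSubgroup.map_iSup] at h1
  set T := (⨆ a, A a).map π
  have h2 : ∀ c, ∀ y ∈ itU (⊤ : AddSubgroup M) c ⊤, π (p ^ (c + 1) • y) ∈ itU T c T := by
    intro c
    induction c with
    | zero =>
      intro y _
      rw [zero_add, pow_one]
      exact AddSubgroup.mem_map_of_mem _ (hT _)
    | succ c ih =>
      intro y hy
      let f : M →+ M ⧸ I := π.comp (nsmulAddMonoidHom (p ^ (c + 1 + 1)))
      have : itU (⊤ : AddSubgroup M) (c + 1) ⊤ ≤ (itU T (c + 1) T).comap f := by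
        refine brU_le.2 fun u hu x _ => ?_
        have h3 := lie_mem_brU (ih u hu) (AddSubgroup.mem_map_of_mem π (hT x))
        rw [← hπ, nsmul_lie, lie_nsmul, ← mul_smul, ← pow_succ] at h3
        exact h3
      exact this hy
  intro y hy
  have h3 := h2 h y hy
  rw [h1, AddSubgroup.mem_bot, hπ0, ← mul_smul] at h3
  rw [← h3]
  congr 1
  ring

theorem lie_aut {L : Type u} [LieRing L] {p : ℕ} [hp : Fact p.Prime] (φ : L →+ L)
    (hφ : ∀ a b, φ ⁅a, b⁆ = ⁅φ a, φ b⁆) (hφp : ∀ x, φ^[p] x = x) (m : ℕ)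
    (htr : ∀ x, m • ∑ k ∈ Finset.range p, φ^[k] x = 0) {h : ℕ} (H : HigBound.{u} p h) :
    ∀ y ∈ itU (⊤ : AddSubgroup L) h ⊤, (p ^ (h + 2) * m) • y = 0 := by
  obtain ⟨R, _, w, r, w0, wadd, wsum, r1⟩ := exists_cyc_ring p
  let ψ : Module.End R (R ⊗[ℤ] L) := LinearMap.baseChange R φ.toIntLinearMap
  let φ' : L →ₗ⁅ℤ⁆ L := { φ.toIntLinearMap with map_lie' := fun {a b} => hφ a b }
  let ψ' := LieAlgebra.ExtendScalars.map (AlgHom.id ℤ R) φ'
  have hψψ : ∀ a, ψ a = ψ' a := by
    intro a
    induction a using TensorProduct.induction_on with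
    | zero => simp
    | add a b ha hb => simp only [map_add, ha, hb]
    | tmul s x => rfl
  have hψk : ∀ (k : ℕ) (s : R) (x : L), (ψ ^ k) (s ⊗ₜ x) = s ⊗ₜ (φ^[k] x) := by
    intro k s x
    induction k with
    | zero => rfl
    | succ k ih => rw [pow_succ', Module.End.mul_apply, ih, Function.iterate_succ_apply']; rfl
  have hψp : ψ ^ p = 1 := by
    apply LinearMap.ext
    intro a
    induction a using TensorProduct.induction_on with
    | zero => simp
    | add a b ha hb => simp only [map_add, ha, hb]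
    | tmul s x => rw [hψk, hφp]; rfl
  have hψtr : ∀ a, m • ∑ k ∈ Finset.range p, (ψ ^ k) a = 0 := by
    intro a
    induction a using TensorProduct.induction_on with
    | zero => simp
    | add a b ha hb => simp only [map_add, Finset.sum_add_distrib, smul_add, ha, hb, add_zero]
    | tmul s x =>
      simp only [hψk]
      rw [← TensorProduct.tmul_sum, ← TensorProduct.tmul_smul, htr, TensorProduct.tmul_zero]
  have h1 := lie_aut_aux w w0 wadd wsum ψ (fun a b => by
    rw [hψψ, hψψ, hψψ]; exact ψ'.map_lie a b) hψp m hψtr H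
  let ι : L →+ R ⊗[ℤ] L := (TensorProduct.mk ℤ R L 1).toAddMonoidHom
  have h2 : ∀ c, itU (⊤ : AddSubgroup L) c ⊤ ≤ (itU (⊤ : AddSubgroup (R ⊗[ℤ] L)) c ⊤).comap ι := by
    intro c
    induction c with
    | zero => exact le_rfl
    | succ c ih =>
      refine brU_le.2 fun u hu x _ => ?_
      have h3 := lie_mem_brU (L := R ⊗[ℤ] L) (Y := ⊤) (y := ι x) (ih hu) trivial
      have h4 : ι ⁅u, x⁆ = ((1 : R) * 1) ⊗ₜ[ℤ] ⁅u, x⁆ := by rw [one_mul]; rfl
      rw [AddSubgroup.mem_comap, h4]
      exact h3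
  intro y hy
  have h3 := h1 _ (h2 h hy)
  rw [← map_nsmul] at h3
  have h4 := congrArg
    (fun z => TensorProduct.lid ℤ L (TensorProduct.map r.toIntLinearMap LinearMap.id z)) h3
  simpa [ι, r1] using h4

open AssocLie

theorem cls_mem_itU {G : Type*} [Group G] (i : ℕ) : ∀ x ∈ γ G i,
    cls i x ∈ itU (⊤ : AddSubgroup (AL G)) i ⊤ := by
  induction i with
  | zero => exact fun _ _ => AddSubgroup.mem_top _
  | succ i ih =>
    intro x hx
    have hx' : x ∈ ⁅γ G i, (⊤ : Subgroup G)⁆ := hx
    rw [Subgroup.commutator_def] at hx'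
    induction hx' using Subgroup.closure_induction with
    | mem x h =>
      obtain ⟨u, hu, g, -, rfl⟩ := h
      have := lie_mem_brU (ih u hu) (AddSubgroup.mem_top (cls 0 g))
      rwa [lie_cls hu (mem_zero g)] at this
    | one => rw [cls_one]; exact zero_mem _
    | mul x y hx1 hy1 ihx ihy => rw [cls_mul hx1 hy1]; exact add_mem (ihx hx1) (ihy hy1)
    | inv x hx1 ihx => rw [cls_inv hx1]; exact neg_mem (ihx hx1)

theorem cls_list_prod {G : Type*} [Group G] (i : ℕ) (f : ℕ → G) (hf : ∀ k, f k ∈ γ G i) (n : ℕ) :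
    ((List.range n).map f).prod ∈ γ G i ∧
      cls i ((List.range n).map f).prod = ∑ k ∈ Finset.range n, cls i (f k) := by
  induction n with
  | zero => exact ⟨one_mem _, cls_one i⟩
  | succ n ih =>
    rw [List.range_succ, List.map_append, List.prod_append, Finset.sum_range_succ]
    simp only [List.map_cons, List.map_nil, List.prod_cons, List.prod_nil, mul_one]
    exact ⟨mul_mem ih.1 (hf n), by rw [cls_mul ih.1 (hf n), ih.2]⟩

/-- If the norm of an endomorphism `α` with `α^p = 1` is killed by `m` on every factor of the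
lower central series then the factors from the `h`-th on have exponent dividing `p^(h+2) m`. -/
theorem pow_mem_lcs_of_aut {G : Type u} [Group G] {p : ℕ} [Fact p.Prime] (α : G →* G)
    (hα : ∀ x, α^[p] x = x) (m : ℕ)
    (htr : ∀ i, ∀ x ∈ γ G i, ((List.range p).map fun k => α^[k] x).prod ^ m ∈ γ G (i + 1))
    {h : ℕ} (H : HigBound.{u} p h) {i : ℕ} (hi : h ≤ i) {x : G} (hx : x ∈ γ G i) :
    x ^ (p ^ (h + 2) * m) ∈ γ G (i + 1) := by
  obtain ⟨φ, h1, h2⟩ := exists_map α
  have h3 : ∀ k i x, x ∈ γ G i → α^[k] x ∈ γ G i ∧ φ^[k] (cls i x) = cls i (α^[k] x) := by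
    intro k i x hx
    induction k with
    | zero => exact ⟨hx, rfl⟩
    | succ k ih =>
      rw [Function.iterate_succ_apply', Function.iterate_succ_apply', ih.2, h1 _ _ ih.1]
      exact ⟨map_mem α ih.1, rfl⟩
  have h4 := lie_aut φ h2 (by
    intro a
    induction a using induction_on with
    | h0 => exact iterate_map_zero φ p
    | h1 i x hx => rw [(h3 p i x hx).2, hα]
    | h2 a b ha hb => rw [iterate_map_add, ha, hb]) m (by
    intro a
    induction a using induction_on with
    | h0 => simp [iterate_map_zero]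
    | h1 i x hx =>
      have h5 := cls_list_prod i (fun k => α^[k] x) (fun k => (h3 k i x hx).1) p
      simp only [fun k => (h3 k i x hx).2]
      rw [← h5.2, ← cls_pow h5.1]
      exact cls_eq_zero (htr i x hx)
    | h2 a b ha hb =>
      simp only [iterate_map_add, Finset.sum_add_distrib, smul_add, ha, hb, add_zero]) H
  obtain ⟨j, rfl⟩ := Nat.exists_eq_add_of_le' hi
  have h5 := cls_mem_itU _ x hx
  rw [itU_add] at h5
  rw [← cls_eq_zero_iff (pow_mem hx _), cls_pow hx]
  exact h4 _ (itU_mono _ le_top _ h5)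

end Cfsg.Agent.H7
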