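import Cfsg.Agent.H1.EAMod
import Cfsg.Agent.H2.SL23
import Cfsg.Agent.FT.B.helper1_Core
import Cfsg.Agent.L.MinNormal

/-! Elements of prime order acting on chief factors of a solvable group. -/

set_option autoImplicit false
set_option linter.unusedSectionVars false

namespace Cfsg.Agent.H7.RH

open Subgroup Cfsg Cfsg.Agent Cfsg.Agent.FT MulAction
open scoped commutatorElement Pointwise IsMulCommutative

universe u

variable {G : Type u} [Group G] [Finite G]

theorem pCore_range_eq_bot {W : Subgroup G} (hW : L.IsMinNormal W) [W.Normal] {p : ℕ}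
    (hp : p.Prime) (hWp : IsPGroup p W) :
    pCore p (MulAut.conjNormal (H := W)).range = ⊥ := by
  haveI := Fact.mk hp
  set ψ := MulAut.conjNormal (H := W) with hψ
  set A := pCore p ψ.range with hA
  obtain ⟨b, hb, hb1⟩ := (L.isPGroup_pCore (G := ψ.range) p).exists_fixed_point_of_prime_dvd_card_of_fixed_point
    W (prime_dvd_card_of_isPGroup hp hWp hW.2.1) (a := 1) (fun a => map_one (a.1.1))
  set A0 := A.comap ψ.rangeRestrict with hA0
  haveI : A0.Normal := Normal.comap inferInstance _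
  have h1 : W ≤ 𝐂(A0) := by
    refine (hW.inf_eq_bot_or_le 𝐂(A0)).resolve_left fun e => hb1 ?_
    have : (b : G) ∈ W ⊓ 𝐂(A0) := ⟨b.2, mem_cent.2 fun a ha => by
      have := congrArg Subtype.val (hb ⟨_, ha⟩)
      change a * b * a⁻¹ = b at this
      exact mul_inv_eq_iff_eq_mul.1 this⟩
    rw [e, mem_bot] at this
    exact (Subtype.ext this).symm
  rw [eq_bot_iff]
  rintro ⟨_, g, rfl⟩ hg
  rw [mem_bot]
  refine Subtype.ext (MulEquiv.ext fun w => Subtype.ext ?_)
  change g * w * g⁻¹ = w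
  exact mul_inv_eq_iff_eq_mul.2 (mem_cent.1 (h1 w.2) g hg)

theorem quad_triv [Group.IsSolvable G] {W : Subgroup G} (hW : L.IsMinNormal W) {p : ℕ}
    (hp : p.Prime) (h3 : 3 < p) {x : G} (hx : x ^ p = 1) (h : ∀ w ∈ W, ⁅x, w⁆ ∈ 𝐂[x]) :
    W ≤ 𝐂[x] := by
  haveI := hW.1
  obtain ⟨r, hr, hE⟩ := hW.exists_isElementaryAbelian
  haveI := hE.1
  by_cases hrp : r = p
  swap
  · intro w hw
    have h1 : ⁅x, w⁆ ^ p = 1 := by
      rw [← H1.commutatorElement_pow_left_of_central (mem_cent1_iff_commute.1 (h w hw)), hx,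
        commutatorElement_one_left]
    have h2 : ⁅x, w⁆ ∈ W := comm_le_right_iff.2 (normal_iff_top_le.1 hW.1)
      (commutator_mem_commutator (mem_top x) hw)
    have h3 : ⁅x, w⁆ ^ r = 1 :=
      congrArg Subtype.val (H1.pow_eq_one_of_isElementaryAbelian hE ⟨_, h2⟩)
    have h4 : ⁅x, w⁆ = 1 := by
      rw [← orderOf_eq_one_iff]
      exact Nat.eq_one_of_dvd_coprimes ((Nat.coprime_primes hr hp).2 hrp)
        (orderOf_dvd_of_pow_eq_one h3) (orderOf_dvd_of_pow_eq_one h1)
    exact mem_cent1.2 (commutatorElement_eq_one_iff_mul_comm.1 h4)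
  subst hrp
  by_contra hne
  set ψ := MulAut.conjNormal (H := W) with hψ
  haveI : Group.IsSolvable ψ.range := solvable_of_surjective ψ.rangeRestrict_surjective
  have hO := pCore_range_eq_bot hW hr (L.IsElementaryAbelian.isPGroup hE)
  have hF : (Nat.card (fittingSubgroup ψ.range)).Coprime r := by
    have := not_dvd_card_fittingOf hr (H := (⊤ : Subgroup ψ.range)) (by rw [H2.pCoreOf_top, hO])
    rw [H2.fittingOf_top] at this
    exact ((Nat.Prime.coprime_iff_not_dvd hr).2 this).symm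
  have hxr : ψ.rangeRestrict x ^ r = 1 := by rw [← map_pow, hx, map_one]
  obtain ⟨q, -, -, -, n, e, h1, h2, -, -, h5⟩ := H1.hall_higman_B_aut hr
    (H1.pow_eq_one_of_isElementaryAbelian hE) ψ.range.subtype hF (g := ψ.rangeRestrict x)
    (normal_iff_top_le.1 inferInstance (mem_top _)) (m := 0) (by
      by_contra hc
      push Not at hc
      rw [pow_zero, pow_one] at hc
      have k1 : ψ.rangeRestrict x ∈ fittingSubgroup ψ.range :=
        L.centralizer_fittingSubgroup_le (mem_cent.2 fun y hy =>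
          commutatorElement_eq_one_iff_mul_comm.1 (Subtype.ext (hc y hy)))
      have k2 := L.mem_pCore_of_mem_fittingSubgroup hr (k := 1) (by rwa [pow_one]) k1
      rw [hO, mem_bot] at k2
      refine hne fun w hw => mem_cent1.2 ?_
      have := congrArg (fun a : ψ.range => ((a.1 ⟨w, hw⟩ : W) : G)) k2
      exact mul_inv_eq_iff_eq_mul.1 this) (r := 2) (fun v => Subtype.ext (by
        have := mem_cent1.1 (h v v.2)
        change x * (x * v * x⁻¹ * (v : G)⁻¹) * x⁻¹ * (x * v * x⁻¹ * (v : G)⁻¹)⁻¹ = 1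
        rw [← commutatorElement_def x v, this]; group)) (by simp; omega)
  obtain rfl : n = 1 := by omega
  simp at h5
  omega

theorem isPGroup_zpowers {p : ℕ} (hp : p.Prime) {x : G} (hx : x ^ p = 1) :
    IsPGroup p (zpowers x) := by
  haveI := Fact.mk hp
  rcases (Nat.dvd_prime hp).1 (orderOf_dvd_of_pow_eq_one hx) with e | e
  · exact IsPGroup.of_card (n := 0) (by rw [Nat.card_zpowers, e, pow_zero])
  · exact IsPGroup.of_card (n := 1) (by rw [Nat.card_zpowers, e, pow_one])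

/-- The index of the centralizer of `x` in an elementary abelian normal subgroup. -/
theorem index_facts {W : Subgroup G} [W.Normal] {r : ℕ} (hr : r.Prime) (hW : IsPGroup r W) {p : ℕ}
    (hp : p.Prime) {x : G} (hx : x ^ p = 1) (hne : ¬ W ≤ 𝐂[x]) :
    (∃ j, 1 ≤ j ∧ 𝐂[x].relIndex W = r ^ j) ∧ (r ≠ p → 𝐂[x].relIndex W ≡ 1 [MOD p]) := by
  haveI := Fact.mk hp
  obtain ⟨a, ha⟩ := exists_card_eq_pow hr hW
  refine ⟨?_, fun hrp => ?_⟩
  · obtain ⟨j, -, hj⟩ := (Nat.dvd_prime_pow hr).1 (ha ▸ relIndex_dvd_card' 𝐂[x] W)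
    refine ⟨j, Nat.one_le_iff_ne_zero.2 fun e => hne ?_, hj⟩
    rwa [e, pow_zero, relIndex_eq_one] at hj
  · have h1 := H2.card_modEq_card_inf_centralizer (p := p) (P := zpowers x) (N := W)
      (isPGroup_zpowers hp hx) (le_normalizer_of_normal)
    rw [cent_zpowers, ← H1.card_inf_mul_relIndex 𝐂[x] W, inf_comm 𝐂[x]] at h1
    have h2 : (𝐨((W ⊓ 𝐂[x] : Subgroup G))).Coprime p :=
      Nat.Coprime.coprime_dvd_left (FT.card_dvd_of_le inf_le_left)
        (ha ▸ ((Nat.coprime_primes hr hp).2 hrp).pow_left a)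
    exact Nat.ModEq.cancel_left_of_coprime h2.symm (by rwa [mul_one])

theorem le_index {W : Subgroup G} [W.Normal] {r : ℕ} (hr : r.Prime) (hW : IsPGroup r W) {p : ℕ}
    (hp : p.Prime) {x : G} (hx : x ^ p = 1) (hne : ¬ W ≤ 𝐂[x]) : p ≤ 𝐂[x].relIndex W := by
  obtain ⟨⟨j, h1, h2⟩, h3⟩ := index_facts hr hW hp hx hne
  have h4 : r ≤ 𝐂[x].relIndex W := h2 ▸ Nat.le_self_pow (by omega) r
  by_cases hrp : r = p
  · exact hrp ▸ h4
  · have := hr.two_le
    have := Nat.le_of_dvd (by omega) ((Nat.modEq_iff_dvd' (by omega)).1 (h3 hrp).symm)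
    omega

/-- The fixed point ratio. -/
theorem fix_ratio [Group.IsSolvable G] {p : ℕ} (hp : p.Prime) {x : G} (hx : x ^ p = 1)
    (hgen : normalClosure {x} = ⊤) {Ω : Type*} [Finite Ω] [MulAction G Ω] [IsPretransitive G Ω]
    [Nontrivial Ω] : p * Nat.card (fixedBy Ω x) ≤ Nat.card Ω := by
  rcases (fixedBy Ω x).eq_empty_or_nonempty with e | ⟨ω, hω⟩
  · simp [e]
  set H := stabilizer G ω with hH
  have hHt : H ≠ ⊤ := fun e => by
    obtain ⟨ω', hω'⟩ := exists_ne ω
    obtain ⟨g, rfl⟩ := exists_smul_eq G ω ω'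
    exact hω' (e ▸ mem_top g : g ∈ H)
  obtain ⟨L, hL⟩ : ∃ L, Maximal (fun L : Subgroup G => L.Normal ∧ L ⊔ H ≠ ⊤) L :=
    Set.Finite.exists_maximal (s := {L : Subgroup G | L.Normal ∧ L ⊔ H ≠ ⊤}) (Set.toFinite _)
      ⟨⊥, inferInstance, by simpa using hHt⟩
  haveI := hL.1.1
  haveI : Nontrivial (G ⧸ L) := QuotientGroup.nontrivial_iff.2 fun e => hL.1.2 (by simp [e])
  obtain ⟨W, r, hW, hr, hE⟩ := Agent.L.exists_isMinNormal_isElementaryAbelian (G := G ⧸ L)
  haveI := hW.1
  haveI := hE.1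
  set π := QuotientGroup.mk' L with hπ
  have hπs : Function.Surjective π := QuotientGroup.mk'_surjective L
  have hker : π.ker = L := QuotientGroup.ker_mk' L
  have hM : H.map π ≠ ⊤ := fun e => hL.1.2 (by
    rw [sup_comm, ← hker, ← comap_map_eq, e, comap_top])
  have hWM : W ⊔ H.map π = ⊤ := by
    have h1 : W.comap π ⊔ H = ⊤ := by
      by_contra hne
      have h2 : L ≤ W.comap π := hker.ge.trans (ker_le_comap π W)
      have h3 := hL.2 ⟨inferInstance, hne⟩ h2
      refine hW.2.1 ?_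
      rw [← map_comap_eq_self_of_surjective hπs W, Subgroup.map_eq_bot_iff, hker]
      exact h3
    rw [← map_comap_eq_self_of_surjective hπs W, ← Subgroup.map_sup, h1,
      map_top_of_surjective _ hπs]
  have hWW := isMulComm_iff_le_cent.1 hE.1
  have hd : W ⊓ H.map π = ⊥ := by
    have : (W ⊓ H.map π).Normal := normal_iff_top_le.2 (hWM ▸ sup_le
      ((hWW.trans (cent_anti inf_le_left)).trans (cent_le_norm _))
      (H1.le_normalizer_inf le_normalizer_of_normal (le_norm_self _)))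
    refine (hW.2.2 _ this inf_le_left).resolve_right fun e => hM ?_
    rw [← hWM, sup_eq_right.2 (e.ge.trans inf_le_right)]
  have hxH : π x ∈ H.map π := mem_map_of_mem π hω
  have hne : ¬ W ≤ 𝐂[π x] := fun e => hM (by
    rw [eq_top_iff, ← map_top_of_surjective _ hπs, ← hgen, map_le_iff_le_comap]
    rw [normalClosure, closure_le]
    intro y hy
    obtain ⟨a, ha, hc⟩ := Group.mem_conjugatesOfSet_iff.1 hy
    rw [Set.mem_singleton_iff] at ha
    subst ha
    obtain ⟨g, rfl⟩ := isConj_iff.1 hc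
    obtain ⟨m, hm, w, hw, e2⟩ := (mem_sup_of_norm' (A := W) (B := H.map π)
      le_normalizer_of_normal).1 (hWM ▸ mem_top (π g))
    change π _ ∈ H.map π
    rw [map_mul, map_mul, map_inv, ← e2]
    have := mem_cent1.1 (e hw)
    rw [show m * w * π a * (m * w)⁻¹ = m * (w * π a) * w⁻¹ * m⁻¹ by group, ← this,
      show m * (π a * w) * w⁻¹ * m⁻¹ = m * π a * m⁻¹ by group]
    exact mul_mem (mul_mem hm hxH) (inv_mem hm))
  have ht := le_index hr (Agent.L.IsElementaryAbelian.isPGroup hE) hp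
    (x := π x) (by rw [← map_pow, hx, map_one]) hne
  set N := W.comap π with hN
  set C := (W ⊓ 𝐂[π x]).comap π with hC
  have hCN : C ≤ N := comap_mono inf_le_left
  have hNH : H ⊓ N ≤ C := fun g hg => by
    have : π g ∈ W ⊓ H.map π := ⟨hg.2, mem_map_of_mem π hg.1⟩
    rw [hd, mem_bot] at this
    rw [hC, mem_comap, this]; exact one_mem _
  have hNt : N ⊔ H = ⊤ := by
    have := comap_map_eq π (N ⊔ H)
    rw [Subgroup.map_sup, map_comap_eq_self_of_surjective hπs, hWM, comap_top, hker,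
      sup_eq_left.2 ((hker.ge.trans (ker_le_comap π W) : L ≤ N).trans le_sup_left)] at this
    exact this.symm
  have h1 : fixedBy Ω x ⊆ orbit C ω := fun ω' hω' => by
    obtain ⟨g, rfl⟩ := exists_smul_eq G ω ω'
    obtain ⟨n, hn, h, hh, rfl⟩ := (mem_sup_of_norm (A := N) (B := H)
      le_normalizer_of_normal).1 (hNt ▸ mem_top g)
    rw [mul_smul, mem_stabilizer_iff.1 hh] at hω' ⊢
    refine ⟨⟨n, ?_⟩, rfl⟩
    have k1 : n⁻¹ * x * n ∈ H := by
      rw [mem_stabilizer_iff, mul_smul, mul_smul, mem_fixedBy.1 hω', inv_smul_smul]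
    have k2 : n⁻¹ * x * n * x⁻¹ ∈ H ⊓ N := ⟨H.mul_mem k1 (H.inv_mem hω), by
      rw [mul_assoc, mul_assoc, ← mul_assoc x]
      exact N.mul_mem (inv_mem hn) (Normal.conj_mem inferInstance n hn x)⟩
    have k3 : π (n⁻¹ * x * n * x⁻¹) ∈ W ⊓ H.map π := ⟨k2.2, mem_map_of_mem π k2.1⟩
    rw [hd, mem_bot, map_mul, map_mul, map_mul, map_inv, map_inv] at k3
    refine mem_comap.2 (mem_inf.2 ⟨hn, mem_cent1.2 ?_⟩)
    calc π x * π n = π n * ((π n)⁻¹ * π x * π n * (π x)⁻¹) * π x := by group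
      _ = _ := by rw [k3, mul_one]
  have h0 : ∀ K : Subgroup G, H.relIndex K = (orbit K ω).ncard := fun K => index_stabilizer K ω
  have h2 : Nat.card (fixedBy Ω x) ≤ H.relIndex C := by
    rw [h0, Nat.card_coe_set_eq]
    exact Set.ncard_le_ncard h1
  have h3 : Nat.card Ω = H.relIndex C * C.relIndex N := by
    have e1 : orbit N ω = Set.univ := Set.eq_univ_of_forall fun ω' => by
      obtain ⟨g, rfl⟩ := exists_smul_eq G ω ω'
      obtain ⟨n, hn, h, hh, rfl⟩ := (mem_sup_of_norm (A := N) (B := H)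
        le_normalizer_of_normal).1 (hNt ▸ mem_top g)
      rw [mul_smul, mem_stabilizer_iff.1 hh]
      exact ⟨⟨n, hn⟩, rfl⟩
    rw [← Set.ncard_univ, ← e1, ← h0, ← inf_relIndex_right H N, ← relIndex_mul_relIndex _ _ _ hNH hCN,
      ← inf_relIndex_right _ C, inf_assoc, inf_eq_right.2 hCN, inf_relIndex_right]
  have h4 : C.relIndex N = 𝐂[π x].relIndex W := by
    rw [hC, hN, relIndex_comap, map_comap_eq_self_of_surjective hπs, inf_relIndex_left]
  rw [h3, h4, mul_comm]
  exact Nat.mul_le_mul h2 ht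

end Cfsg.Agent.H7.RH
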