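import Cfsg.Agent.H7.RH1
import Cfsg.Agent.H1.RepWt
import Cfsg.Agent.H1.RepFree

/-! Fixed spaces of elements of prime order: counting lemmas. -/

set_option autoImplicit false
set_option linter.unusedSectionVars false

namespace Cfsg.Agent.H7.RH

open Subgroup Cfsg Cfsg.Agent Cfsg.Agent.FT MulAction Module
open scoped commutatorElement Pointwise IsMulCommutative

variable {K E : Type*} [Field K] [AddCommGroup E] [Module K E] [FiniteDimensional K E]

theorem finrank_iSup_le {ι : Type*} [Fintype ι] (U : ι → Submodule K E) :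
    finrank K (⨆ i, U i : Submodule K E) ≤ ∑ i, finrank K (U i) := by
  classical
  rw [← DirectSum.range_coeLinearMap, ← finrank_directSum]
  exact LinearMap.finrank_range_le _

theorem sum_finrank_le {ι : Type*} [Fintype ι] {U : ι → Submodule K E} (h : iSupIndep U) :
    ∑ i, finrank K (U i) ≤ finrank K E := by
  classical
  rw [← finrank_directSum]
  exact LinearMap.finrank_le_finrank_of_injective (f := DirectSum.coeLinearMap U)
    h.dfinsupp_lsum_injective

theorem card_orbits {X Ω : Type*} [Group X] [Finite X] [Finite Ω] [MulAction X Ω] {p : ℕ}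
    (hp : p.Prime) {x : X} (hx : orderOf x = p) :
    Nat.card (Quotient (orbitRel (zpowers x) Ω)) * p =
      Nat.card Ω + (p - 1) * Nat.card (fixedBy Ω x) := by
  classical
  haveI := Fintype.ofFinite (zpowers x)
  haveI := Fintype.ofFinite (Quotient (orbitRel (zpowers x) Ω))
  haveI : ∀ g : zpowers x, Fintype (fixedBy Ω g) := fun g => Fintype.ofFinite _
  have hc : Nat.card (zpowers x) = p := by rw [Nat.card_zpowers, hx]
  have h := sum_card_fixedBy_eq_card_orbits_mul_card_group (zpowers x) Ω
  simp only [← Nat.card_eq_fintype_card] at h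
  rw [hc] at h
  rw [← h, ← Finset.add_sum_erase _ _ (Finset.mem_univ 1), fixedBy_one_eq_univ,
    Finset.sum_congr rfl (g := fun _ => Nat.card (fixedBy Ω x)), Finset.sum_const,
    Finset.card_erase_of_mem (Finset.mem_univ _), Finset.card_univ, ← Nat.card_eq_fintype_card, hc]
  · simp
  intro g hg
  have e : zpowers (g : X) = zpowers x := zpowers_eq_of_card_prime (hc ▸ hp) g.2
    fun e => (Finset.mem_erase.1 hg).1 (Subtype.ext e)
  congr 2
  ext ω
  change (g : X) ∈ stabilizer X ω ↔ x ∈ stabilizer X ω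
  rw [← zpowers_le, e, zpowers_le]

theorem sub_mem_range {X : Type*} [Group X] (τ : X →* End K E) {x a : X} (ha : a ∈ zpowers x)
    (v : E) : τ a v - v ∈ LinearMap.range (τ x - 1) := by
  let S : Subgroup X :=
    { carrier := {a | ∀ v, τ a v - v ∈ LinearMap.range (τ x - 1)}
      one_mem' := fun v => by simp
      mul_mem' := fun {a b} ha hb v => by
        have := add_mem (ha (τ b v)) (hb v)
        rwa [sub_add_sub_cancel, ← End.mul_apply, ← map_mul] at this
      inv_mem' := fun {a} ha v => by
        have := neg_mem (ha (τ a⁻¹ v))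
        rwa [neg_sub, ← End.mul_apply, H1.rep_mul_inv, End.one_apply] at this }
  exact (zpowers_le (H := S)).2 (fun v => ⟨v, rfl⟩) ha v

theorem perm_bound {X Ω : Type*} [Group X] [Finite X] [Finite Ω] [MulAction X Ω]
    (τ : X →* End K E) (U : Ω → Submodule K E) (hU : ∀ a i, ∀ v ∈ U i, τ a v ∈ U (a • i))
    (htop : ⨆ i, U i = ⊤) (hind : iSupIndep U) {e : ℕ} (he : ∀ i, finrank K (U i) = e) {p : ℕ}
    (hp : p.Prime) {x : X} (hx : orderOf x = p) :
    p * finrank K (LinearMap.ker (τ x - 1)) * Nat.card Ω ≤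
      finrank K E * (Nat.card Ω + (p - 1) * Nat.card (fixedBy Ω x)) := by
  haveI := Fintype.ofFinite Ω
  haveI := Fintype.ofFinite (Quotient (orbitRel (zpowers x) Ω))
  have h1 := sum_finrank_le hind
  have h2 := finrank_iSup_le fun q : Quotient (orbitRel (zpowers x) Ω) => U q.out
  simp only [he, Finset.sum_const, Finset.card_univ, ← Nat.card_eq_fintype_card,
    smul_eq_mul] at h1 h2
  have h3 : LinearMap.range (τ x - 1) ⊔
      ⨆ q : Quotient (orbitRel (zpowers x) Ω), U q.out = ⊤ := by
    rw [eq_top_iff, ← htop]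
    refine iSup_le fun i v hv => ?_
    obtain ⟨a, ha⟩ : (Quotient.mk (orbitRel (zpowers x) Ω) i).out ∈ orbit (zpowers x) i :=
      Quotient.mk_out (s := orbitRel (zpowers x) Ω) i
    have k1 := hU a i v hv
    rw [show (a : X) • i = _ from ha] at k1
    rw [← sub_sub_cancel (τ a v) v]
    exact sub_mem (Submodule.mem_sup_right (Submodule.mem_iSup_of_mem _ k1))
      (Submodule.mem_sup_left (sub_mem_range τ a.2 v))
  have h4 := Submodule.finrank_add_le_finrank_add_finrank (LinearMap.range (τ x - 1))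
    (⨆ q : Quotient (orbitRel (zpowers x) Ω), U q.out)
  rw [h3, finrank_top] at h4
  have h5 := LinearMap.finrank_range_add_finrank_ker (τ x - 1)
  rw [← card_orbits hp hx]
  calc _ ≤ p * (Nat.card (Quotient (orbitRel (zpowers x) Ω)) * e) * Nat.card Ω := by
        gcongr; omega
    _ = (Nat.card Ω * e) * (Nat.card (Quotient (orbitRel (zpowers x) Ω)) * p) := by ring
    _ ≤ _ := by gcongr

theorem finrank_le_of_map {X : Type*} [Group X] (τ : X →* End K E) (a : X) {A B : Submodule K E}
    (h : ∀ v ∈ A, τ a v ∈ B) : finrank K A ≤ finrank K B :=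
  LinearMap.finrank_le_finrank_of_injective (f := (τ a).restrict h) fun v w e => Subtype.ext (by
    have := congrArg (fun u : B => τ a⁻¹ u) e
    simpa [← End.mul_apply, H1.rep_inv_mul] using this)

/-- The conjugation action on endomorphisms. -/
def adRep {X : Type*} [Group X] (ρ : X →* End K E) : X →* End K (End K E) where
  toFun g := LinearMap.mulLeft K (ρ g) ∘ₗ LinearMap.mulRight K (ρ g⁻¹)
  map_one' := by ext; simp
  map_mul' a b := by
    refine LinearMap.ext fun T => ?_
    simp [mul_assoc]

theorem adRep_apply {X : Type*} [Group X] (ρ : X →* End K E) (g : X) (T : End K E) :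
    adRep ρ g T = ρ g * T * ρ g⁻¹ := by
  simp [adRep, mul_assoc]

theorem sq_lt_finrank {X : Type*} [Group X] (ρ : X →* End K E) {x : X} (hx : ρ x ≠ 1) :
    finrank K (LinearMap.ker (ρ x - 1)) ^ 2 < finrank K (LinearMap.ker (adRep ρ x - 1)) := by
  let f : ((E ⧸ LinearMap.range (ρ x - 1)) →ₗ[K] LinearMap.ker (ρ x - 1)) →ₗ[K] End K E :=
    (LinearMap.lcomp K E (LinearMap.range (ρ x - 1)).mkQ) ∘ₗ
      LinearMap.compRight K (LinearMap.ker (ρ x - 1)).subtype
  have fa : ∀ T v, f T v = T ((LinearMap.range (ρ x - 1)).mkQ v) := fun T v => rfl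
  have hf : Function.Injective f := fun S T e => LinearMap.ext fun q => by
    obtain ⟨v, rfl⟩ := (LinearMap.range (ρ x - 1)).mkQ_surjective q
    exact Subtype.ext (by rw [← fa, ← fa, e])
  have h1 := LinearMap.finrank_range_of_inj hf
  have h2 := Submodule.finrank_quotient_add_finrank (LinearMap.range (ρ x - 1))
  have h3 := LinearMap.finrank_range_add_finrank_ker (ρ x - 1)
  rw [finrank_linearMap, show finrank K (E ⧸ LinearMap.range (ρ x - 1)) =
    finrank K (LinearMap.ker (ρ x - 1)) by omega, ← pow_two] at h1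
  rw [← h1]
  refine Submodule.finrank_lt_finrank_of_lt (lt_of_le_of_ne ?_ fun e => hx ?_)
  · rintro _ ⟨T, rfl⟩
    rw [LinearMap.mem_ker, LinearMap.sub_apply, End.one_apply, sub_eq_zero, adRep_apply]
    refine LinearMap.ext fun v => ?_
    have k1 : (LinearMap.range (ρ x - 1)).mkQ (ρ x⁻¹ v) = (LinearMap.range (ρ x - 1)).mkQ v :=
      (Submodule.Quotient.eq _).2 (sub_mem_range ρ (inv_mem (mem_zpowers x)) v)
    have k2 := (T ((LinearMap.range (ρ x - 1)).mkQ v)).2
    rw [LinearMap.mem_ker, LinearMap.sub_apply, End.one_apply, sub_eq_zero] at k2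
    rw [End.mul_apply, End.mul_apply, fa, fa, k1, k2]
  · obtain ⟨T, hT⟩ : (1 : End K E) ∈ LinearMap.range f := by
      rw [e, LinearMap.mem_ker, LinearMap.sub_apply, End.one_apply, sub_eq_zero, adRep_apply,
        mul_one, H1.rep_mul_inv]
    refine LinearMap.ext fun v => ?_
    have k2 := (T ((LinearMap.range (ρ x - 1)).mkQ v)).2
    rwa [← fa, hT, LinearMap.mem_ker, LinearMap.sub_apply, sub_eq_zero] at k2

theorem finrank_ker_le_add (T : End K E) (W : Submodule K E) (hW : W ≤ W.comap T) :
    finrank K (LinearMap.ker (T - 1)) ≤ finrank K (LinearMap.ker (T.restrict hW - 1)) +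
      finrank K (LinearMap.ker (Submodule.mapQ W W T hW - 1)) := by
  have h1 := LinearMap.finrank_range_add_finrank_ker (W.mkQ ∘ₗ (LinearMap.ker (T - 1)).subtype)
  have h2 : LinearMap.range (W.mkQ ∘ₗ (LinearMap.ker (T - 1)).subtype) ≤
      LinearMap.ker (Submodule.mapQ W W T hW - 1) := by
    rintro _ ⟨v, rfl⟩
    have k := v.2
    rw [LinearMap.mem_ker, LinearMap.sub_apply, End.one_apply, sub_eq_zero] at k ⊢
    change W.mkQ (T v) = W.mkQ v
    rw [k]
  have h3 := Submodule.finrank_mono h2
  have h4 : finrank K (LinearMap.ker (W.mkQ ∘ₗ (LinearMap.ker (T - 1)).subtype)) ≤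
      finrank K (LinearMap.ker (T.restrict hW - 1)) := by
    rw [← Submodule.finrank_map_subtype_eq, ← Submodule.finrank_map_subtype_eq W]
    refine Submodule.finrank_mono ?_
    rintro _ ⟨v, hv, rfl⟩
    have k := v.2
    rw [LinearMap.mem_ker, LinearMap.sub_apply, End.one_apply, sub_eq_zero] at k
    refine ⟨⟨v, (Submodule.Quotient.mk_eq_zero W).1 hv⟩, ?_, rfl⟩
    rw [SetLike.mem_coe, LinearMap.mem_ker, LinearMap.sub_apply, End.one_apply, sub_eq_zero]
    exact Subtype.ext k
  omega

end Cfsg.Agent.H7.RH
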