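import Cfsg.Agent.H7.RH2

/-! The fixed space of a generating class of prime order `p > 3` in a solvable group. -/

set_option autoImplicit false
set_option linter.unusedSectionVars false

namespace Cfsg.Agent.H7.RH

open Subgroup Cfsg Cfsg.Agent Cfsg.Agent.FT MulAction Module
open scoped commutatorElement Pointwise IsMulCommutative

variable {K V : Type*} [Field K] [AddCommGroup V] [Module K V] [FiniteDimensional K V]
  {G : Type*} [Group G] [Finite G]

theorem adRep_scalar (ρ : G →* End K V) {z : G} (hz : z ∈ H1.scalarSub ρ) : adRep ρ z = 1 := by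
  obtain ⟨c, hc⟩ := hz
  refine LinearMap.ext fun T => ?_
  have h := H1.rep_mul_inv ρ z
  rw [adRep_apply, End.one_apply]
  rw [hc] at h ⊢
  rw [smul_mul_assoc, one_mul] at h ⊢
  rw [smul_mul_assoc, ← mul_smul_comm, h, mul_one]

theorem scalar_le_cent {ρ : G →* End K V} (hf : Function.Injective ρ) (A : Subgroup G) :
    H1.scalarSub ρ ≤ 𝐂(A) := by
  rintro z ⟨c, hc⟩
  exact mem_cent.2 fun a _ => hf (by rw [map_mul, map_mul, hc]; simp)

variable [IsAlgClosed K] [Nontrivial V] [Group.IsSolvable G]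

theorem abelian_case {ρ : G →* End K V} (hirr : H1.IrrBy (Set.range ρ)) {p : ℕ} (hp : p.Prime)
    (h3 : 3 < p) {x : G} (hx : orderOf x = p) (hgen : normalClosure {x} = ⊤) {A : Subgroup G}
    [A.Normal] (hA : IsMulCommutative A) (hAZ : ¬ A ≤ H1.scalarSub ρ) :
    2 * finrank K (LinearMap.ker (ρ x - 1)) < finrank K V := by
  have hc : ∀ a ∈ A, ∀ b ∈ A, Commute (ρ a) (ρ b) := fun a ha b hb =>
    Commute.map (mem_cent.1 (isMulComm_iff_le_cent.1 hA hb) a ha) ρ
  obtain ⟨μ, v, -, hv0, hv⟩ := H1.exists_weight_vector (fun a : A => ρ a) (W := ⊤) top_ne_bot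
    (fun _ _ _ => Submodule.mem_top) fun a b v _ => by
      rw [← End.mul_apply, hc a a.2 b b.2, End.mul_apply]
  change H1.Wt A K at μ
  haveI : Finite (orbit G μ) := Set.finite_range _
  have hU : ∀ (a : G) (i : orbit G μ), ∀ v ∈ H1.wtSp ρ A i, ρ a v ∈ H1.wtSp ρ A (a • i : orbit G μ) :=
    fun a i v hv => H1.apply_mem_wtSp hv a
  have htop : ⨆ i : orbit G μ, H1.wtSp ρ A i = ⊤ := by
    refine (hirr _ ?_).resolve_left fun e => hv0 ?_
    · rintro _ ⟨g, rfl⟩ w hw
      refine Submodule.iSup_induction _ (motive := fun w => ρ g w ∈ _) hw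
        (fun i u hu => Submodule.mem_iSup_of_mem _ (hU g i u hu)) (by simp)
        fun a b ha hb => by rw [map_add]; exact add_mem ha hb
    · rw [← Submodule.mem_bot K, ← e]
      exact Submodule.mem_iSup_of_mem ⟨μ, mem_orbit_self μ⟩ (H1.mem_wtSp.2 hv)
  have he : ∀ i : orbit G μ, finrank K (H1.wtSp ρ A i) = finrank K (H1.wtSp ρ A μ) := by
    rintro ⟨_, g, rfl⟩
    refine le_antisymm (finrank_le_of_map ρ g⁻¹ fun v hv => ?_)
      (finrank_le_of_map ρ g fun v hv => H1.apply_mem_wtSp hv g)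
    simpa using H1.apply_mem_wtSp hv g⁻¹
  have h1 := perm_bound ρ _ hU htop ((H1.iSupIndep_wtSp' ρ A hc).comp Subtype.val_injective) he
    hp hx
  haveI : Nontrivial (orbit G μ) := by
    by_contra hn
    rw [not_nontrivial_iff_subsingleton] at hn
    refine hAZ fun a ha => ⟨μ ⟨a, ha⟩, LinearMap.ext fun w => ?_⟩
    have : ⊤ ≤ H1.wtSp ρ A μ := htop ▸ iSup_le fun i => by
      rw [Subsingleton.elim i ⟨μ, mem_orbit_self μ⟩]
    exact H1.mem_wtSp.1 (this (Submodule.mem_top (x := w))) ⟨a, ha⟩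
  have h2 := fix_ratio hp (hx ▸ pow_orderOf_eq_one x) hgen (Ω := orbit G μ)
  have h4 : 0 < Nat.card (orbit G μ) := Nat.card_pos
  have h5 : 0 < finrank K V := finrank_pos
  generalize Nat.card (orbit G μ) = m at *
  generalize Nat.card (fixedBy (orbit G μ) x) = f at *
  generalize finrank K V = n at *
  generalize finrank K (LinearMap.ker (ρ x - 1)) = c at *
  obtain ⟨q, rfl⟩ : ∃ q, p = q + 4 := ⟨p - 4, by omega⟩
  by_contra hlt
  rw [not_lt] at hlt
  have h6 : (q + 4) * ((q + 4) * c * m) ≤ n * ((q + 4) * m + (q + 3) * m) := by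
    calc _ ≤ (q + 4) * (n * (m + (q + 4 - 1) * f)) := Nat.mul_le_mul_left _ h1
      _ = n * ((q + 4) * m + (q + 3) * ((q + 4) * f)) := by
        rw [show q + 4 - 1 = q + 3 by omega]; ring
      _ ≤ _ := by gcongr
  have h7 : (q + 4) * (q + 4) * (n * m) ≤ (4 * q + 14) * (n * m) := by
    calc _ ≤ (q + 4) * (q + 4) * (2 * c * m) := by gcongr
      _ = 2 * ((q + 4) * ((q + 4) * c * m)) := by ring
      _ ≤ 2 * (n * ((q + 4) * m + (q + 3) * m)) := Nat.mul_le_mul_left _ h6
      _ = _ := by ring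
  have := Nat.le_of_mul_le_mul_right h7 (Nat.mul_pos h5 h4)
  nlinarith

theorem end_bound {ℓ : ℕ} (hℓ : ℓ.Prime) [CharP K ℓ] {ρ : G →* End K V}
    (hf : Function.Injective ρ) {p : ℕ} (hp : p.Prime) {x : G} (hx : orderOf x = p)
    {W : Subgroup (G ⧸ H1.scalarSub ρ)} [W.Normal] (hW : IsMulCommutative W)
    (hZ : 𝐙(W.comap (QuotientGroup.mk' _)) ≤ H1.scalarSub ρ) :
    p * finrank K (LinearMap.ker (adRep ρ x - 1)) * 𝐨(W) ≤ finrank K V ^ 2 *
      (𝐨(W) + (p - 1) * 𝐨((W ⊓ 𝐂[QuotientGroup.mk' (H1.scalarSub ρ) x] : Subgroup _))) := by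
  classical
  set Z := H1.scalarSub ρ with hZd
  set π := QuotientGroup.mk' Z with hπ
  set N := W.comap π with hN
  have hker : ∀ g, π g = 1 ↔ g ∈ Z := fun g => QuotientGroup.eq_one_iff g
  have hcm : ∀ a ∈ N, ∀ b ∈ N, ⁅a, b⁆ ∈ Z := fun a ha b hb => by
    rw [← hker, map_commutatorElement, commutatorElement_eq_one_iff_mul_comm]
    exact mem_cent.1 (isMulComm_iff_le_cent.1 hW hb) _ ha
  have hout : ∀ w : W, π (w : G ⧸ Z).out = w := fun w => QuotientGroup.out_eq' _
  have houtN : ∀ w : W, (w : G ⧸ Z).out ∈ N := fun w => by rw [hN, mem_comap, hout]; exact w.2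
  have hsc : ∀ {c : K} {z : G}, ρ z = c • 1 → z ^ ℓ = 1 → z = 1 := fun {c z} h1 h2 => by
    haveI := Fact.mk hℓ
    have h3 : (c ^ ℓ) • (1 : End K V) = (1 : K) • 1 := by
      have := map_pow ρ z ℓ
      rw [h2, map_one, h1, smul_pow, one_pow] at this
      rw [one_smul, ← this]
    have h4 := smul_left_injective K (one_ne_zero (α := End K V)) h3
    have h5 : (c - 1) ^ ℓ = 0 := by rw [sub_pow_char, h4, one_pow, sub_self]
    rw [sub_eq_zero.1 (pow_eq_zero_iff hℓ.ne_zero |>.1 h5), one_smul] at h1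
    exact hf (h1.trans (map_one ρ).symm)
  have hNK : (𝐨(N) : K) ≠ 0 := fun e => by
    obtain ⟨g, hg, hgo⟩ := exists_mem_orderOf_eq_prime hℓ ((CharP.cast_eq_zero_iff K ℓ _).1 e)
    have hg1 : g ^ ℓ = 1 := hgo ▸ pow_orderOf_eq_one g
    have hgZ : g ∈ Z := hZ ⟨hg, mem_cent.2 fun y hy => by
      obtain ⟨c, hc⟩ := hcm g hg y hy
      refine (commutatorElement_eq_one_iff_mul_comm.1 (hsc hc ?_)).symm
      rw [← H1.commutatorElement_pow_left_of_central
        (mem_cent.1 (scalar_le_cent hf ⊤ (hcm g hg y hy)) g (mem_top g)), hg1,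
        commutatorElement_one_left]⟩
    obtain ⟨c, hc⟩ := hgZ
    rw [hsc hc hg1, orderOf_one] at hgo
    exact hℓ.one_lt.ne hgo
  letI : MulAction G W := MulAction.compHom W ((MulAut.conjNormal (H := W)).comp π)
  have hsm : ∀ (g : G) (w : W), ((g • w : W) : G ⧸ Z) = π g * w * (π g)⁻¹ := fun g w => rfl
  let C0 := H1.wtSp (adRep ρ) N (fun _ => 1)
  let U : W → Submodule K (End K V) := fun w => C0.map (LinearMap.mulLeft K (ρ (w : G ⧸ Z).out))
  have memU : ∀ (w : W) (a : G), π a = w → ∀ T ∈ C0, ρ a * T ∈ U w := fun w a ha T hT => by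
    obtain ⟨c, hc⟩ : (w : G ⧸ Z).out⁻¹ * a ∈ Z := by
      rw [← hker, map_mul, map_inv, hout, ha, inv_mul_cancel]
    refine ⟨c • T, C0.smul_mem c hT, ?_⟩
    rw [LinearMap.mulLeft_apply, ← one_mul T, ← smul_mul_assoc, ← hc, ← mul_assoc, ← map_mul,
      mul_inv_cancel_left, one_mul]
  have hU : ∀ (g : G) (w : W), ∀ T ∈ U w, adRep ρ g T ∈ U (g • w) := by
    rintro g w _ ⟨T, hT, rfl⟩
    have := memU (g • w) (g * (w : G ⧸ Z).out * g⁻¹) (by
      rw [hsm, map_mul, map_mul, map_inv, hout]) _ (H1.apply_mem_wtSp hT g)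
    convert this using 1
    rw [adRep_apply, adRep_apply, LinearMap.mulLeft_apply, map_mul, map_mul]
    simp only [mul_assoc]
    rw [← mul_assoc (ρ g⁻¹), H1.rep_inv_mul, one_mul]
  have he : ∀ w, finrank K (U w) = finrank K C0 := fun w =>
    (Submodule.equivMapOfInjective _ (fun S T e => by
      have := congrArg (ρ (w : G ⧸ Z).out⁻¹ * ·) e
      simpa [← mul_assoc, H1.rep_inv_mul] using this) C0).finrank_eq.symm
  have hind : iSupIndep U := by
    choose β hβ using fun (w : W) (n : N) => hcm n n.2 _ (houtN w)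
    have hc : ∀ a ∈ N, ∀ b ∈ N, Commute (adRep ρ a) (adRep ρ b) := fun a ha b hb => by
      change _ * _ = _ * _
      rw [← map_mul, ← map_mul, show a * b = ⁅a, b⁆ * (b * a) by
        simp only [commutatorElement_def]; group, map_mul _ ⁅a, b⁆, adRep_scalar ρ (hcm a ha b hb),
        one_mul]
    refine ((H1.iSupIndep_wtSp' (adRep ρ) N hc).comp (f := β) fun w w' e => ?_).mono fun w => ?_
    · have k : (w' : G ⧸ Z).out⁻¹ * (w : G ⧸ Z).out ∈ Z :=
        hZ ⟨N.mul_mem (N.inv_mem (houtN w')) (houtN w), mem_cent.2 fun n hn => by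
          have k1 : ⁅n, (w : G ⧸ Z).out⁆ = ⁅n, (w' : G ⧸ Z).out⁆ :=
            hf ((hβ w ⟨n, hn⟩).trans (e ▸ (hβ w' ⟨n, hn⟩).symm))
          generalize (w : G ⧸ Z).out = a at *
          generalize (w' : G ⧸ Z).out = b at *
          calc n * (b⁻¹ * a) = n * b⁻¹ * n⁻¹ * ⁅n, a⁆ * a * n := by
                simp only [commutatorElement_def]; group
            _ = _ := by rw [k1]; simp only [commutatorElement_def]; group⟩
      rw [← hker, map_mul, map_inv, hout, hout, inv_mul_eq_one] at k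
      exact Subtype.ext k.symm
    · rintro _ ⟨T, hT, rfl⟩
      refine H1.mem_wtSp.2 fun n => ?_
      have k := H1.mem_wtSp.1 hT n
      rw [one_smul, adRep_apply] at k
      rw [adRep_apply, LinearMap.mulLeft_apply]
      conv_rhs => rw [← one_mul (ρ _ * T), ← smul_mul_assoc, ← hβ, ← k]
      simp only [← mul_assoc, ← map_mul, commutatorElement_def]
      congr 3
      group
  have htop : ⨆ w, U w = ⊤ := by
    haveI := Fintype.ofFinite N
    rw [eq_top_iff]
    intro T _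
    have hcomm : _root_.commutator N ≤ H1.scalarSub (ρ.comp N.subtype) :=
      commutator_le.2 fun a _ b _ => hcm a a.2 b b.2
    have k1 : ∀ S : End K V, ∑ n : N, adRep ρ n S ∈ C0 := fun S => H1.mem_wtSp.2 fun m => by
      rw [one_smul, map_sum]
      refine Fintype.sum_equiv (Equiv.mulLeft m) _ _ fun n => ?_
      rw [← End.mul_apply, ← map_mul]; rfl
    have k2 : ∑ w : N, ρ w * ∑ n : N, adRep ρ n (ρ (w : G)⁻¹ * T) ∈ ⨆ w, U w :=
      Submodule.sum_mem _ fun w _ => Submodule.mem_iSup_of_mem ⟨π w, w.2⟩ (memU _ w rfl _ (k1 _))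
    have k3 : ∑ w : N, ρ w * ∑ n : N, adRep ρ n (ρ (w : G)⁻¹ * T) =
        ∑ n : N, (∑ w : N, (ρ.comp N.subtype) (w * n * w⁻¹)) * T * ρ (n : G)⁻¹ := by
      simp only [Finset.mul_sum, Finset.sum_mul]
      rw [Finset.sum_comm]
      refine Finset.sum_congr rfl fun n _ => Finset.sum_congr rfl fun w _ => ?_
      simp [adRep_apply, mul_assoc]
    have k4 : ∀ n : N, (∑ w : N, (ρ.comp N.subtype) (w * n * w⁻¹)) * T * ρ (n : G)⁻¹ =
        if (n : G) ∈ Z then (𝐨(N) : K) • T else 0 := fun n => by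
      split_ifs with hn
      · have e1 : ∀ w : N, w * n * w⁻¹ = n := fun w => Subtype.ext (mul_inv_eq_iff_eq_mul.2
          (mem_cent.1 (scalar_le_cent hf ⊤ hn) w (mem_top _)))
        have e2 := congrArg (fun S => S T) (adRep_scalar ρ hn)
        simp only [adRep_apply, End.one_apply] at e2
        simp only [e1, Finset.sum_const, Finset.card_univ, ← Nat.card_eq_fintype_card]
        rw [← Nat.cast_smul_eq_nsmul K, smul_mul_assoc, smul_mul_assoc]
        exact congrArg _ e2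
      · obtain ⟨y, hy⟩ : ∃ y : N, (ρ.comp N.subtype) n * (ρ.comp N.subtype) y ≠
            (ρ.comp N.subtype) y * (ρ.comp N.subtype) n := by
          by_contra hc
          push Not at hc
          refine hn (hZ ⟨n.2, mem_cent.2 fun y hy => hf ?_⟩)
          rw [map_mul, map_mul]
          exact (hc ⟨y, hy⟩).symm
        rw [H1.sum_conj_eq_zero hcomm hy, zero_mul, zero_mul]
    rw [k3, Finset.sum_congr rfl fun n _ => k4 n, ← Finset.sum_filter, Finset.sum_const,
      ← Nat.cast_smul_eq_nsmul K, smul_smul] at k2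
    refine (Submodule.smul_mem_iff _ (mul_ne_zero (fun e => hNK ?_) hNK)).1 k2
    have : (Finset.univ.filter fun n : N => (n : G) ∈ Z).card = Nat.card (Z.subgroupOf N) := by
      rw [Nat.card_eq_fintype_card, Fintype.card_subtype]; rfl
    obtain ⟨d, hd⟩ := card_subgroup_dvd_card (Z.subgroupOf N)
    rw [hd, ← this, Nat.cast_mul, e, zero_mul]
  have h1 := perm_bound (adRep ρ) U hU htop hind he hp hx
  rw [finrank_linearMap, ← pow_two] at h1
  convert h1 using 4
  refine Nat.card_congr ⟨fun w => ⟨⟨w, w.2.1⟩, Subtype.ext (mem_cent1_comm.1 w.2.2 |>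
    mem_cent1_iff_conj.1)⟩, fun w => ⟨w.1, w.1.2, mem_cent1_comm.2 (mem_cent1_iff_conj.2
      (congrArg Subtype.val w.2))⟩, fun _ => rfl, fun _ => rfl⟩

end Cfsg.Agent.H7.RH
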