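import Cfsg.Agent.H7.RH3

/-! The fixed space of a generating class of prime order `p > 3` in a solvable group. -/

set_option autoImplicit false
set_option linter.unusedSectionVars false

namespace Cfsg.Agent.H7.RH

open Subgroup Cfsg Cfsg.Agent Cfsg.Agent.FT MulAction Module
open scoped commutatorElement Pointwise IsMulCommutative

universe u v

variable {G : Type u} [Group G] [Finite G] [Group.IsSolvable G]

theorem index_not_prime {Z : Subgroup G} [Z.Normal] (hZ : Z ≤ 𝐂((⊤ : Subgroup G)))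
    {W : Subgroup (G ⧸ Z)} (hW : L.IsMinNormal W) (hZN : 𝐙(W.comap (QuotientGroup.mk' _)) ≤ Z)
    {p : ℕ} (hp : p.Prime) (h3 : 3 < p) {x : G} (hx : x ^ p = 1) (hgen : normalClosure {x} = ⊤) :
    ¬ W ≤ 𝐂[QuotientGroup.mk' Z x] ∧ ¬ (𝐂[QuotientGroup.mk' Z x].relIndex W).Prime := by
  haveI := hW.1
  set π := QuotientGroup.mk' Z with hπ
  set N := W.comap π with hN
  have hπs : Function.Surjective π := QuotientGroup.mk'_surjective Z
  have hker : π.ker = Z := QuotientGroup.ker_mk' Z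
  have hWW := isMulComm_iff_le_cent.1 hW.isMulCommutative_of_isSolvable
  have hne : ¬ W ≤ 𝐂[π x] := fun e => by
    have h1 : ⊤ ≤ 𝐂(W) := by
      rw [← map_top_of_surjective _ hπs, ← hgen, map_le_iff_le_comap]
      haveI : (𝐂(W).comap π).Normal := Normal.comap inferInstance _
      exact normalClosure_le_normal (Set.singleton_subset_iff.2 (mem_cent_iff_cent1.2 e))
    obtain ⟨w, hw1⟩ := ne_bot_iff_exists_ne_one.1 hW.2.1
    obtain ⟨n, hn⟩ := hπs w
    have h2 : zpowers (π n) ≤ W := zpowers_le.2 (hn ▸ w.2)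
    have h4 : zpowers (π n) = W := (hW.2.2 _ (normal_iff_top_le.2
      ((h1.trans (cent_anti h2)).trans (cent_le_norm _))) h2).resolve_left fun e2 =>
        hw1 (Subtype.ext (hn.symm.trans (zpowers_eq_bot.1 e2)))
    have h5 : N = zpowers n ⊔ Z := by rw [hN, ← h4, ← MonoidHom.map_zpowers, comap_map_eq, hker]
    have h6 : n ∈ Z := hZN ⟨h5 ▸ mem_sup_left (mem_zpowers n), mem_cent_iff_cent1.2 (h5 ▸ sup_le
      (zpowers_le.2 (self_mem_cent1 n)) (hZ.trans (cent_le_cent1 (mem_top n))))⟩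
    exact hw1 (Subtype.ext (hn.symm.trans (hker.ge h6)))
  refine ⟨hne, fun ht => hne (quad_triv hW hp h3 (by rw [← map_pow, hx, map_one]) ?_)⟩
  set C := (W ⊓ 𝐂[π x]).comap π with hC
  have hCN : C ≤ N := comap_mono inf_le_left
  have h4 : C.relIndex N = 𝐂[π x].relIndex W := by
    rw [hC, hN, relIndex_comap, map_comap_eq_self_of_surjective hπs, inf_relIndex_left]
  have hNN : ⁅N, N⁆ ≤ Z := by
    rw [← hker, ← Subgroup.map_eq_bot_iff, map_commutator, map_comap_eq_self_of_surjective hπs]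
    exact comm_eq_bot_iff.2 hWW
  have hCP : ⁅C, zpowers x⁆ ≤ Z := by
    rw [← hker, ← Subgroup.map_eq_bot_iff, map_commutator, map_comap_eq_self_of_surjective hπs,
      MonoidHom.map_zpowers, comm_eq_bot_iff, cent_zpowers]
    exact inf_le_right
  have h5 : ⁅zpowers x, N⁆ ≤ 𝐂(C) := comm_eq_bot_iff.1 (commutator_commutator_eq_bot_of_rotate
    (comm_eq_bot_iff.2 (((commutator_mono le_rfl hCN).trans hNN).trans
      (hZ.trans (cent_anti le_top)))) (comm_eq_bot_iff.2 (hCP.trans (hZ.trans (cent_anti le_top)))))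
  intro w hw
  obtain ⟨n, rfl⟩ := hπs w
  have hu : ⁅x, n⁆ ∈ N := comm_le_right_iff.2 (normal_iff_top_le.1 (Normal.comap hW.1 π))
    (commutator_mem_commutator (mem_top x) hw)
  have h6 : ⁅x, n⁆ ∈ C := by
    by_contra hc
    have k1 : C ⊔ zpowers ⁅x, n⁆ ≤ N := sup_le hCN (zpowers_le.2 hu)
    have k2 := relIndex_mul_relIndex _ _ _ le_sup_left k1
    rw [h4] at k2
    have k3 : (C ⊔ zpowers ⁅x, n⁆).relIndex N = 1 := by
      rcases (Nat.dvd_prime ht).1 (Dvd.intro _ k2) with e | e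
      · exact (hc (relIndex_eq_one.1 e (mem_sup_right (mem_zpowers _)))).elim
      · rw [e] at k2
        exact (Nat.mul_eq_left ht.ne_zero).1 k2
    have k4 : ⁅x, n⁆ ∈ Z := hZN ⟨hu, mem_cent_iff_cent1.2 ((relIndex_eq_one.1 k3).trans (sup_le
      (mem_cent_iff_cent1.1 (h5 (commutator_mem_commutator (mem_zpowers x) hw)))
      (zpowers_le.2 (self_mem_cent1 _))))⟩
    exact hc (ker_le_comap π _ (hker.ge k4))
  have := (mem_comap.1 h6).2
  rwa [map_commutatorElement] at this

variable {K : Type*} [Field K] [IsAlgClosed K]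

theorem core_faithful {V : Type*} [AddCommGroup V] [Module K V] [FiniteDimensional K V]
    [Nontrivial V] {ℓ : ℕ} (hℓ : ℓ.Prime) [CharP K ℓ] {ρ : G →* End K V}
    (hf : Function.Injective ρ) (hirr : H1.IrrBy (Set.range ρ)) {p : ℕ} (hp : p.Prime)
    (h3 : 3 < p) {x : G} (hx : orderOf x = p) (hgen : normalClosure {x} = ⊤) :
    2 * finrank K (LinearMap.ker (ρ x - 1)) < finrank K V := by
  have h5 : 0 < finrank K V := finrank_pos
  have hx1 : ρ x ≠ 1 := fun e => by
    rw [hf (e.trans (map_one ρ).symm), orderOf_one] at hx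
    omega
  by_cases hZ : H1.scalarSub ρ = ⊤
  · obtain ⟨c, hc⟩ : x ∈ H1.scalarSub ρ := hZ ▸ mem_top x
    have : LinearMap.ker (ρ x - 1) = ⊥ := (Submodule.eq_bot_iff _).2 fun v hv => by
      rw [LinearMap.mem_ker, hc, LinearMap.sub_apply, LinearMap.smul_apply, End.one_apply,
        ← one_smul K v, smul_smul, ← sub_smul, smul_eq_zero, mul_one, sub_eq_zero] at hv
      exact one_smul K v ▸ hv.resolve_left fun e => hx1 (by rw [hc, e, one_smul])
    rw [this, finrank_bot]; omega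
  by_contra hlt
  haveI : Nontrivial (G ⧸ H1.scalarSub ρ) := QuotientGroup.nontrivial_iff.2 hZ
  obtain ⟨W, r, hW, hr, hE⟩ := L.exists_isMinNormal_isElementaryAbelian (G := G ⧸ H1.scalarSub ρ)
  haveI := hW.1
  have hZN : 𝐙(W.comap (QuotientGroup.mk' _)) ≤ H1.scalarSub ρ := by
    by_contra hne
    haveI : (W.comap (QuotientGroup.mk' (H1.scalarSub ρ))).Normal := Normal.comap hW.1 _
    exact hlt (abelian_case hirr hp h3 hx hgen (isMulComm_center _) hne)
  have hxp : x ^ p = 1 := hx ▸ pow_orderOf_eq_one x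
  obtain ⟨h1, h2⟩ := index_not_prime (scalar_le_cent hf ⊤) hW hZN hp h3 hxp hgen
  obtain ⟨⟨j, hj1, hj⟩, h4⟩ := index_facts hr (L.IsElementaryAbelian.isPGroup hE) hp
    (by rw [← map_pow, hxp, map_one]) h1
  have h6 := end_bound hℓ hf hp hx hE.1 hZN
  have h7 := sq_lt_finrank ρ hx1
  rw [← H1.card_inf_mul_relIndex 𝐂[QuotientGroup.mk' (H1.scalarSub ρ) x] W, inf_comm W] at h6
  have h8 : 0 < 𝐨((𝐂[QuotientGroup.mk' (H1.scalarSub ρ) x] ⊓ W : Subgroup _)) := Nat.card_pos
  generalize 𝐨((𝐂[QuotientGroup.mk' (H1.scalarSub ρ) x] ⊓ W : Subgroup _)) = f at *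
  generalize 𝐂[QuotientGroup.mk' (H1.scalarSub ρ) x].relIndex W = t at *
  generalize finrank K (LinearMap.ker (adRep ρ x - 1)) = d at *
  generalize finrank K V = n at *
  generalize finrank K (LinearMap.ker (ρ x - 1)) = c at *
  have hj2 : 2 ≤ j := by
    by_contra hc
    obtain rfl : j = 1 := by omega
    exact h2 (by rwa [hj, pow_one])
  have hr2 : r * r ≤ t := hj ▸ pow_two r ▸ Nat.pow_le_pow_right hr.pos hj2
  obtain ⟨q, rfl⟩ : ∃ q, p = q + 4 := ⟨p - 4, by omega⟩
  have ht0 : 0 < t := lt_of_lt_of_le (Nat.mul_pos hr.pos hr.pos) hr2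
  have h9 : (q + 4) * t < 4 * (t + (q + 3)) := by
    have k1 : (q + 4) * d * t ≤ n ^ 2 * (t + (q + 3)) := by
      refine Nat.le_of_mul_le_mul_right ?_ h8
      calc _ = (q + 4) * d * (f * t) := by ring
        _ ≤ _ := h6
        _ = _ := by rw [show q + 4 - 1 = q + 3 by omega]; ring
    have k2 : n ^ 2 ≤ (2 * c) ^ 2 := Nat.pow_le_pow_left (by omega) 2
    refine Nat.lt_of_mul_lt_mul_left (a := n ^ 2) ?_
    calc _ ≤ (2 * c) ^ 2 * ((q + 4) * t) := by gcongr
      _ = 4 * c ^ 2 * ((q + 4) * t) := by ring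
      _ < 4 * d * ((q + 4) * t) := by gcongr
      _ = 4 * ((q + 4) * d * t) := by ring
      _ ≤ 4 * (n ^ 2 * (t + (q + 3))) := by gcongr
      _ = _ := by ring
  have hq0 : q ≠ 0 := by rintro rfl; exact absurd hp (by decide)
  have hq2 : q ≠ 2 := by rintro rfl; exact absurd hp (by decide)
  by_cases hrp : r = q + 4
  · subst hrp
    have : 1 ≤ q := by omega
    nlinarith
  have k3 := (Nat.modEq_iff_dvd' ht0).1 (h4 hrp).symm
  have k4 : 4 ≤ t := by have := hr.two_le; nlinarith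
  by_cases hq1 : q = 1
  · subst hq1
    have k5 : t = 6 ∨ t = 11 := by omega
    have k6 : r * r ∣ t := hj ▸ pow_two r ▸ pow_dvd_pow r hj2
    have k7 : r ≤ 3 := by rcases k5 with e | e <;> nlinarith
    have := hr.two_le
    rcases k5 with rfl | rfl <;> interval_cases r <;> omega
  · have := Nat.le_of_dvd (by omega) k3
    have : 3 ≤ q := by omega
    have : q + 5 ≤ t := by omega
    nlinarith

theorem core_irr {V : Type*} [AddCommGroup V] [Module K V] [FiniteDimensional K V]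
    [Nontrivial V] {ℓ : ℕ} (hℓ : ℓ.Prime) [CharP K ℓ] {ρ : G →* End K V}
    (hirr : H1.IrrBy (Set.range ρ)) {p : ℕ} (hp : p.Prime) (h3 : 3 < p) {x : G} (hx : x ^ p = 1)
    (hgen : normalClosure {x} = ⊤) (hnt : ∃ g, ρ g ≠ 1) :
    2 * finrank K (LinearMap.ker (ρ x - 1)) < finrank K V := by
  haveI := Fact.mk hp
  refine core_faithful (ρ := H1.kerRep ρ) hℓ ((injective_iff_map_eq_one _).2 (H1.kerRep_eq_one ρ))
    (fun W hW => hirr W ?_) hp h3 (x := (x : G ⧸ ρ.ker)) (orderOf_eq_prime ?_ fun e => ?_) ?_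
  · rintro _ ⟨g, rfl⟩
    exact hW _ ⟨(g : G ⧸ ρ.ker), rfl⟩
  · rw [← QuotientGroup.mk_pow, hx, QuotientGroup.mk_one]
  · obtain ⟨g, hg⟩ := hnt
    exact hg (normalClosure_le_normal (N := ρ.ker) (Set.singleton_subset_iff.2
      ((QuotientGroup.eq_one_iff x).1 e)) (hgen ▸ mem_top g))
  · have := map_normalClosure ({x} : Set G) _ (QuotientGroup.mk'_surjective ρ.ker)
    rw [hgen, map_top_of_surjective _ (QuotientGroup.mk'_surjective _), Set.image_singleton] at this
    exact this.symm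

theorem core_all {ℓ : ℕ} (hℓ : ℓ.Prime) [CharP K ℓ] {p : ℕ} (hp : p.Prime) (h3 : 3 < p) {x : G}
    (hx : x ^ p = 1) (hgen : normalClosure {x} = ⊤) {N : Subgroup G} [Fintype N]
    (hN : (𝐨(N) : K) ≠ 0) (n : ℕ) : ∀ (V : Type v) [AddCommGroup V] [Module K V]
      [FiniteDimensional K V] [Nontrivial V] (ρ : G →* End K V), finrank K V = n →
      (∀ v, ∑ a : N, ρ a v = 0) → 2 * finrank K (LinearMap.ker (ρ x - 1)) < finrank K V := by
  induction n using Nat.strong_induction_on with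
  | _ n ih =>
  intro V _ _ _ _ ρ hn h0
  by_cases hirr : H1.IrrBy (Set.range ρ)
  · refine core_irr hℓ hirr hp h3 hx hgen ?_
    by_contra hc
    push Not at hc
    obtain ⟨v, hv⟩ := exists_ne (0 : V)
    have := h0 v
    simp only [hc, End.one_apply, Finset.sum_const, Finset.card_univ,
      ← Nat.card_eq_fintype_card] at this
    rw [← Nat.cast_smul_eq_nsmul K, smul_eq_zero] at this
    exact hv (this.resolve_left hN)
  obtain ⟨W, hW, h1, h2⟩ : ∃ W : Submodule K V, H1.InvBy (Set.range ρ) W ∧ W ≠ ⊥ ∧ W ≠ ⊤ := by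
    by_contra hc
    push Not at hc
    exact hirr fun W hW => or_iff_not_imp_left.2 (hc W hW)
  have hW' : ∀ g, W ≤ W.comap (ρ g) := fun g v hv => hW _ ⟨g, rfl⟩ v hv
  haveI := Submodule.nontrivial_iff_ne_bot.2 h1
  haveI := Submodule.Quotient.nontrivial_iff.2 h2
  have e := Submodule.finrank_quotient_add_finrank W
  have p1 : 0 < finrank K W := finrank_pos
  have p2 : 0 < finrank K (V ⧸ W) := finrank_pos
  have k1 := ih _ (by omega) W (Representation.subrepresentation ρ W hW') rfl fun v =>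
    Subtype.ext (by rw [Submodule.coe_sum]; exact h0 v)
  have k2 := ih _ (by omega) (V ⧸ W) (Representation.quotient ρ W hW') rfl fun v => by
    obtain ⟨v, rfl⟩ := W.mkQ_surjective v
    have := congrArg W.mkQ (h0 v)
    rw [map_sum, map_zero] at this
    exact this
  have k3 := finrank_ker_le_add (ρ x) W (hW' x)
  exact lt_of_le_of_lt (Nat.mul_le_mul_left 2 k3) (by
    rw [Nat.mul_add, ← e, Nat.add_comm (finrank K (V ⧸ W))]
    exact Nat.add_lt_add k1 k2)

theorem main {k : Type*} [Field k] {V : Type*} [AddCommGroup V] [Module k V]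
    [FiniteDimensional k V] [Nontrivial V] {ℓ : ℕ} (hℓ : ℓ.Prime) [CharP k ℓ] {ρ : G →* End k V}
    (hf : Function.Injective ρ) (hirr : H1.IrrBy (Set.range ρ)) {p : ℕ} (hp : p.Prime)
    (h3 : 3 < p) {x : G} (hx : orderOf x = p) (hgen : normalClosure {x} = ⊤) :
    2 * finrank k (LinearMap.ker (ρ x - 1)) < finrank k V := by
  haveI : Nontrivial G := nontrivial_of_ne x 1 fun e => by rw [e, orderOf_one] at hx; omega
  obtain ⟨N, r, hN, hr, hE⟩ := L.exists_isMinNormal_isElementaryAbelian (G := G)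
  haveI := hN.1
  haveI := Fintype.ofFinite N
  have hfix : ∀ v, (∀ a ∈ N, ρ a v = v) → v = 0 := by
    let U : Submodule k V := H1.wtSp ρ N fun _ => 1
    rcases hirr U (by rintro _ ⟨g, rfl⟩ v hv; exact H1.apply_mem_wtSp hv g) with e | e
    · intro v hv
      rw [← Submodule.mem_bot k, ← e]
      exact H1.mem_wtSp.2 fun a => by rw [one_smul]; exact hv a a.2
    · refine (hN.2.1 (eq_bot_iff.2 fun a ha => mem_bot.2 (hf (LinearMap.ext fun v => ?_)))).elim
      have := H1.mem_wtSp.1 (e ▸ Submodule.mem_top : v ∈ U) ⟨a, ha⟩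
      rw [one_smul] at this
      rw [map_one]; exact this
  have hrl : r ≠ ℓ := by
    rintro rfl
    obtain ⟨U, -, h1, h2, h4⟩ := H1.exists_minimal_invBy (S := ρ '' N) (W := (⊤ : Submodule k V))
      (fun _ _ _ _ => Submodule.mem_top) top_ne_bot
    obtain ⟨v, hv, hv0⟩ := (Submodule.ne_bot_iff _).1 h1
    refine hv0 (hfix v fun a ha => ?_)
    have k1 : (ρ a - 1) ^ r = 0 := by
      have := H1.sub_one_pow_pow hr (H1.cast_end_eq_zero (k := k) (V := V) r) 1 (ρ a)
      rw [pow_one] at this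
      rw [this, ← map_pow, show a ^ r = 1 from
        congrArg Subtype.val (H1.pow_eq_one_of_isElementaryAbelian hE ⟨a, ha⟩), map_one, sub_self]
    have k2 : U ⊓ LinearMap.ker (ρ a - 1) = U := by
      refine (h4 _ inf_le_left ?_).resolve_left fun e => ?_
      · rintro _ ⟨b, hb, rfl⟩ w hw
        refine ⟨h2 _ ⟨b, hb, rfl⟩ w hw.1, ?_⟩
        have k3 := hw.2
        rw [SetLike.mem_coe, LinearMap.mem_ker, LinearMap.sub_apply, End.one_apply,
          sub_eq_zero] at k3 ⊢
        rw [← End.mul_apply, ← map_mul, mem_cent.1 (isMulComm_iff_le_cent.1 hE.1 hb) a ha, map_mul,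
          End.mul_apply, k3]
      · have k3 : ∀ i : ℕ, ((ρ a - 1) ^ i) v ∈ U ∧ ((ρ a - 1) ^ i) v ≠ 0 := fun i => by
          induction i with
          | zero => exact ⟨hv, hv0⟩
          | succ i ih =>
            rw [pow_succ', End.mul_apply]
            refine ⟨sub_mem (h2 _ ⟨a, ha, rfl⟩ _ ih.1) ih.1, fun e2 => ih.2 ?_⟩
            rw [← Submodule.mem_bot k, ← e]
            exact ⟨ih.1, e2⟩
        exact (k3 r).2 (by rw [k1]; rfl)
    have k3 := (k2.ge hv).2
    rwa [SetLike.mem_coe, LinearMap.mem_ker, LinearMap.sub_apply, End.one_apply,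
      sub_eq_zero] at k3
  have h0 : H9.sumRep ρ N = 0 :=
    LinearMap.ext fun v => hfix _ fun a ha => H9.rep_sumRep_apply ρ N ha v
  have h1 := H9.baseChange_sumRep (AlgebraicClosure k) ρ N
  rw [h0, map_zero, H9.sumRep_eq] at h1
  have e : finrank (AlgebraicClosure k) (TensorProduct k (AlgebraicClosure k) V) = finrank k V :=
    finrank_baseChange
  haveI : Nontrivial (TensorProduct k (AlgebraicClosure k) V) :=
    finrank_pos_iff.1 (e ▸ (finrank_pos : 0 < finrank k V))
  have h2 := core_all (K := AlgebraicClosure k) hℓ hp h3 (hx ▸ pow_orderOf_eq_one x) hgen (N := N)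
    (H1.cast_card_ne_zero_of_isPGroup hr (L.IsElementaryAbelian.isPGroup hE)
      (H1.cast_ne_zero_of_prime_ne hℓ hr hrl)) _ _ (H1.baseChangeRep (AlgebraicClosure k) ρ) rfl
    fun v => by rw [← LinearMap.sum_apply, h1]; rfl
  have h4 := H9.finrank_ker_le_baseChange (AlgebraicClosure k) (ρ x - 1)
  rw [map_sub, map_one, ← H1.baseChangeRep_apply] at h4
  omega

end Cfsg.Agent.H7.RH
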