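import Cfsg.Agent.H7.RH4
import Cfsg.Agent.FT.B.helper1_Sec

/-! Maximal solvable subgroups generated by two conjugate subgroups of prime order `p > 3`. -/

set_option autoImplicit false
set_option linter.unusedSectionVars false

namespace Cfsg.Agent.H7.RH

open Subgroup Cfsg Cfsg.Agent Cfsg.Agent.FT MulAction Module
open scoped commutatorElement Pointwise IsMulCommutative

universe u

theorem main' {G : Type u} [Group G] [Finite G] [Group.IsSolvable G] {k : Type*} [Field k]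
    {V : Type*} [AddCommGroup V] [Module k V] [FiniteDimensional k V] [Nontrivial V] {ℓ : ℕ}
    (hℓ : ℓ.Prime) [CharP k ℓ] {ρ : G →* End k V} (hirr : H1.IrrBy (Set.range ρ)) {p : ℕ}
    (hp : p.Prime) (h3 : 3 < p) {x : G} (hx : x ^ p = 1) (hgen : normalClosure {x} = ⊤)
    (hnt : ∃ g, ρ g ≠ 1) : 2 * finrank k (LinearMap.ker (ρ x - 1)) < finrank k V := by
  haveI := Fact.mk hp
  refine main (ρ := H1.kerRep ρ) hℓ ((injective_iff_map_eq_one _).2 (H1.kerRep_eq_one ρ))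
    (fun W hW => hirr W ?_) hp h3 (x := (x : G ⧸ ρ.ker)) (orderOf_eq_prime ?_ fun e => ?_) ?_
  · rintro _ ⟨g, rfl⟩
    exact hW _ ⟨(g : G ⧸ ρ.ker), rfl⟩
  · rw [← QuotientGroup.mk_pow, hx, QuotientGroup.mk_one]
  · obtain ⟨g, hg⟩ := hnt
    exact hg (normalClosure_le_normal (N := ρ.ker) (Set.singleton_subset_iff.2
      ((QuotientGroup.eq_one_iff x).1 e)) (hgen ▸ mem_top g))
  · have := map_normalClosure ({x} : Set G) _ (QuotientGroup.mk'_surjective ρ.ker)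
    rw [hgen, map_top_of_surjective _ (QuotientGroup.mk'_surjective _), Set.image_singleton] at this
    exact this.symm

variable {G : Type u} [Group G] [Finite G]

/-- Group-theoretic form: `|C_W(x)|² < |W|`. -/
theorem card_sq_lt {A W : Subgroup G} (hA : Group.IsSolvable A) {r : ℕ} (hr : r.Prime)
    (hW : IsElementaryAbelian r W) (hAW : A ≤ 𝐍(W))
    (hirr : ∀ U : Subgroup G, U ≤ W → A ≤ 𝐍(U) → U = ⊥ ∨ U = W) (hnt : ¬ A ≤ 𝐂(W)) {p : ℕ}
    (hp : p.Prime) (h3 : 3 < p) {x : A} (hx : x ^ p = 1) (hgen : normalClosure {x} = ⊤) :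
    𝐨((W ⊓ 𝐂[(x : G)] : Subgroup G)) ^ 2 < 𝐨(W) := by
  haveI := Fact.mk hr
  haveI := hW.1
  have hE := H1.pow_eq_one_of_isElementaryAbelian hW
  haveI : Nontrivial W := (nontrivial_iff_ne_bot W).2 fun e => hnt (by rw [e, cent_bot]; exact le_top)
  haveI : Nontrivial (H1.EA W hE) := (H1.eaOf hE).symm.nontrivial
  have key := main' (ρ := H1.autRep hE (H1.conjAut hAW)) hr (fun U hU => by
    rcases hirr ((H1.eaSubgroup hE U).map W.subtype) (map_subtype_le _) (fun a ha =>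
      mem_norm_of_conj_le fun z hz => by
        obtain ⟨_, ⟨w, hw, rfl⟩, rfl⟩ := mem_conj'.1 hz
        exact ⟨H1.conjAut hAW ⟨a, ha⟩ w, hU _ ⟨⟨a, ha⟩, rfl⟩ _ hw, rfl⟩) with e | e
    · refine Or.inl ((Submodule.eq_bot_iff _).2 fun v hv => ?_)
      obtain ⟨v, rfl⟩ := (H1.eaOf hE).surjective v
      exact (H1.eaOf_eq_zero hE).2 (Subtype.ext (mem_bot.1 (e ▸ mem_map_of_mem W.subtype hv)))
    · refine Or.inr (eq_top_iff.2 fun v _ => ?_)
      obtain ⟨v, rfl⟩ := (H1.eaOf hE).surjective v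
      obtain ⟨w, hw, e2⟩ := e.ge v.2
      rwa [← Subtype.ext (a1 := w) (a2 := v) e2]) hp h3 hx hgen (by
    by_contra hc
    push Not at hc
    exact hnt fun a ha => (H1.mem_ker_conjAut hAW (a := ⟨a, ha⟩)).1
      ((H1.autRep_eq_one_iff hE _ _).1 (hc _)))
  have e1 : LinearMap.ker (H1.autRep hE (H1.conjAut hAW) x - 1) =
      H1.eaSubmodule hE (𝐂[(x : G)].subgroupOf W) := by
    ext v
    obtain ⟨v, rfl⟩ := (H1.eaOf hE).surjective v
    rw [LinearMap.mem_ker, LinearMap.sub_apply, End.one_apply, sub_eq_zero, H1.autRep_apply,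
      (H1.eaOf hE).injective.eq_iff, H1.eaOf_mem_eaSubmodule, mem_subgroupOf, mem_cent1_comm,
      mem_cent1_iff_conj, Subtype.ext_iff, H1.coe_conjAut]
  have e2 := Module.natCard_eq_pow_finrank (K := ZMod r)
    (V := H1.eaSubmodule hE (𝐂[(x : G)].subgroupOf W))
  have e3 := Module.natCard_eq_pow_finrank (K := ZMod r) (V := H1.EA W hE)
  have e4 : Nat.card (𝐂[(x : G)].subgroupOf W) = 𝐨((W ⊓ 𝐂[(x : G)] : Subgroup G)) := by
    rw [← inf_subgroupOf_left]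
    exact Nat.card_congr (subgroupOfEquivOfLe inf_le_left).toEquiv
  rw [H1.card_eaSubmodule, e4, Nat.card_zmod] at e2
  rw [H1.card_EA, Nat.card_zmod] at e3
  rw [e2, e3, ← pow_mul, ← e1, mul_comm]
  exact Nat.pow_lt_pow_right hr.one_lt key

theorem exists_le_sup {A P W Q : Subgroup G} (hA : Group.IsSolvable A) {r : ℕ} (hr : r.Prime)
    (hW : IsElementaryAbelian r W) (hAW : A ≤ 𝐍(W))
    (hirr : ∀ U : Subgroup G, U ≤ W → A ≤ 𝐍(U) → U = ⊥ ∨ U = W) (hQ : Q ⊲ A)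
    (hc : 𝐨(Q).Coprime 𝐨(W)) (hnt : ¬ Q ≤ 𝐂(W)) {p : ℕ} (hp : p.Prime) (h3 : 3 < p)
    (hP : 𝐨(P) = p) {a : G} (ha : a ∈ A) (hAP : A = P ⊔ P ^ᵍ a) (hd : W ⊓ A = ⊥) :
    ∃ v ∈ W, W ≤ P ⊔ P ^ᵍ (v * a) := by
  by_contra hne
  push Not at hne
  have hWW := isMulComm_iff_le_cent.1 hW.1
  have hPA : P ≤ A := hAP ▸ le_sup_left
  have hPa : P ^ᵍ a ≤ A := hAP ▸ le_sup_right
  have hQW := hQ.1.trans hAW
  have hCQ : W ⊓ 𝐂(Q) = ⊥ := (hirr _ inf_le_left (H1.le_normalizer_inf hAW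
    (H1.le_normalizer_centralizer hQ.2))).resolve_right fun e =>
      hnt (cent_comm.1 (e.ge.trans inf_le_right))
  have key : W ≤ (W ⊓ 𝐂(P)) ⊔ (W ⊓ 𝐂(P ^ᵍ a)) := by
    intro v hv
    set B := P ⊔ P ^ᵍ (v * a) with hB
    have b1 : B ≤ W ⊔ A := sup_le (hPA.trans le_sup_right)
      (conj_le_of_mem (hPA.trans le_sup_right) (mul_mem_sup hv ha))
    have b2 : B ≤ 𝐍(W) := b1.trans (sup_le (le_norm_self W) hAW)
    have b3 : A ≤ W ⊔ B := by
      rw [hAP]
      refine sup_le (le_sup_left.trans le_sup_right) ?_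
      rw [show a = v⁻¹ * (v * a) by group, ← conj_conj]
      exact conj_le_of_mem (le_sup_right.trans le_sup_right) (mem_sup_left (inv_mem hv))
    have b4 : W ⊓ B = ⊥ := (hirr _ inf_le_left (b3.trans (sup_le
      ((hWW.trans (cent_anti inf_le_left)).trans (cent_le_norm _))
      (H1.le_normalizer_inf b2 (le_norm_self B))))).resolve_right fun e =>
        hne v hv (e.ge.trans inf_le_right)
    have b5 : W ⊔ (B ⊓ (W ⊔ Q)) = W ⊔ Q := by
      rw [← sup_inf_of_le_left b2 le_sup_left, inf_eq_right.2 (sup_le le_sup_left (hQ.1.trans b3))]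
    have b6 : 𝐨((B ⊓ (W ⊔ Q) : Subgroup G)) = 𝐨(Q) := by
      have e1 := card_sup_mul_card_inf (A := W) (B := B ⊓ (W ⊔ Q)) (inf_le_left.trans b2)
      rw [b5, ← inf_assoc, b4, bot_inf_eq, card_bot, mul_one,
        (sdProd_of_coprime hQW hc.symm).card] at e1
      exact (Nat.eq_of_mul_eq_mul_left Nat.card_pos e1).symm
    obtain ⟨w, hw, e⟩ := H1.exists_conj_eq_of_le_sup hQW hc
      (Or.inr (H1.isSolvable_of_isMulCommutative hW.1)) (B := B ⊓ (W ⊔ Q))
      (inf_le_right.trans (sup_comm W Q).le) b6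
    have b7 : B ^ᵍ w ≤ A := by
      have k1 : B ^ᵍ w ≤ 𝐍(Q) := by
        rw [← e, conj_le_norm_iff]
        exact H1.le_normalizer_inf (le_norm_self B) (b1.trans (sup_le
          (le_sup_left.trans (le_norm_self _)) (H1.le_normalizer_sup hAW hQ.2)))
      have k2 := le_inf (conj_le_of_mem b1 (mem_sup_left hw)) k1
      rwa [sup_inf_of_le_right hAW hQ.2, H1.inf_normalizer_eq_inf_centralizer hQW
        (H1.inf_eq_bot_of_coprime' hc), hCQ, bot_sup_eq] at k2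
    have fin : ∀ u ∈ W, ∀ S : Subgroup G, S ≤ A → S ^ᵍ u ≤ A → u ∈ W ⊓ 𝐂(S) := fun u hu S h1 h2 =>
      mem_inf.2 ⟨hu, mem_cent.2 fun y hy => by
        have z3 : ⁅u, y⁆ ∈ W ⊓ A := mem_inf.2 ⟨(comm_le_left_iff.2 hAW)
          (commutator_mem_commutator hu (h1 hy)), by
            rw [commutatorElement_def]
            exact mul_mem (h2 (conj_mem_conj hy u)) (inv_mem (h1 hy))⟩
        rw [hd, mem_bot, commutatorElement_eq_one_iff_mul_comm] at z3
        exact z3.symm⟩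
    rw [show v = w⁻¹ * (w * v) by group]
    refine mul_mem_sup (inv_mem (fin w hw P hPA ((conj_mono le_sup_left w).trans b7)))
      (fin _ (mul_mem hw hv) _ hPa ?_)
    rw [conj_conj, mul_assoc, ← conj_conj]
    exact (conj_mono le_sup_right w).trans b7
  have e1 := card_sup_mul_card_inf (A := W ⊓ 𝐂(P)) (B := W ⊓ 𝐂(P ^ᵍ a))
    ((inf_le_left.trans (hWW.trans (cent_anti inf_le_left))).trans (cent_le_norm _))
  have e3 : 𝐨((W ⊓ 𝐂(P ^ᵍ a) : Subgroup G)) = 𝐨((W ⊓ 𝐂(P) : Subgroup G)) := by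
    rw [← card_conj (W ⊓ 𝐂(P)) a, conj_inf, conj_eq_of_mem_norm (hAW ha), cent_conj]
  rw [le_antisymm (sup_le inf_le_left inf_le_left) key, e3] at e1
  have hPp : 𝐨(P).Prime := hP ▸ hp
  obtain ⟨x, hx, hx1⟩ : ∃ x ∈ P, x ≠ 1 := by
    obtain ⟨x, hx⟩ := ne_bot_iff_exists_ne_one.1 (ne_bot_of_card_prime hPp)
    exact ⟨x, x.2, fun e => hx (Subtype.ext e)⟩
  have hPx := zpowers_eq_of_card_prime hPp hx hx1
  have k := card_sq_lt hA hr hW hAW hirr (fun e => hnt (hQ.1.trans e)) hp h3 (x := ⟨x, hPA hx⟩)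
    (Subtype.ext (by
      change x ^ p = 1
      rw [← hP, ← hPx, Nat.card_zpowers, pow_orderOf_eq_one])) (by
    apply map_injective A.subtype_injective
    rw [← MonoidHom.range_eq_map, range_subtype]
    refine le_antisymm (map_subtype_le _) (hAP.le.trans ?_)
    have k1 : P ≤ (normalClosure {(⟨x, hPA hx⟩ : A)}).map A.subtype :=
      hPx ▸ zpowers_le.2 ⟨_, subset_normalClosure rfl, rfl⟩
    refine sup_le k1 (conj_le_of_mem_norm k1 ?_)
    exact le_normalizer_map _ ⟨⟨a, ha⟩, normal_iff_top_le.1 inferInstance (mem_top _), rfl⟩)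
  rw [cent1_eq_of_card_prime hPp hx hx1, pow_two, ← e1] at k
  exact absurd k (not_lt.2 (Nat.le_mul_of_pos_right _ Nat.card_pos))

theorem core_cent {A P : Subgroup G} (hA : Group.IsSolvable A) {p : ℕ} (hp : p.Prime) (h3 : 3 < p)
    (hP : 𝐨(P) = p) {a : G} (ha : a ∈ A) (hAP : A = P ⊔ P ^ᵍ a)
    (hmax : ∀ B : Subgroup G, A ≤ B → Group.IsSolvable B → (∃ b ∈ B, B = P ⊔ P ^ᵍ b) → B = A)
    {q r : ℕ} (hq : q.Prime) (hr : r.Prime) (hqr : q ≠ r) {V : Subgroup G} (hV : IsPGroup r V)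
    (hAV : A ≤ 𝐍(V)) : pCoreOf q A ≤ 𝐂(V) := by
  haveI := Fact.mk hr
  by_contra hne
  set Q := pCoreOf q A with hQd
  have hQ : Q ⊲ A := pCoreOf_normal q A
  have hQp : IsPGroup q Q := H2.isPGroup_pCoreOf q A
  obtain ⟨R, h1, h2, h4, h5⟩ := H1.exists_minimal_nontrivial (A := Q) hAV
    fun e => hne (cent_comm.1 (comm_eq_bot_iff.1 e))
  have hR := hV.to_le h1
  have cQ : 𝐨(Q).Coprime r :=
    (coprime_card_of_isPGroup hq hr hqr hQp hR).coprime_dvd_right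
      (prime_dvd_card_of_isPGroup hr hR fun e => h4 (by simp [e]))
  have cQR := coprime_card_of_isPGroup hq hr hqr hQp hR
  have cen : ∀ U : Subgroup G, U ≤ R → U ⊲ A → U ≤ 𝐂(Q) := fun U k1 k2 =>
    le_cent_of_coprime_of_isNilpotent (H2.isNilpotent_fittingOf A)
      (le_fittingOf k2 (isNilpotent_of_isPGroup hr (hR.to_le k1))) (H2.pCoreOf_le_fittingOf hq A)
      (H1.coprime_of_le cQR.symm k1 le_rfl)
  have hY : R ⊔ A ≤ 𝐍(𝚽(R)) := (sup_le (le_norm_self R) h2).trans (norm_le_norm_frattini R)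
  haveI := H1.normal_subgroupOf_of_le hY
  have RY : R ≤ R ⊔ A := le_sup_left
  have AY : A ≤ R ⊔ A := le_sup_right
  have hPA : P ≤ A := hAP ▸ le_sup_left
  have FR := frattini_le R
  have hnt : ¬ ⁅R, Q⁆ ≤ 𝚽(R) := fun e => h4 (comm_eq_bot_iff.2 (cent_comm.1
    (H1.le_centralizer_of_commutator_le_frattini (hQ.1.trans h2) cQR e)))
  have hRA : R ⊓ A ≤ 𝚽(R) :=
    (cen _ inf_le_left ⟨inf_le_right, H1.le_normalizer_inf h2 (le_norm_self A)⟩ |> le_inf
      inf_le_left).trans ((H1.minimal_centralizer_le hR h2 hQ.1 hQ.2 cQ h4 h5).trans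
        (H1.commutator_le_frattiniOf (isNilpotent_of_isPGroup hr hR)))
  have conj_bar : ∀ g : (R ⊔ A : Subgroup G), H1.bar (R ⊔ A) 𝚽(R) (P ^ᵍ (g : G)) =
      H1.bar (R ⊔ A) 𝚽(R) P ^ᵍ H1.qmk _ _ g := fun g => by
    ext z
    rw [mem_conj', H1.mem_bar]
    constructor
    · rintro ⟨y, hy, rfl⟩
      refine ⟨_, H1.qmk_mem_bar (y := g⁻¹ * y * g) (mem_conj.1 hy), ?_⟩
      simp [mul_assoc]
    · rintro ⟨_, hy, rfl⟩
      obtain ⟨y, hy', rfl⟩ := H1.mem_bar.1 hy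
      exact ⟨g * y * g⁻¹, conj_mem_conj hy' _, by simp⟩
  have hPF : 𝚽(R) ⊓ P = ⊥ := by
    refine ((inf_eq_bot_or_le_of_card_prime (hP ▸ hp) 𝚽(R)).resolve_right fun e => h4 ?_) ▸
      inf_comm _ _
    have k1 : A ≤ R := hAP ▸ sup_le (e.trans FR) (conj_le_of_mem_norm (e.trans FR) (h2 ha))
    rw [H1.inf_eq_bot_of_coprime' cQR |>.symm.trans (inf_eq_left.2 (hQ.1.trans k1)) |>.symm]
    simp
  obtain ⟨vb, hvb, hv⟩ := exists_le_sup (W := H1.bar (R ⊔ A) 𝚽(R) R) (H1.isSolvable_bar hA) hr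
    ((elemAb_bar_iff RY).2 ⟨H1.commutator_le_frattiniOf (isNilpotent_of_isPGroup hr hR),
      fun x hx => H1.pow_mem_frattiniOf hR hx⟩) (H1.bar_le_normalizer h2) (fun U k1 k2 => by
      rcases H1.minimal_irreducible hR h2 hQ.1 hQ.2 cQ h4 h5 _ (H1.le_unbar (FR.trans RY) U)
        (unbar_le_of_le_bar FR RY k1) (H1.le_normalizer_unbar AY k2) with e | e
      · exact Or.inl (by rw [← H1.bar_unbar U, e, H1.bar_self])
      · exact Or.inr (by rw [← H1.bar_unbar U, e])) (bar_normal hQ) (H1.coprime_bar cQR)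
    (fun e => hnt (by
      rw [commutator_comm]; exact (H1.bar_le_centralizer_iff (hQ.1.trans AY) RY).1 e)) hp h3
    ((card_bar_of_disj (hPA.trans AY) hPF).trans hP) (H1.qmk_mem_bar (y := ⟨a, AY ha⟩) ha)
    (by
      rw [← conj_bar, ← H1.bar_sup (hPA.trans AY) ((hAP ▸ le_sup_right : P ^ᵍ a ≤ A).trans AY),
        ← hAP]) (by
      apply H1.unbar_injective
      rw [H1.unbar_inf, H1.unbar_bar_of_le FR RY, H1.unbar_bar (FR.trans RY) AY,
        H1.unbar_bot (FR.trans RY), H1.dedekind_right (AY.trans hY) FR, sup_eq_right.2 hRA])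
  obtain ⟨v, hvR, rfl⟩ := H1.mem_bar.1 hvb
  have b1 : P ⊔ P ^ᵍ ((v : G) * a) ≤ R ⊔ A := sup_le (hPA.trans AY)
    (conj_le_of_mem (hPA.trans AY) (mul_mem_sup hvR ha))
  rw [← map_mul, ← conj_bar, coe_mul, ← H1.bar_sup (hPA.trans AY) (le_sup_right.trans b1),
    H1.bar_le_bar_iff (FR.trans RY) RY b1] at hv
  have b2 : R ≤ P ⊔ P ^ᵍ ((v : G) * a) := by
    have k1 := H1.dedekind_right (S := R) (b1.trans hY) FR
    rw [inf_eq_left.2 hv] at k1
    exact (H1.eq_of_sup_frattini inf_le_left k1.le).ge.trans inf_le_right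
  have b3 : A ≤ P ⊔ P ^ᵍ ((v : G) * a) := by
    refine hAP.le.trans (sup_le le_sup_left ?_)
    rw [show a = (v : G)⁻¹ * (v * a) by group, ← conj_conj, inv_mul_cancel_left]
    exact conj_le_of_mem le_sup_right (inv_mem (b2 hvR))
  have b4 := hmax _ b3 (H1.isSolvable_of_le (b1.trans (sup_comm R A).le)
    (H2.isSolvable_sup_of_le_normalizer h2 hA (H1.isSolvable_of_isPGroup hR)))
    ⟨_, mul_mem (b2 hvR) (b3 ha), rfl⟩
  exact hnt ((comm_le_left_iff.2 (hQ.1.trans h2)).trans ((le_inf le_rfl (b4 ▸ b2)).trans hRA))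

theorem nilpotent_sup {A V : Subgroup G} (hV : Group.IsNilpotent V) (hAV : A ≤ 𝐍(V))
    (h : ∀ q r : ℕ, q.Prime → r.Prime → q ≠ r → pCoreOf q A ≤ 𝐂(pCoreOf r V)) :
    Group.IsNilpotent ↥(fittingOf A ⊔ V) := by
  have hVF : V = ⨆ s : Nat.Primes, pCoreOf s V := by
    rw [← H2.fittingOf_eq_iSup_pCoreOf]
    exact le_antisymm (le_fittingOf ⟨le_rfl, le_norm_self V⟩ hV) (H2.fittingOf_le V)
  have key : ∀ r : Nat.Primes, pCoreOf r A ⊔ pCoreOf r V ≤ fittingOf (fittingOf A ⊔ V) := by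
    intro r
    have n1 : A ≤ 𝐍(pCoreOf r V) := hAV.trans (H2.normalizer_le_normalizer_pCoreOf r V)
    refine le_fittingOf ⟨sup_le_sup (H2.pCoreOf_le_fittingOf r.2 A) (H2.pCoreOf_le r V), sup_le
      ((H2.fittingOf_le A).trans (H1.le_normalizer_sup (pCoreOf_normal r A).2 n1)) ?_⟩
      (isNilpotent_of_isPGroup r.2 (isPGroup_sup (H2.isPGroup_pCoreOf r A)
        (H2.isPGroup_pCoreOf r V) ((H2.pCoreOf_le r A).trans n1)))
    refine hVF.le.trans (iSup_le fun s => ?_)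
    by_cases e : s = r
    · exact e ▸ le_sup_right.trans (le_norm_self _)
    · have e' : (r : ℕ) ≠ s := fun e' => e (Subtype.ext e'.symm)
      exact H1.le_normalizer_sup ((cent_comm.1 (h r s r.2 s.2 e')).trans (cent_le_norm _))
        ((H2.pCoreOf_le s V).trans (pCoreOf_normal r V).2)
  refine isNilpotent_of_le (B := fittingOf (fittingOf A ⊔ V)) (sup_le ?_ ?_) inferInstance
  · exact (H2.fittingOf_eq_iSup_pCoreOf A).le.trans (iSup_le fun r => le_sup_left.trans (key r))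
  · exact hVF.le.trans (iSup_le fun r => le_sup_right.trans (key r))

end Cfsg.Agent.H7.RH
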