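import Cfsg.Agent.H7.RealE

/-! Groups whose prime graph on real class sizes is disconnected: the main theorems. -/

set_option autoImplicit false

namespace Cfsg.Agent.H7.RD

open Subgroup Cfsg
open scoped Pointwise

universe u

section

variable {G : Type*} [Group G] [Finite G]

theorem exists_normal_classStab' (w : G) : ∃ M : Subgroup G, M.Normal ∧
    (∀ m ∈ M, IsConj w (m * w)) ∧
    ∀ x : G, (cs x).Coprime (cs w) → (cs x).Coprime (cs (x * w)) →
      ∀ g : G, x⁻¹ * (g * x * g⁻¹) ∈ M := by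
  let M : Subgroup G :=
    { carrier := {m | ∀ z, IsConj w z ↔ IsConj w (m * z)}
      one_mem' := fun z => by rw [one_mul]
      mul_mem' := fun {a b} ha hb z => by rw [mul_assoc, ← ha, ← hb]
      inv_mem' := fun {a} ha z => by rw [ha (a⁻¹ * z), mul_inv_cancel_left] }
  have hconj : ∀ g z : G, IsConj w (g * z * g⁻¹) ↔ IsConj w z := fun g z =>
    ⟨fun h => h.trans (isConj_iff.2 ⟨g, rfl⟩).symm, fun h => h.trans (isConj_iff.2 ⟨g, rfl⟩)⟩
  refine ⟨M, ⟨fun m hm g z => ?_⟩, fun m hm => (hm w).1 (IsConj.refl w), fun x h1 h2 g => ?_⟩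
  · rw [← hconj g⁻¹ z, hm, ← hconj g]
    congr! 1
    group
  · have hle : {z | IsConj (x * w) z}.ncard ≤ {z | IsConj w z}.ncard := by
      rw [← H6.index_centralizer_eq_ncard, ← H6.index_centralizer_eq_ncard]
      exact Nat.le_of_dvd (Nat.pos_of_ne_zero index_ne_zero_of_finite)
        (h2.symm.dvd_of_dvd_mul_left (cs_mul_dvd_of_coprime h1))
    have key : ∀ g z : G, IsConj w z ↔ IsConj (x * w) (g * x * g⁻¹ * z) := by
      intro g
      have hsub : (fun z => g * x * g⁻¹ * z) '' {z | IsConj w z} ⊆ {z | IsConj (x * w) z} := by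
        rintro _ ⟨z, hz, rfl⟩
        obtain ⟨h, rfl⟩ := isConj_iff.1 hz
        obtain ⟨k, e1, e2⟩ := exists_conj_pair h1 g h
        refine isConj_iff.2 ⟨k, ?_⟩
        show _ = g * x * g⁻¹ * (h * w * h⁻¹)
        rw [← e1, ← e2]; group
      have heq := Set.eq_of_subset_of_ncard_le hsub (by
        rwa [Set.ncard_image_of_injective _ (mul_right_injective _)]) (Set.toFinite _)
      intro z
      refine ⟨fun hz => hsub ⟨z, hz, rfl⟩, fun hz => ?_⟩
      have : g * x * g⁻¹ * z ∈ (fun z => g * x * g⁻¹ * z) '' {z | IsConj w z} := by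
        rw [heq]; exact hz
      obtain ⟨z', hz', e⟩ := this
      rwa [← mul_left_cancel e]
    intro z
    rw [key g z, key 1 (x⁻¹ * (g * x * g⁻¹) * z)]
    congr! 1
    group

omit [Finite G] in
theorem eq_of_mem_zpowers_inv {t a : G} (ht : t * t = 1) (ha : a ∈ zpowers t) : a = 1 ∨ a = t := by
  obtain ⟨n, rfl⟩ := ha
  have h2 : ∀ m : ℤ, t ^ (2 * m) = 1 := fun m => by rw [zpow_mul, zpow_two, ht, one_zpow]
  rcases Int.even_or_odd' n with ⟨m, rfl | rfl⟩
  · exact Or.inl (h2 m)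
  · right
    simp only
    rw [zpow_add, h2, zpow_one, one_mul]

omit [Finite G] in
theorem eq_one_of_mem_odd {M : Subgroup G} (hM : Odd (Nat.card M)) {a : G} (ha : a ∈ M)
    (haa : a * a = 1) : a = 1 :=
  H5.eq_one_of_odd_of_eq_inv (hM.of_dvd_nat (orderOf_dvd_natCard M ha))
    (eq_inv_iff_mul_eq_one.2 haa)

/-- In an elementary abelian normal `2`-subgroup generated by a class, all classes are
`ρ`-classes. -/
theorem RR_of_mem {ρ : Set ℕ} (h2 : 2 ∉ ρ) (hH : Hyp ρ G) {w : G} (hw : RR ρ w)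
    (hA : ∀ v ∈ normalClosure ({w} : Set G), v * v = 1) :
    ∀ v ∈ normalClosure ({w} : Set G), RR ρ v := by
  intro v hv
  have hwA : w ∈ normalClosure ({w} : Set G) := subset_normalClosure rfl
  have hreal : ∀ v ∈ normalClosure ({w} : Set G), 1 * v * 1⁻¹ = v⁻¹ := fun v hv => by
    rw [one_mul, inv_one, mul_one, eq_inv_iff_mul_eq_one, hA v hv]
  refine (hH v 1 (hreal v hv)).elim id fun hP => ?_
  rcases hH _ 1 (hreal _ (mul_mem hv hwA)) with h | h
  · obtain ⟨M, hMn, hMc, hM⟩ := exists_normal_classStab w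
    have hMo : Odd (Nat.card M) := by
      rw [← Nat.not_even_iff_odd, even_iff_two_dvd]
      exact fun h => h2 (hw 2 Nat.prime_two (h.trans hMc))
    refine RR_of_mem_center (mem_center_iff.2 fun g => ?_)
    have := eq_one_of_mem_odd hMo (hM v (coprime_PR hP hw) (coprime_PR hP h) g)
      (hA _ (mul_mem (inv_mem hv) (normalClosure_normal.conj_mem v hv g)))
    rw [inv_mul_eq_one, eq_mul_inv_iff_mul_eq] at this
    exact this.symm
  · obtain ⟨M, hMn, hMs, hM⟩ := exists_normal_classStab' v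
    have hvw : w * v = v * w := by
      have := hA _ (mul_mem hv hwA)
      rw [← inv_eq_of_mul_eq_one_right this, mul_inv_rev, inv_eq_of_mul_eq_one_right (hA v hv),
        inv_eq_of_mul_eq_one_right (hA w hwA)]
    have h1 := hM w (coprime_PR hP hw).symm (by rw [hvw]; exact (coprime_PR h hw).symm)
    have h3 : normalClosure ({w} : Set G) ≤
        (zpowers (QuotientGroup.mk' M w)).comap (QuotientGroup.mk' M) := by
      refine (closure_le _).2 fun a ha => ?_
      obtain ⟨b, rfl, hb⟩ := Group.mem_conjugatesOfSet_iff.1 ha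
      obtain ⟨g, rfl⟩ := isConj_iff.1 hb
      have : QuotientGroup.mk' M (g * b * g⁻¹) = QuotientGroup.mk' M b :=
        (QuotientGroup.eq.2 (h1 g)).symm
      rw [SetLike.mem_coe, mem_comap, this]
      exact mem_zpowers _
    rcases eq_of_mem_zpowers_inv (by rw [← map_mul, hA w hwA, map_one]) (h3 hv) with e | e
    · have := hMs _ (inv_mem ((QuotientGroup.eq_one_iff v).1 e))
      rw [inv_mul_cancel, isConj_one_left] at this
      rw [this]
      exact RR_of_mem_center (one_mem _)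
    · have h4 : v⁻¹ * w ∈ M := QuotientGroup.eq.1 e
      have := hMs _ h4
      rw [mul_assoc, hvw, inv_mul_cancel_left] at this
      exact hw.conj this.symm

end

theorem case2 (hFT : FTHyp.{u}) {G : Type u} [Group G] [Finite G] {ρ : Set ℕ} (h2 : 2 ∉ ρ)
    (hH : Hyp ρ G) {w : G} (hww : w * w = 1) (hw : RR ρ w) (hwZ : w ∉ center G)
    (hO : w ∈ pCore 2 G) : Group.IsSolvable G := by
  haveI : Fact (Nat.Prime 2) := ⟨Nat.prime_two⟩
  haveI := L.pCore_characteristic (G := G) Nat.prime_two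
  have hsyl : ∀ v : G, RR ρ v → ∃ S : Sylow 2 G, (S : Subgroup G) ≤ centralizer {v} :=
    fun v hv => H9.not_dvd_index_iff_exists_sylow_le.1 fun h => h2 (hv 2 Nat.prime_two h)
  obtain ⟨S₀, hS₀⟩ := hsyl w hw
  set A := normalClosure ({w} : Set G) with hAdef
  have hA1 : A ≤ pCore 2 G := normalClosure_le_normal (by simpa using hO)
  have hA2 : A ≤ centralizer (pCore 2 G : Set G) := normalClosure_le_normal (by
    rw [Set.singleton_subset_iff, SetLike.mem_coe, mem_centralizer_iff]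
    intro a ha
    exact mem_centralizer_singleton_iff.1 (hS₀ (L.pCore_le_sylow S₀ ha)))
  haveI : IsMulCommutative A := ⟨⟨fun a b =>
    Subtype.ext (mem_centralizer_iff.1 (hA2 b.2) a (hA1 a.2))⟩⟩
  have hA : ∀ v ∈ A, v * v = 1 := by
    haveI := L.powKerIn_normal A 2
    have : A ≤ L.powKerIn A 2 := normalClosure_le_normal (by
      rw [Set.singleton_subset_iff, SetLike.mem_coe, L.mem_powKerIn, pow_two]
      exact ⟨subset_normalClosure rfl, hww⟩)
    intro v hv
    rw [← pow_two]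
    exact (L.mem_powKerIn.1 (this hv)).2
  have hR := RR_of_mem h2 hH hw hA
  set f := QuotientGroup.mk' (center G)
  haveI : (A.map f).Normal := normalClosure_normal.map f (QuotientGroup.mk'_surjective _)
  let φ : G →* MulAut (A.map f) := MulAut.conjNormal.comp f
  have hφ : ∀ (g : G) (v : A.map f), (φ g v : G ⧸ center G) = f g * v * (f g)⁻¹ := fun g v => rfl
  haveI : Nontrivial (A.map f) := (nontrivial_iff_exists_ne_one _).2
    ⟨f w, mem_map_of_mem f (subset_normalClosure rfl),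
      fun e => hwZ ((QuotientGroup.eq_one_iff w).1 e)⟩
  refine MT hFT _ G (A.map f) φ rfl ⟨?_, ?_, ?_⟩ ?_
  · rintro ⟨_, v, hv, rfl⟩
    exact Subtype.ext (by
      change f v * f v = 1
      rw [← map_mul, hA v hv, map_one])
  · rintro ⟨_, v, hv, rfl⟩
    obtain ⟨S, hS⟩ := hsyl v (hR v hv)
    refine ⟨S, fun s hs => Subtype.ext ?_⟩
    rw [hφ]
    change f s * f v * (f s)⁻¹ = f v
    rw [← map_mul, mem_centralizer_singleton_iff.1 (hS hs), map_mul, mul_inv_cancel_right]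
  · rintro y g ⟨_, v, hv, rfl⟩ hy hg e
    by_cases hvZ : v ∈ center G
    · exact Or.inr (Subtype.ext ((QuotientGroup.eq_one_iff v).2 hvZ))
    left
    have e1 : f v = f (y * v * y⁻¹) := by
      have := congrArg Subtype.val e
      rw [hφ] at this
      rw [map_mul, map_mul, map_inv]
      exact this.symm
    have hz : v⁻¹ * (y * v * y⁻¹) ∈ center G := QuotientGroup.eq.1 e1
    have hzz := hA _ (mul_mem (inv_mem hv) (normalClosure_normal.conj_mem v hv y))
    set z := v⁻¹ * (y * v * y⁻¹) with hzdef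
    have e2 : y * v * y⁻¹ = v * z := by rw [hzdef]; group
    have e3 : y ^ 2 * v = v * y ^ 2 := by
      calc y ^ 2 * v = y * (y * v * y⁻¹) * y := by rw [pow_two]; group
        _ = y * (v * z) * y := by rw [e2]
        _ = (y * v * y⁻¹) * (y * z) * y := by group
        _ = v * (z * z) * y ^ 2 := by rw [e2, mem_center_iff.1 hz y, pow_two]; group
        _ = _ := by rw [hzz, mul_one]
    have := B1 h2 hH (hA v hv) (hR v hv) hvZ (odd_of_mem_zpowers hy (npow_mem_zpowers y 2))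
      (inverts_of_mem_zpowers hg (npow_mem_zpowers y 2)) e3
    exact H5.eq_one_of_odd_of_eq_inv hy (eq_inv_of_mul_eq_one_left (by rwa [← pow_two]))
  · have hn : ((S₀.subtype hS₀ : Sylow 2 (centralizer ({w} : Set G))) :
        Subgroup (centralizer ({w} : Set G))).Normal := by
      refine H5.sylow_two_normal_of_not_real (fun y g hy hg => Subtype.ext ?_) _
      exact B1 h2 hH hww hw hwZ (y := y) (g := g) (by rwa [orderOf_coe])
        (by exact_mod_cast congrArg Subtype.val hg) (mem_centralizer_singleton_iff.1 y.2)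
    have hfix : ∀ k ∈ centralizer ({w} : Set G), k • S₀ = S₀ := by
      intro k hk
      rw [Sylow.smul_eq_iff_mem_normalizer]
      rw [Sylow.coe_subtype, normal_subgroupOf_iff_le_normalizer hS₀] at hn
      exact hn hk
    intro y g hy hg
    have key : ∀ S : Sylow 2 G, ∃ c : G, c * y = y * c ∧ c • S₀ = S := by
      intro S
      obtain ⟨a, rfl⟩ := MulAction.exists_smul_eq G S₀ S
      by_cases hy1 : y = 1
      · exact ⟨a, by rw [hy1, mul_one, one_mul], rfl⟩
      obtain ⟨c, hc, k, hk, rfl⟩ := H9.exists_mul_eq_of_coprime_index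
        (coprime_PR (B0 h2 hH hy hy1 hg) hw) a
      exact ⟨c, mem_centralizer_singleton_iff.1 hc, by rw [mul_smul, hfix k hk]⟩
    intro S S'
    obtain ⟨c, hc, rfl⟩ := key S
    obtain ⟨c', hc', rfl⟩ := key S'
    exact ⟨c' * c⁻¹, ((show Commute c' y from hc').mul_left
      (show Commute c y from hc).inv_left).eq, by rw [mul_smul, inv_smul_smul]⟩

theorem solvable_main (hFT : FTHyp.{u}) {G : Type u} [Group G] [Finite G] {ρ : Set ℕ}
    (h2 : 2 ∉ ρ) (hH : Hyp ρ G) {w : G} (hww : w * w = 1) (hw : RR ρ w) (hwZ : w ∉ center G) :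
    Group.IsSolvable G := by
  by_cases hO : w ∈ pCore 2 G
  · exact case2 hFT h2 hH hww hw hwZ hO
  · haveI := L.pPrimeCore_characteristic (G := G) Nat.prime_two
    have ho := Nat.coprime_two_right.1 (L.coprime_card_pPrimeCore (G := G) 2)
    obtain ⟨S⟩ := (inferInstance : Nonempty (Sylow 2 (G ⧸ pPrimeCore 2 G)))
    exact L.isSolvable_of_normal_of_quotient (pPrimeCore 2 G) (hFT _ ho)
      (isSolvable_of_sylow_two_normal hFT S (sylow_normal_quotient _ ho
        (fun y g hy hg => case1 h2 hH hww hw hO hy hg) S))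

section

variable {G : Type*} [Group G] [Finite G]

/-- A real class of even size exists as soon as there are real classes of both kinds. -/
theorem exists_two_dvd {ρ : Set ℕ} (hH : Hyp ρ G) {x w a b : G} (ha : a * x * a⁻¹ = x⁻¹)
    (hb : b * w * b⁻¹ = w⁻¹) (hx : PP ρ x) (hw : RR ρ w) (hxZ : x ∉ center G)
    (hwZ : w ∉ center G) : ∃ y g : G, g * y * g⁻¹ = y⁻¹ ∧ 2 ∣ cs y := by
  haveI : Fact (Nat.Prime 2) := ⟨Nat.prime_two⟩
  by_contra hc
  push Not at hc
  obtain ⟨S⟩ := (inferInstance : Nonempty (Sylow 2 G))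
  have hinv : ∀ y g : G, g * y * g⁻¹ = y⁻¹ → y * y = 1 := fun y g h =>
    eq_inv_iff_mul_eq_one.1 (H5.eq_inv_of_odd_index h (hc y g h))
  haveI hS : (S : Subgroup G).Normal := H5.sylow_two_normal_of_not_real (fun y g hy h =>
    H5.eq_one_of_odd_of_eq_inv hy (eq_inv_iff_mul_eq_one.2 (hinv y g h))) S
  haveI := Sylow.unique_of_normal S hS
  have hcomm : ∀ y z : G, y * y = 1 → z * z = 1 → y * z = z * y := by
    intro y z hy hz
    obtain ⟨T, hT⟩ := H9.not_dvd_index_iff_exists_sylow_le.1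
      (hc z 1 (by rw [one_mul, inv_one, mul_one, eq_inv_iff_mul_eq_one, hz]))
    obtain ⟨T', hT'⟩ := (isPGroup_zpowers_of_mul_self hy).exists_le_sylow
    rw [Subsingleton.elim T' T] at hT'
    exact mem_centralizer_singleton_iff.1 (hT (hT' (mem_zpowers y)))
  have hsq : ∀ y z : G, y * y = 1 → z * z = 1 → (y * z) * (y * z) = 1 := by
    intro y z hy hz
    calc _ = y * (z * y) * z := by group
      _ = (y * y) * (z * z) := by rw [← hcomm y z hy hz]; group
      _ = 1 := by rw [hy, hz, one_mul]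
  have key : ∀ x w a b : G, a * x * a⁻¹ = x⁻¹ → b * w * b⁻¹ = w⁻¹ → (cs x).Coprime (cs w) →
      (cs x).Coprime (cs (x * w)) → x ∈ center G := by
    intro x w a b ha hb h1 h3
    obtain ⟨M, hMn, hMc, hM⟩ := exists_normal_classStab w
    have hMo : Odd (Nat.card M) := by
      rw [← Nat.not_even_iff_odd, even_iff_two_dvd]
      exact fun h => hc w b hb (h.trans hMc)
    refine mem_center_iff.2 fun g => ?_
    have hx := hinv x a ha
    have := eq_one_of_mem_odd hMo (hM x h1 h3 g) (hsq _ _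
      (by rw [← mul_inv_rev, hx, inv_one]) (by
        calc _ = g * (x * x) * g⁻¹ := by group
          _ = 1 := by rw [hx]; group))
    rw [inv_mul_eq_one, eq_mul_inv_iff_mul_eq] at this
    exact this.symm
  have hxw := hsq x w (hinv x a ha) (hinv w b hb)
  rcases hH (x * w) 1 (by rw [one_mul, inv_one, mul_one, eq_inv_iff_mul_eq_one, hxw]) with h | h
  · exact hxZ (key x w a b ha hb (coprime_PR hx hw) (coprime_PR hx h))
  · refine hwZ (key w x b a hb ha (coprime_PR hx hw).symm ?_)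
    rw [← hcomm x w (hinv x a ha) (hinv w b hb)]
    exact (coprime_PR h hw).symm

/-- From the data of the statements to `Hyp`. -/
theorem setup {π₁ π₂ : Set ℕ} (h₂ : π₂.Nonempty)
    (hcover : ∀ q : ℕ, q.Prime → (∃ n ∈ {n : ℕ | ∃ x : G, IsConj x x⁻¹ ∧
      (Subgroup.centralizer ({x} : Set G)).index = n}, q ∣ n) → q ∈ π₁ ∨ q ∈ π₂)
    (hsub : ∀ q ∈ π₂, q.Prime ∧ ∃ n ∈ {n : ℕ | ∃ x : G, IsConj x x⁻¹ ∧
      (Subgroup.centralizer ({x} : Set G)).index = n}, q ∣ n) (hdisj : Disjoint π₁ π₂)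
    (hnoedge : ∀ a ∈ π₁, ∀ b ∈ π₂, ∀ n ∈ {n : ℕ | ∃ x : G, IsConj x x⁻¹ ∧
      (Subgroup.centralizer ({x} : Set G)).index = n}, ¬ (a ∣ n ∧ b ∣ n)) :
    Hyp π₂ G ∧ ∃ w b : G, b * w * b⁻¹ = w⁻¹ ∧ RR π₂ w ∧ PP π₁ w ∧ w ∉ center G := by
  have hH : Hyp π₂ G := by
    intro x g hg
    by_contra hc
    rw [not_or, RR, PP] at hc
    push Not at hc
    obtain ⟨⟨p, hp, hd, hp2⟩, q, -, hd', hq2⟩ := hc
    have hx : cs x ∈ {n : ℕ | ∃ x : G, IsConj x x⁻¹ ∧
      (Subgroup.centralizer ({x} : Set G)).index = n} := ⟨x, isConj_iff.2 ⟨g, hg⟩, rfl⟩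
    exact hnoedge p ((hcover p hp ⟨_, hx, hd⟩).resolve_right hp2) q hq2 _ hx ⟨hd, hd'⟩
  obtain ⟨q, hq⟩ := h₂
  obtain ⟨hqp, _, ⟨w, hw, rfl⟩, hd⟩ := hsub q hq
  obtain ⟨b, hb⟩ := isConj_iff.1 hw
  have hR := (hH w b hb).resolve_right fun h => h q hqp hd hq
  refine ⟨hH, w, b, hb, hR, fun p hp hd h => Set.disjoint_left.1 hdisj h (hR p hp hd), fun h => ?_⟩
  rw [H9.index_centralizer_eq_one_iff.2 h] at hd
  exact hqp.ne_one (Nat.dvd_one.1 hd)

/-- The normalized form of the hypothesis. -/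
theorem setup' {π₁ π₂ : Set ℕ} (h₁ : π₁.Nonempty) (h₂ : π₂.Nonempty)
    (hcover : ∀ q : ℕ, q.Prime → (∃ n ∈ {n : ℕ | ∃ x : G, IsConj x x⁻¹ ∧
      (Subgroup.centralizer ({x} : Set G)).index = n}, q ∣ n) → q ∈ π₁ ∨ q ∈ π₂)
    (hsub : ∀ q ∈ π₁ ∪ π₂, q.Prime ∧ ∃ n ∈ {n : ℕ | ∃ x : G, IsConj x x⁻¹ ∧
      (Subgroup.centralizer ({x} : Set G)).index = n}, q ∣ n) (hdisj : Disjoint π₁ π₂)
    (hnoedge : ∀ a ∈ π₁, ∀ b ∈ π₂, ∀ n ∈ {n : ℕ | ∃ x : G, IsConj x x⁻¹ ∧
      (Subgroup.centralizer ({x} : Set G)).index = n}, ¬ (a ∣ n ∧ b ∣ n)) :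
    (∃ y g : G, g * y * g⁻¹ = y⁻¹ ∧ 2 ∣ cs y) ∧
      ∃ ρ : Set ℕ, 2 ∉ ρ ∧ Hyp ρ G ∧ ∃ w : G, w * w = 1 ∧ RR ρ w ∧ w ∉ center G := by
  obtain ⟨H2, w, b, hb, hR, hP, hZ⟩ := setup h₂ hcover (fun q hq => hsub q (Or.inr hq)) hdisj
    hnoedge
  obtain ⟨H1, x, a, ha, hR', hP', hZ'⟩ := setup h₁ (fun q hq h => (hcover q hq h).symm)
    (fun q hq => hsub q (Or.inl hq)) hdisj.symm
    (fun a ha b hb n hn h => hnoedge b hb a ha n hn h.symm)
  refine ⟨exists_two_dvd H2 ha hb hP' hR hZ' hZ, ?_⟩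
  by_cases h2 : 2 ∈ π₂
  · have h2' : 2 ∉ π₁ := fun h => Set.disjoint_left.1 hdisj h h2
    exact ⟨π₁, h2', H1, x, eq_inv_iff_mul_eq_one.1 (H5.eq_inv_of_odd_index ha
      fun hd => h2' (hR' 2 Nat.prime_two hd)), hR', hZ'⟩
  · exact ⟨π₂, h2, H2, w, eq_inv_iff_mul_eq_one.1 (H5.eq_inv_of_odd_index hb
      fun hd => h2 (hR 2 Nat.prime_two hd)), hR, hZ⟩

/-- The structure of the real classes of the subgroup generated by the `2`-elements. -/
theorem structure_K [Group.IsSolvable G] {ρ : Set ℕ} (h2 : 2 ∉ ρ) (hH : Hyp ρ G) {w : G}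
    (hww : w * w = 1) (hw : RR ρ w) (hwZ : w ∉ center G) {y g : G} (hy : Odd (orderOf y))
    (hy1 : y ≠ 1) (hg : g * y * g⁻¹ = y⁻¹) (K : Subgroup G)
    (hK : K = Subgroup.closure {g : G | ∃ k : ℕ, orderOf g = 2 ^ k}) :
    (∃ x : K, IsConj x x⁻¹ ∧ 2 ∣ cs x) ∧
    (∃ x : K, IsConj x x⁻¹ ∧ ∃ q : ℕ, q.Prime ∧ q ≠ 2 ∧ q ∣ cs x) ∧
    ∀ x : K, IsConj x x⁻¹ → Odd (cs x) ∨ ∃ j : ℕ, cs x = 2 ^ j := by
  haveI : K.Normal := by
    rw [hK]
    refine ⟨fun a ha c => ?_⟩
    have : (Subgroup.closure {g : G | ∃ k : ℕ, orderOf g = 2 ^ k}).map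
        (MulAut.conj c).toMonoidHom ≤ Subgroup.closure {g : G | ∃ k : ℕ, orderOf g = 2 ^ k} := by
      rw [MonoidHom.map_closure]
      refine closure_mono ?_
      rintro _ ⟨z, ⟨k, hk⟩, rfl⟩
      exact ⟨k, (MulEquiv.orderOf_eq (MulAut.conj c) z).trans hk⟩
    exact this (mem_map_of_mem _ ha)
  have hmem : ∀ a : G, ∀ k : ℕ, orderOf a = 2 ^ k → a ∈ K := fun a k h =>
    hK ▸ subset_closure ⟨k, h⟩
  obtain ⟨a, -, ⟨k, hk⟩, ha⟩ := H5.exists_two_element_inverts hg
  have haK := hmem a k hk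
  have hyK : y ∈ K := by
    refine H5.mem_of_sq_mem_of_odd hy ?_
    have : y ^ 2 = (y * a * y⁻¹) * a⁻¹ := by
      calc y ^ 2 = y * (a * y * a⁻¹)⁻¹ := by rw [ha, inv_inv, pow_two]
        _ = _ := by group
    rw [this]
    exact mul_mem ((inferInstance : K.Normal).conj_mem a haK y) (inv_mem haK)
  have hwK : w ∈ K := by
    obtain ⟨j, hj⟩ := H5.exists_eq_pow_of_dvd_pow (k := 1) Nat.prime_two
      (orderOf_dvd_of_pow_eq_one (x := w) (by rw [pow_one, pow_two, hww]))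
    exact hmem w j hj
  refine ⟨⟨⟨y, hyK⟩, isConj_iff.2 ⟨⟨a, haK⟩, Subtype.ext ha⟩, two_dvd_cs (g := ⟨a, haK⟩)
    (by rwa [orderOf_mk]) (fun e => hy1 (congrArg Subtype.val e)) (Subtype.ext ha)⟩, ?_, ?_⟩
  · refine ⟨⟨w, hwK⟩, isConj_iff.2 ⟨1, Subtype.ext (by
      simpa using eq_inv_iff_mul_eq_one.2 hww)⟩, ?_⟩
    obtain ⟨q, hq, hd⟩ := exists_prime_dvd_cs (w := (⟨w, hwK⟩ : K)) fun h =>
      hy1 (B1 h2 hH hww hw hwZ hy hg (congrArg Subtype.val (mem_center_iff.1 h ⟨y, hyK⟩)))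
    refine ⟨q, hq, fun e => h2 (hw 2 Nat.prime_two ?_), hd⟩
    exact (e ▸ hd).trans (H9.index_centralizer_subgroup_dvd K _)
  · intro x hx
    rcases Nat.even_or_odd (cs x) with hev | hodd
    swap
    · exact Or.inl hodd
    right
    refine ⟨_, Nat.eq_prime_pow_of_unique_prime_dvd index_ne_zero_of_finite fun {r} hr hd => ?_⟩
    by_contra hr2
    obtain ⟨c, hc⟩ := isConj_iff.1 hx
    have hdvd := H9.index_centralizer_subgroup_dvd K x
    have hP := (hH x c (by exact_mod_cast congrArg Subtype.val hc)).resolve_left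
      fun h => h2 (h 2 Nat.prime_two ((even_iff_two_dvd.1 hev).trans hdvd))
    obtain ⟨y', g', h1, h3⟩ := exists_real_of_prime hr hr2 _ K rfl (by
      subst hK
      have := closure_closure_coe_preimage (k := {g : G | ∃ k : ℕ, orderOf g = 2 ^ k})
      convert this using 2
      ext z
      simp) (hd.trans (index_dvd_card _))
    exact hP r hr (hd.trans hdvd) (B2 h2 hH hww hw hwZ hr hr2 (y := y') (g := g')
      (by rwa [orderOf_coe]) (by exact_mod_cast congrArg Subtype.val h3))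

end

end Cfsg.Agent.H7.RD
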