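import Cfsg.Agent.H7.SC5
import Cfsg.Agent.H2.Sig3A
import Cfsg.Agent.P5.Max0

/-! Groups all of whose `p'`-subgroups are nilpotent, `p > 3`. -/

set_option autoImplicit false
set_option linter.unusedSectionVars false

namespace Cfsg.Agent.H7.SC

open Subgroup Cfsg Cfsg.Agent Cfsg.Agent.FT MulAction
open Cfsg.Agent.P6 (SE Iv Jv St2 Fx)
open scoped commutatorElement Pointwise

universe u v

variable {G : Type u} [Group G] [Finite G] {Ω : Type v} [MulAction G Ω]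

theorem norm_le_stab (se : SE G Ω) {R : Subgroup G} (hR : IsPGroup 2 R) (h0 : R ≠ ⊥) {δ : Ω}
    (h : R ≤ stabilizer G δ) : 𝐍(R) ≤ stabilizer G δ := by
  obtain ⟨r, hr, ho⟩ := exists_mem_orderOf_eq_prime Nat.prime_two
    (prime_dvd_card_of_isPGroup Nat.prime_two hR h0)
  exact fun x hx => se.smul_eq_of_conj (P6.inv_of_orderOf ho) (h hr)
    (h ((mem_normalizer_iff.1 hx r).1 hr))

theorem exists_central_inv {T N : Subgroup G} (hT : IsPGroup 2 T) (hN : N ⊲ T) (h0 : N ≠ ⊥) :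
    ∃ u ∈ N, P6.Inv u ∧ T ≤ 𝐂[u] := by
  obtain ⟨r, hr, ho⟩ := exists_mem_orderOf_eq_prime Nat.prime_two
    (prime_dvd_card_of_isPGroup Nat.prime_two (hT.to_le (inf_le_left.trans hN.1))
      (inf_center_ne_bot (isNilpotent_of_isPGroup Nat.prime_two hT) hN h0))
  exact ⟨r, hr.1, P6.inv_of_orderOf ho, mem_cent_iff_cent1.1 hr.2⟩

/-- A solvable subgroup containing a four-group fixing a point fixes it. -/
theorem le_stab (se : SE G Ω) {X : Subgroup G} (hs : Group.IsSolvable X) {a b : G} (ha : P6.Inv a)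
    (hb : P6.Inv b) (hne : a ≠ b) (hc : a * b = b * a) (haX : a ∈ X) (hbX : b ∈ X) {δ : Ω}
    (e : a • δ = δ) : X ≤ stabilizer G δ := by
  have h1 : od X ≤ stabilizer G δ := se.le_stab_of_four ha hb hne hc e
    (Nat.coprime_two_right.1 (od_cop X)) (le_norm_od X haX) (le_norm_od X hbX)
  obtain ⟨T, hT, haT⟩ := exists_isSyl_ge Nat.prime_two ha.isPGroup (zpowers_le.2 haX)
  have hT0 : T ≠ ⊥ := ne_bot_of_le_ne_bot (zpowers_ne_bot.2 ha.ne) haT
  obtain ⟨u, -, u2, u3⟩ := exists_central_inv hT.pgrp ⟨le_rfl, le_norm_self T⟩ hT0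
  have h2 : T ≤ stabilizer G δ := u3.trans (se.cent1_le u2
    (se.fix_of_commute ha e (mem_cent1.1 (u3 (haT (mem_zpowers a)))).symm))
  have hE := pPrimePCoreOf_normal 2 X
  have hR := hT.inf_normal Nat.prime_two hE
  have h3 : T ⊓ pPrimePCoreOf 2 X ≠ ⊥ := fun h3 => by
    have h5 := solvable_p_constrained Nat.prime_two hs hR
    rw [h3, cent_bot, inf_top_eq] at h5
    exact hT0 (by rw [← h3, inf_eq_left.2 (hT.le.trans h5)])
  rw [← hR.frattini Nat.prime_two hE]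
  exact sup_le ((pPrimePCoreOf_eq_sup Nat.prime_two hR).ge.trans (sup_le h1 (inf_le_left.trans h2)))
    (inf_le_right.trans (norm_le_stab se hR.pgrp h3 (inf_le_left.trans h2)))

theorem exists_nofix [Finite Ω] (se : SE G Ω) (all : ∀ β : Ω, β ∈ Fx Ω (⊤ : Subgroup G)) {α γ : Ω}
    (hne : γ ≠ α) {w : G} (hw : P6.Inv w) (e : w • α = α) :
    ∃ u : G, P6.Inv u ∧ u • α ≠ α ∧ ∀ β : Ω, (w * u) • β ≠ β := by
  classical
  by_contra hcon
  push Not at hcon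
  have := Fintype.ofFinite G
  have := Fintype.ofFinite Ω
  have hm : ∀ β : Ω, (Iv G β).ncard = (Iv G α).ncard := fun β => by
    obtain ⟨g, -, rfl⟩ := se.exists_smul_Fx (all α) (all β)
    exact P6.SE.ncard_Iv_smul g α
  have hpos : 0 < (Iv G α).ncard := (Set.ncard_pos (Set.toFinite _)).2 ⟨w, hw, e⟩
  set A : Finset G := Finset.univ.filter fun u => P6.Inv u ∧ u • α ≠ α with hA
  set B : Finset Ω := Finset.univ.erase α with hB
  have h1 : A = B.biUnion fun β => (Iv G β).toFinset := by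
    ext u
    simp only [hA, hB, Finset.mem_filter, Finset.mem_univ, true_and, Finset.mem_biUnion,
      Finset.mem_erase, and_true, Set.mem_toFinset]
    refine ⟨fun ⟨a, b⟩ => ?_, fun ⟨β, a, b⟩ => ⟨b.1, fun c => a (se.uniq b.1 b.2 c)⟩⟩
    obtain ⟨β, hβ⟩ := se.ex a
    exact ⟨β, fun c => b (c ▸ hβ), a, hβ⟩
  have h2 : A.card = B.card * (Iv G α).ncard := by
    rw [h1, Finset.card_biUnion, Finset.sum_congr rfl (g := fun _ => (Iv G α).ncard)
      fun β _ => by rw [← Set.ncard_eq_toFinset_card', hm], Finset.sum_const, smul_eq_mul]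
    intro β _ β' _ h
    refine Finset.disjoint_left.2 fun u a b => h ?_
    rw [Set.mem_toFinset] at a b
    exact se.uniq a.1 a.2 b.2
  have h3 : A ⊆ B.biUnion fun β => (Jv G β (w • β)).toFinset.erase w := by
    intro u hu
    simp only [hA, hB, Finset.mem_filter, Finset.mem_univ, true_and, Finset.mem_biUnion,
      Finset.mem_erase, and_true, Set.mem_toFinset] at hu ⊢
    obtain ⟨β, hβ⟩ := hcon u hu.1 hu.2
    have : u • β = w • β := by
      conv_rhs => rw [← hβ, mul_smul, hw.smul_smul]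
    exact ⟨β, fun c => hu.2 (by rw [c] at this; rw [this, e]), fun c => hu.2 (c ▸ e), hu.1, this⟩
  have h4 := (Finset.card_le_card h3).trans (Finset.card_biUnion_le_card_mul _ _
    ((Iv G α).ncard - 1) fun β hβ => by
      have hb : β ≠ w • β := fun c => (Finset.mem_erase.1 hβ).1 (se.uniq hw c.symm e)
      have := se.ncard_Jv_eq_Iv hb (all β)
      rw [coe_top, Set.inter_univ, Set.inter_univ, hm] at this
      rw [Finset.card_erase_of_mem (Set.mem_toFinset.2 (show w ∈ Jv G β (w • β) from ⟨hw, rfl⟩)), ← Set.ncard_eq_toFinset_card',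
        this])
  have h5 : 0 < B.card := Finset.card_pos.2 ⟨γ, Finset.mem_erase.2 ⟨hne, Finset.mem_univ _⟩⟩
  rw [h2] at h4
  have := Nat.le_of_mul_le_mul_left h4 h5
  omega

/-- A minimal counterexample. -/
structure Hy (G : Type u) [Group G] (p : ℕ) : Prop where
  pr : p.Prime
  gt : 3 < p
  nil : ∀ X : Subgroup G, 𝐨(X).Coprime p → Group.IsNilpotent X
  simple : IsSimpleGroup G
  sol : ∀ X : Subgroup G, X ≠ ⊤ → Group.IsSolvable X
  ns : ¬ Group.IsSolvable (⊤ : Subgroup G)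

namespace Hy

variable {p : ℕ} (hy : Hy G p)
include hy

theorem cent {A B : Subgroup G} (hn : A ≤ 𝐍(B)) (hc : 𝐨(A).Coprime 𝐨(B)) (hA : 𝐨(A).Coprime p)
    (hB : 𝐨(B).Coprime p) : A ≤ 𝐂(B) :=
  le_cent_of_coprime_of_isNilpotent (hy.nil _ ((Nat.Coprime.mul_left hA hB).coprime_dvd_left
    (H1.card_sup_dvd hn))) le_sup_left le_sup_right hc

theorem cop {r : ℕ} (hr : r.Prime) (hne : r ≠ p) {A : Subgroup G} (hA : IsPGroup r A) :
    𝐨(A).Coprime p := by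
  obtain ⟨n, hn⟩ := exists_card_eq_pow hr hA
  rw [hn]
  exact ((Nat.coprime_primes hr hy.pr).2 hne).pow_left n

theorem ne2 : 2 ≠ p := by have := hy.gt; omega

theorem cent' {r s : ℕ} (hr : r.Prime) (hs : s.Prime) (h1 : r ≠ p) (h2 : s ≠ p) (h3 : r ≠ s)
    {A B : Subgroup G} (hA : IsPGroup r A) (hB : IsPGroup s B) (hn : A ≤ 𝐍(B)) : A ≤ 𝐂(B) :=
  hy.cent hn (coprime_card_of_isPGroup hr hs h3 hA hB) (hy.cop hr h1 hA) (hy.cop hs h2 hB)

theorem nrm {K : Subgroup G} (h0 : K ≠ ⊥) (hs : Group.IsSolvable K) : 𝐍(K) ≠ ⊤ := fun e => by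
  rcases hy.simple.eq_bot_or_eq_top_of_normal K (normal_iff_top_le.2 e.ge) with h | h
  · exact h0 h
  · exact hy.ns (h ▸ hs)

theorem nrm1 {x : G} (h : x ≠ 1) : 𝐍(zpowers x) ≠ ⊤ := hy.nrm (zpowers_ne_bot.2 h) (P6.Inv.solv x)

theorem cent1_ne {x : G} (h : x ≠ 1) : 𝐂[x] ≠ ⊤ := fun e =>
  hy.nrm1 h (top_le_iff.1 (e.ge.trans ((cent_zpowers x).ge.trans (cent_le_norm _))))

theorem loc : Loc G := by
  refine ⟨hy.sol, fun E _ φ hφ => ?_, fun K hK h0 =>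
    hy.nrm h0 (isSolvable_of_isNilpotent (isNilpotent_of_isPGroup Nat.prime_two hK))⟩
  obtain ⟨f, t, h1, ⟨k, h2⟩, h3⟩ := H2.exists_inverted_of_surjective φ hφ
  have h4 : orderOf (f : G) = 3 := by rw [orderOf_coe, h1]
  have h5 : (t : G) * f * (t : G)⁻¹ = (f : G)⁻¹ := congrArg Subtype.val h3
  have h6 := hy.cent' Nat.prime_two Nat.prime_three hy.ne2 hy.gt.ne (by omega)
    (H2.isPGroup_zpowers_of_pow_eq_one (x := (t : G)) (k := k) (congrArg Subtype.val h2))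
    (isPGroup_of_card_prime (X := zpowers (f : G)) (by rw [Nat.card_zpowers, h4]))
    (zpowers_le.2 (H2.mem_normalizer_zpowers_of_conj_mem (h5 ▸ inv_mem (mem_zpowers _))))
    (mem_zpowers _)
  rw [cent_zpowers, mem_cent1_iff_conj, h5] at h6
  have := P6.eq_one_of_eq_inv (by rw [h4]; decide) h6.symm
  rw [this, orderOf_one] at h4
  omega

theorem isP {x w : G} (hw : P6.Inv w) (ho : Odd (orderOf x)) (hi : w * x * w = x⁻¹) :
    IsPGroup p (zpowers x) := by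
  refine (isPi_singleton_iff hy.pr).1 fun r hr hd => ?_
  by_contra hne
  obtain ⟨y, hy1, hy2⟩ := exists_mem_orderOf_eq_prime hr hd
  have h1 := P6.inverts_of_mem_zpowers hw.sq hi hy1
  have h2 : Odd (orderOf y) := ho.of_dvd_nat (orderOf_dvd_of_mem_zpowers hy1)
  have h6 := hy.cent' Nat.prime_two hr hy.ne2 hne
    (fun e => by rw [hy2, ← e] at h2; exact absurd h2 (by decide)) hw.isPGroup
    (isPGroup_of_card_prime (X := zpowers y) (by rw [Nat.card_zpowers, hy2]))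
    (zpowers_le.2 (H2.mem_normalizer_zpowers_of_conj_mem
      (by rw [hw.inv_eq, h1]; exact inv_mem (mem_zpowers _)))) (mem_zpowers _)
  rw [cent_zpowers, mem_cent1_iff_conj, hw.inv_eq, h1] at h6
  rw [P6.eq_one_of_eq_inv h2 h6.symm, orderOf_one] at hy2
  exact hr.one_lt.ne hy2

theorem dvd_relIndex {S V : Subgroup G} (h : VV S V) {z : G} (hz : z ∈ V) (h1 : S ≤ 𝐂[z])
    (h2 : ¬ 𝐍(V) ≤ 𝐂[z]) : p ∣ 𝐂[z].relIndex 𝐍(V) := by
  by_contra hn
  refine h2 (le_of_forall_exists_isSyl_le fun r hr _ => ?_)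
  by_cases e2 : r = 2
  · exact ⟨S, e2 ▸ h.syl.of_le h.nrm le_top, h1⟩
  by_cases ep : r = p
  · obtain ⟨P, hP⟩ := exists_isSyl hr (𝐂[z] ⊓ 𝐍(V))
    exact ⟨P, hP.trans hr inf_le_right (by rwa [inf_relIndex_right, ep]), hP.le.trans inf_le_left⟩
  · obtain ⟨P, hP⟩ := exists_isSyl hr 𝐍(V)
    exact ⟨P, hP, (hy.cent' hr Nat.prime_two ep hy.ne2 e2 hP.pgrp h.pg hP.le).trans
      (cent_le_cent1 hz)⟩

theorem five_le {S V : Subgroup G} (h : VV S V) : 5 ≤ 𝐨(V) := by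
  obtain ⟨z, hz, h1, h2, h3⟩ := h.exists_move hy.loc hy.simple
  have h4 := Nat.le_of_dvd (H2.relIndex_pos _ _) (hy.dvd_relIndex h hz h2 h3)
  have h5 : 𝐂[z].relIndex 𝐍(V) ≤ 𝐨(V) - 1 := by
    rw [← P6.ncard_class, ← ncard_sharp]
    refine Set.ncard_le_ncard ?_ (Set.toFinite _)
    rintro _ ⟨y, hy', rfl⟩
    exact mem_sharp.2 ⟨(mem_normalizer_iff.1 hy' z).1 hz, by simpa using h1⟩
  have := hy.gt
  omega

end Hy

/-- The final configuration. -/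
structure Cf (p : ℕ) (S V : Subgroup G) (α γ : Ω) : Prop where
  hy : Hy G p
  vv : VV S V
  se : SE G Ω
  le : 𝐍(V) ≤ stabilizer G α
  tr : ∀ β : Ω, ∃ g : G, g • α = β
  ne : γ ≠ α

namespace Cf

variable [Finite Ω] {p : ℕ} {S V : Subgroup G} {α γ : Ω} (h : Cf p S V α γ)
include h

theorem inv {v : G} (hv : v ∈ V) (h1 : v ≠ 1) : P6.Inv v := ⟨h1, by rw [← pow_two, h.vv.el.2 v hv]⟩

theorem fix {v : G} (hv : v ∈ V) : v • α = α := h.le (le_norm_self V hv)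

theorem exists_two : ∃ a ∈ V, ∃ b ∈ V, P6.Inv a ∧ P6.Inv b ∧ a ≠ b := by
  have h1 := h.hy.five_le h.vv
  obtain ⟨a, ha, b, hb, hab⟩ := (Set.one_lt_ncard (s := sharp V) (Set.toFinite _)).1
    (by rw [ncard_sharp]; omega)
  exact ⟨a, ha.1, b, hb.1, h.inv ha.1 ha.2, h.inv hb.1 hb.2, hab⟩

theorem all (β : Ω) : β ∈ Fx Ω (⊤ : Subgroup G) := by
  obtain ⟨a, ha, -, -, h1, -⟩ := h.exists_two
  obtain ⟨g, rfl⟩ := h.tr β
  exact ⟨_, mem_top _, h1.conj g, P6.conj_fix (h.fix ha)⟩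

theorem orb : ∃ z ∈ V, (∀ s ∈ S, P6.Inv s → ∃ m ∈ 𝐍(V), m * z * m⁻¹ = s) ∧ p ∣ 𝐨(V) - 1 ∧
    p ∣ 𝐨(stabilizer G α) := by
  obtain ⟨z, hz, h1, h2, h3⟩ := h.vv.exists_move h.hy.loc h.hy.simple
  have h4 := h.hy.dvd_relIndex h.vv hz h2 h3
  have h5 : ∀ s ∈ S, P6.Inv s → ∃ m ∈ 𝐍(V), m * z * m⁻¹ = s := fun s hs hi => by
    obtain ⟨g, -, rfl⟩ := h.se.exists_conj (N := ⊤) ⟨γ, h.all γ, α, h.all α, h.ne⟩ (h.inv hz h1) hi
      (mem_top _) (mem_top _)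
    exact (h.vv.rel1 h.hy.loc (h.vv.le hz) hs).imp fun m e => ⟨e.1, e.2.symm⟩
  refine ⟨z, hz, h5, ?_, h4.trans ((relIndex_dvd_card' _ _).trans (FT.card_dvd_of_le h.le))⟩
  rw [← P6.ncard_class] at h4
  rw [← ncard_sharp]
  convert h4 using 2
  ext s
  refine ⟨fun a => h5 s (h.vv.le a.1) (h.inv a.1 a.2), ?_⟩
  rintro ⟨y, hy', rfl⟩
  exact mem_sharp.2 ⟨(mem_normalizer_iff.1 hy' z).1 hz, by simpa using h1⟩

theorem mem_of_mem {s : G} (hs : s ∈ S) (hi : P6.Inv s) : s ∈ V := by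
  obtain ⟨z, hz, h1, -⟩ := h.orb
  obtain ⟨m, hm, rfl⟩ := h1 s hs hi
  exact (mem_normalizer_iff.1 hm z).1 hz

theorem not_syl {P : Subgroup G} (hP : P ≤ stabilizer G α) : ¬ IsSyl p P ⊤ := by
  intro hs
  obtain ⟨w, hw, -, -, h1, -⟩ := h.exists_two
  obtain ⟨u, u1, u2, u3⟩ := exists_nofix h.se h.all h.ne h1 (h.fix hw)
  obtain ⟨β, hβ⟩ := h.se.ex u1
  obtain ⟨g, -, hg⟩ := hs.exists_le_conj h.hy.pr (h.hy.isP (x := w * u) h1
    (h.se.odd_mul h1 u1 (h.fix hw) hβ fun e => u2 (e ▸ hβ)) (by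
      rw [h1.mul_cancel_left, mul_inv_rev, h1.inv_eq, u1.inv_eq])) le_top
  refine u3 (g • α) ?_
  rw [← mem_stabilizer_iff, P6.stabilizer_smul']
  exact conj_mono hP g (hg (mem_zpowers _))

theorem sol : Group.IsSolvable (stabilizer G α) := h.hy.sol _ fun e => by
  obtain ⟨g, hg⟩ := h.tr γ
  exact h.ne (hg.symm.trans (e.ge (mem_top g)))

theorem core_ne : pCoreOf 2 (stabilizer G α) ≠ ⊥ := by
  intro h0
  have := Fact.mk h.hy.pr
  obtain ⟨P, hP⟩ := exists_isSyl h.hy.pr (stabilizer G α)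
  obtain ⟨-, -, -, -, h1⟩ := h.orb
  have h2 := isNilpotent_of_isPGroup h.hy.pr hP.pgrp
  have h3 := H2.exists_mul_normalizer_zl' (h.hy.pr.five_le_of_ne_two_of_ne_three h.hy.ne2.symm
    h.hy.gt.ne') h.sol hP.le hP.pgrp hP.ndvd
  unfold H2.Fac at h3
  have h4 := pPrimeCoreOf_normal p (stabilizer G α)
  have h5 := H2.coprime_card_pPrimeCoreOf p (stabilizer G α)
  generalize H2.pPrimeCoreOf p (stabilizer G α) = Y at h3 h4 h5
  have h6 : 𝐨(Y).Coprime 2 := by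
    have a1 := isSyl_pCoreOf_of_isNilpotent Nat.prime_two (h.hy.nil Y h5)
    have a2 := le_pCoreOf ⟨a1.le.trans h4.1, h4.2.trans (H2.normalizer_le_normalizer_pCoreOf 2 Y)⟩
      a1.pgrp
    rw [h0, le_bot_iff] at a2
    exact ((Nat.Prime.coprime_iff_not_dvd Nat.prime_two).2
      ((a1.eq_bot_iff Nat.prime_two).1 a2)).symm
  have h7 : V ≤ 𝐂(Y) := h.hy.cent (((le_norm_self V).trans h.le).trans h4.2)
    (H1.coprime_card_of_isPGroup h.vv.pg h6).symm (h.hy.cop Nat.prime_two h.hy.ne2 h.vv.pg) h5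
  have h8 : V ≤ 𝐍(H2.zl P) := fun v hv => by
    obtain ⟨o, ho, n, hn, e⟩ := h3 v (h.fix hv)
    have a1 : Commute o⁻¹ v := h7 hv _ (inv_mem ho)
    have a2 : n = o⁻¹ * v := by rw [e, inv_mul_cancel_left]
    obtain ⟨k, hk⟩ := Nat.coprime_two_right.1 h6
    have a3 : o⁻¹ ^ (2 * k + 1) = 1 := by
      rw [← hk]
      exact congrArg Subtype.val (pow_card_eq_one' (x := (⟨o⁻¹, inv_mem ho⟩ : Y)))
    have a4 := pow_mem hn.2 (2 * k + 1)
    rwa [a2, a1.mul_pow, a3, one_mul, pow_succ, pow_mul, h.vv.el.2 v hv, one_pow, one_mul] at a4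
  obtain ⟨a, ha, b, hb, a1, b1, hab⟩ := h.exists_two
  have h9 := le_stab h.se (h.hy.sol _ (h.hy.nrm (H2.zl_ne_bot (hP.ne_bot h.hy.pr h1))
    (isSolvable_of_isNilpotent (isNilpotent_of_le (H2.zl_le P) h2)))) a1 b1 hab
    (isMulComm_iff_le_cent.1 h.vv.el.1 hb a ha) (h8 ha) (h8 hb) (h.fix ha)
  exact h.not_syl hP.le (IsSyl.of_norm h.hy.pr (hP.of_le (le_inf le_top (le_norm_self P))
    (inf_le_right.trans ((H2.normalizer_le_normalizer_zl P).trans h9))))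

theorem stab_le : stabilizer G α ≤ 𝐍(V) := by
  have hS := h.vv.syl.of_le (h.vv.nrm.trans h.le) le_top
  have h1 := hS.pCoreOf_le Nat.prime_two
  have h2 := pCoreOf_normal 2 (stabilizer G α)
  obtain ⟨u, u1, u2, -⟩ := exists_central_inv hS.pgrp ⟨h1, hS.le.trans h2.2⟩ h.core_ne
  obtain ⟨z, hz, h3, -⟩ := h.orb
  obtain ⟨m, hm, rfl⟩ := h3 u (h1 u1) u2
  have h4 : z ∈ pCoreOf 2 (stabilizer G α) := (mem_normalizer_iff.1 (h2.2 (h.le hm)) z).2 u1
  intro x hx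
  refine mem_norm_of_conj_le fun y hy => ?_
  obtain ⟨v, hv, rfl⟩ := mem_conj'.1 hy
  by_cases h5 : v = 1
  · simp [h5]
  obtain ⟨k, hk, rfl⟩ := h3 v (h.vv.le hv) (h.inv hv h5)
  exact h.mem_of_mem (h1 ((mem_normalizer_iff.1 (h2.2 hx) _).1
    ((mem_normalizer_iff.1 (h2.2 (h.le hk)) _).1 h4))) ((h.inv hv h5).conj x)

theorem memV {w : G} (hw : P6.Inv w) (e : w • α = α) : w ∈ V := by
  obtain ⟨m, hm, h1⟩ := (h.vv.syl.of_le (h.vv.nrm.trans h.le) le_top).exists_conj_le Nat.prime_two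
    hw.isPGroup (zpowers_le.2 e)
  exact (mem_normalizer_iff.1 (h.stab_le hm) w).2
    (h.mem_of_mem (h1 (conj_mem_conj (mem_zpowers w) m)) (hw.conj m))

theorem memV' {w g : G} (hw : P6.Inv w) (e : w • g • α = g • α) : g⁻¹ * w * g ∈ V :=
  h.memV (hw.conj' g) (by rw [mul_smul, mul_smul, e, inv_smul_smul])

theorem eq_one {w x : G} {δ : Ω} (hw : P6.Inv w) (e : w • δ = δ) (e' : x • δ = δ)
    (ho : Odd (orderOf x)) (hi : w * x * w = x⁻¹) : x = 1 := by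
  obtain ⟨g, rfl⟩ := h.tr δ
  have h1 : P6.Inv (w * x) := ⟨fun e => by
    rw [eq_inv_of_mul_eq_one_right e, orderOf_inv, hw.orderOf_eq] at ho
    exact absurd ho (by decide), by rw [← mul_assoc, hi, inv_mul_cancel]⟩
  have h2 := isMulComm_iff_le_cent.1 h.vv.el.1 (h.memV' hw e) _
    (h.memV' h1 (by rw [mul_smul, e', e]))
  refine P6.eq_one_of_eq_inv ho ?_
  calc x = w * (w * x) := (hw.mul_cancel_left x).symm
    _ = g * (g⁻¹ * w * g * (g⁻¹ * (w * x) * g)) * g⁻¹ := by group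
    _ = w * x * w := by rw [← h2]; group
    _ = _ := hi

theorem exists_four {w c : G} (hw : P6.Inv w) (hp : (orderOf c).Prime) (ho : Odd (orderOf c))
    (hc : w ∈ 𝐂[c]) : ∃ u ∈ 𝐂[c], P6.Inv u ∧ w ≠ u ∧ w * u = u * w := by
  have key : ∀ w c : G, w ∈ V → w ≠ 1 → (orderOf c).Prime → Odd (orderOf c) → w ∈ 𝐂[c] →
      ∃ u ∈ V, u ∈ 𝐂[c] ∧ u ≠ 1 ∧ w ≠ u := by
    intro w c hw h1 hp ho hc
    have h2 : zpowers c ≤ 𝐍(V) := zpowers_le.2 (h.stab_le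
      (h.se.cent1_le (h.inv hw h1) (h.fix hw) (mem_cent1_comm.1 hc)))
    have h3 : IsPGroup (orderOf c) (zpowers c) := isPGroup_of_card_prime (Nat.card_zpowers c)
    by_cases ep : orderOf c = p
    · by_contra hcon
      push Not at hcon
      have h4 := P6.ncard_modEq_cent hp h3 (S := sharp V) fun x hx s hs =>
        mem_sharp.2 ⟨(mem_normalizer_iff.1 (h2 hx) s).1 hs.1, by simpa using hs.2⟩
      have h5 : {s ∈ sharp V | s ∈ 𝐂(zpowers c)} = {w} := by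
        rw [cent_zpowers]
        ext s
        exact ⟨fun a => (hcon s a.1.1 a.2 a.1.2).symm, fun a => a ▸ ⟨⟨hw, h1⟩, hc⟩⟩
      obtain ⟨-, -, -, h6, -⟩ := h.orb
      rw [h5, Set.ncard_singleton, ncard_sharp, ep] at h4
      exact h.hy.pr.one_lt.ne' (Nat.dvd_one.1 ((h4.dvd_iff dvd_rfl).1 h6))
    · have h4 := cent_comm.1 (h.hy.cent' hp Nat.prime_two ep h.hy.ne2
        (fun e => by rw [e] at ho; exact absurd ho (by decide)) h3 h.vv.pg h2)
      rw [cent_zpowers] at h4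
      obtain ⟨a, ha, b, hb, a1, b1, hab⟩ := h.exists_two
      by_cases e : w = a
      · exact ⟨b, hb, h4 hb, b1.ne, e ▸ hab⟩
      · exact ⟨a, ha, h4 ha, a1.ne, e⟩
  obtain ⟨δ, e⟩ := h.se.ex hw
  obtain ⟨g, rfl⟩ := h.tr δ
  have hoc : orderOf (g⁻¹ * c * g⁻¹⁻¹) = orderOf c := by
    rw [← orderOf_injective (MulAut.conj g⁻¹).toMonoidHom (MulAut.conj g⁻¹).injective c]; rfl
  obtain ⟨u, u1, u2, u3, u4⟩ := key _ (g⁻¹ * c * g⁻¹⁻¹) (h.memV' hw e) (hw.conj' g).ne (hoc ▸ hp)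
    (hoc ▸ ho) (by rw [cent1_conj]; simpa using conj_mem_conj hc g⁻¹)
  rw [cent1_conj, mem_conj, inv_inv] at u2
  refine ⟨_, u2, (h.inv u1 u3).conj g, fun a => u4 (by rw [a]; group), ?_⟩
  have h2 := isMulComm_iff_le_cent.1 h.vv.el.1 (h.memV' hw e) _ u1
  calc _ = g * (g⁻¹ * w * g * u) * g⁻¹ := by group
    _ = _ := by rw [← h2]; group

section inverted

variable {w x : G} (hw : P6.Inv w) (h1 : x ≠ 1) (ho : Odd (orderOf x)) (hi : w * x * w = x⁻¹)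
include hw h1 ho hi

theorem odd_cent : Odd 𝐨(𝐂[x]) := by
  by_contra hn
  obtain ⟨δ, e⟩ := h.se.ex hw
  have h2 : w ∈ 𝐍(zpowers x) :=
    H2.mem_normalizer_zpowers_of_conj_mem (by rw [hw.inv_eq, hi]; exact inv_mem (mem_zpowers _))
  obtain ⟨T, hT, hwT⟩ := exists_isSyl_ge Nat.prime_two hw.isPGroup (zpowers_le.2 h2)
  have h3 : 𝐂[x] ⊲ 𝐍(zpowers x) := by
    rw [← cent_zpowers]
    exact ⟨cent_le_norm _, H1.normalizer_le_normalizer_centralizer _⟩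
  obtain ⟨u, u1, u2, u3⟩ := exists_central_inv hT.pgrp
    ⟨inf_le_left, H1.le_normalizer_inf (le_norm_self T) (hT.le.trans h3.2)⟩
    ((hT.inf_normal Nat.prime_two h3).ne_bot Nat.prime_two
      (Nat.not_odd_iff_even.1 hn).two_dvd)
  refine h1 (h.eq_one hw e (le_stab h.se (h.hy.sol _ (h.hy.nrm1 h1)) hw u2 (fun a => ?_)
    (mem_cent1.1 (u3 (hwT (mem_zpowers w)))).symm h2 (hT.le u1.1) e
    (le_norm_self _ (mem_zpowers x))) ho hi)
  have := mem_cent1_iff_conj.1 (a ▸ u1.2 : w ∈ 𝐂[x])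
  rw [hw.inv_eq, hi] at this
  exact h1 (P6.eq_one_of_eq_inv ho this.symm)

theorem inverts {y : G} (hy : y ∈ 𝐂[x]) : w * y * w = y⁻¹ := by
  have h2 := h.odd_cent hw h1 ho hi
  obtain ⟨δ, e⟩ := h.se.ex hw
  obtain ⟨b, hb, a, -, b1, a1, rfl⟩ := P5.Mx.exists_cent_mul_inv h2 hw.sq (conj_eq_self_iff.1 (by
    rw [← cent1_conj, hw.inv_eq, hi, cent1_inv])) hy
  suffices b = 1 by rwa [this, one_mul]
  by_contra b2
  obtain ⟨c, c1, c2⟩ := P6.exists_prime_pow_mem b2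
  have c3 : c ∈ 𝐂[x] := zpowers_le.2 hb c1
  have c4 : w ∈ 𝐂[c] := cent1_le_cent1_of_mem_zpowers c1 (mem_cent1.2 b1)
  obtain ⟨u, u1, u2, u3, u4⟩ := h.exists_four hw c2 (P6.odd_orderOf_of_mem h2 c3) c4
  exact h1 (h.eq_one hw e (le_stab h.se (h.hy.sol _ (h.hy.cent1_ne fun a => by
    rw [a, orderOf_one] at c2; exact Nat.not_prime_one c2)) hw u2 u3 u4 c4 u1 e
    (mem_cent1_comm.1 c3)) ho hi)

theorem cent_comm' : 𝐂[x] ≤ 𝐂(𝐂[x]) := fun a ha b hb => by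
  have e1 := h.inverts hw h1 ho hi ha
  have e2 := h.inverts hw h1 ho hi hb
  have e3 := h.inverts hw h1 ho hi (mul_mem ha hb)
  rw [← inv_inj, ← e3, mul_inv_rev, ← e1, ← e2]
  calc _ = w * a * (w * w) * b * w := by group
    _ = _ := by rw [hw.sq]; group

theorem isSyl_cent : IsSyl p 𝐂[x] ⊤ := by
  have h2 := h.odd_cent hw h1 ho hi
  have h3 : IsPGroup p 𝐂[x] := fun ⟨y, hy⟩ => by
    obtain ⟨k, hk⟩ := h.hy.isP hw (P6.odd_orderOf_of_mem h2 hy) (h.inverts hw h1 ho hi hy)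
      ⟨y, mem_zpowers y⟩
    exact ⟨k, Subtype.ext (congrArg Subtype.val hk :)⟩
  refine isSyl_of_maximal h.hy.pr le_top h3 fun Q a _ b => le_antisymm ?_ a
  obtain ⟨⟨z, hz⟩, z1⟩ := ne_bot_iff_exists_ne_one.1 (center_ne_bot
    (isNilpotent_of_isPGroup h.hy.pr b)
    (ne_bot_of_le_ne_bot (zpowers_ne_bot.2 h1) ((zpowers_le.2 (self_mem_cent1 x)).trans a)))
  have z2 : z ∈ 𝐂[x] := cent_le_cent1 (a (self_mem_cent1 x)) hz.2
  exact (mem_cent_iff_cent1.1 hz.2).trans (mem_cent_iff_cent1.1 (h.cent_comm' hw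
    (fun e => z1 (Subtype.ext e)) (P6.odd_orderOf_of_mem h2 z2) (h.inverts hw h1 ho hi z2)
    (mem_cent1_comm.1 z2)))

end inverted

theorem false : False := by
  obtain ⟨P0, hP0⟩ := exists_isSyl h.hy.pr (stabilizer G α)
  obtain ⟨P, hP, hle⟩ := exists_isSyl_ge h.hy.pr hP0.pgrp le_top
  obtain ⟨y, hy, hy'⟩ := SetLike.not_le_iff_exists.1 fun e => h.not_syl e hP
  have hne : α ≠ y • α := fun e => hy' e.symm
  obtain ⟨u, -, u1, u2⟩ := h.se.exists_swap_Fx (h.all α) (h.all _) hne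
  obtain ⟨a, ha, b, hb, a1, b1, hab⟩ := h.exists_two
  obtain ⟨k, k1, k2, k3, -⟩ := h.se.exists_K u1 u2 hne a1 b1 (h.fix ha) (h.fix hb)
  have k4 : k ≠ 1 := fun e => hab (by rw [← k3, e]; group)
  have k5 := P6.odd_orderOf_of_mem (h.se.odd_St2 hne) k1
  have hPc : P ≤ 𝐂(P) := by
    obtain ⟨g, -, rfl⟩ := hP.exists_conj_eq h.hy.pr (h.isSyl_cent u1 k4 k5 k2)
    exact conj_le_cent_iff.2 (h.cent_comm' u1 k4 k5 k2)
  have h1 : P0 ≤ St2 G α (y • α) := fun x hx => P6.mem_St2.2 ⟨hP0.le hx, by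
    rw [← mul_smul, hPc hy x (hle hx), mul_smul, hP0.le hx]⟩
  obtain ⟨d, hd, d1⟩ := (hP0.of_le h1 inf_le_left).exists_conj_le h.hy.pr (h.hy.isP u1 k5 k2)
    (zpowers_le.2 k1)
  have d2 := d1 (conj_mem_conj (mem_zpowers k) d)
  have d3 := u1.conj d
  have d4 : (d * u * d⁻¹) • α = y • α := by
    rw [mul_smul, mul_smul, (inv_mem hd).1, u2, hd.2]
  have d5 : d * u * d⁻¹ * (d * k * d⁻¹) * (d * u * d⁻¹) = (d * k * d⁻¹)⁻¹ := by
    calc _ = d * (u * k * u) * d⁻¹ := by group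
      _ = _ := by rw [k2]; group
  have d6 : d * k * d⁻¹ ≠ 1 := by simpa using k4
  have d7 := P6.odd_orderOf_of_mem (h.se.odd_St2 hne) (h1 d2)
  generalize d * k * d⁻¹ = k at d2 d5 d6 d7
  generalize d * u * d⁻¹ = u at d3 d4 d5
  obtain ⟨n, hn⟩ := P6.odd_orderOf_of_mem (P6.odd_of_isPGroup h.hy.pr h.hy.ne2.symm hP.pgrp) hy
  have y1 : y ^ (n + 1) * y ^ (n + 1) = y := by
    rw [← pow_add, show n + 1 + (n + 1) = 2 * n + 1 + 1 by ring, ← hn, pow_succ,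
      pow_orderOf_eq_one, one_mul]
  have y2 := pow_mem hy (n + 1)
  generalize y ^ (n + 1) = y0 at y1 y2
  have y3 := h.inverts d3 d6 d7 d5 (cent_le_cent1 (hle d2) (hPc y2))
  refine d6 (h.eq_one (δ := y0 • α) d3 ?_ ?_ d7 d5)
  · rw [← mul_smul, ← d3.mul_cancel_right (u * y0), y3, mul_smul, d4, ← y1, mul_smul,
      inv_smul_smul]
  · rw [← mul_smul, hPc y2 k (hle d2), mul_smul, hP0.le d2]

end Cf

theorem Hy.false {p : ℕ} (hy : Hy G p) : False := by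
  obtain ⟨S, hS⟩ := exists_isSyl Nat.prime_two (⊤ : Subgroup G)
  obtain ⟨V, h⟩ := exists_VV hS fun e => hy.ns (feit_thompson _ (Nat.odd_iff.2
    (Nat.two_dvd_ne_zero.1 ((hS.eq_bot_iff Nat.prime_two).1 e))))
  obtain ⟨M, h1, h2, h3⟩ := h.exists_se hy.loc hy.simple (hy.five_le h)
  obtain ⟨g, -, hg⟩ := SetLike.exists_of_lt (Ne.lt_top h1)
  exact Cf.false (p := p) (α := ((1 : G) : G ⧸ M)) (γ := (g : G ⧸ M)) ⟨hy, h, h3,
    (stab_one M).ge.trans' h2, fun β => by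
      obtain ⟨x, rfl⟩ := QuotientGroup.mk_surjective β
      exact ⟨x, by simp⟩, fun e => hg (by simpa using QuotientGroup.eq.1 e.symm)⟩

end Cfsg.Agent.H7.SC
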