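/-
S3805, part 1: the model `S₃ × S₃` of the Sylow normalizer and the group-theoretic set-up.
-/
import Cfsg.Agent.P1.B_0
import Cfsg.Agent.H1.Generation
import Cfsg.Agent.H3.DQ

set_option autoImplicit false

namespace Cfsg.Agent.H7.SS

open Subgroup Cfsg Cfsg.Agent Cfsg.Agent.FT DihedralGroup

universe u

abbrev D3 := DihedralGroup 3
abbrev DD := D3 × D3

def aa : DD := (r 1, 1)
def bb : DD := (1, r 1)
def rr : DD := (sr 0, 1)
def ss : DD := (1, sr 0)

variable {G : Type u} [Group G]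

structure Hyp (ι : DD →* G) : Prop where
  inj : Function.Injective ι
  ti : ∀ g d e, d * d ≠ 1 → g * ι d * g⁻¹ = ι e → g ∈ ι.range
  syl : ∀ P : Subgroup G, IsPGroup 3 P → ∃ g, ∀ x ∈ P, ∃ e, g * x * g⁻¹ = ι e
  gen : ∀ Q : Subgroup G, Q.Normal → ¬ 3 ∣ Nat.card Q → Q ≤ ι.range

def swp : DD →* DD := (MulEquiv.prodComm : D3 × D3 ≃* D3 × D3).toMonoidHom

theorem swp_swp (d : DD) : swp (swp d) = d := rfl

theorem Hyp.swap {ι : DD →* G} (h : Hyp ι) : Hyp (ι.comp swp) := by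
  have hr : (ι.comp swp).range = ι.range := by
    ext g
    exact ⟨fun ⟨d, hd⟩ => ⟨swp d, hd⟩, fun ⟨d, hd⟩ => ⟨swp d, hd⟩⟩
  refine ⟨fun d e hde => ?_, fun g d e hd he => ?_, fun P hP => ?_, fun Q hQ h3 => ?_⟩
  · have := congrArg swp (h.inj hde)
    simpa [swp_swp] using this
  · rw [hr]
    refine h.ti g (swp d) (swp e) (fun h1 => hd ?_) he
    have := congrArg swp h1
    rwa [map_mul, swp_swp, map_one] at this
  · obtain ⟨g, hg⟩ := h.syl P hP
    refine ⟨g, fun x hx => ?_⟩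
    obtain ⟨e, he⟩ := hg x hx
    exact ⟨swp e, he⟩
  · rw [hr]; exact h.gen Q hQ h3

theorem exists_hom {x y : G} (hx : orderOf x = 3) (hy2 : y * y = 1) (h : y * x * y⁻¹ = x⁻¹) :
    ∃ f : D3 →* G, f (r 1) = x ∧ f (sr 0) = y := by
  let f : D3 → G := fun g => match g with
    | .r i => x ^ i.val
    | .sr i => y * x ^ i.val
  have hr : ∀ a : ℤ, f (.r a) = x ^ a := fun a => H3.pow_val_intCast hx a
  have hs : ∀ a : ℤ, f (.sr a) = y * x ^ a := fun a => congrArg _ (H3.pow_val_intCast hx a)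
  have hmul : ∀ g k, f (g * k) = f g * f k := by
    rintro (i | i) (j | j) <;> obtain ⟨a, rfl⟩ := ZMod.intCast_surjective i <;>
      obtain ⟨b, rfl⟩ := ZMod.intCast_surjective j
    · rw [DihedralGroup.r_mul_r, ← Int.cast_add, hr, hr, hr, zpow_add]
    · rw [DihedralGroup.r_mul_sr, ← Int.cast_sub, hs, hr, hs, ← mul_assoc,
        H3.zpow_mul_of_conj_inv h]
      group
    · rw [DihedralGroup.sr_mul_r, ← Int.cast_add, hs, hs, hr, zpow_add, mul_assoc]
    · rw [DihedralGroup.sr_mul_sr, ← Int.cast_sub, hr, hs, hs, mul_assoc, ← mul_assoc (x ^ a),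
        H3.zpow_mul_of_conj_inv h, ← mul_assoc, ← mul_assoc, hy2]
      group
  refine ⟨MonoidHom.mk' f hmul, ?_, ?_⟩
  · simpa using hr 1
  · simpa using hs 0

theorem d3_gen (P : D3 → Prop) (h1 : P 1) (ha : P (r 1)) (hs : P (sr 0))
    (hm : ∀ x y, P x → P y → P (x * y)) (x : D3) : P x := by
  have : x = 1 ∨ x = r 1 ∨ x = r 1 * r 1 ∨ x = sr 0 ∨ x = sr 0 * r 1 ∨
      x = sr 0 * (r 1 * r 1) := by revert x; decide
  rcases this with rfl | rfl | rfl | rfl | rfl | rfl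
  · exact h1
  · exact ha
  · exact hm _ _ ha ha
  · exact hs
  · exact hm _ _ hs ha
  · exact hm _ _ hs (hm _ _ ha ha)

theorem split_elt {T : Subgroup G} (hT : IsMulCommutative T) (h3 : ∀ a ∈ T, a ^ 3 = 1) {u v : G}
    (hu : u ∈ 𝐍(T)) (hv : v ∈ 𝐍(T)) (uu : u * u = 1) (vv : v * v = 1) (uv : u * v = v * u)
    (hc : u ∉ 𝐂(T)) : ∃ a ∈ T, a ≠ 1 ∧ u * a * u⁻¹ = a⁻¹ ∧ ∃ s, (s = v ∨ s = u * v) ∧
      s * a * s⁻¹ = a := by
  have cm : ∀ x ∈ T, ∀ y ∈ T, x * y = y * x := fun x hx y hy =>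
    congrArg Subtype.val (hT.is_comm.comm ⟨x, hx⟩ ⟨y, hy⟩)
  have ui : u⁻¹ = u := inv_eq_of_mul_eq_one_right uu
  have vi : v⁻¹ = v := inv_eq_of_mul_eq_one_right vv
  obtain ⟨t, ht, htu⟩ : ∃ t ∈ T, t * u ≠ u * t := by
    by_contra hh
    push Not at hh
    exact hc (mem_centralizer_iff.2 hh)
  have ht' : u * t * u⁻¹ ∈ T := (mem_normalizer_iff.1 hu t).1 ht
  obtain ⟨a, ha, a1, au⟩ : ∃ a ∈ T, a ≠ 1 ∧ u * a * u⁻¹ = a⁻¹ := by
    refine ⟨t * (u * t * u⁻¹)⁻¹, T.mul_mem ht (T.inv_mem ht'), fun e => htu ?_, ?_⟩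
    · rw [mul_inv_eq_one] at e
      conv_lhs => rw [e]
      group
    · have e1 : u * (t * (u * t * u⁻¹)⁻¹) * u⁻¹ = (u * t * u⁻¹) * ((u * u) * t⁻¹ * (u * u)⁻¹) := by
        group
      rw [e1, uu, mul_inv_rev, inv_inv]
      group
  have ha' : v * a * v⁻¹ ∈ T := (mem_normalizer_iff.1 hv a).1 ha
  by_cases e : a * (v * a * v⁻¹) = 1
  · refine ⟨a, ha, a1, au, u * v, Or.inr rfl, ?_⟩
    have e2 : v * a * v⁻¹ = a⁻¹ := (inv_eq_of_mul_eq_one_right e).symm
    have : u * v * a * (u * v)⁻¹ = u * (v * a * v⁻¹) * u⁻¹ := by group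
    rw [this, e2, ← conj_inv, au, inv_inv]
  · refine ⟨a * (v * a * v⁻¹), T.mul_mem ha ha', e, ?_, v, Or.inl rfl, ?_⟩
    · have e1 : u * (a * (v * a * v⁻¹)) * u⁻¹ =
          (u * a * u⁻¹) * ((u * v) * a * (u * v)⁻¹) := by group
      have e2 : (v * u) * a * (v * u)⁻¹ = v * (u * a * u⁻¹) * v⁻¹ := by group
      rw [e1, uv, e2, au, mul_inv_rev, ← conj_inv]
      exact cm _ (T.inv_mem ha) _ (by simpa using T.inv_mem ha')
    · have e1 : v * (a * (v * a * v⁻¹)) * v⁻¹ = (v * a * v⁻¹) * ((v * v) * a * (v * v)⁻¹) := by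
        group
      rw [e1, vv, one_mul, inv_one, mul_one]
      exact cm _ ha' _ ha

theorem ker_aux : ∀ e : DD, e ≠ 1 → ∃ x : DD, e * x * e⁻¹ * x⁻¹ = aa ∨
    (e * x * e⁻¹ * x⁻¹) * (e * x * e⁻¹ * x⁻¹) = aa ∨ e * x * e⁻¹ * x⁻¹ = bb ∨
    (e * x * e⁻¹ * x⁻¹) * (e * x * e⁻¹ * x⁻¹) = bb := by decide +kernel

theorem sq_aux : ∀ d : DD, (d * d) ^ 3 = 1 := by decide +kernel

theorem setup [Finite G] (T : Sylow 3 G) (hT : IsElementaryAbelian 3 (T : Subgroup G))
    (hcard : Nat.card T = 9) (hC : 𝐂((T : Subgroup G)) = T)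
    [hn : ((T : Subgroup G).subgroupOf 𝐍((T : Subgroup G))).Normal]
    (hK : IsKleinFour (𝐍((T : Subgroup G)) ⧸ (T : Subgroup G).subgroupOf 𝐍((T : Subgroup G))))
    (hloc : ∀ t ∈ (T : Subgroup G), t ≠ 1 → 𝐂[t] ≤ 𝐍((T : Subgroup G))) :
    ∃ ι : DD →* G, Hyp ι ∧ ι.range = 𝐍((T : Subgroup G)) := by
  classical
  haveI : Fact (Nat.Prime 3) := ⟨Nat.prime_three⟩
  set N := 𝐍((T : Subgroup G)) with hN
  have hTN : (T : Subgroup G) ≤ N := le_normalizer
  have cm : ∀ x ∈ (T : Subgroup G), ∀ y ∈ (T : Subgroup G), x * y = y * x := fun x hx y hy =>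
    congrArg Subtype.val (hT.1.is_comm.comm ⟨x, hx⟩ ⟨y, hy⟩)
  have hc9 : Nat.card (T : Subgroup G) = 9 := hcard
  have hri : (T : Subgroup G).relIndex N = 4 := hK.card_four
  have hN36 : Nat.card N = 36 := by
    rw [← H1.card_mul_relIndex hTN, hc9, hri]
  have sqT : ∀ x ∈ N, x * x ∈ (T : Subgroup G) := by
    intro x hx
    have := IsKleinFour.mul_self (G := N ⧸ (T : Subgroup G).subgroupOf N) (⟨x, hx⟩ : N)
    rw [← QuotientGroup.mk_mul, QuotientGroup.eq_one_iff] at this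
    exact this
  obtain ⟨V, hV⟩ := exists_isSyl Nat.prime_two N
  have hV4 : Nat.card V = 4 := by
    rw [hV.card_eq_pow_factorization Nat.prime_two, hN36]
    have : (36 : ℕ).factorization 2 = 2 := by
      rw [show (36 : ℕ) = 2 ^ 2 * 9 by norm_num, Nat.factorization_mul (by norm_num) (by norm_num),
        Nat.factorization_pow]
      simp [Nat.prime_two.factorization,
        Nat.factorization_eq_zero_of_not_dvd (show ¬ 2 ∣ 9 by norm_num)]
    rw [this]; norm_num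
  have VT : ∀ x ∈ V, x ∈ (T : Subgroup G) → x = 1 := by
    intro x hx hx'
    have h1 := V.orderOf_dvd_natCard hx
    have h2 := (T : Subgroup G).orderOf_dvd_natCard hx'
    rw [hV4] at h1
    rw [hc9] at h2
    exact orderOf_eq_one_iff.1 (Nat.eq_one_of_dvd_coprimes (by norm_num) h1 h2)
  have sqV : ∀ x ∈ V, x * x = 1 := fun x hx => VT _ (V.mul_mem hx hx) (sqT x (hV.le hx))
  have cmV : ∀ x ∈ V, ∀ y ∈ V, x * y = y * x := by
    intro x hx y hy
    have := sqV _ (V.mul_mem hx hy)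
    rw [← inv_eq_of_mul_eq_one_right this, mul_inv_rev, inv_eq_of_mul_eq_one_right (sqV x hx),
      inv_eq_of_mul_eq_one_right (sqV y hy)]
  have ncV : ∀ x ∈ V, x ≠ 1 → x ∉ 𝐂((T : Subgroup G)) := fun x hx h1 h2 => h1 (VT x hx (hC ▸ h2))
  obtain ⟨u, hu, u1, v, hv, v1, uv⟩ : ∃ u ∈ V, u ≠ 1 ∧ ∃ v ∈ V, v ≠ 1 ∧ u ≠ v := by
    have := Fintype.ofFinite V
    have h4 : 2 < (Finset.univ.erase (1 : V)).card := by
      rw [Finset.card_erase_of_mem (Finset.mem_univ _), Finset.card_univ, ← Nat.card_eq_fintype_card,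
        hV4]
      norm_num
    obtain ⟨u, hu, v, hv, uv⟩ := Finset.one_lt_card.1 (lt_trans (by norm_num) h4)
    exact ⟨u, u.2, fun e => (Finset.mem_erase.1 hu).1 (Subtype.ext e), v, v.2,
      fun e => (Finset.mem_erase.1 hv).1 (Subtype.ext e), fun e => uv (Subtype.ext e)⟩
  obtain ⟨a, ha, a1, ua, s, hs, sa⟩ := split_elt hT.1 hT.2 (hV.le hu) (hV.le hv) (sqV u hu)
    (sqV v hv) (cmV u hu v hv) (ncV u hu u1)
  have sV : s ∈ V := by rcases hs with rfl | rfl; exacts [hv, V.mul_mem hu hv]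
  have s1 : s ≠ 1 := by
    rcases hs with rfl | rfl
    · exact v1
    · intro e
      exact uv (by rw [← inv_eq_of_mul_eq_one_right e, inv_eq_of_mul_eq_one_right (sqV u hu)])
  obtain ⟨b, hb, b1, sb, q, hq, qb⟩ := split_elt hT.1 hT.2 (hV.le sV) (hV.le hu) (sqV s sV)
    (sqV u hu) (cmV s sV u hu) (ncV s sV s1)
  have qV : q ∈ V := by rcases hq with rfl | rfl; exacts [hu, V.mul_mem sV hu]
  have qa : q * a * q⁻¹ = a⁻¹ := by
    rcases hq with rfl | rfl
    · exact ua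
    · have : s * u * a * (s * u)⁻¹ = s * (u * a * u⁻¹) * s⁻¹ := by group
      rw [this, ua, ← conj_inv, sa]
  have oa : orderOf a = 3 := orderOf_eq_prime (hT.2 a ha) a1
  have ob : orderOf b = 3 := orderOf_eq_prime (hT.2 b hb) b1
  obtain ⟨f1, f1a, f1q⟩ := exists_hom oa (sqV q qV) qa
  obtain ⟨f2, f2b, f2s⟩ := exists_hom ob (sqV s sV) sb
  have hcomm : ∀ x y, Commute (f1 x) (f2 y) := by
    intro x y
    refine d3_gen (fun x => Commute (f1 x) (f2 y)) (by simp) ?_ ?_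
      (fun x x' h h' => by simpa using h.mul_left h') x
    · refine d3_gen (fun y => Commute (f1 (r 1)) (f2 y)) (by simp) ?_ ?_
        (fun x x' h h' => by simpa using h.mul_right h') y
      · rw [f1a, f2b]; exact cm a ha b hb
      · rw [f1a, f2s]; exact (mul_inv_eq_iff_eq_mul.1 sa).symm
    · refine d3_gen (fun y => Commute (f1 (sr 0)) (f2 y)) (by simp) ?_ ?_
        (fun x x' h h' => by simpa using h.mul_right h') y
      · rw [f1q, f2b]; exact mul_inv_eq_iff_eq_mul.1 qb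
      · rw [f1q, f2s]; exact cmV q qV s sV
  let ι : DD →* G := f1.noncommCoprod f2 hcomm
  have ιa : ι aa = a := by simp [ι, aa, f1a]
  have ιb : ι bb = b := by simp [ι, bb, f2b]
  have inj : Function.Injective ι := by
    rw [injective_iff_map_eq_one]
    intro e he
    by_contra e1
    obtain ⟨x, hx⟩ := ker_aux e e1
    have h0 : ι (e * x * e⁻¹ * x⁻¹) = 1 := by simp [he]
    rcases hx with hx | hx | hx | hx
    · exact a1 (by rw [← ιa, ← hx, h0])
    · exact a1 (by rw [← ιa, ← hx, map_mul, h0, one_mul])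
    · exact b1 (by rw [← ιb, ← hx, h0])
    · exact b1 (by rw [← ιb, ← hx, map_mul, h0, one_mul])
  have hle : ι.range ≤ N := by
    rintro _ ⟨⟨x, y⟩, rfl⟩
    have h1 : f1 x ∈ N := d3_gen (fun x => f1 x ∈ N) (by simp) (f1a ▸ hTN ha) (f1q ▸ hV.le qV)
      (fun x x' h h' => by simpa using N.mul_mem h h') x
    have h2 : f2 y ∈ N := d3_gen (fun x => f2 x ∈ N) (by simp) (f2b ▸ hTN hb) (f2s ▸ hV.le sV)
      (fun x x' h h' => by simpa using N.mul_mem h h') y
    exact N.mul_mem h1 h2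
  have hr : ι.range = N := by
    refine eq_of_le_of_card_ge hle ?_
    rw [hN36, ← Nat.card_congr (MonoidHom.ofInjective inj).toEquiv, Nat.card_prod,
      DihedralGroup.nat_card]
  have hTs : IsSyl 3 (T : Subgroup G) N := (isSyl_top_coe Nat.prime_three T).of_le hTN le_top
  have inT : ∀ x ∈ N, x ^ 3 = 1 → x ∈ (T : Subgroup G) := fun x hx h3 =>
    hTs.le_of_normal Nat.prime_three le_rfl (IsPGroup.of_card (n := if x = 1 then 0 else 1) (by
      rw [Nat.card_zpowers]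
      split_ifs with h1
      · simp [h1]
      · simpa using orderOf_eq_prime h3 h1)) (zpowers_le.2 hx) (mem_zpowers x)
  refine ⟨ι, ⟨inj, fun g d e hd he => ?_, fun P hP => ?_, fun Q hQ h3 => ?_⟩, hr⟩
  · have h1 : ι (e * e) = g * ι (d * d) * g⁻¹ := by rw [map_mul, map_mul, ← he]; group
    have h2 : ι (d * d) ∈ (T : Subgroup G) :=
      inT _ (hle ⟨_, rfl⟩) (by rw [← map_pow, sq_aux, map_one])
    have h3 : ι (e * e) ∈ (T : Subgroup G) :=
      inT _ (hle ⟨_, rfl⟩) (by rw [← map_pow, sq_aux, map_one])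
    have h4 : ι (e * e) ≠ 1 := by
      rw [h1]
      intro h5
      exact hd (inj (by rw [map_one]; simpa using h5))
    have h5 : ∀ x ∈ (T : Subgroup G), g * x * g⁻¹ ∈ (T : Subgroup G) := by
      intro x hx
      refine inT _ (hloc _ h3 h4 ?_) (by rw [conj_pow, hT.2 x hx]; simp)
      rw [mem_centralizer_singleton_iff, h1]
      have := cm _ hx _ h2
      calc _ = g * (x * ι (d * d)) * g⁻¹ := by group
        _ = _ := by rw [this]; group
    rw [hr]
    exact mem_normalizer_fintype h5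
  · obtain ⟨g, -, hg⟩ := (isSyl_top_coe Nat.prime_three T).exists_conj_le Nat.prime_three hP le_top
    refine ⟨g, fun x hx => ?_⟩
    obtain ⟨e, he⟩ := hr.ge (hTN (hg (conj_mem_conj hx g)))
    exact ⟨e, he.symm⟩
  · rw [hr]
    refine H1.le_of_forall_centralizer_le hT.1 (fun hc => ?_) (by
      rw [normalizer_eq_top]; exact le_top) ?_ (fun t ht t1 => inf_le_right.trans (hloc t ht t1))
    · obtain ⟨x, hx⟩ := hc.exists_ofOrder_eq_natCard
      have h6 : orderOf x ∣ 3 := orderOf_dvd_of_pow_eq_one (Subtype.ext (hT.2 x x.2))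
      rw [hx, hc9] at h6
      norm_num at h6
    · rw [hc9, show 9 = 3 ^ 2 by norm_num]
      exact Nat.Coprime.pow_left 2 ((Nat.prime_three.coprime_iff_not_dvd).2 h3)

end Cfsg.Agent.H7.SS
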