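/-
S3805, part 2: class functions induced from the 3-singular classes of `S₃ × S₃`.
-/
import Cfsg.Agent.H7.SS1

set_option autoImplicit false

namespace Cfsg.Agent.H7.SS

open Subgroup Cfsg Cfsg.Agent Cfsg.Agent.FT DihedralGroup
open scoped ComplexConjugate

universe u

variable {G : Type u} [Group G] {ι : DD →* G}

/-- Extension by zero. -/
noncomputable def ext (ι : DD →* G) (ψ : DD → ℤ) : G → ℂ :=
  Function.extend ι (fun d => (ψ d : ℂ)) 0

theorem ext_apply (h : Hyp ι) (ψ : DD → ℤ) (d : DD) : ext ι ψ (ι d) = ψ d :=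
  h.inj.extend_apply _ _ d

theorem ext_off (ψ : DD → ℤ) {g : G} (hg : g ∉ ι.range) : ext ι ψ g = 0 :=
  Function.extend_apply' _ _ _ hg

theorem ext_eq (h : Hyp ι) {ψ : DD → ℤ} {φ : G → ℂ} (h0 : ∀ g, g ∉ ι.range → φ g = 0)
    (h1 : ∀ d, φ (ι d) = ψ d) : ext ι ψ = φ := by
  funext g
  by_cases hg : g ∈ ι.range
  · obtain ⟨d, rfl⟩ := hg
    rw [ext_apply h, h1]
  · rw [ext_off _ hg, h0 g hg]

variable [Finite G]

theorem sum_range {M : Type*} [AddCommMonoid M] (h : Hyp ι) (F : G → M) :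
    ∑ g ∈ fs (ι.range : Set G), F g = ∑ d, F (ι d) := by
  rw [← sum_fs_bij (A := (⊤ : Subgroup DD)) (B := (ι.range : Set G)) ι
    ⟨fun d _ => ⟨d, rfl⟩, h.inj.injOn, fun _ ⟨d, hd⟩ => ⟨d, mem_top d, hd⟩⟩, sum_fs_top]

omit [Finite G] in
theorem card_range (h : Hyp ι) : Nat.card ι.range = 36 := by
  rw [← Nat.card_congr (MonoidHom.ofInjective h.inj).toEquiv, Nat.card_prod,
    DihedralGroup.nat_card]

/-- `ψ` is a virtual character. -/
def VC (ι : DD →* G) (ψ : DD → ℤ) : Prop := ext ι ψ ∈ VChar ι.range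

theorem VC.congr {ψ ψ' : DD → ℤ} (h : VC ι ψ) (e : ∀ d, ψ' d = ψ d) : VC ι ψ' := by
  rwa [funext e]

theorem vc_one (h : Hyp ι) : VC ι fun _ => 1 := by
  rw [VC, ext_eq h (φ := cf1 ι.range) (fun g hg => cf1_of_notMem hg)
    fun d => by rw [cf1_of_mem (H := ι.range) ⟨d, rfl⟩]; simp]
  exact cf1_mem_VChar _

theorem VC.add (h : Hyp ι) {ψ ψ' : DD → ℤ} (h1 : VC ι ψ) (h2 : VC ι ψ') :
    VC ι fun d => ψ d + ψ' d := by
  rw [VC, ext_eq h (φ := ext ι ψ + ext ι ψ') (fun g hg => by simp [ext_off _ hg])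
    fun d => by simp [ext_apply h]]
  exact add_mem h1 h2

theorem VC.sub (h : Hyp ι) {ψ ψ' : DD → ℤ} (h1 : VC ι ψ) (h2 : VC ι ψ') :
    VC ι fun d => ψ d - ψ' d := by
  rw [VC, ext_eq h (φ := ext ι ψ - ext ι ψ') (fun g hg => by simp [ext_off _ hg])
    fun d => by simp [ext_apply h]]
  exact sub_mem h1 h2

theorem VC.mul (h : Hyp ι) {ψ ψ' : DD → ℤ} (h1 : VC ι ψ) (h2 : VC ι ψ') :
    VC ι fun d => ψ d * ψ' d := by
  rw [VC, ext_eq h (φ := ext ι ψ * ext ι ψ') (fun g hg => by simp [ext_off _ hg])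
    fun d => by simp [ext_apply h]]
  exact vchar_mul h1 h2

theorem vc_perm (h : Hyp ι) (H : Subgroup DD) [DecidablePred (· ∈ H)] {ψ : DD → ℤ}
    (e : ∀ d, ((Finset.univ.filter fun x : DD => x⁻¹ * d * x ∈ H).card : ℤ) =
      (Finset.univ.filter fun x : DD => x ∈ H).card * ψ d) : VC ι ψ := by
  classical
  have hc : Nat.card (H.map ι) = (Finset.univ.filter fun x : DD => x ∈ H).card := by
    rw [card_map_of_injective h.inj, Nat.card_eq_fintype_card, Fintype.card_subtype]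
  rw [VC, ext_eq h (φ := ind ι.range (H.map ι) (cf1 (H.map ι)))
    (fun g hg => ind_of_notMem _ _ hg) fun d => ?_]
  · exact vchar_ind (map_le_range _ _) (cf1_mem_VChar _)
  · rw [ind_of_mem (L := ι.range) _ _ ⟨d, rfl⟩, sum_range h, res_cf1 le_rfl,
      Finset.sum_congr rfl (g := fun x : DD => if x⁻¹ * d * x ∈ H then (1 : ℂ) else 0)
        fun x _ => ?_, Finset.sum_boole, inv_mul_eq_iff_eq_mul₀ (card_ne_zero_C _), hc]
    · exact_mod_cast e d
    · rw [← map_inv, ← map_mul, ← map_mul]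
      split_ifs with hx
      · exact cf1_of_mem (mem_map_of_mem _ hx)
      · exact cf1_of_notMem fun h1 => hx ((mem_map_iff_mem h.inj).1 h1)

def K2 : Subgroup D3 where
  carrier := {x | x = 1 ∨ x = sr 0}
  mul_mem' := by intro a b; simp only [Set.mem_setOf_eq]; revert a b; decide
  one_mem' := Or.inl rfl
  inv_mem' := by intro a; simp only [Set.mem_setOf_eq]; revert a; decide

def K3 : Subgroup D3 where
  carrier := {x | x * x * x = 1}
  mul_mem' := by intro a b; simp only [Set.mem_setOf_eq]; revert a b; decide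
  one_mem' := by simp
  inv_mem' := by intro a; simp only [Set.mem_setOf_eq]; revert a; decide

def p2 (x : D3) : ℤ := if x = 1 then 3 else if x * x = 1 then 1 else 0
def p3 (x : D3) : ℤ := if x * x * x = 1 then 2 else 0
def th (x : D3) : ℤ := if x * x = 1 then 0 else 3

instance : DecidablePred (· ∈ K2) := fun x => inferInstanceAs (Decidable (x = 1 ∨ x = sr 0))
instance : DecidablePred (· ∈ K3) := fun x => inferInstanceAs (Decidable (x * x * x = 1))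
instance (K : Subgroup D3) [DecidablePred (· ∈ K)] :
    DecidablePred (· ∈ K.comap (MonoidHom.fst D3 D3)) :=
  fun x => inferInstanceAs (Decidable (x.1 ∈ K))
instance (K : Subgroup D3) [DecidablePred (· ∈ K)] :
    DecidablePred (· ∈ K.comap (MonoidHom.snd D3 D3)) :=
  fun x => inferInstanceAs (Decidable (x.2 ∈ K))

theorem vc21 (h : Hyp ι) : VC ι fun d => p2 d.1 :=
  vc_perm h (K2.comap (MonoidHom.fst D3 D3)) (by decide +kernel)
theorem vc22 (h : Hyp ι) : VC ι fun d => p2 d.2 :=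
  vc_perm h (K2.comap (MonoidHom.snd D3 D3)) (by decide +kernel)
theorem vc31 (h : Hyp ι) : VC ι fun d => p3 d.1 :=
  vc_perm h (K3.comap (MonoidHom.fst D3 D3)) (by decide +kernel)
theorem vc32 (h : Hyp ι) : VC ι fun d => p3 d.2 :=
  vc_perm h (K3.comap (MonoidHom.snd D3 D3)) (by decide +kernel)

def C0 (d : DD) : ℤ := th d.1
def R0 (d : DD) : ℤ := th d.2
def R1 (d : DD) : ℤ := (p3 d.1 - 1) * th d.2
def R2 (d : DD) : ℤ := (1 - p2 d.1) * th d.2
def Pb (d : DD) : ℤ := if d = 1 ∨ d = bb ∨ d = bb⁻¹ then 12 else 0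
def Pr (d : DD) : ℤ := if d = 1 then 18 else if d.2 = 1 ∧ d * d = 1 then 6 else 0

theorem vcC0 (h : Hyp ι) : VC ι C0 :=
  (((vc_one h).add h (vc31 h)).sub h (vc21 h)).congr (by decide +kernel)
theorem vcR0 (h : Hyp ι) : VC ι R0 :=
  (((vc_one h).add h (vc32 h)).sub h (vc22 h)).congr (by decide +kernel)
theorem vcR1 (h : Hyp ι) : VC ι R1 :=
  (((vc31 h).sub h (vc_one h)).mul h (vcR0 h)).congr (by decide +kernel)
theorem vcR2 (h : Hyp ι) : VC ι R2 :=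
  (((vc_one h).sub h (vc21 h)).mul h (vcR0 h)).congr (by decide +kernel)
theorem vcPb (h : Hyp ι) : VC ι Pb :=
  ((((vc31 h).add h (((vc21 h).sub h (vc_one h)).add h ((vc21 h).sub h (vc_one h))))).mul h
    (vc32 h)).congr (by decide +kernel)
theorem vcPr (h : Hyp ι) : VC ι Pr :=
  ((((vc32 h).add h (((vc22 h).sub h (vc_one h)).add h ((vc22 h).sub h (vc_one h))))).mul h
    (vc21 h)).congr (by decide +kernel)

/-- The induced class function. -/
noncomputable def up (ι : DD →* G) (ψ : DD → ℤ) : G → ℂ := ind ⊤ ι.range (ext ι ψ)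

theorem VC.up {ψ : DD → ℤ} (h : VC ι ψ) : up ι ψ ∈ VChar (⊤ : Subgroup G) := vchar_ind le_top h

theorem ip_up (h : Hyp ι) {χ : G → ℂ} (hχ : χ ∈ CF (⊤ : Subgroup G)) (ψ : DD → ℤ) :
    36 * ip ⊤ χ (up ι ψ) = ∑ d, χ (ι d) * ψ d := by
  rw [up, ip_ind_right le_top hχ, ip_def, card_range h, sum_range h, ← mul_assoc]
  simp [ext_apply h]

/-- The 3-singular elements. -/
def Sing (ι : DD →* G) : Set G := {g | g ∈ ι.range ∧ g * g ≠ 1}

omit [Finite G] in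
theorem ti (h : Hyp ι) : NormedTI (Sing ι) ⊤ ι.range := by
  refine ⟨⟨ι aa, ⟨aa, rfl⟩, fun e => ?_⟩, fun e => e.2 (by simp), fun g hg => hg.1, le_top,
    fun g hg a ha => ⟨mul_mem (mul_mem hg ha.1) (inv_mem hg), fun e => ha.2 ?_⟩, ?_⟩
  · rw [← map_mul, ← ι.map_one] at e
    exact absurd (h.inj e) (by decide)
  · rwa [conj_mul, conj_eq_one_iff] at e
  · rintro g - _ ⟨⟨d, rfl⟩, hd⟩ ⟨⟨e, he⟩, -⟩
    exact h.ti g d e (fun e1 => hd (by rw [← map_mul, e1, map_one])) he.symm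

/-- Supported on the 3-singular elements. -/
def Sup (ψ : DD → ℤ) : Prop := ∀ d, d * d = 1 → ψ d = 0

instance (ψ : DD → ℤ) : Decidable (Sup ψ) := inferInstanceAs (Decidable (∀ _, _))

theorem ext_on (h : Hyp ι) {ψ : DD → ℤ} (h1 : VC ι ψ) (h2 : Sup ψ) :
    ext ι ψ ∈ CFon ι.range (Sing ι) := by
  refine mem_CFon_of (vchar_mem_CF h1) ?_
  rintro _ ⟨d, rfl⟩ hd
  rw [ext_apply h, h2 d (h.inj ?_), Int.cast_zero]
  by_contra e
  exact hd ⟨⟨d, rfl⟩, by simpa using e⟩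

theorem up_inv (h : Hyp ι) {ψ : DD → ℤ} (h1 : VC ι ψ) (h2 : Sup ψ) {g : G} (hg : g * g = 1) :
    up ι ψ g = 0 := by
  refine ind_apply_eq_zero fun x _ _ => CFon_off (ext_on h h1 h2) fun e => e.2 ?_
  have : x⁻¹ * g * x * (x⁻¹ * g * x) = x⁻¹ * (g * g) * x := by group
  rw [this, hg]; simp

theorem up_apply (h : Hyp ι) {ψ : DD → ℤ} (h1 : VC ι ψ) (h2 : Sup ψ) (d : DD) :
    up ι ψ (ι d) = ψ d := by
  by_cases hd : d * d = 1
  · rw [up_inv h h1 h2 (by rw [← map_mul, hd, map_one]), h2 d hd, Int.cast_zero]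
  · rw [up, (ti h).ind_apply (ext_on h h1 h2) ⟨⟨d, rfl⟩, fun e => hd (h.inj (by simpa using e))⟩,
      ext_apply h]

theorem ip_up_up (h : Hyp ι) {ψ : DD → ℤ} (h1 : VC ι ψ) (h2 : Sup ψ) (ψ' : DD → ℤ) {n : ℤ}
    (e : ∑ d, ψ d * ψ' d = 36 * n) : ip ⊤ (up ι ψ) (up ι ψ') = n := by
  have := ip_up h (vchar_mem_CF h1.up) ψ'
  simp only [up_apply h h1 h2] at this
  have e' : (∑ d, (ψ d : ℂ) * ψ' d) = 36 * n := by exact_mod_cast e
  rw [e'] at this
  exact mul_left_cancel₀ (by norm_num) this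

theorem ip_up_one (h : Hyp ι) {ψ : DD → ℤ} (h1 : VC ι ψ) {n : ℤ}
    (e : ∑ d, ψ d = 36 * n) : ip ⊤ (up ι ψ) (cf1 ⊤) = n := by
  have := ip_up h (cf1_mem_CF ⊤) ψ
  simp only [cf1_top_apply, one_mul] at this
  have e' : (∑ d, (ψ d : ℂ)) = 36 * n := by exact_mod_cast e
  rw [e'] at this
  exact ip_comm_of_int (mul_left_cancel₀ (by norm_num) this)

/-- The class multiplication sum. -/
noncomputable def Fs (t : G) (φ : G → ℂ) : ℂ :=
  ∑ a ∈ fs ((⊤ : Subgroup G) : Set G), φ (a * t * a⁻¹ * t)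

theorem Fs_up (h : Hyp ι) {ψ : DD → ℤ} (h2 : Sup ψ) {t : G} (ht : t * t = 1)
    (K : Finset DD) (hK : ∀ e, e ∈ K ↔ IsConj t (ι e)) :
    36 * Fs t (up ι ψ) = (Nat.card 𝐂[t] : ℂ) ^ 2 * ((∑ e ∈ K, ∑ e' ∈ K, ψ (e * e') : ℤ) : ℂ) := by
  classical
  have e1 : 36 * Fs t (up ι ψ) = ∑ x ∈ fs ((⊤ : Subgroup G) : Set G),
      ∑ a ∈ fs ((⊤ : Subgroup G) : Set G), ext ι ψ (a * t * a⁻¹ * (x * t * x⁻¹)) := by
    rw [Fs, Finset.mul_sum, sum_fs_congr (g := fun a => ∑ x ∈ fs ((⊤ : Subgroup G) : Set G),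
      ext ι ψ (x⁻¹ * (a * t * a⁻¹ * t) * x)) fun a _ => ?_, Finset.sum_comm,
      ← sum_fs_inv ⊤ (fun x => ∑ a ∈ fs ((⊤ : Subgroup G) : Set G),
        ext ι ψ (a * t * a⁻¹ * (x * t * x⁻¹)))]
    · refine sum_fs_congr fun x _ => ?_
      rw [← sum_fs_mul_left (mem_top x⁻¹) (fun a => ext ι ψ (a * t * a⁻¹ * (x⁻¹ * t * x⁻¹⁻¹)))]
      refine sum_fs_congr fun a _ => ?_
      congr 1; group
    · rw [up, ind_of_mem _ _ (mem_top _), card_range h, res_eq_self fun _ => ext_off _,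
        ← mul_assoc]
      norm_num
  have hcl : ∀ F : G → ℂ, (∀ j, IsConj t j → j ∉ ι.range → F j = 0) →
      ∑ j ∈ fs (classSupp {t} (⊤ : Subgroup G)), F j = ∑ e ∈ K, F (ι e) := by
    intro F hF
    have m : ∀ j, j ∈ classSupp {t} (⊤ : Subgroup G) ↔ IsConj t j := fun j => by
      rw [CH1.mem_class, isConj_iff]
      exact ⟨fun ⟨g, _, hg⟩ => ⟨g, hg⟩, fun ⟨g, hg⟩ => ⟨g, mem_top g, hg⟩⟩
    rw [← Finset.sum_image (s := K) (g := ι) (f := F) h.inj.injOn]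
    symm
    refine Finset.sum_subset (fun j hj => ?_) fun j hj hj' => hF j ((m j).1 (mem_fs.1 hj)) ?_
    · obtain ⟨e, he, rfl⟩ := Finset.mem_image.1 hj
      exact mem_fs.2 ((m _).2 ((hK e).1 he))
    · rintro ⟨e, rfl⟩
      exact hj' (Finset.mem_image_of_mem _ ((hK e).2 ((m _).1 (mem_fs.1 hj))))
  have sq : ∀ j, IsConj t j → j * j = 1 := by
    intro j hj
    obtain ⟨g, rfl⟩ := isConj_iff.1 hj
    rw [conj_mul, ht]; simp
  have van : ∀ j j', IsConj t j → IsConj t j' → (j ∉ ι.range ∨ j' ∉ ι.range) →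
      ext ι ψ (j * j') = 0 := by
    intro j j' hj hj' hn
    by_cases hr : j * j' ∈ ι.range
    · obtain ⟨d, hd⟩ := hr
      rw [← hd, ext_apply h, h2 d, Int.cast_zero]
      by_contra hd2
      have h3 : j ∈ ι.range := h.ti j d d⁻¹ hd2 (by
        rw [map_inv, hd, mul_inv_rev, inv_eq_of_mul_eq_one_right (sq j hj),
          inv_eq_of_mul_eq_one_right (sq j' hj'), ← mul_assoc, sq j hj, one_mul])
      rcases hn with hn | hn
      · exact hn h3
      · exact hn (by simpa using mul_mem (inv_mem h3) (hd ▸ ⟨d, rfl⟩ : j * j' ∈ ι.range))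
    · exact ext_off _ hr
  have m' : ∀ j ∈ classSupp {t} (⊤ : Subgroup G), IsConj t j := fun j hj => by
    obtain ⟨g, -, rfl⟩ := CH1.mem_class.1 hj
    exact isConj_iff.2 ⟨g, rfl⟩
  rw [e1, CH1.sum_fs_conj_class ⊤ t fun v => ∑ a ∈ fs ((⊤ : Subgroup G) : Set G),
      ext ι ψ (a * t * a⁻¹ * v),
    sum_fs_congr fun v _ => CH1.sum_fs_conj_class ⊤ t fun u => ext ι ψ (u * v),
    ← Finset.smul_sum, Finset.sum_comm, nsmul_eq_mul, nsmul_eq_mul, top_inf_eq,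
    hcl _ fun j hj hn => Finset.sum_eq_zero fun j' hj' =>
      van j j' hj (m' j' (mem_fs.1 hj')) (Or.inl hn),
    Finset.sum_congr rfl fun e he => hcl _ fun j' hj' hn =>
      van _ j' ((hK e).1 he) hj' (Or.inr hn)]
  simp only [← map_mul, ext_apply h]
  push_cast
  ring

theorem Fs_three {t : G} {x y : G → ℂ} (hx : Dirr ⊤ x) (hy : Dirr ⊤ y)
    (h1 : 1 + x 1 + y 1 = 0) (ht : 1 + x t + y t = 0) :
    x 1 * (1 + x 1) * Fs t (cf1 ⊤ + x + y) = Nat.card G * (x t - x 1) ^ 2 := by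
  have h4 := P1.BS.dirr_sum_conj_mul (t := t) hx
  have h5 := P1.BS.dirr_sum_conj_mul (t := t) hy
  simp only [Fs, Pi.add_apply, cf1_top_apply, Finset.sum_add_distrib, sum_fs_const, nsmul_eq_mul]
  rw [card_top] at h4 h5 ⊢
  have e1 : y 1 = -(1 + x 1) := by linear_combination h1
  have e2 : y t = -(1 + x t) := by linear_combination ht
  rw [e1, e2] at h5
  linear_combination (1 + x 1) * h4 - x 1 * h5

theorem mem_cfKer_of {x : G → ℂ} (hx : Dirr ⊤ x) {t : G} (e : x t = x 1) : t ∈ cfKer x := by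
  rcases hx with h | h
  · exact (irr_isChar h).mem_cfKer_iff.2 e
  · rw [← cfKer_neg]
    exact (irr_isChar h).mem_cfKer_iff.2 (by simp [e])

theorem normal_cfKer {x : G → ℂ} (hx : Dirr ⊤ x) : (cfKer x).Normal :=
  normalizer_eq_top_iff.mp (top_le_iff.mp (le_norm_cfKer hx.mem_CF))

theorem key (h : Hyp ι) {ψ : DD → ℤ} (h1 : VC ι ψ) (h2 : Sup ψ) {t : G} (ht : t * t = 1)
    (K : Finset DD) (hK : ∀ e, e ∈ K ↔ IsConj t (ι e)) (h0 : ∑ e ∈ K, ∑ e' ∈ K, ψ (e * e') = 0)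
    {x y : G → ℂ} (hx : Dirr ⊤ x) (hy : Dirr ⊤ y) (e : up ι ψ = cf1 ⊤ + x + y) :
    t ∈ cfKer x ⊓ cfKer y := by
  have e1 := up_inv h h1 h2 (mul_one 1)
  have e2 := up_inv h h1 h2 ht
  simp only [e, Pi.add_apply, cf1_top_apply] at e1 e2
  have e3 := Fs_three hx hy e1 e2
  have e4 := Fs_up h h2 ht K hK
  rw [h0, Int.cast_zero, mul_zero, mul_eq_zero_iff_left (by norm_num), e] at e4
  rw [e4, mul_zero, eq_comm, mul_eq_zero_iff_left (Nat.cast_ne_zero.2 Nat.card_pos.ne'),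
    sq_eq_zero_iff, sub_eq_zero] at e3
  exact mem_inf.2 ⟨mem_cfKer_of hx e3, mem_cfKer_of hy (by linear_combination e2 - e1 - e3)⟩

end Cfsg.Agent.H7.SS
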