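/-
S3805, part 3: the main argument.
-/
import Cfsg.Agent.H7.SS2

set_option autoImplicit false

namespace Cfsg.Agent.H7.SS

open Subgroup Cfsg Cfsg.Agent Cfsg.Agent.FT DihedralGroup
open scoped ComplexConjugate

universe u

theorem arith {X K : ℤ} (h : 8 * K ^ 2 = 9 * (X * (X + 1))) (h3 : X % 3 = 1) : False := by
  obtain ⟨k, rfl⟩ : 3 ∣ K := by
    have : (3 : ℤ) ∣ 8 * K ^ 2 := ⟨3 * (X * (X + 1)), by linarith⟩
    rcases Int.prime_three.dvd_or_dvd this with h1 | h1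
    · norm_num at h1
    · exact Int.prime_three.dvd_of_dvd_pow h1
  have h1 : X * (X + 1) = 8 * k ^ 2 := by nlinarith
  have m3 : ∀ n : ℤ, n ^ 2 % 3 = 0 ∨ n ^ 2 % 3 = 1 := fun n => by
    rcases (by omega : n % 3 = 0 ∨ n % 3 = 1 ∨ n % 3 = 2) with e | e | e <;>
      simp [pow_two, Int.mul_emod, e]
  have m4 : ∀ n : ℤ, n ^ 2 % 4 = 0 ∨ n ^ 2 % 4 = 1 := fun n => by
    rcases (by omega : n % 4 = 0 ∨ n % 4 = 1 ∨ n % 4 = 2 ∨ n % 4 = 3) with e | e | e | e <;>
      simp [pow_two, Int.mul_emod, e]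
  rcases Int.even_or_odd' X with ⟨Y, rfl | rfl⟩
  · have h2 : (2 * Y + 1) * Y = (2 * k) ^ 2 := by nlinarith
    have hY : Y % 2 = 0 := by
      have : Y = 2 * (2 * k ^ 2 - Y ^ 2) := by nlinarith
      omega
    obtain ⟨n, hn | hn⟩ := Int.sq_of_isCoprime (⟨1, -2, by ring⟩ : IsCoprime (2 * Y + 1) Y) h2
    · have := m3 n; omega
    · have := m4 n; omega
  · have h2 : (2 * Y + 1) * (Y + 1) = (2 * k) ^ 2 := by nlinarith
    have hY : Y % 2 = 1 := by
      have : Y + 1 = 2 * (2 * k ^ 2 - Y ^ 2 - Y) := by nlinarith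
      omega
    obtain ⟨n, hn | hn⟩ := Int.sq_of_isCoprime
      (⟨-1, 2, by ring⟩ : IsCoprime (2 * Y + 1) (Y + 1)) h2
    · have := m4 n; omega
    · have := m3 n; omega

theorem sum_hom {X Q : Type*} [Group X] [Group Q] [Fintype X] [Fintype Q] (f : X →* Q)
    (hf : Function.Surjective f) (F : Q → ℂ) :
    Fintype.card Q * ∑ x, F (f x) = Fintype.card X * ∑ q, F q := by
  classical
  have h1 : ∀ q, (Finset.univ.filter fun x => f x = q).card =
      (Finset.univ.filter fun x => f x = 1).card := fun q =>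
    MonoidHom.card_fiber_eq_of_mem_range f (hf q) ⟨1, map_one f⟩
  have h2 : ∀ F : Q → ℂ, ∑ x, F (f x) =
      (Finset.univ.filter fun x => f x = 1).card * ∑ q, F q := by
    intro F
    rw [← Finset.sum_fiberwise (s := Finset.univ) (g := f), Finset.mul_sum]
    refine Finset.sum_congr rfl fun q _ => ?_
    rw [Finset.sum_congr rfl fun x hx => by rw [(Finset.mem_filter.1 hx).2], Finset.sum_const, h1,
      nsmul_eq_mul]
  have h3 := h2 fun _ => 1
  simp only [Finset.sum_const, Finset.card_univ, nsmul_eq_mul, mul_one] at h3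
  rw [h2, h3]; ring

variable {G : Type u} [Group G] {ι : DD →* G}

theorem isConj_ι (ι : DD →* G) {d e : DD} (h : ∃ x, x * d * x⁻¹ = e) : IsConj (ι d) (ι e) := by
  obtain ⟨x, rfl⟩ := h
  exact isConj_iff.2 ⟨ι x, by simp⟩

theorem invol_cases : ∀ e : DD, e * e = 1 → e ≠ 1 → (∃ x, x * rr * x⁻¹ = e) ∨
    (∃ x, x * ss * x⁻¹ = e) ∨ ∃ x, x * (rr * ss) * x⁻¹ = e := by decide +kernel

theorem invol_of_isConj (h : Hyp ι) {d e : DD} (h1 : d * d = 1) (h2 : d ≠ 1)
    (hc : IsConj (ι d) (ι e)) : e * e = 1 ∧ e ≠ 1 := by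
  obtain ⟨g, hg⟩ := isConj_iff.1 hc
  refine ⟨h.inj ?_, fun e1 => h2 (h.inj ?_)⟩
  · rw [map_mul, ← hg, conj_mul, ← map_mul, h1]; simp
  · rw [e1, map_one, conj_eq_one_iff] at hg
    rw [hg, map_one]

variable [Finite G]

theorem conj_into (h : Hyp ι) {L : Subgroup G} {d : DD} (hd1 : d * d ≠ 1) (hd3 : d ^ 3 = 1)
    (hL : ι d ∈ L) {x : G} (hx : x ∈ L) (hx3 : x ^ 3 = 1) : ∃ k ∈ L, ∃ e, k * x * k⁻¹ = ι e := by
  haveI : Fact (Nat.Prime 3) := ⟨Nat.prime_three⟩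
  have pg : ∀ y : G, y ^ 3 = 1 → IsPGroup 3 (zpowers y) := by
    rintro y hy ⟨_, n, rfl⟩
    refine ⟨1, Subtype.ext ?_⟩
    simp only [pow_one, SubgroupClass.coe_pow, OneMemClass.coe_one]
    rw [← zpow_natCast, ← zpow_mul, mul_comm, zpow_mul, zpow_natCast, hy, one_zpow]
  obtain ⟨P, hP, hdP⟩ := exists_isSyl_ge Nat.prime_three
    (pg (ι d) (by rw [← map_pow, hd3, map_one])) (zpowers_le.2 hL)
  obtain ⟨g, hg⟩ := h.syl P hP.pgrp
  obtain ⟨e, he⟩ := hg _ (hdP (mem_zpowers _))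
  obtain ⟨n, rfl⟩ := h.ti g d e hd1 he
  obtain ⟨k, hk, hkP⟩ := hP.exists_conj_le Nat.prime_three (pg x hx3) (zpowers_le.2 hx)
  obtain ⟨e', he'⟩ := hg _ (hkP (conj_mem_conj (mem_zpowers x) k))
  refine ⟨k, hk, n⁻¹ * e' * n, ?_⟩
  rw [map_mul, map_mul, ← he', map_inv]
  group

theorem not_conj_rs (h : Hyp ι) : ¬ IsConj (ι rr) (ι ss) := by
  intro hc
  obtain ⟨g, hg⟩ := isConj_iff.1 hc
  have h1 : g * ι bb * g⁻¹ ∈ 𝐂[ι ss] := by
    rw [mem_centralizer_singleton_iff, ← hg, conj_mul, conj_mul, ← map_mul, ← map_mul]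
    rfl
  obtain ⟨k, hk, e, he⟩ := conj_into h (L := 𝐂[ι ss]) (d := aa) (by decide) (by decide)
    (by rw [mem_centralizer_singleton_iff, ← map_mul, ← map_mul]; rfl) h1
    (by rw [conj_pow, ← map_pow, show bb ^ 3 = 1 by decide]; simp)
  have h2 : ι e ∈ 𝐂[ι ss] := he ▸ mul_mem (mul_mem hk h1) (inv_mem hk)
  obtain ⟨n, hn⟩ := h.ti (k * g) bb e (by decide) (by rw [← he]; group)
  have h3 : n * bb * n⁻¹ = e := h.inj (by rw [map_mul, map_mul, map_inv, hn, ← he]; group)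
  rw [mem_centralizer_singleton_iff, ← map_mul, ← map_mul] at h2
  have h4 := h.inj h2
  rw [← h3] at h4
  revert h4
  have : ∀ n : DD, n * bb * n⁻¹ * ss ≠ ss * (n * bb * n⁻¹) := by decide +kernel
  exact this n

def Ks : Finset DD := Finset.univ.filter fun e => e.1 = 1 ∧ e * e = 1 ∧ e ≠ 1
def Kr : Finset DD := Finset.univ.filter fun e => e.1 ≠ 1 ∧ e * e = 1

theorem exists_zw (h : Hyp ι) (hn : ¬ IsConj (ι ss) (ι (rr * ss))) :
    ∃ z w, Dirr ⊤ z ∧ Dirr ⊤ w ∧ up ι C0 = cf1 ⊤ + z + w ∧ ι ss ∈ cfKer z ⊓ cfKer w := by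
  obtain ⟨z, w, hz, hw, -, -, -, e⟩ := P1.BS.exists_three (vcC0 h).up
    (nsq_eq_of_ip (by
      rw [ip_up_up h (vcC0 h) (by decide +kernel) C0 (n := 3) (by decide +kernel)]; norm_num))
    (by rw [ip_up_one h (vcC0 h) (n := 1) (by decide +kernel)]; norm_num)
  refine ⟨z, w, hz, hw, e, key h (vcC0 h) (by decide +kernel)
    (by rw [← map_mul, show ss * ss = 1 by decide, map_one]) Ks (fun e => ⟨fun he => ?_, fun he => ?_⟩)
    (by decide +kernel) hz hw e⟩
  · exact isConj_ι ι ((by decide +kernel : ∀ e ∈ Ks, ∃ x, x * ss * x⁻¹ = e) e he)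
  · obtain ⟨h1, h2⟩ := invol_of_isConj h (by decide) (by decide) he
    rcases invol_cases e h1 h2 with h3 | h3 | h3
    · exact absurd ((isConj_ι ι h3).trans he.symm) (not_conj_rs h)
    · obtain ⟨x, rfl⟩ := h3
      exact (by decide +kernel : ∀ x : DD, x * ss * x⁻¹ ∈ Ks) x
    · exact absurd (he.trans (isConj_ι ι h3).symm) hn

theorem exists_M (h : Hyp ι) (hn : ¬ IsConj (ι ss) (ι (rr * ss))) :
    ∃ M : Subgroup G, M.Normal ∧ ι bb ∈ M ∧ ∀ d : DD, d.1 * d.1 ≠ 1 → ι d ∉ M := by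
  obtain ⟨z, w, hz, hw, e, hs⟩ := exists_zw h hn
  haveI := normal_cfKer hz
  haveI := normal_cfKer hw
  refine ⟨cfKer z ⊓ cfKer w, inferInstance, ?_, fun d hd hM => ?_⟩
  · have := mul_mem hs ((inferInstance : (cfKer z ⊓ cfKer w).Normal).conj_mem _ hs (ι bb))
    rwa [← map_inv, ← map_mul, ← map_mul, ← map_mul,
      show ss * (bb * ss * bb⁻¹) = bb by decide] at this
  · have h1 := up_apply h (vcC0 h) (by decide +kernel) d
    have h2 := up_inv h (vcC0 h) (by decide +kernel) (mul_one 1)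
    simp only [e, Pi.add_apply, cf1_top_apply] at h1 h2
    rw [apply_of_mem_cfKer hM.1, apply_of_mem_cfKer hM.2, h2, C0, th, if_neg hd] at h1
    norm_num at h1

theorem case_one (h : Hyp ι) (h1 : ¬ IsConj (ι ss) (ι (rr * ss)))
    (h2 : ¬ IsConj (ι rr) (ι (rr * ss))) : ι.range = ⊤ := by
  haveI : Fact (Nat.Prime 3) := ⟨Nat.prime_three⟩
  obtain ⟨M, hM, hb, hM1⟩ := exists_M h h1
  obtain ⟨M', hM', ha, hM1'⟩ := exists_M h.swap h2
  replace ha : ι aa ∈ M' := ha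
  replace hM1' : ∀ d : DD, d.2 * d.2 ≠ 1 → ι d ∉ M' := fun d hd => hM1' (swp d) hd
  have no3 : ∀ e : DD, e ≠ 1 → e ^ 3 = 1 → ι e ∉ M ⊓ M' := by
    intro e e1 e3 he
    rcases (by decide +kernel : ∀ e : DD, e ≠ 1 → e ^ 3 = 1 → e.1 * e.1 ≠ 1 ∨ e.2 * e.2 ≠ 1)
      e e1 e3 with h3 | h3
    · exact hM1 e h3 he.1
    · exact hM1' e h3 he.2
  have hQ : M ⊓ M' ≤ ι.range := by
    refine h.gen _ inferInstance fun h3 => ?_
    obtain ⟨x, hx⟩ := exists_prime_orderOf_dvd_card' 3 h3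
    rw [← Subgroup.orderOf_coe] at hx
    obtain ⟨g, hg⟩ := h.syl (zpowers (x : G))
      (IsPGroup.of_card (n := 1) (by rw [Nat.card_zpowers, hx, pow_one]))
    obtain ⟨e, he⟩ := hg _ (mem_zpowers _)
    refine no3 e (fun e1 => ?_) (h.inj ?_)
      (he ▸ (inferInstance : (M ⊓ M').Normal).conj_mem _ x.2 g)
    · rw [e1, map_one, conj_eq_one_iff] at he
      rw [he, orderOf_one] at hx
      norm_num at hx
    · rw [map_pow, ← he, conj_pow, orderOf_dvd_iff_pow_eq_one.1 hx.dvd]; simp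
  have hQ1 : ∀ q ∈ M ⊓ M', q = 1 := by
    intro q hq
    obtain ⟨e, rfl⟩ := hQ hq
    by_contra e1
    obtain ⟨x, h3, h4⟩ := (by decide +kernel : ∀ e : DD, e ≠ 1 → ∃ x : DD,
      e * (x * e⁻¹ * x⁻¹) ≠ 1 ∧ (e * (x * e⁻¹ * x⁻¹)) ^ 3 = 1) e (fun e2 => e1 (by simp [e2]))
    refine no3 _ h3 h4 ?_
    rw [map_mul, map_mul, map_mul, map_inv, map_inv]
    exact mul_mem hq ((inferInstance : (M ⊓ M').Normal).conj_mem _ (inv_mem hq) _)
  rw [eq_top_iff]
  intro g _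
  have h3 : g * ι aa * g⁻¹ ∈ M' := hM'.conj_mem _ ha g
  set y := g * ι aa * g⁻¹ with hy
  have h4 := hQ1 (y * ι bb * y⁻¹ * (ι bb)⁻¹) (mem_inf.2
    ⟨M.mul_mem (hM.conj_mem _ hb y) (M.inv_mem hb), by
      have := M'.mul_mem h3 (hM'.conj_mem _ (M'.inv_mem h3) (ι bb))
      convert this using 1; group⟩)
  obtain ⟨e, he⟩ := h.ti y bb bb (by decide) (mul_inv_eq_one.1 h4)
  exact h.ti g aa e (by decide) he.symm

theorem sum_quot (h : Hyp ι) {M : Subgroup G} [hM : M.Normal] (hb : ι bb ∈ M) {F : G → ℂ}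
    (hF : ∀ m ∈ M, ∀ g, F (m * g) = F g) :
    36 * ∑ g ∈ fs ((⊤ : Subgroup G) : Set G), F g = Nat.card G * ∑ d, F (ι d) := by
  classical
  have := Fintype.ofFinite G
  have := Fintype.ofFinite (G ⧸ M)
  have hs : Function.Surjective ((QuotientGroup.mk' M).comp ι) := by
    intro q
    obtain ⟨g, rfl⟩ := QuotientGroup.mk'_surjective M q
    obtain ⟨k, hk, e, he⟩ := conj_into h (L := M) (d := bb) (by decide) (by decide) hb
      (hM.conj_mem _ hb g) (by rw [conj_pow, ← map_pow, show bb ^ 3 = 1 by decide]; simp)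
    obtain ⟨n, hn⟩ := h.ti (k * g) bb e (by decide) (by rw [← he]; group)
    refine ⟨n, ?_⟩
    rw [MonoidHom.comp_apply, hn, map_mul, QuotientGroup.mk'_apply,
      (QuotientGroup.eq_one_iff k).2 hk, one_mul]
  have hF' : ∀ g : G, F ((QuotientGroup.mk' M g).out) = F g := by
    intro g
    obtain ⟨m, hm⟩ := QuotientGroup.mk_out_eq_mul M g
    rw [QuotientGroup.mk'_apply, hm, ← hF (g * m * g⁻¹) (hM.conj_mem _ m.2 g) g]
    congr 1; group
  have e1 := sum_hom (QuotientGroup.mk' M) (QuotientGroup.mk'_surjective M) fun q => F q.out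
  have e2 := sum_hom _ hs fun q => F q.out
  simp only [MonoidHom.comp_apply, hF'] at e1 e2
  rw [sum_fs_top, Nat.card_eq_fintype_card]
  have e3 : (Fintype.card DD : ℂ) = 36 := by
    rw [Fintype.card_prod, DihedralGroup.card]; norm_num
  rw [e3] at e2
  refine mul_left_cancel₀ (Nat.cast_ne_zero.2 (Fintype.card_pos (α := G ⧸ M)).ne') ?_
  linear_combination 36 * e1 - (Fintype.card G : ℂ) * e2

theorem deg_le (h : Hyp ι) {z : G → ℂ} (hz : Dirr ⊤ z) (hs : ι ss ∈ cfKer z) {n : ℤ}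
    (hn : z 1 = n) : n ^ 2 ≤ 6 := by
  haveI hM := normal_cfKer hz
  have hb : ι bb ∈ cfKer z := by
    have := mul_mem hs (hM.conj_mem _ hs (ι bb))
    rwa [← map_inv, ← map_mul, ← map_mul, ← map_mul,
      show ss * (bb * ss * bb⁻¹) = bb by decide] at this
  have e1 := sum_quot h hb (F := fun g => ((‖z g‖ ^ 2 : ℝ) : ℂ)) fun m hm g => by rw [hm g]
  have e2 := hz.nsq
  rw [nsq_def, inv_mul_eq_iff_eq_mul₀ (card_ne_zero_R _), card_top, mul_one] at e2
  have e3 : (36 : ℝ) * Nat.card G = Nat.card G * ∑ d, ‖z (ι d)‖ ^ 2 := by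
    rw [← e2]; nth_rw 2 [e2]; exact_mod_cast e1
  rw [mul_comm, mul_right_inj' (Nat.cast_ne_zero.2 Nat.card_pos.ne')] at e3
  have e4 : ∑ d ∈ Finset.univ.filter fun d : DD => d.1 = 1, ‖z (ι d)‖ ^ 2 ≤ 36 :=
    e3 ▸ Finset.sum_le_sum_of_subset_of_nonneg (Finset.subset_univ _) fun _ _ _ => by positivity
  rw [Finset.sum_congr rfl (g := fun _ => (n : ℝ) ^ 2) ?_, Finset.sum_const,
    show (Finset.univ.filter fun d : DD => d.1 = 1).card = 6 by decide +kernel] at e4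
  · have : (6 : ℝ) * n ^ 2 ≤ 36 := by simpa using e4
    have : (n : ℝ) ^ 2 ≤ 6 := by linarith
    exact_mod_cast this
  · rintro ⟨d1, d2⟩ hd
    obtain rfl : d1 = 1 := (Finset.mem_filter.1 hd).2
    have : ι (1, d2) ∈ cfKer z := d3_gen (fun y => ι (1, y) ∈ cfKer z) (by simp [← Prod.one_eq_mk])
      hb hs (fun x y hx hy => by simpa [← map_mul] using mul_mem hx hy) d2
    rw [apply_of_mem_cfKer this, hn, Complex.norm_intCast, sq_abs]

theorem small_of_ip {x z w : G → ℂ} (hx : Dirr ⊤ x) (hz : Dirr ⊤ z) (hw : Dirr ⊤ w)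
    (hz6 : ∀ n : ℤ, z 1 = n → n ^ 2 ≤ 6) (hw6 : ∀ n : ℤ, w 1 = n → n ^ 2 ≤ 6)
    (h : ip ⊤ x z + ip ⊤ x w ≠ 0) {n : ℤ} (hn : x 1 = n) : n ^ 2 ≤ 6 := by
  have aux : ∀ z, Dirr ⊤ z → (∀ n : ℤ, z 1 = n → n ^ 2 ≤ 6) → ip ⊤ x z ≠ 0 → n ^ 2 ≤ 6 := by
    intro z hz hz6 h
    rcases hx.ip_cases hz with e | e | e
    · exact hz6 n (e ▸ hn)
    · have := hz6 (-n) (by rw [e, Pi.neg_apply] at hn; push_cast; rw [← hn, neg_neg])
      rwa [neg_sq] at this
    · exact absurd e h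
  by_cases e : ip ⊤ x z = 0
  · exact aux w hw hw6 (by rwa [e, zero_add] at h)
  · exact aux z hz hz6 e

theorem ip_zero {x y z w φ : G → ℂ} (hx : Dirr ⊤ x) (hy : Dirr ⊤ y) (hz : Dirr ⊤ z)
    (hw : Dirr ⊤ w) (hxy : ip ⊤ x y = 0)
    (hz6 : ∀ n : ℤ, z 1 = n → n ^ 2 ≤ 6) (hw6 : ∀ n : ℤ, w 1 = n → n ^ 2 ≤ 6)
    (h1 : ip ⊤ x z + ip ⊤ x w = 0) (h2 : ip ⊤ y z + ip ⊤ y w = 0) (hd : 1 + x 1 + y 1 = 0)
    (hφ : φ ∈ VChar ⊤) (h3 : ip ⊤ φ φ = 3) (h4 : ip ⊤ φ x + ip ⊤ φ y = 0)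
    (h5 : ip ⊤ φ z + ip ⊤ φ w = 1) (h6 : φ 1 = 0) : ip ⊤ φ x = 0 := by
  obtain ⟨a, ha⟩ := vchar_ip_int hφ hx.mem_VChar
  have hb : ip ⊤ φ y = -a := by rw [ha] at h4; linear_combination h4
  have ha' : ip ⊤ x φ = a := ip_comm_of_int ha
  have hb' : ip ⊤ y φ = -a := by
    have := ip_comm_of_int (n := -a) (by rw [hb]; simp)
    simpa using this
  have hyx := ip_eq_zero_symm hxy
  set v := φ - (a : ℂ) • x + (a : ℂ) • y with hv
  have hvc : v ∈ VChar ⊤ := add_mem (sub_mem hφ (vchar_int_smul hx.mem_VChar a))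
    (vchar_int_smul hy.mem_VChar a)
  have hvv : ip ⊤ v v = ((3 - 2 * a ^ 2 : ℤ) : ℝ) := by
    simp only [hv, ip_add_left, ip_add_right, ip_sub_left, ip_sub_right, ip_smul_left,
      ip_smul_right, h3, ha, hb, ha', hb', hxy, hyx, hx.ip_self, hy.ip_self, map_intCast]
    push_cast; ring
  have h7 := nsq_nonneg ⊤ v
  rw [nsq_eq_of_ip hvv] at h7
  have h8 : 0 ≤ 3 - 2 * a ^ 2 := by exact_mod_cast h7
  by_contra h0
  have a0 : a ≠ 0 := by rintro rfl; exact h0 (by simpa using ha)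
  have a2 : a ^ 2 = 1 := by
    have : 0 < a ^ 2 := by positivity
    omega
  have hvd : Dirr ⊤ v := dirr_of_nsq_one hvc (by rw [nsq_eq_of_ip hvv, a2]; norm_num)
  obtain ⟨X, hX⟩ := vchar_one_int hx.mem_VChar
  have hY : y 1 = -(1 + X) := by rw [hX] at hd; linear_combination hd
  have h9 := small_of_ip hvd hz hw hz6 hw6 (n := -a * (2 * X + 1)) (by
    simp only [hv, ip_add_left, ip_sub_left, ip_smul_left]
    intro e
    have : (1 : ℂ) = 0 := by linear_combination e - h5 + (a : ℂ) * h1 - (a : ℂ) * h2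
    norm_num at this) (by
    simp only [hv, Pi.add_apply, Pi.sub_apply, Pi.smul_apply, smul_eq_mul, h6, hX, hY]
    push_cast; ring)
  rw [mul_pow, neg_sq, a2, one_mul] at h9
  have : X = 0 ∨ X = -1 := by
    have : -2 < X := by nlinarith
    have : X < 1 := by nlinarith
    omega
  rcases this with rfl | rfl
  · exact hx.one_ne_zero (by simpa using hX)
  · exact hy.one_ne_zero (by simpa using hY)

theorem case_two (h : Hyp ι) (hc : IsConj (ι rr) (ι (rr * ss))) : False := by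
  have hn : ¬ IsConj (ι ss) (ι (rr * ss)) := fun e => not_conj_rs h (hc.trans e.symm)
  obtain ⟨z, w, hz, hw, eC, hs⟩ := exists_zw h hn
  obtain ⟨x, y, hx, hy, x1, y1, hxy, eR⟩ := P1.BS.exists_three (vcR0 h).up
    (nsq_eq_of_ip (by
      rw [ip_up_up h (vcR0 h) (by decide +kernel) R0 (n := 3) (by decide +kernel)]; norm_num))
    (by rw [ip_up_one h (vcR0 h) (n := 1) (by decide +kernel)]; norm_num)
  haveI := normal_cfKer hz
  haveI := normal_cfKer hw
  have hM : (cfKer z ⊓ cfKer w).Normal := inferInstance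
  have hb : ι bb ∈ cfKer z ⊓ cfKer w := by
    have := mul_mem hs (hM.conj_mem _ hs (ι bb))
    rwa [← map_inv, ← map_mul, ← map_mul, ← map_mul,
      show ss * (bb * ss * bb⁻¹) = bb by decide] at this
  have rr2 : ι rr * ι rr = 1 := by rw [← map_mul, show rr * rr = 1 by decide, map_one]
  have hK : ∀ e, e ∈ Kr ↔ IsConj (ι rr) (ι e) := by
    refine fun e => ⟨fun he => ?_, fun he => ?_⟩
    · rcases (by decide +kernel : ∀ e ∈ Kr, (∃ x, x * rr * x⁻¹ = e) ∨
        ∃ x, x * (rr * ss) * x⁻¹ = e) e he with h3 | h3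
      · exact isConj_ι ι h3
      · exact hc.trans (isConj_ι ι h3)
    · obtain ⟨h1, h2⟩ := invol_of_isConj h (by decide) (by decide) he
      rcases invol_cases e h1 h2 with h3 | h3 | h3
      · obtain ⟨x, rfl⟩ := h3
        exact (by decide +kernel : ∀ x : DD, x * rr * x⁻¹ ∈ Kr) x
      · exact absurd (he.trans (isConj_ι ι h3).symm) (not_conj_rs h)
      · obtain ⟨x, rfl⟩ := h3
        exact (by decide +kernel : ∀ x : DD, x * (rr * ss) * x⁻¹ ∈ Kr) x
  have f1 := Fs_up h (ψ := C0) (by decide +kernel) rr2 Kr hK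
  have f2 := Fs_up h (ψ := R0) (by decide +kernel) rr2 Kr hK
  rw [show ∑ e ∈ Kr, ∑ e' ∈ Kr, C0 (e * e') = 288 by decide +kernel] at f1
  rw [show ∑ e ∈ Kr, ∑ e' ∈ Kr, R0 (e * e') = 162 by decide +kernel] at f2
  have f3 := sum_quot h hb (F := fun g => up ι C0 (g * ι rr * g⁻¹ * ι rr)) fun m hm g => by
    have h1 : m * (g * ι rr * g⁻¹ * m⁻¹ * (g * ι rr * g⁻¹)⁻¹) ∈ cfKer z ⊓ cfKer w :=
      mul_mem hm (hM.conj_mem _ (inv_mem hm) _)
    have h2 : m * g * ι rr * (m * g)⁻¹ * ι rr =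
        m * (g * ι rr * g⁻¹ * m⁻¹ * (g * ι rr * g⁻¹)⁻¹) * (g * ι rr * g⁻¹ * ι rr) := by group
    simp only [eC, Pi.add_apply, cf1_top_apply]
    rw [h2, h1.1, h1.2]
  simp only [← map_inv, ← map_mul, up_apply h (vcC0 h) (by decide +kernel)] at f3
  rw [← Int.cast_sum, show ∑ d : DD, C0 (d * rr * d⁻¹ * rr) = 72 by decide +kernel] at f3
  change 36 * Fs (ι rr) (up ι C0) = _ at f3
  have d1 := up_inv h (vcR0 h) (by decide +kernel) (mul_one 1)
  have d2 := up_inv h (vcR0 h) (by decide +kernel) rr2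
  simp only [eR, Pi.add_apply, cf1_top_apply] at d1 d2
  have f4 := Fs_three hx hy d1 d2
  rw [← eR] at f4
  obtain ⟨X, hX⟩ := vchar_one_int hx.mem_VChar
  obtain ⟨m, hm⟩ := vchar_ip_int hx.mem_VChar (vcPr h).up
  have hxr : x (ι rr) = (2 * m - X : ℤ) := by
    have e1 := ip_up h hx.mem_CF Pr
    rw [hm, Finset.sum_congr rfl (g := fun d : DD => (if d = 1 then 18 * x 1 else 0) +
      (if d.2 = 1 ∧ d * d = 1 ∧ d ≠ 1 then 6 * x (ι rr) else 0)) fun d _ => ?_,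
      Finset.sum_add_distrib, Finset.sum_ite_eq', ← Finset.sum_filter, Finset.sum_const,
      show (Finset.univ.filter fun d : DD => d.2 = 1 ∧ d * d = 1 ∧ d ≠ 1).card = 3 by
        decide +kernel] at e1
    · simp only [Finset.mem_univ, if_true, hX, nsmul_eq_mul] at e1
      push_cast at e1 ⊢
      linear_combination (-1 / 18) * e1
    · by_cases d1 : d = 1
      · simp [d1, Pr, mul_comm]
      · by_cases d2 : d.2 = 1 ∧ d * d = 1
        · obtain ⟨g, rfl⟩ := (by decide +kernel : ∀ d : DD, d ≠ 1 → d.2 = 1 ∧ d * d = 1 →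
            ∃ g, g * rr * g⁻¹ = d) d d1 d2
          rw [Pr, if_neg d1, if_pos d2, if_neg d1, if_pos ⟨d2.1, d2.2, d1⟩, map_mul, map_mul,
            map_inv, CF_conj hx.mem_CF (mem_top _)]
          push_cast; ring
        · rw [Pr, if_neg d1, if_neg d2, if_neg d1, if_neg fun e => d2 ⟨e.1, e.2.1⟩]
          simp
  have main : 8 * (2 * m - 2 * X) ^ 2 = 9 * (X * (X + 1)) := by
    rw [hxr, hX] at f4
    have g0 : (Nat.card G : ℂ) ≠ 0 := Nat.cast_ne_zero.2 Nat.card_pos.ne'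
    have : (Nat.card G : ℂ) * (8 * (2 * m - 2 * X) ^ 2) = Nat.card G * (9 * (X * (X + 1))) := by
      push_cast at f1 f2 f3 f4
      linear_combination (-8) * f4 + (X * (1 + X) * (2 / 9)) * f2 - (X * (1 + X) / 8) * f1 +
        (X * (1 + X) / 8) * f3
    exact_mod_cast mul_left_cancel₀ g0 this
  have hz6 : ∀ n : ℤ, z 1 = n → n ^ 2 ≤ 6 := fun n => deg_le h hz hs.1
  have hw6 : ∀ n : ℤ, w 1 = n → n ^ 2 ≤ 6 := fun n => deg_le h hw hs.2
  have c1 := ip_up_one h (vcC0 h) (n := 1) (by decide +kernel)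
  have c2 := ip_up_up h (vcR0 h) (by decide +kernel) C0 (n := 1) (by decide +kernel)
  have i11 := ip_irr_self (cf1_mem_Irr (⊤ : Subgroup G))
  have c3 : ip ⊤ (cf1 ⊤) z + ip ⊤ (cf1 ⊤) w = 0 := by
    have := ip_comm_of_int c1
    rw [eC, ip_add_right, ip_add_right, i11] at this
    push_cast at this
    linear_combination this
  simp only [eC, eR, ip_add_left, ip_add_right, i11, x1, y1] at c2
  by_cases hxz : ip ⊤ x z + ip ⊤ x w = 0
  · have hyz : ip ⊤ y z + ip ⊤ y w = 0 := by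
      push_cast at c2
      linear_combination c2 - hxz - c3
    have aux : ∀ ψ, VC ι ψ → Sup ψ → ∑ d, ψ d * ψ d = 36 * 3 → ∑ d, ψ d * R0 d = 36 * 0 →
        ∑ d, ψ d * C0 d = 36 * 1 → ∑ d, ψ d = 36 * 0 → ip ⊤ x (up ι ψ) = 0 := by
      intro ψ v1 v2 v3 v4 v5 v6
      have w3 := ip_up_up h v1 v2 ψ v3
      have w4 := ip_up_up h v1 v2 R0 v4
      have w5 := ip_up_up h v1 v2 C0 v5
      have w6 := ip_up_one h v1 v6
      rw [eR, ip_add_right, ip_add_right, w6] at w4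
      rw [eC, ip_add_right, ip_add_right, w6] at w5
      push_cast at w3 w4 w5
      exact ip_eq_zero_symm (ip_zero hx hy hz hw hxy hz6 hw6 hxz hyz d1 v1.up w3
        (by linear_combination w4) (by linear_combination w5) (up_inv h v1 v2 (mul_one 1)))
    have r1 := aux R1 (vcR1 h) (by decide +kernel) (by decide +kernel) (by decide +kernel)
      (by decide +kernel) (by decide +kernel)
    have r2 := aux R2 (vcR2 h) (by decide +kernel) (by decide +kernel) (by decide +kernel)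
      (by decide +kernel) (by decide +kernel)
    have r0 : ip ⊤ x (up ι R0) = 1 := by
      rw [eR, ip_add_right, ip_add_right, x1, hx.ip_self, hxy]; simp
    obtain ⟨k, hk⟩ := vchar_ip_int hx.mem_VChar (vcPb h).up
    have e0 := ip_up h hx.mem_CF R0
    have e1 := ip_up h hx.mem_CF R1
    have e2 := ip_up h hx.mem_CF R2
    have e3 := ip_up h hx.mem_CF Pb
    have e4 : ∑ d, x (ι d) * (3 * Pb d - 2 * (R0 d + R1 d - 2 * R2 d) : ℤ) = 36 * X := by
      rw [Finset.sum_eq_single 1 (fun d _ hd => ?_) (by simp), map_one, hX,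
        show 3 * Pb 1 - 2 * (R0 1 + R1 1 - 2 * R2 1) = 36 by decide +kernel]
      · push_cast; ring
      · rw [(by decide +kernel : ∀ d : DD, d ≠ 1 →
          3 * Pb d - 2 * (R0 d + R1 d - 2 * R2 d) = 0) d hd]
        simp
    have e5 : (X : ℂ) = 3 * k - 2 := by
      push_cast at e4
      simp only [mul_sub, mul_add, Finset.sum_sub_distrib, Finset.sum_add_distrib,
        mul_left_comm (x _), ← Finset.mul_sum, ← e0, ← e1, ← e2, ← e3, r0, r1, r2, hk] at e4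
      linear_combination (-1 / 36) * e4
    have e6 : X = 3 * k - 2 := by exact_mod_cast e5
    exact arith main (by omega)
  · have hyz : ip ⊤ y z + ip ⊤ y w ≠ 0 := fun e => hxz (by
      push_cast at c2
      linear_combination c2 - e - c3)
    have s1 := small_of_ip hx hz hw hz6 hw6 hxz hX
    have s2 := small_of_ip hy hz hw hz6 hw6 hyz (n := -(1 + X))
      (by rw [hX] at d1; push_cast; linear_combination d1)
    have X0 : X ≠ 0 := by rintro rfl; exact hx.one_ne_zero (by simpa using hX)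
    have X1 : X ≠ -1 := by
      rintro rfl
      exact hy.one_ne_zero (by rw [hX] at d1; push_cast at d1; linear_combination d1)
    have : -3 < X := by nlinarith
    have : X < 2 := by nlinarith
    exact arith main (by omega)

theorem main (h : Hyp ι) : ι.range = ⊤ := by
  by_cases h2 : IsConj (ι rr) (ι (rr * ss))
  · exact (case_two h h2).elim
  by_cases h1 : IsConj (ι ss) (ι (rr * ss))
  · exact (case_two h.swap h1).elim
  exact case_one h h1 h2

end Cfsg.Agent.H7.SS
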