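import Mathlib
import Cfsg.Agent.H9.ClassSize
import Cfsg.Agent.L.PiSep

set_option autoImplicit false

namespace Cfsg.Agent.H7

open Subgroup

section SpanOrbit

variable {k V H : Type*} [Field k] [AddCommGroup V] [Module k V] [Group H] [Finite H]

/-- averaging over a subgroup -/
noncomputable def avgOp (ρ : Representation k H V) (K : Subgroup H) : V →ₗ[k] V :=
  have := Fintype.ofFinite K
  (Nat.card K : k)⁻¹ • ∑ x : K, ρ x

theorem avgOp_apply (ρ : Representation k H V) (K : Subgroup H) [Fintype K] (v : V) :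
    avgOp ρ K v = (Nat.card K : k)⁻¹ • ∑ x : K, ρ x v := by
  simp only [avgOp, LinearMap.smul_apply, LinearMap.sum_apply]
  congr!

theorem avgOp_apply_mem (ρ : Representation k H V) (K : Subgroup H) {x : H} (hx : x ∈ K) (v : V) :
    avgOp ρ K (ρ x v) = avgOp ρ K v := by
  have := Fintype.ofFinite K
  rw [avgOp_apply, avgOp_apply]
  congr 1
  refine Fintype.sum_equiv (Equiv.mulRight (⟨x, hx⟩ : K)) _ _ fun y => ?_
  simp

theorem apply_avgOp_mem (ρ : Representation k H V) (K : Subgroup H) {x : H} (hx : x ∈ K) (v : V) :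
    ρ x (avgOp ρ K v) = avgOp ρ K v := by
  have := Fintype.ofFinite K
  rw [avgOp_apply, map_smul, map_sum]
  congr 1
  refine Fintype.sum_equiv (Equiv.mulLeft (⟨x, hx⟩ : K)) _ _ fun y => ?_
  simp

theorem avgOp_of_fixed (ρ : Representation k H V) (K : Subgroup H) (hK : (Nat.card K : k) ≠ 0)
    {v : V} (hv : ∀ x ∈ K, ρ x v = v) : avgOp ρ K v = v := by
  have := Fintype.ofFinite K
  rw [avgOp_apply, Finset.sum_congr rfl (fun (x : K) _ => hv x x.2), Finset.sum_const,
    Finset.card_univ, ← Nat.card_eq_fintype_card, ← Nat.cast_smul_eq_nsmul k, smul_smul,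
    inv_mul_cancel₀ hK, one_smul]

theorem apply_avgOp_normal (ρ : Representation k H V) (K : Subgroup H) [hK : K.Normal] (g : H)
    (v : V) : ρ g (avgOp ρ K v) = avgOp ρ K (ρ g v) := by
  have := Fintype.ofFinite K
  rw [avgOp_apply, avgOp_apply, map_smul, map_sum]
  congr 1
  refine Fintype.sum_equiv (MulAut.conjNormal g : K ≃* K).toEquiv _ _ fun y => ?_
  have : ((MulAut.conjNormal g : K ≃* K).toEquiv y : H) = g * y * g⁻¹ := rfl
  rw [this, ← Module.End.mul_apply, ← map_mul, ← Module.End.mul_apply, ← map_mul]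
  congr 2
  group

theorem avgOp_eq_of_factor (ρ : Representation k H V) {B N : Subgroup H} (hBN : B ≤ N)
    (hN : (Nat.card N : k) ≠ 0) {w : V} (hw : ∀ n ∈ N, ∃ β ∈ B, ρ n w = ρ β w) :
    avgOp ρ B w = avgOp ρ N w := by
  have hB : (Nat.card B : k) ≠ 0 := by
    obtain ⟨c, hc⟩ := card_dvd_of_le hBN
    intro h
    apply hN
    rw [hc, Nat.cast_mul, h, zero_mul]
  have := Fintype.ofFinite N
  have h1 : avgOp ρ B (avgOp ρ N w) = avgOp ρ N w :=
    avgOp_of_fixed ρ B hB fun x hx => apply_avgOp_mem ρ N (hBN hx) w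
  rw [← h1, avgOp_apply ρ N, map_smul, map_sum]
  have h2 : ∀ x : N, avgOp ρ B (ρ x w) = avgOp ρ B w := fun x => by
    obtain ⟨β, hβ, h⟩ := hw x x.2
    rw [h, avgOp_apply_mem ρ B hβ]
  rw [Finset.sum_congr rfl (fun x _ => h2 x), Finset.sum_const,
    Finset.card_univ, ← Nat.card_eq_fintype_card, ← Nat.cast_smul_eq_nsmul k, smul_smul,
    inv_mul_cancel₀ hN, one_smul]

theorem spanOrbit_step (ρ : Representation k H V) (N : Subgroup H) [N.Normal]
    (hN : (Nat.card N : k) ≠ 0) {A : Subgroup H} {a : V} (hA : ∀ x ∈ A, ρ x a = a)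
    (hspan : Submodule.span k {u : V | ∃ h : H, ρ h a = u} = ⊤) :
    (∀ v : V, (∀ x ∈ N, ρ x v = v) →
      v ∈ Submodule.span k {u : V | ∃ h : H, ρ h (avgOp ρ N a) = u}) ∧
    ∀ (B : Subgroup H) (b : V), A.index.Coprime B.index → (∀ x ∈ B, ρ x b = b) →
      ∀ x ∈ N, ρ x b = b := by
  refine ⟨fun v hv => ?_, fun B b hc hB => ?_⟩
  · rw [← avgOp_of_fixed ρ N hN hv]
    have : v ∈ Submodule.span k {u : V | ∃ h : H, ρ h a = u} := by rw [hspan]; trivial
    have h2 := Submodule.mem_map_of_mem (f := avgOp ρ N) this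
    rw [Submodule.map_span] at h2
    refine Submodule.span_mono ?_ h2
    rintro _ ⟨_, ⟨h, rfl⟩, rfl⟩
    exact ⟨h, apply_avgOp_normal ρ N h a⟩
  · have key : avgOp ρ (B ⊓ N) = avgOp ρ N := by
      refine LinearMap.ext_on hspan ?_
      rintro _ ⟨g, rfl⟩
      refine avgOp_eq_of_factor ρ inf_le_right hN fun n hn => ?_
      have hc' : (B.subgroupOf N).index.Coprime
          ((A.map (MulAut.conj g).toMonoidHom).subgroupOf N).index := by
        refine Nat.Coprime.coprime_dvd_left (H9.relIndex_dvd_index_of_normal_right B N)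
          (Nat.Coprime.coprime_dvd_right (H9.relIndex_dvd_index_of_normal_right _ N) ?_)
        have e : (A.map (MulAut.conj g).toMonoidHom).index = A.index :=
          index_map_equiv _ (MulAut.conj g)
        rw [e]
        exact hc.symm
      obtain ⟨β, hβ, α, hα, h⟩ := H9.exists_mul_eq_of_coprime_index hc' ⟨n, hn⟩
      refine ⟨β, ⟨hβ, β.2⟩, ?_⟩
      have hn' : n = β * α := (congrArg Subtype.val h).symm
      obtain ⟨y, hy, hyα⟩ := hα
      have hyα' : (α : H) = g * y * g⁻¹ := hyα.symm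
      rw [hn', hyα', map_mul, Module.End.mul_apply, ← Module.End.mul_apply (ρ (g * y * g⁻¹)),
        ← map_mul, inv_mul_cancel_right, map_mul, Module.End.mul_apply, hA y hy]
    have hB' : (Nat.card (B ⊓ N : Subgroup H) : k) ≠ 0 := by
      obtain ⟨c, hc⟩ := card_dvd_of_le (inf_le_right : B ⊓ N ≤ N)
      intro h
      apply hN
      rw [hc, Nat.cast_mul, h, zero_mul]
    intro x hx
    rw [← avgOp_of_fixed ρ (B ⊓ N) hB' (fun y hy => hB y hy.1), key, apply_avgOp_mem ρ N hx]

theorem finrank_le_one_of_span {W : Submodule k V} {c : V} (h : ∀ v ∈ W, v ∈ Submodule.span k {c}) :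
    Module.finrank k W ≤ 1 := by
  have : Module.Finite k (Submodule.span k {c}) := inferInstance
  refine (Submodule.finrank_mono (show W ≤ Submodule.span k {c} from h)).trans ?_
  exact (finrank_span_le_card ({c} : Set V)).trans (by simp)

/-- the stabilizer of a vector -/
def repStab (ρ : Representation k H V) (a : V) : Subgroup H where
  carrier := {x | ρ x a = a}
  one_mem' := by simp
  mul_mem' := fun {x y} hx hy => by
    simp only [Set.mem_setOf_eq] at hx hy ⊢
    rw [map_mul, Module.End.mul_apply, hy, hx]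
  inv_mem' := fun {x} hx => by
    simp only [Set.mem_setOf_eq] at hx ⊢
    conv_lhs => rw [← hx]
    rw [← Module.End.mul_apply, ← map_mul, inv_mul_cancel, map_one, Module.End.one_apply]

theorem index_repStab (ρ : Representation k H V) (a : V) :
    (repStab ρ a).index = Nat.card {u : V | ∃ h : H, ρ h a = u} := by
  let f : H ⧸ repStab ρ a → {u : V | ∃ h : H, ρ h a = u} :=
    Quotient.lift (fun h => ⟨ρ h a, h, rfl⟩) (fun x y hxy => by
      have h : ρ (x⁻¹ * y) a = a := QuotientGroup.leftRel_apply.1 hxy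
      refine Subtype.ext ?_
      show ρ x a = ρ y a
      conv_lhs => rw [← h]
      rw [← Module.End.mul_apply, ← map_mul, mul_inv_cancel_left])
  refine Nat.card_congr (Equiv.ofBijective f ⟨?_, ?_⟩)
  · intro x y
    induction x using QuotientGroup.induction_on with | H x => ?_
    induction y using QuotientGroup.induction_on with | H y => ?_
    intro h
    have h' : ρ x a = ρ y a := congrArg Subtype.val h
    rw [QuotientGroup.eq]
    show ρ (x⁻¹ * y) a = a
    rw [map_mul, Module.End.mul_apply, ← h', ← Module.End.mul_apply, ← map_mul, inv_mul_cancel,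
      map_one, Module.End.one_apply]
  · rintro ⟨_, h, rfl⟩
    exact ⟨(h : H ⧸ repStab ρ a), rfl⟩

end SpanOrbit

universe u v w in
theorem spanOrbit_pSolvable {k : Type w} [Field k] (p : ℕ) [hp : Fact p.Prime] [CharP k p]
    (H : Type u) [Group H] [Finite H] :
    ∀ (V : Type v) [AddCommGroup V] [Module k V] (ρ : Representation k H V) (A : Subgroup H)
      (a : V), L.PiSep {p} H → ¬ p ∣ A.index → (∀ x ∈ A, ρ x a = a) →
      Submodule.span k {u : V | ∃ h : H, ρ h a = u} = ⊤ →
      (∃ c : V, ∀ v : V, (∀ h : H, ρ h v = v) → v ∈ Submodule.span k {c}) ∧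
      ∀ (B : Subgroup H) (b : V), A.index.Coprime B.index → (∀ x ∈ B, ρ x b = b) →
        ∀ h : H, ρ h b = b := by
  refine L.induction_on_card (P := fun H _ _ => ∀ (V : Type v) [AddCommGroup V] [Module k V]
      (ρ : Representation k H V) (A : Subgroup H)
      (a : V), L.PiSep {p} H → ¬ p ∣ A.index → (∀ x ∈ A, ρ x a = a) →
      Submodule.span k {u : V | ∃ h : H, ρ h a = u} = ⊤ →
      (∃ c : V, ∀ v : V, (∀ h : H, ρ h v = v) → v ∈ Submodule.span k {c}) ∧
      ∀ (B : Subgroup H) (b : V), A.index.Coprime B.index → (∀ x ∈ B, ρ x b = b) →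
        ∀ h : H, ρ h b = b) H ?_
  intro H _ _ ih V _ _ ρ A a hsep hpA hA hspan
  rcases subsingleton_or_nontrivial H with hH | hH
  · refine ⟨⟨a, fun v _ => ?_⟩, fun B b _ _ h => by rw [Subsingleton.elim h 1]; simp⟩
    have : v ∈ Submodule.span k {u : V | ∃ h : H, ρ h a = u} := by rw [hspan]; trivial
    refine Submodule.span_mono ?_ this
    rintro _ ⟨h, rfl⟩
    rw [Subsingleton.elim h 1]; simp
  obtain ⟨N, hN, hNb, -, hNπ⟩ := L.SepUpTo.exists_ne_bot hsep top_ne_bot
  -- a common step
  have step : ∃ a' : V, (∀ x ∈ N, ρ x a' = a') ∧ (∀ x ∈ A, ρ x a' = a') ∧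
      (∀ v : V, (∀ x ∈ N, ρ x v = v) →
        v ∈ Submodule.span k {u : V | ∃ h : H, ρ h a' = u}) ∧
      ∀ (B : Subgroup H) (b : V), A.index.Coprime B.index → (∀ x ∈ B, ρ x b = b) →
        ∀ x ∈ N, ρ x b = b := by
    rcases hNπ with hNπ | hNπ
    · have hNA : N ≤ A := L.le_of_isPiSubgroup_of_index hNπ (fun q hq hqp hqA => by
        rw [Set.mem_singleton_iff] at hqp
        exact hpA (hqp ▸ hqA))
      have htriv : ∀ x ∈ N, ∀ v, ρ x v = v := by
        intro x hx v
        have : ρ x = LinearMap.id := by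
          refine LinearMap.ext_on hspan ?_
          rintro _ ⟨g, rfl⟩
          have h1 := hA _ (hNA (hN.conj_mem' x hx g))
          rw [LinearMap.id_apply]
          conv_rhs => rw [← h1]
          rw [← Module.End.mul_apply, ← map_mul, ← Module.End.mul_apply, ← map_mul]
          congr 2
          group
        rw [this]; rfl
      exact ⟨a, fun x hx => htriv x hx a, hA, fun v _ => by rw [hspan]; trivial,
        fun B b _ _ x hx => htriv x hx b⟩
    · have hN0 : (Nat.card N : k) ≠ 0 := by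
        rw [Ne, CharP.cast_eq_zero_iff k p]
        exact fun h => hNπ p hp.out h rfl
      obtain ⟨h1, h2⟩ := spanOrbit_step ρ N hN0 hA hspan
      refine ⟨avgOp ρ N a, fun x hx => apply_avgOp_mem ρ N hx a, fun x hx => ?_, h1, h2⟩
      rw [apply_avgOp_normal, hA x hx]
  obtain ⟨a', ha'N, ha'A, hsp, hb⟩ := step
  let W := Representation.invariants (ρ.comp N.subtype)
  let σ : Representation k (H ⧸ N) W := ρ.quotientToInvariants N
  have hσ : ∀ (g : H) (x : W), ((σ (g : H ⧸ N) x : W) : V) = ρ g x := fun g x => rfl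
  let a'' : W := ⟨a', fun x => ha'N x x.2⟩
  have hspan' : Submodule.span k {u : W | ∃ h : H ⧸ N, σ h a'' = u} = ⊤ := by
    apply Submodule.map_injective_of_injective W.injective_subtype
    rw [Submodule.map_span, Submodule.map_subtype_top]
    apply le_antisymm
    · rw [Submodule.span_le]
      rintro _ ⟨u, -, rfl⟩
      exact u.2
    · intro v hv
      refine Submodule.span_mono ?_ (hsp v fun x hx => hv ⟨x, hx⟩)
      rintro _ ⟨h, rfl⟩
      exact ⟨σ h a'', ⟨h, rfl⟩, rfl⟩
  obtain ⟨⟨c, hc⟩, h2⟩ := ih (H ⧸ N) (L.card_quotient_lt N hNb) W σ (A.map (QuotientGroup.mk' N))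
    a'' (hsep.quotient N)
    (fun h => hpA (h.trans (index_map_dvd _ (QuotientGroup.mk'_surjective N))))
    (by rintro _ ⟨x, hx, rfl⟩; exact Subtype.ext (ha'A x hx)) hspan'
  refine ⟨⟨c, fun v hv => ?_⟩, fun B b hcop hB h => ?_⟩
  · have := hc ⟨v, fun x => hv x⟩ (fun q => by
      induction q using QuotientGroup.induction_on with | H q => exact Subtype.ext (hv q))
    have h3 := Submodule.mem_map_of_mem (f := W.subtype) this
    rwa [Submodule.map_span, Set.image_singleton] at h3
  · have hbN := hb B b hcop hB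
    have := h2 (B.map (QuotientGroup.mk' N)) ⟨b, fun x => hbN x x.2⟩
      (Nat.Coprime.coprime_dvd_left (index_map_dvd _ (QuotientGroup.mk'_surjective N))
        (Nat.Coprime.coprime_dvd_right (index_map_dvd _ (QuotientGroup.mk'_surjective N)) hcop))
      (by rintro _ ⟨x, hx, rfl⟩; exact Subtype.ext (hB x hx)) (h : H ⧸ N)
    exact congrArg Subtype.val this

end Cfsg.Agent.H7
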