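/-
Groups all of whose element centralizers are TI-subgroups.
-/
import Cfsg.Agent.H7.ZTAux
import Cfsg.Agent.H9.FrobCompl2
import Cfsg.Agent.H2.SL23

set_option autoImplicit false

namespace Cfsg.Agent.H7.TIC

open Subgroup Cfsg Cfsg.Agent Cfsg.Agent.FT

universe u

variable {G : Type u} [Group G]

theorem nilp_of_comm_conj [Finite G] (h : ∀ x g : G, Commute x (g * x * g⁻¹)) :
    Group.IsNilpotent G := by
  refine L.fittingSubgroup_eq_top_iff.mp (eq_top_iff.mpr fun x _ => ?_)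
  have : IsMulCommutative (normalClosure ({x} : Set G)) := by
    refine isMulCommutative_closure fun a ha b hb => ?_
    obtain ⟨a', ha', ha⟩ := Group.mem_conjugatesOfSet_iff.mp ha
    obtain ⟨b', hb', hb⟩ := Group.mem_conjugatesOfSet_iff.mp hb
    rw [Set.mem_singleton_iff.mp ha'] at ha
    rw [Set.mem_singleton_iff.mp hb'] at hb
    obtain ⟨g, rfl⟩ := isConj_iff.mp (ha.symm.trans hb)
    exact h a g
  exact L.le_fittingSubgroup (N := normalClosure {x}) inferInstance
    (L.isNilpotent_of_isMulCommutative _) (subset_normalClosure rfl)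

theorem le_sylow_of_le_norm {p : ℕ} [Fact p.Prime] (S : Sylow p G) {X : Subgroup G}
    (hX : IsPGroup p X) (h : X ≤ 𝐍(S)) : X ≤ S := by
  have := hX.inf_normalizer_sylow S
  rw [inf_eq_left.mpr h] at this
  exact this.le.trans inf_le_right

theorem norm_le_norm_sylow [Finite G] {p : ℕ} [Fact p.Prime] (S : Sylow p G) {K : Subgroup G}
    (hSK : (S : Subgroup G) ≤ K) (hK : K ≤ 𝐍(S)) : 𝐍(K) ≤ 𝐍(S) := fun g hg => by
  refine mem_normalizer_fintype fun x hx => ?_
  refine le_sylow_of_le_norm S (g • S).isPGroup' (fun y hy => hK ?_)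
    (show g * x * g⁻¹ ∈ (g • S : Sylow p G) from ⟨x, hx, rfl⟩)
  obtain ⟨s, hs, rfl⟩ := hy
  exact (mem_normalizer_iff.mp hg s).mp (hSK hs)

/-- The hypothesis. -/
def TIC (G : Type u) [Group G] : Prop := ∀ x : G, IsTISubset (𝐂[x] : Set G)

theorem TIC.norm (h : TIC G) {x y g : G} (hy : y ∈ 𝐂[x]) (y1 : y ≠ 1) (hg : g * y * g⁻¹ ∈ 𝐂[x]) :
    g ∈ 𝐍(𝐂[x]) := by
  by_contra hn
  exact y1 (h x g hn y hy hg)

theorem comm_of_norm {x g : G} (hg : g ∈ 𝐍(𝐂[x])) : Commute x (g * x * g⁻¹) :=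
  (mem_centralizer_singleton_iff.mp ((mem_normalizer_iff.mp hg x).mp
    (mem_centralizer_singleton_iff.mpr rfl))).symm

theorem TIC.norm' (h : TIC G) {x c g : G} (c1 : c ≠ 1) (hx : x ∈ 𝐂[c]) (hg : g ∈ 𝐂[c]) :
    g ∈ 𝐍(𝐂[x]) := by
  have h1 : c ∈ 𝐂[x] := mem_centralizer_singleton_iff.mpr (mem_centralizer_singleton_iff.mp hx).symm
  refine h.norm h1 c1 ?_
  rwa [mem_centralizer_singleton_iff.mp hg, mul_inv_cancel_right]

theorem TIC.nilp [Finite G] (h : TIC G) {c : G} (c1 : c ≠ 1) : Group.IsNilpotent 𝐂[c] :=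
  nilp_of_comm_conj fun x g => Subtype.ext (comm_of_norm (h.norm' c1 x.2 g.2))

/-- Nilpotent Frobenius complements in which conjugate elements commute. -/
theorem compl_struct {A N : Type*} [Group A] [Group N] [Finite A] [Finite N] [Nontrivial N]
    {φ : A →* MulAut N} (hφ : H9.IsFrobAction φ) (h : ∀ x g : A, Commute x (g * x * g⁻¹)) :
    IsCyclic A ∨ ∃ m : ℕ, Odd m ∧ Nonempty (A ≃* Multiplicative (ZMod m) × QuaternionGroup 2) := by
  have hnil := nilp_of_comm_conj h
  have := Fact.mk Nat.prime_two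
  obtain ⟨S⟩ : Nonempty (Sylow 2 A) := inferInstance
  rcases (hφ.subtype S).pgroup_cases S.isPGroup' with hc | ⟨-, n, x, y, hn, hx, hi, hy, hy2, hyx⟩
  · left
    have : IsZGroup A := ⟨fun p hp P => by
      have := Fact.mk hp
      by_cases h2 : p = 2
      · subst h2
        exact (P.equiv S).isCyclic.mpr hc
      · exact hφ.isCyclic_of_isPGroup h2 P.isPGroup'⟩
    infer_instance
  right
  have h4 : x ^ (2 * 2) = 1 := by
    have h1 : Commute y (x * y * x⁻¹) := Subtype.ext (h y x)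
    have h2 : x * y * x⁻¹ = x ^ 2 * y := by
      rw [mul_assoc, ← hyx, sq]
      have : y * (y * x * y⁻¹) = y * x⁻¹ := by rw [hyx]
      calc x * (y * (y * x * y⁻¹)) = x * (y * x⁻¹ * y⁻¹) * y := by rw [this]; group
        _ = x * (y * x * y⁻¹)⁻¹ * y := by group
        _ = x * x * y := by rw [hyx, inv_inv]
    rw [h2] at h1
    have h3 : y * x ^ 2 * y⁻¹ = x ^ 2 := by
      have := h1.eq
      rw [← mul_assoc] at this
      rw [mul_inv_eq_iff_eq_mul]
      exact mul_right_cancel this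
    rw [← conj_pow, hyx, inv_pow, inv_eq_iff_mul_eq_one, ← pow_add] at h3
    exact h3
  have hn2 : n = 2 := by
    have := orderOf_dvd_of_pow_eq_one h4
    rw [hx, show 2 * 2 = 2 ^ 2 by norm_num, Nat.pow_dvd_pow_iff_le_right one_lt_two] at this
    omega
  subst hn2
  have h2 : y * y = x ^ 2 := by rw [← sq, hy2]; norm_num
  have h3 : x * y * x = y := by
    calc x * y * x = x * (y * x * y⁻¹) * y := by group
      _ = y := by rw [hyx]; group
  have hx2 : x ^ 2 ≠ 1 := pow_ne_one_of_lt_orderOf two_ne_zero (by rw [hx]; norm_num)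
  have hS : Nat.card S = 8 := by
    rw [← (zpowers x).card_mul_index, hi, Nat.card_zpowers, hx]; norm_num
  let e1 : QuaternionGroup 2 ≃* S := MulEquiv.ofBijective (H9.quatHom 2 x y h4 h2 h3)
    ((Nat.bijective_iff_injective_and_card _).mpr ⟨H2.quatHom_injective h4 h2 h3 hx2, by
      rw [hS, Nat.card_eq_fintype_card, QuaternionGroup.card]⟩)
  let O := pPrimeCore 2 A
  have hO : Odd (Nat.card O) := Nat.coprime_two_right.mp (L.coprime_card_pPrimeCore 2)
  have hOc : IsCyclic O := (hφ.subtype O).isCyclic_of_odd_of_isNilpotent hO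
  have hSn : (S : Subgroup A).Normal := inferInstance
  have hdisj : O ⊓ S = ⊥ := by
    rw [← L.pCore_eq_of_sylow_normal S hSn, inf_comm]; exact L.pCore_inf_pPrimeCore Nat.prime_two
  have hcomm : ∀ (a : O) (b : S), Commute (O.subtype a) ((S : Subgroup A).subtype b) :=
    fun a b => L.commute_of_normal_of_inf_eq_bot hdisj a.2 b.2
  have hsup : O ⊔ S = ⊤ := by
    rw [← L.pCore_eq_of_sylow_normal S hSn, sup_comm, eq_top_iff,
      ← L.fittingSubgroup_eq_top_iff.mpr hnil]
    exact L.fittingSubgroup_le_sup Nat.prime_two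
  have hf : Function.Bijective (MonoidHom.noncommCoprod _ _ hcomm) := by
    refine ⟨?_, MonoidHom.range_eq_top.mp ?_⟩
    · rw [MonoidHom.noncommCoprod_injective, range_subtype, range_subtype]
      exact ⟨subtype_injective _, subtype_injective _, disjoint_iff.mpr hdisj⟩
    · rw [MonoidHom.noncommCoprod_range, range_subtype, range_subtype, hsup]
  exact ⟨Nat.card O, hO, ⟨(MulEquiv.ofBijective _ hf).symm.trans
    ((zmodCyclicMulEquiv hOc).symm.prodCongr e1.symm)⟩⟩

variable [Finite G]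

theorem TIC.frob (h : TIC G) (hn : ¬ Group.IsNilpotent G) (hF : fittingSubgroup G ≠ ⊥) :
    ∃ H : Subgroup G, IsFrobeniusComplement H ∧ (IsCyclic H ∨
      ∃ m : ℕ, Odd m ∧ Nonempty (H ≃* Multiplicative (ZMod m) × QuaternionGroup 2)) := by
  set F := fittingSubgroup G
  obtain ⟨⟨z, hz⟩, z1⟩ := ne_bot_iff_exists_ne_one.mp
    (L.inf_centralizer_ne_bot_of_isNilpotent (le_refl F) le_normalizer hF)
  have z1' : z ≠ 1 := fun e => z1 (Subtype.ext e)
  have hcent : ∀ x ∈ F, x ≠ 1 → 𝐂[x] ≤ F := fun x hx x1 => by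
    refine L.le_fittingSubgroup (normalizer_eq_top_iff.mp (eq_top_iff.mpr fun g _ => ?_)) (h.nilp x1)
    refine h.norm (mem_centralizer_singleton_iff.mpr (hz.2 x hx).symm) z1' ?_
    exact mem_centralizer_singleton_iff.mpr
      ((Normal.conj_mem inferInstance z hz.2 g : _ ∈ 𝐂(F)) x hx).symm
  obtain ⟨H, hH, -⟩ := H9.exists_frob_of_centralizer_le hF
    (mt L.fittingSubgroup_eq_top_iff.mp hn) hcent
  obtain ⟨K, _, _, -, hφ⟩ := H9.frob_exists_isFrobAction hH
  refine ⟨H, hH, compl_struct hφ ?_⟩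
  have : Nontrivial H := (nontrivial_iff_ne_bot H).mpr hH.1
  obtain ⟨a, a1, ha⟩ : ∃ a : H, a ≠ 1 ∧ a ∈ center H := by
    rcases Nat.even_or_odd (Nat.card H) with he | ho
    · have := Fact.mk Nat.prime_two
      obtain ⟨a, ha⟩ := exists_prime_orderOf_dvd_card' (G := H) 2 he.two_dvd
      exact ⟨a, fun e => by simp [e] at ha, hφ.involution_mem_center ha⟩
    · have := hφ.isZGroup_of_odd ho
      obtain ⟨M, p, hM, hp, hel⟩ := L.exists_isMinNormal_isElementaryAbelian (G := H)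
      have := hM.1
      obtain ⟨⟨a, haM⟩, a1⟩ := ne_bot_iff_exists_ne_one.mp hM.2.1
      have a1' : a ≠ 1 := fun e => a1 (Subtype.ext e)
      have := Fact.mk hp
      have hap : orderOf a = p := orderOf_eq_prime (hel.2 a haM) a1'
      have hzM : zpowers a = M := le_antisymm (zpowers_le.mpr haM) fun b hb =>
        hφ.mem_zpowers_of_commute hp hap (hel.2 b hb)
          (congrArg Subtype.val (hel.1.is_comm.comm ⟨a, haM⟩ ⟨b, hb⟩))
      refine ⟨a, a1', mem_center_iff.mpr fun g => ?_⟩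
      by_cases g1 : g = 1
      · simp [g1]
      obtain ⟨q, hq, hqg⟩ := Nat.exists_prime_and_dvd (mt orderOf_eq_one_iff.mp g1)
      set b := g ^ (orderOf g / q) with hb
      have hbq : orderOf b = q := orderOf_pow_orderOf_div (orderOf_pos g).ne' hqg
      have b1 : (b : G) ≠ 1 := fun e => hq.one_lt.ne' (by
        rw [← hbq, orderOf_eq_one_iff]; exact Subtype.ext e)
      have hab : Commute a b := hφ.commute_of_normalizes hq hp hap
        (hbq ▸ pow_orderOf_eq_one b) (by rw [hzM, normalizer_eq_top]; exact mem_top _)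
      have := h.nilp b1
      have hle : 𝐂[(b : G)] ≤ H := H9.frob_centralizer_le hH b.2 b1
      have hA : zpowers (a : G) ≤ 𝐂[(b : G)] := zpowers_le.mpr
        (mem_centralizer_singleton_iff.mpr (congrArg Subtype.val hab.eq))
      have hnorm : 𝐂[(b : G)] ≤ 𝐍(zpowers (a : G)) := fun c hc => by
        refine mem_normalizer_fintype fun x hx => ?_
        obtain ⟨k, rfl⟩ := hx
        have h1 : (⟨c, hle hc⟩ : H) * a * (⟨c, hle hc⟩ : H)⁻¹ ∈ zpowers a :=
          hzM ▸ Normal.conj_mem inferInstance a haM _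
        obtain ⟨j, hj⟩ := h1
        simp only [SetLike.mem_coe]
        rw [← conj_zpow]
        exact zpow_mem (show _ ∈ zpowers (a : G) from ⟨j, congrArg Subtype.val hj⟩) k
      obtain ⟨⟨c, hc⟩, c1⟩ := ne_bot_iff_exists_ne_one.mp (L.inf_centralizer_ne_bot_of_isNilpotent
        hA hnorm (by simpa using a1'))
      have h3 := H9.zpowers_eq_of_mem_of_prime hp (by rw [orderOf_coe, hap]) hc.1
        fun e => c1 (Subtype.ext e)
      have h4 : (a : G) ∈ 𝐂(𝐂[(b : G)]) :=
        (zpowers_le.mpr hc.2) (h3 ▸ mem_zpowers (a : G))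
      exact Subtype.ext (h4 g (mem_centralizer_singleton_iff.mpr
        (congrArg Subtype.val (Commute.self_pow g _).eq)))
  have hH' : ∀ x : H, (x : G) ∈ 𝐂[(a : G)] := fun x =>
    mem_centralizer_singleton_iff.mpr (congrArg Subtype.val (mem_center_iff.mp ha x))
  exact fun x g => Subtype.ext (comm_of_norm
    (h.norm' (fun e => a1 (Subtype.ext e)) (hH' x) (hH' g)))

theorem TIC.eq_Z (h : TIC G) {Q H : Subgroup G} {t : G} (hz : P2.ZT Q H t) : Q = hz.Z := by
  refine hz.cases.elim id fun ⟨h1, _, h3⟩ => ZA.eq_Z_of_comm hz fun x hx y hy => ?_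
  by_cases hxZ : x ∈ hz.Z
  · exact (hz.central hx (hz.mem_Z.mp hxZ).2 hy).symm
  have s1 : x * x ≠ 1 := fun e => hxZ (hz.mem_Z.mpr ⟨hx, e⟩)
  have hZC : ∀ z ∈ hz.Z, Commute x z := fun z hzz =>
    hz.central (hz.Z_le hzz) (hz.mem_Z.mp hzz).2 hx
  have hconj : ∀ k ∈ H, Commute x (k * x * k⁻¹) := fun k hk => comm_of_norm
    (h.norm (mem_centralizer_singleton_iff.mpr (hZC _ (h1 x hx)).symm) s1
      (mem_centralizer_singleton_iff.mpr (hZC _ ((mem_normalizer_iff.mp
        (hz.normZ (mem_sup_right hk)) _).mp (h1 x hx))).symm))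
  have hkQ : ∀ k ∈ H, k * x * k⁻¹ ∈ Q := fun k hk =>
    (mem_normalizer_iff.mp (hz.normQ (mem_sup_right hk)) _).mp hx
  let f : Option H × hz.Z → (Q ⊓ 𝐂[x] : Subgroup G) := fun p => match p with
    | (none, z) => ⟨z, hz.Z_le z.2, mem_centralizer_singleton_iff.mpr (hZC _ z.2).symm⟩
    | (some k, z) => ⟨k * x * (k : G)⁻¹ * z, mul_mem (hkQ k k.2) (hz.Z_le z.2),
        mem_centralizer_singleton_iff.mpr ((hconj k k.2).mul_right (hZC _ z.2)).symm⟩
  have hsq : ∀ (k : H) (z : hz.Z), (k * x * (k : G)⁻¹ * z) * (k * x * (k : G)⁻¹ * z) =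
      k * (x * x) * (k : G)⁻¹ := fun k z => by
    have hc := hz.central (hz.Z_le z.2) (hz.mem_Z.mp z.2).2 (hkQ k k.2)
    rw [mul_assoc _ (z : G), ← mul_assoc (z : G), ← hc.eq, mul_assoc _ (z : G),
      (hz.mem_Z.mp z.2).2]
    group
  have hf : Function.Injective f := by
    rintro ⟨_ | k, z⟩ ⟨_ | k', z'⟩ e <;> have e' := congrArg Subtype.val e <;> simp only [f] at e'
    · rw [Subtype.ext e']
    · have := hsq k' z'
      rw [← e', (hz.mem_Z.mp z.2).2, eq_comm, H9.conj_eq_one_iff] at this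
      exact (s1 this).elim
    · have := hsq k z
      rw [e', (hz.mem_Z.mp z'.2).2, eq_comm, H9.conj_eq_one_iff] at this
      exact (s1 this).elim
    · have a1 := hsq k z
      rw [e', hsq] at a1
      have a2 : (k' : G)⁻¹ * k ∈ Q := hz.cent (mul_mem hx hx) s1 (by
        change x * x * ((k' : G)⁻¹ * k) = (k' : G)⁻¹ * k * (x * x)
        calc _ = (k' : G)⁻¹ * (k' * (x * x) * (k' : G)⁻¹) * k := by group
          _ = _ := by rw [a1]; group)
      have a3 : k' = k := Subtype.ext (inv_mul_eq_one.mp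
        (hz.eq_one a2 (mul_mem (inv_mem k'.2) k.2)))
      subst a3
      rw [Subtype.ext (mul_left_cancel e')]
  have hle := Nat.card_le_card_of_injective f hf
  rw [Nat.card_prod, Finite.card_option, ← h3, mul_comm, H1.card_mul_relIndex hz.Z_le] at hle
  have := eq_of_le_of_card_ge (inf_le_left : Q ⊓ 𝐂[x] ≤ Q) hle
  rw [← this] at hy
  exact (mem_centralizer_singleton_iff.mp hy.2).symm

theorem TIC.psl (h : TIC G) (hn : ¬ Group.IsNilpotent G) (hF : fittingSubgroup G = ⊥) :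
    ∃ n : ℕ, 2 ≤ n ∧
      Nonempty (G ≃* Matrix.ProjectiveSpecialLinearGroup (Fin 2) (GaloisField 2 n)) := by
  have := Fact.mk Nat.prime_two
  have hnt : Nontrivial G := by
    by_contra hh
    rw [not_nontrivial_iff_subsingleton] at hh
    exact hn inferInstance
  have hev : 2 ∣ Nat.card G := by
    by_contra ho
    have := feit_thompson G (Nat.odd_iff.mpr (Nat.two_dvd_ne_zero.mp ho))
    exact L.fittingSubgroup_ne_bot hF
  obtain ⟨S⟩ : Nonempty (Sylow 2 G) := inferInstance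
  have hS : (S : Subgroup G) ≠ ⊥ := S.ne_bot_of_dvd_card hev
  have := S.isPGroup'.isNilpotent
  obtain ⟨⟨z, hz⟩, z1⟩ := ne_bot_iff_exists_ne_one.mp
    (L.inf_centralizer_ne_bot_of_isNilpotent (le_refl (S : Subgroup G)) le_normalizer hS)
  have z1' : z ≠ 1 := fun e => z1 (Subtype.ext e)
  have hSK : (S : Subgroup G) ≤ 𝐂[z] := fun s hs => mem_centralizer_singleton_iff.mpr (hz.2 s hs)
  have hK := h.nilp z1'
  have hNS : 𝐍(𝐂[z]) ≤ 𝐍(S) := by
    have h1 : 𝐂[z] ≤ 𝐍(S) := (normal_subgroupOf_iff_le_normalizer hSK).mp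
      (inferInstance : (S.subtype hSK : Subgroup 𝐂[z]).Normal)
    exact norm_le_norm_sylow S hSK h1
  have hcti : H9.CTI 𝐂[z] := ⟨fun x hx x1 => ?_, fun x hx x1 g hg => h.norm hx x1 hg,
    (even_iff_two_dvd).mpr ((S.dvd_card_of_dvd_card hev).trans (Subgroup.card_dvd_of_le hSK))⟩
  · obtain ⟨H, t, hz, -⟩ := ZA.exists_zt hF hcti fun e => z1' (by
      have : z ∈ center G := mem_center_iff.mpr fun g =>
        mem_centralizer_singleton_iff.mp (e ▸ mem_top g : g ∈ 𝐂[z])
      have := L.center_le_fittingSubgroup this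
      rwa [hF] at this)
    obtain ⟨n, h1, -, -, -, h2⟩ := ZA.sl2_of_eq_Z hz (h.eq_Z hz)
    exact ⟨n, h1, h2⟩
  · have hzx : z ∈ 𝐂[x] :=
      mem_centralizer_singleton_iff.mpr (mem_centralizer_singleton_iff.mp hx).symm
    have hxx : x ∈ 𝐂[x] := mem_centralizer_singleton_iff.mpr rfl
    have hle : 𝐂[x] ≤ 𝐍(S) := fun g hg => hNS (h.norm' x1 hzx hg)
    have hnil := h.nilp x1
    have hF := L.fittingSubgroup_eq_top_iff.mpr hnil
    obtain ⟨k, hk⟩ := S.isPGroup' ⟨z, hz.1⟩
    have hzP : (⟨z, hzx⟩ : 𝐂[x]) ∈ pCore 2 𝐂[x] := L.mem_pCore_of_mem_fittingSubgroup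
      Nat.prime_two (k := k) (Subtype.ext (by simpa using congrArg Subtype.val hk)) (hF ▸ mem_top _)
    have h1 : (pCore 2 𝐂[x]).map (𝐂[x]).subtype ≤ S := le_sylow_of_le_norm S
      ((L.isPGroup_pCore 2).map _) ((map_subtype_le _).trans hle)
    have h2 : pCore 2 𝐂[x] ⊔ pPrimeCore 2 𝐂[x] ≤ 𝐂[(⟨z, hzx⟩ : 𝐂[x])] :=
      sup_le (fun y hy => mem_centralizer_singleton_iff.mpr
        (Subtype.ext (mem_centralizer_singleton_iff.mp (hSK (h1 ⟨y, hy, rfl⟩)))))
        fun y hy => mem_centralizer_singleton_iff.mpr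
          (L.pPrimeCore_le_centralizer_pCore Nat.prime_two hy _ hzP).symm
    intro g hg
    exact mem_centralizer_singleton_iff.mpr (congrArg Subtype.val (mem_centralizer_singleton_iff.mp
      (h2 (L.fittingSubgroup_le_sup Nat.prime_two (hF ▸ mem_top (⟨g, hg⟩ : 𝐂[x]))))))

end Cfsg.Agent.H7.TIC
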