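/-
Simple groups whose class sizes have at most two prime divisors: local analysis.
-/
import Cfsg.Agent.H7.CA
import Cfsg.Agent.H7.TwoA
import Cfsg.Agent.H7.Ito
import Cfsg.Agent.H9.ClassSize
import Cfsg.Agent.H6.Induction
import Cfsg.Agent.L.ThreePrimes

set_option autoImplicit false
set_option linter.unusedSectionVars false

namespace Cfsg.Agent.H7.Two

open Subgroup Cfsg Cfsg.Agent Cfsg.Agent.FT Cfsg.Agent.P1 Cfsg.Agent.H7.CA
open scoped ComplexConjugate

universe u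

variable {G : Type u} [Group G] [Finite G]

/-- The class size of `x` is prime to `l`. -/
def U (l : ℕ) (x : G) : Prop := ¬ l ∣ (𝐂[x]).index

/-- All `l`-subgroups are abelian. -/
def Ab (l : ℕ) (G : Type u) [Group G] : Prop :=
  ∀ P : Subgroup G, IsPGroup l P → IsMulCommutative P

theorem U.mono {l : ℕ} {x y : G} (h : U l x) (hxy : 𝐂[x] ≤ 𝐂[y]) : U l y :=
  fun e => h (e.trans (index_dvd_of_le hxy))

theorem U.zpow {l : ℕ} {x y : G} (h : U l x) (hy : y ∈ zpowers x) : U l y :=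
  h.mono (H9.centralizer_le_of_mem_zpowers hy)

theorem U_of_le {l : ℕ} [Fact l.Prime] {x : G} (P : Sylow l G) (h : (P : Subgroup G) ≤ 𝐂[x]) :
    U l x := fun e => P.not_dvd_index (e.trans (index_dvd_of_le h))

theorem ab_of_sylow {l : ℕ} [Fact l.Prime] (P : Sylow l G) (h : IsMulCommutative P) : Ab l G := by
  intro Q hQ
  obtain ⟨S, hS⟩ := hQ.exists_le_sylow
  obtain ⟨a, rfl⟩ := MulAction.exists_smul_eq G P S
  refine comm_iff.mpr fun x hx y hy => ?_
  obtain ⟨x, hx', rfl⟩ := hS hx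
  obtain ⟨y, hy', rfl⟩ := hS hy
  exact (comm_iff.mp h x hx' y hy').map (MulAut.conj a)

theorem Ab.U {l k : ℕ} (h : Ab l G) (hl : l.Prime) {x : G} (hx : orderOf x = l ^ k) : U l x := by
  have := Fact.mk hl
  obtain ⟨P, hP⟩ := (H8.isPGroup_zpowers_of_orderOf hx).exists_le_sylow
  exact U_of_le P fun y hy =>
    CA.mem_cent.mpr (comm_iff.mp (h _ P.isPGroup') x (hP (mem_zpowers x)) y hy)

theorem sq_dvd_relIndex {l : ℕ} (hl : l.Prime) {P : Subgroup G} (hP : IsPGroup l P)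
    (h : ¬ IsMulCommutative P) : l ^ 2 ∣ 𝐂(P).relIndex P := by
  have := Fact.mk hl
  have e : 𝐂(P).subgroupOf P = center P := by
    ext x
    rw [mem_subgroupOf, mem_center_iff, mem_centralizer_iff]
    exact ⟨fun h y => Subtype.ext (h y y.2), fun h y hy => congrArg Subtype.val (h ⟨y, hy⟩)⟩
  obtain ⟨j, hj⟩ := hP.index (center P)
  rw [relIndex, e, hj]
  refine pow_dvd_pow l (not_lt.mp fun hj2 => h ?_)
  have : IsCyclic (P ⧸ center P) := isCyclic_of_card_dvd_prime (p := l) (by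
    rw [← index_eq_card, hj]
    simpa using pow_dvd_pow l (show j ≤ 1 by omega))
  exact isMulCommutative_of_isCyclic_quotient_center_self P

theorem isPGroup_of_primes {l : ℕ} {H : Subgroup G}
    (h : ∀ s, s.Prime → s ∣ 𝐨(H) → s = l) : IsPGroup l H :=
  IsPGroup.of_card (Nat.eq_prime_pow_of_unique_prime_dvd Nat.card_pos.ne' fun hs hd => h _ hs hd)

theorem irr_ker [IsSimpleGroup G] {χ : G → ℂ} (hχ : χ ∈ Irr ⊤) (h1 : χ ≠ cf1 ⊤) {x : G}
    (hx : χ x = χ 1) : x = 1 := by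
  have hn : (cfKer χ).Normal :=
    normalizer_eq_top_iff.mp (top_le_iff.mp (le_norm_cfKer (irr_mem_CF hχ)))
  rcases hn.eq_bot_or_eq_top with e | e
  · exact mem_bot.mp (e ▸ (irr_isChar hχ).mem_cfKer_iff.mpr hx)
  · exact absurd ((irr_eq_cf1_iff hχ).mpr e.ge) h1

theorem irr_vanish [IsSimpleGroup G] (hna : ¬ IsMulCommutative G) {χ : G → ℂ} (hχ : χ ∈ Irr ⊤)
    (h1 : χ ≠ cf1 ⊤) {x : G} (hx : x ≠ 1) (hc : (dg χ).Coprime (𝐂[x]).index) : χ x = 0 := by
  refine ((mem_Irr_top_iff.mp hχ).eq_zero_or_norm_eq (irr_one_eq hχ) x hc).resolve_right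
    fun e => ?_
  obtain ⟨N, -, h2, -, h3⟩ := (isChar_top_iff.mp (irr_isChar hχ)).exists_ker
  refine cent_ne_top hna hx (eq_top_iff.mpr fun y _ => CA.mem_cent.mpr ?_)
  exact commutatorElement_eq_one_iff_commute.mp (irr_ker hχ h1 ((h2 _).mp
    (h3 x (by rw [e, irr_one_eq hχ, Complex.norm_natCast]) y)))

theorem two_le_dg [IsSimpleGroup G] (hna : ¬ IsMulCommutative G) {χ : G → ℂ} (hχ : χ ∈ Irr ⊤)
    (h1 : χ ≠ cf1 ⊤) : 2 ≤ dg χ := by
  by_contra h
  have h2 : dg χ = 1 := by have := irr_dg_pos hχ; omega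
  obtain ⟨x, hx⟩ := exists_ne (1 : G)
  exact ((irr_isChar hχ).isLin_of_dg h2).ne_zero (mem_top x)
    (irr_vanish hna hχ h1 hx (by simp [h2]))

theorem two_le_w [IsSimpleGroup G] (hna : ¬ IsMulCommutative G) {l : ℕ} [Fact l.Prime]
    (hd : l ∣ Nat.card G) (P : Sylow l G) :
    2 ≤ 𝐂((P : Subgroup G)).relIndex 𝐍((P : Subgroup G)) := by
  have h0 : 𝐂((P : Subgroup G)).relIndex 𝐍((P : Subgroup G)) ≠ 0 := index_ne_zero_of_finite
  have h1 : 𝐂((P : Subgroup G)).relIndex 𝐍((P : Subgroup G)) ≠ 1 := fun e =>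
    H9.not_hasNPC_of_simple hna hd
      (H8.hasNPC_of_normalizer_le_centralizer P (relIndex_eq_one.mp e))
  omega

theorem sq_dvd_w {l : ℕ} [hl : Fact l.Prime] (P : Sylow l G) (h : ¬ IsMulCommutative P) :
    l ^ 2 ∣ 𝐂((P : Subgroup G)).relIndex 𝐍((P : Subgroup G)) :=
  (sq_dvd_relIndex hl.out P.isPGroup' h).trans (BG04.relIndex_dvd_of_norm le_normalizer
    (H1.le_normalizer_centralizer le_normalizer))

theorem three_le_w [IsSimpleGroup G] (hna : ¬ IsMulCommutative G) [Fact (Nat.Prime 2)]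
    (P : Sylow 2 G) : 3 ≤ 𝐂((P : Subgroup G)).relIndex 𝐍((P : Subgroup G)) := by
  have h1 := two_le_w hna (even_card hna).two_dvd P
  by_cases h : IsMulCommutative P
  · have h2 : ¬ 2 ∣ 𝐂((P : Subgroup G)).relIndex 𝐍((P : Subgroup G)) := fun e =>
      P.not_dvd_index ((e.trans (relIndex_dvd_index_of_le (centralizer_le_normalizer _))).trans
        (index_dvd_of_le (le_centralizer _)))
    omega
  · have := Nat.le_of_dvd (by omega) (sq_dvd_w P h)
    omega

theorem sum_U_gt (h : ∀ x : G, (𝐂[x]).index.primeFactors.card ≤ 2) :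
    (Nat.card G).primeFactors.card * Nat.card G <
      ∑ l ∈ (Nat.card G).primeFactors, {x : G | U l x}.ncard + 2 * Nat.card G := by
  classical
  have := Fintype.ofFinite G
  have h1 : ∑ l ∈ (Nat.card G).primeFactors, {x : G | U l x}.ncard =
      ∑ x : G, ((Nat.card G).primeFactors.filter fun l => U l x).card := by
    simp only [Finset.card_filter]
    rw [Finset.sum_comm]
    refine Finset.sum_congr rfl fun l _ => ?_
    rw [← Finset.card_filter, ← Set.ncard_coe_finset]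
    simp
  rw [h1, mul_comm, mul_comm 2]
  conv_lhs => rw [Nat.card_eq_fintype_card, ← Finset.card_univ, ← smul_eq_mul, ← Finset.sum_const,
    Finset.card_univ, ← Nat.card_eq_fintype_card]
  conv_rhs => arg 2; rw [Nat.card_eq_fintype_card, ← Finset.card_univ, ← smul_eq_mul,
    ← Finset.sum_const]
  rw [← Finset.sum_add_distrib]
  refine Finset.sum_lt_sum (fun x _ => ?_) ⟨1, Finset.mem_univ _, ?_⟩
  · refine le_trans (Finset.card_le_card fun l hl => ?_) ((Finset.card_union_le _ _).trans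
      (Nat.add_le_add_left (h x) _))
    by_cases e : U l x
    · exact Finset.mem_union_left _ (Finset.mem_filter.mpr ⟨hl, e⟩)
    · exact Finset.mem_union_right _ (Nat.mem_primeFactors.mpr
        ⟨Nat.prime_of_mem_primeFactors hl, not_not.mp e, index_ne_zero_of_finite⟩)
  · have h2 : ∀ l ∈ (Nat.card G).primeFactors, U l (1 : G) := fun l hl e =>
      (Nat.prime_of_mem_primeFactors hl).ne_one (by
        rwa [H9.index_centralizer_eq_one_iff.mpr (one_mem _), Nat.dvd_one] at e)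
    rw [Finset.filter_true_of_mem h2]
    omega

/-- A simple group with class sizes divisible by at most two primes. -/
structure T3 (G : Type u) [Group G] : Prop where
  simple : IsSimpleGroup G
  hna : ¬ IsMulCommutative G
  two : ∀ x : G, (𝐂[x]).index.primeFactors.card ≤ 2

namespace T3

theorem three (h : T3 G) : (Nat.card G).primeFactors.card = 3 := by
  have := h.simple
  have h1 : ¬ (Nat.card G).primeFactors.card ≤ 2 := fun e =>
    not_solvable h.hna (H6.isSolvable_of_card_primeFactors_le_two e)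
  have h2 := sum_U_gt h.two
  have h3 : ∑ l ∈ (Nat.card G).primeFactors, {x : G | U l x}.ncard * 2 ≤
      (Nat.card G).primeFactors.card * Nat.card G := by
    rw [← smul_eq_mul]
    refine Finset.sum_le_card_nsmul _ _ _ fun l hl => ?_
    have := Fact.mk (Nat.prime_of_mem_primeFactors hl)
    obtain ⟨P⟩ : Nonempty (Sylow l G) := inferInstance
    exact (Nat.mul_le_mul_left _ (two_le_w h.hna (Nat.dvd_of_mem_primeFactors hl) P)).trans
      (ncard_not_dvd_class_mul_le P)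
  rw [← Finset.sum_mul] at h3
  by_contra h4
  have := Nat.mul_le_mul_right (Nat.card G) (show 4 ≤ (Nat.card G).primeFactors.card by omega)
  omega

theorem cover (h : T3 G) (x : G) : ∃ l, l.Prime ∧ l ∣ Nat.card G ∧ U l x := by
  obtain ⟨l, h1, h2⟩ := Finset.exists_mem_notMem_of_card_lt_card
    (s := (𝐂[x]).index.primeFactors) (t := (Nat.card G).primeFactors)
    (by have := h.two x; have := h.three; omega)
  have hl := Nat.prime_of_mem_primeFactors h1
  exact ⟨l, hl, Nat.dvd_of_mem_primeFactors h1,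
    fun e => h2 (Nat.mem_primeFactors.mpr ⟨hl, e, index_ne_zero_of_finite⟩)⟩

theorem uniq (h : T3 G) {x : G} (hx : x ≠ 1) {a b : ℕ} (ha : a.Prime) (ha' : a ∣ Nat.card G)
    (hb : b.Prime) (hb' : b ∣ Nat.card G) (h1 : U a x) (h2 : U b x) : a = b := by
  by_contra hab
  have := h.simple
  have h0 : Nat.card G ≠ 0 := Nat.card_pos.ne'
  have h3 : (((Nat.card G).primeFactors.erase a).erase b).card = 1 := by
    rw [Finset.card_erase_of_mem (Finset.mem_erase.mpr ⟨Ne.symm hab,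
      Nat.mem_primeFactors.mpr ⟨hb, hb', h0⟩⟩),
      Finset.card_erase_of_mem (Nat.mem_primeFactors.mpr ⟨ha, ha', h0⟩), h.three]
  obtain ⟨c, hc⟩ := Finset.card_eq_one.mp h3
  have hc' : c.Prime := Nat.prime_of_mem_primeFactors (Finset.mem_of_mem_erase
    (Finset.mem_of_mem_erase (hc ▸ Finset.mem_singleton_self c)))
  refine hx (H6.eq_one_of_isSimpleGroup_of_index_centralizer h.hna hc'
    (Nat.eq_prime_pow_of_unique_prime_dvd index_ne_zero_of_finite fun {s} hs hd => ?_))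
  rw [← Finset.mem_singleton, ← hc]
  exact Finset.mem_erase.mpr ⟨fun e => h2 (e ▸ hd), Finset.mem_erase.mpr ⟨fun e => h1 (e ▸ hd),
    Nat.mem_primeFactors.mpr ⟨hs, hd.trans (index_dvd_card _), h0⟩⟩⟩

theorem U_mul (h : T3 G) {x y : G} (hx : x ≠ 1) {a : ℕ} (ha : a.Prime) (ha' : a ∣ Nat.card G)
    (h1 : U a x) (hc : Commute x y) (hcop : (orderOf x).Coprime (orderOf y)) : U a (x * y) := by
  obtain ⟨l, hl, hl', h2⟩ := h.cover (x * y)
  rwa [h.uniq hx ha ha' hl hl' h1 (h2.zpow (H9.mem_zpowers_mul_of_coprime hc hcop))]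

theorem not_dvd_cent (h : T3 G) {x : G} (hx : x ≠ 1) {a b : ℕ} (ha : a.Prime)
    (ha' : a ∣ Nat.card G) (h1 : U a x) (hb : b.Prime) (hab : a ≠ b) (hB : Ab b G)
    (hcop : ¬ b ∣ orderOf x) : ¬ b ∣ 𝐨(𝐂[x]) := by
  intro hd
  have := Fact.mk hb
  obtain ⟨⟨y, hy⟩, hyo⟩ := exists_prime_orderOf_dvd_card' (G := 𝐂[x]) b hd
  rw [orderOf_mk] at hyo
  have hc := CA.mem_cent.mp hy
  have h2 : (orderOf x).Coprime (orderOf y) := hyo ▸ (hb.coprime_iff_not_dvd.mpr hcop).symm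
  exact hab (h.uniq (fun e : y = 1 => hb.ne_one (by rw [← hyo, e, orderOf_one])) ha ha' hb
    (hyo ▸ orderOf_dvd_natCard y)
    ((h.U_mul hx ha ha' h1 hc h2).zpow (H9.mem_zpowers_mul_of_coprime' hc h2))
    (hB.U hb (hyo.trans (pow_one b).symm)))

theorem not_dvd_orderOf (h : T3 G) {x : G} {a b : ℕ} (ha : a.Prime)
    (ha' : a ∣ Nat.card G) (h1 : U a x) (hb : b.Prime) (hab : a ≠ b) (hB : Ab b G) :
    ¬ b ∣ orderOf x := by
  intro hd
  have hyo := orderOf_pow_orderOf_div (orderOf_pos x).ne' hd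
  exact hab (h.uniq (fun e : x ^ (orderOf x / b) = 1 => hb.ne_one (by rw [← hyo, e, orderOf_one]))
    ha ha' hb (hd.trans (orderOf_dvd_natCard x)) (h1.zpow (npow_mem_zpowers x _))
    (hB.U hb (hyo.trans (pow_one b).symm)))

theorem isPGroup_cent (h : T3 G) {x : G} (hx : x ≠ 1) {a : ℕ} (ha : a.Prime)
    (ha' : a ∣ Nat.card G) (h1 : U a x) (hB : ∀ b, b.Prime → b ≠ a → Ab b G) :
    IsPGroup a 𝐂[x] := isPGroup_of_primes fun b hb hd => by
  by_contra e
  exact h.not_dvd_cent hx ha ha' h1 hb (Ne.symm e) (hB b hb e)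
    (h.not_dvd_orderOf ha ha' h1 hb (Ne.symm e) (hB b hb e)) hd

theorem cent_eq (h : T3 G) {p : ℕ} [hp : Fact p.Prime] (hA : Ab p G) (P : Sylow p G) {u : G}
    (hu : u ∈ (P : Subgroup G)) (u1 : u ≠ 1) : 𝐂[u] = 𝐂((P : Subgroup G)) := by
  refine le_antisymm ?_ fun y hy => CA.mem_cent.mpr (hy u hu)
  obtain ⟨j, hj⟩ := exists_orderOf_eq_pow_of_mem P.isPGroup' hu
  have hd : p ∣ Nat.card G := (hj ▸ dvd_pow_self p fun e => u1 (by
    rwa [e, pow_zero, orderOf_eq_one_iff] at hj) : p ∣ orderOf u).trans (orderOf_dvd_natCard u)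
  have hPu : (P : Subgroup G) ≤ 𝐂[u] := fun y hy =>
    CA.mem_cent.mpr (comm_iff.mp (hA _ P.isPGroup') u hu y hy)
  rw [← subgroupOf_eq_top]
  refine H6.eq_top_of_forall_exists_conj_mem _ fun ⟨g, hg⟩ => ?_
  obtain ⟨a, b, ha, hb, rfl, hab, ⟨k, hk⟩, hbo⟩ := H8.exists_pPart_pPrimePart hp.out g
  have hub : Commute u b := CA.mem_cent.mp (zpowers_le.mpr hg hb)
  have hcop : (orderOf u).Coprime (orderOf b) := hj ▸ hbo.symm.pow_left j
  have h1 := h.U_mul u1 hp.out hd (U_of_le P hPu) hub hcop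
  have h2 := H9.centralizer_mul_of_coprime hub hcop
  obtain ⟨Q, q1, q2, q3, q4⟩ := H1.exists_sylow_of_le (p := p) (H := 𝐂[u * b]) (Q := zpowers a)
    (zpowers_le.mpr (h2 ▸ ⟨zpowers_le.mpr hg ha, CA.mem_cent.mpr hab.symm⟩))
    (H8.isPGroup_zpowers_of_orderOf hk)
  have q5 : Q ≤ 𝐂[u] := q2.trans (h2.le.trans inf_le_left)
  obtain ⟨x, hx, e⟩ := H1.exists_conj_eq_sylow hPu P.isPGroup'
    (fun e => P.not_dvd_index (e.trans (relIndex_dvd_index_of_le hPu))) q5 q3 fun e =>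
      (hp.out.dvd_mul.mp (relIndex_mul_index q2 ▸ e.trans (relIndex_dvd_index_of_le q5))).elim q4 h1
  refine ⟨⟨x, hx⟩⁻¹, ?_⟩
  rw [mem_subgroupOf, ← e, H1.centralizer_map_conj, H1.mem_map_conj]
  change x⁻¹ * (x⁻¹⁻¹ * (a * b) * x⁻¹) * x ∈ _
  rw [show x⁻¹ * (x⁻¹⁻¹ * (a * b) * x⁻¹) * x = a * b by group]
  exact mul_mem (fun y hy => comm_iff.mp (hA Q q3) y hy a (q1 (mem_zpowers a)))
    fun y hy => (CA.mem_cent.mp (h2.le (q2 hy)).2).symm

theorem isPGroup_cent_two (h : T3 G) (hB : ∀ b, b.Prime → b ≠ 2 → Ab b G) {x : G} (hx : x ≠ 1)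
    (h1 : U 2 x) : IsPGroup 2 𝐂[x] :=
  have := h.simple
  h.isPGroup_cent hx Nat.prime_two (even_card h.hna).two_dvd h1 hB

theorem cent_eq_two (h : T3 G) (hB : ∀ b, b.Prime → b ≠ 2 → Ab b G) {x y : G} (hy : y ≠ 1)
    (h1 : U 2 x) (hxy : 𝐂[x] ≤ 𝐂[y]) : 𝐂[y] = 𝐂[x] :=
  have := Fact.mk Nat.prime_two
  H1.sylow_maximal (H := ⊤) (by rwa [relIndex_top_right]) hxy le_top
    (h.isPGroup_cent_two hB hy (h1.mono hxy))

theorem comm_of_U (h : T3 G) (hB : ∀ b, b.Prime → b ≠ 2 → Ab b G) [Fact (Nat.Prime 2)]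
    (S : Sylow 2 G) (hU : ∀ s ∈ (S : Subgroup G), s ∉ 𝐂((S : Subgroup G)) → s * s ≠ 1 → U 2 s) :
    IsMulCommutative S := by
  by_contra hc
  obtain ⟨s₀, hs₀, hs₀C⟩ := SetLike.not_le_iff_exists.mp fun e : (S : Subgroup G) ≤ 𝐂(S) =>
    hc (comm_iff.mpr fun a ha b hb => e hb a ha)
  obtain ⟨z₀, hz₀, z1, hz₀C⟩ := exists_ne_one_central_of_isPGroup S.isPGroup'
    fun e => hs₀C (by rw [mem_bot.mp (e ▸ hs₀ : s₀ ∈ (⊥ : Subgroup G))]; exact one_mem _)
  obtain ⟨k, hk⟩ := exists_pow_prime z1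
  obtain ⟨j, hj⟩ := exists_orderOf_eq_pow_of_mem S.isPGroup' (pow_mem hz₀ k)
  set z := z₀ ^ k
  have hz : z ∈ (S : Subgroup G) := pow_mem hz₀ k
  have hzC : ∀ s ∈ (S : Subgroup G), Commute z s := fun s hs =>
    (CA.mem_cent.mp (hz₀C hs)).pow_left k
  have h2 : orderOf z = 2 :=
    (Nat.prime_dvd_prime_iff_eq hk Nat.prime_two).mp (hk.dvd_of_dvd_pow hj.dvd)
  have zz : z * z = 1 := by rw [← sq, ← h2, pow_orderOf_eq_one]
  have key : ∀ s ∈ (S : Subgroup G), s ∉ 𝐂((S : Subgroup G)) → s * s = 1 := fun s hs hsC => by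
    by_contra ss
    have e : z * s * (z * s) = s * s := by
      rw [mul_assoc, ← mul_assoc s, ← (hzC s hs).eq, ← mul_assoc, ← mul_assoc, zz, one_mul]
    have h3 := hU s hs hsC ss
    have h4 := hU _ (mul_mem hz hs) (fun e => hsC
      ((mul_mem_cancel_left (show z ∈ 𝐂((S : Subgroup G)) from fun a ha => (hzC a ha).symm)).mp e)) (e ▸ ss)
    have sq_le : ∀ y : G, 𝐂[y] ≤ 𝐂[y * y] := fun y c hc =>
      CA.mem_cent.mpr ((CA.mem_cent.mp hc).mul_left (CA.mem_cent.mp hc))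
    have h5 := h.cent_eq_two hB ss h3 (sq_le s)
    have h6 := h.cent_eq_two hB (e ▸ ss) h4 (sq_le _)
    rw [e, h5] at h6
    have h7 := h.cent_eq_two hB (y := z) (fun e => by simp [e] at h2) h3 fun c hc => by
      have := (CA.mem_cent.mp (h6.le hc)).mul_left (CA.mem_cent.mp hc).inv_left
      rwa [mul_inv_cancel_right, ← CA.mem_cent] at this
    exact hsC fun a ha => (CA.mem_cent.mp (h7.le (CA.mem_cent.mpr (hzC a ha)))).symm
  have h3 : ∀ s ∈ (S : Subgroup G), s * s = 1 := fun s hs => by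
    by_cases hsC : s ∈ 𝐂((S : Subgroup G))
    · have h4 := key _ (mul_mem hs₀ hs) fun e => hs₀C ((mul_mem_cancel_right hsC).mp e)
      rwa [mul_assoc, ← mul_assoc s, ← hsC s₀ hs₀, ← mul_assoc, ← mul_assoc, key s₀ hs₀ hs₀C,
        one_mul] at h4
    · exact key s hs hsC
  refine hc (comm_iff.mpr fun a ha b hb => ?_)
  have h4 := eq_inv_of_mul_eq_one_left (h3 _ (mul_mem ha hb))
  rwa [mul_inv_rev, inv_eq_of_mul_eq_one_right (h3 a ha), inv_eq_of_mul_eq_one_right (h3 b hb)]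
    at h4

theorem comm_of_four (h : T3 G) (hB : ∀ b, b.Prime → b ≠ 2 → Ab b G) [Fact (Nat.Prime 2)]
    (S : Sylow 2 G) (h4 : 𝐂((S : Subgroup G)).relIndex 𝐍((S : Subgroup G)) < 8) :
    IsMulCommutative S := by
  have := h.simple
  refine h.comm_of_U hB S fun s hs hsC ss => ?_
  have h1 := Nat.le_of_dvd (Nat.pos_of_ne_zero index_ne_zero_of_finite)
    (BG04.relIndex_dvd_of_norm (C := 𝐂((S : Subgroup G))) (Q := S) le_normalizer
      (H1.le_normalizer_centralizer le_normalizer))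
  let K := (S : Subgroup G) ⊓ 𝐂[s]
  have h2 := relIndex_mul_relIndex (𝐂((S : Subgroup G)) ⊓ S) K S
    (fun y hy => ⟨hy.2, CA.mem_cent.mpr (hy.1 s hs)⟩) inf_le_left
  rw [inf_relIndex_right] at h2
  have hK : IsPGroup 2 K := S.isPGroup'.to_le inf_le_left
  obtain ⟨a, ha⟩ := hK.index ((𝐂((S : Subgroup G)) ⊓ S).subgroupOf K)
  have hsK : s ∈ K := ⟨hs, CA.mem_cent.mpr (Commute.refl s)⟩
  have h3 : K.relIndex S ≠ 1 := fun e => hsC fun y hy =>
    (CA.mem_cent.mp (relIndex_eq_one.mp e hy).2).symm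
  have h5 : K.relIndex S ≠ 0 := index_ne_zero_of_finite
  have h6 : a ≠ 0 := fun e => hsC (relIndex_eq_one.mp (ha.trans (by rw [e, pow_zero])) hsK).1
  have h7 : ¬ 2 ≤ a := fun e => by
    have : 2 ^ 2 * 2 ≤ 2 ^ a * K.relIndex S :=
      Nat.mul_le_mul (Nat.pow_le_pow_right two_pos e) (by omega)
    rw [relIndex, ha] at h2
    change _ ≤ 𝐂((S : Subgroup G)).relIndex _ at h1
    omega
  have h8 := (mul_self_mem_of_index_two (ha.trans (by rw [show a = 1 by omega, pow_one]))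
    ⟨s, hsK⟩).1
  obtain ⟨l, hl, hl', h9⟩ := h.cover s
  rwa [h.uniq ss Nat.prime_two (even_card h.hna).two_dvd hl hl'
    (U_of_le S fun y hy => CA.mem_cent.mpr (Commute.symm (h8 y hy)))
    (h9.zpow (mul_mem (mem_zpowers s) (mem_zpowers s)))]

end T3

/-- The prime divisors of the order are `2`, `p`, `q`. -/
structure Tri (G : Type u) [Group G] (p q : ℕ) : Prop where
  hp : p.Prime
  hq : q.Prime
  p2 : p ≠ 2
  q2 : q ≠ 2
  pq : p ≠ q
  pd : p ∣ Nat.card G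
  qd : q ∣ Nat.card G
  only : ∀ s, s.Prime → s ∣ Nat.card G → s = 2 ∨ s = p ∨ s = q
  count : Nat.card G < {x : G | U 2 x}.ncard + {x : G | U p x}.ncard + {x : G | U q x}.ncard

theorem Tri.symm {p q : ℕ} (h : Tri G p q) : Tri G q p :=
  ⟨h.hq, h.hp, h.q2, h.p2, h.pq.symm, h.qd, h.pd, fun s a b => by have := h.only s a b; tauto,
    by have := h.count; omega⟩

theorem T3.tri (h : T3 G) : ∃ p q, Tri G p q := by
  have := h.simple
  have h0 : Nat.card G ≠ 0 := Nat.card_pos.ne'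
  have h2 : 2 ∈ (Nat.card G).primeFactors :=
    Nat.mem_primeFactors.mpr ⟨Nat.prime_two, (even_card h.hna).two_dvd, h0⟩
  obtain ⟨p, q, hpq, e⟩ := Finset.card_eq_two.mp
    ((Finset.card_erase_of_mem h2).trans (by rw [h.three]))
  have hp := Finset.mem_erase.mp (e ▸ (by simp) : p ∈ (Nat.card G).primeFactors.erase 2)
  have hq := Finset.mem_erase.mp (e ▸ (by simp) : q ∈ (Nat.card G).primeFactors.erase 2)
  refine ⟨p, q, Nat.prime_of_mem_primeFactors hp.2, Nat.prime_of_mem_primeFactors hq.2, hp.1, hq.1,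
    hpq, Nat.dvd_of_mem_primeFactors hp.2, Nat.dvd_of_mem_primeFactors hq.2, fun s hs hd => ?_, ?_⟩
  · by_cases s2 : s = 2
    · exact Or.inl s2
    · have := Finset.mem_erase.mpr ⟨s2, Nat.mem_primeFactors.mpr ⟨hs, hd, h0⟩⟩
      rw [e] at this
      simpa [s2] using this
  · have h1 := sum_U_gt h.two
    rw [h.three, ← Finset.add_sum_erase _ _ h2, e, Finset.sum_pair hpq] at h1
    omega

theorem Tri.arith {p q : ℕ} (t : Tri G p q) [Fact (Nat.Prime 2)] [Fact p.Prime]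
    [Fact q.Prime] (S : Sylow 2 G) (P : Sylow p G) (Q : Sylow q G) {a b c : ℕ}
    (ha : a ≤ 𝐂((S : Subgroup G)).relIndex 𝐍((S : Subgroup G)))
    (hb : b ≤ 𝐂((P : Subgroup G)).relIndex 𝐍((P : Subgroup G)))
    (hc : c ≤ 𝐂((Q : Subgroup G)).relIndex 𝐍((Q : Subgroup G))) :
    ∃ n x y z : ℕ, n < x + y + z ∧ x * a ≤ n ∧ y * b ≤ n ∧ z * c ≤ n :=
  ⟨_, _, _, _, t.count, (Nat.mul_le_mul_left _ ha).trans (ncard_not_dvd_class_mul_le S),
    (Nat.mul_le_mul_left _ hb).trans (ncard_not_dvd_class_mul_le P),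
    (Nat.mul_le_mul_left _ hc).trans (ncard_not_dvd_class_mul_le Q)⟩

theorem Tri.ab (h : T3 G) {p q : ℕ} (t : Tri G p q) : Ab p G := by
  have := h.simple
  have := Fact.mk t.hp
  have := Fact.mk t.hq
  have := Fact.mk Nat.prime_two
  obtain ⟨S⟩ : Nonempty (Sylow 2 G) := inferInstance
  obtain ⟨P⟩ : Nonempty (Sylow p G) := inferInstance
  obtain ⟨Q⟩ : Nonempty (Sylow q G) := inferInstance
  refine ab_of_sylow P (by_contra fun hc => ?_)
  have h1 := Nat.le_of_dvd (Nat.pos_of_ne_zero index_ne_zero_of_finite) (sq_dvd_w P hc)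
  have h2 : 3 ≤ p := by have := t.hp.two_le; have := t.p2; omega
  obtain ⟨n, x, y, z, a1, a2, a3, a4⟩ := t.arith S P Q (three_le_w h.hna S)
    ((Nat.pow_le_pow_left h2 2).trans h1) (two_le_w h.hna t.qd Q)
  omega

theorem Tri.ab_odd (h : T3 G) {p q : ℕ} (t : Tri G p q) (b : ℕ) (hb : b.Prime) (b2 : b ≠ 2) :
    Ab b G := by
  by_cases hd : b ∣ Nat.card G
  · rcases t.only b hb hd with e | rfl | rfl
    · exact absurd e b2
    · exact t.ab h
    · exact t.symm.ab h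
  · have := Fact.mk hb
    intro P hP
    refine comm_iff.mpr fun x hx y _ => ?_
    obtain ⟨k, hk⟩ := exists_orderOf_eq_pow_of_mem hP hx
    rw [(orderOf_eq_one_iff (x := x)).mp (Nat.eq_one_of_dvd_coprimes
      ((hb.coprime_iff_not_dvd.mpr hd).pow_left k) hk.dvd (orderOf_dvd_natCard x))]
    exact Commute.one_left y

theorem T3.abTI (h : T3 G) {p : ℕ} [hp : Fact p.Prime] (hA : Ab p G) (P : Sylow p G) :
    ∃ k M, AbTI p k (P : Subgroup G) M := by
  have hPc := hA _ P.isPGroup'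
  obtain ⟨k, hk⟩ := P.isPGroup'.exists_card_eq
  have hPC : (P : Subgroup G) ≤ 𝐂((P : Subgroup G)) := le_centralizer _
  obtain ⟨M, hM, hc, j, hj⟩ := exists_npc hp.out (H := 𝐂((P : Subgroup G)))
    ⟨P.subtype hPC, _, inferInstance, MonoidHom.ker_transferSylow_isComplement' _ fun g _ =>
      mem_centralizer_iff.mpr fun x hx => Subtype.ext (mem_centralizer_iff.mp g.2 x.1 hx)⟩
  refine ⟨k, M, hp.out, hk, hPc, fun u hu => h.cent_eq hA P hu, fun u hu v hv u1 g e => ?_,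
    hM, hc, ?_⟩
  · have v1 : v ≠ 1 := fun e' => u1 (by rw [← e, e']; simp)
    refine mem_normalizer_fintype fun x hx => ?_
    obtain ⟨i, hi⟩ := exists_orderOf_eq_pow_of_mem P.isPGroup' hx
    refine H9.mem_sylow_of_mem_normalizer P (((MulAut.conj g).orderOf_eq x).trans hi)
      (centralizer_le_normalizer _ ?_)
    rw [← h.cent_eq hA P hu u1, ← e]
    exact CA.mem_cent.mpr ((comm_iff.mp hPc v hv x hx).map (MulAut.conj g))
  · have h1 := H1.card_mul_relIndex hM.1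
    have h2 := H1.card_mul_relIndex hPC
    have h3 : p.Coprime ((P : Subgroup G).relIndex 𝐂((P : Subgroup G))) := hp.out.coprime_iff_not_dvd.mpr
      fun e => P.not_dvd_index (e.trans (relIndex_dvd_index_of_le hPC))
    rw [hj] at h1 ⊢
    rw [hk, ← h1] at h2
    exact Nat.dvd_antisymm ((h3.pow_left j).dvd_of_dvd_mul_right (h2 ▸ Dvd.intro_left _ rfl))
      ((hc.symm.pow_left k).dvd_of_dvd_mul_left (h2 ▸ Dvd.intro _ rfl))

theorem inv_of_w [IsSimpleGroup G] (hna : ¬ IsMulCommutative G) {p : ℕ} [Fact p.Prime]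
    (P : Sylow p G) (hP : IsMulCommutative P)
    (hw : 𝐂((P : Subgroup G)).relIndex 𝐍((P : Subgroup G)) = 2) {g : G}
    (hg : g ∈ 𝐍((P : Subgroup G))) (hgC : g ∉ 𝐂((P : Subgroup G))) {x : G}
    (hx : x ∈ (P : Subgroup G)) : g⁻¹ * x * g = x⁻¹ := by
  have hx' : g⁻¹ * x * g ∈ (P : Subgroup G) := by
    simpa using (mem_normalizer_iff.mp (inv_mem hg) x).mp hx
  refine eq_inv_of_mul_eq_one_left (eq_one_of_transfer P (mul_mem hx' hx)
    (H9.commutator_eq_top_of_simple hna ▸ mem_top _) fun n hn => ?_)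
  by_cases hnC : n ∈ 𝐂((P : Subgroup G))
  · exact hnC _ (mul_mem hx' hx)
  have h1 : n * g⁻¹ ∈ 𝐂((P : Subgroup G)) := (mul_mem_iff_of_index_two hw (a := ⟨n, hn⟩)
    (b := ⟨g⁻¹, inv_mem hg⟩)).mpr (iff_of_false hnC fun e => hgC (inv_mem_iff.mp e))
  have h2 : x * (g * g) = g * g * x := mul_self_mem_of_index_two hw ⟨g, hg⟩ x hx
  rw [← inv_mul_cancel_right n g]
  refine Commute.mul_right (h1 _ (mul_mem hx' hx)) ?_
  calc g⁻¹ * x * g * x * g = x * g⁻¹ * (x * (g * g)) := by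
        rw [(comm_iff.mp hP _ hx' x hx).eq]; group
    _ = g * (g⁻¹ * x * g * x) := by rw [h2]; group

theorem arith_deg {P Q d e : ℕ} {δ : ℤ} (hδ : δ = 1 ∨ δ = -1) (hP : Odd P) (hQ : Odd Q)
    (hlt : Q < P) (hd : 2 ≤ d) (he : (e : ℤ) = d + δ) (hdvd : (P : ℤ) ∣ d - δ)
    (h1 : Odd d → d ≤ Q) (h2 : Odd e → e ≤ Q) : δ = -1 ∧ d = Q + 1 ∧ e = Q ∧ P = Q + 2 := by
  have h3 := Int.le_of_dvd (by omega) hdvd
  simp only [Nat.odd_iff] at *
  omega

theorem arith_two {a c v m n : ℕ} (ha : a ≠ 0) (hac : 2 ^ a ∣ 2 ^ c) (hv : v < 2 ^ c)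
    (h1 : 2 ^ a + v = 2 ^ c * m) (h2 : 2 ^ a * 2 ^ a + v = 2 ^ c * n) : v = 0 := by
  have h0 := Nat.one_le_two_pow (n := a)
  have h3 : 2 ^ c ∣ 2 ^ a * (2 ^ a - 1) := by
    have := Nat.dvd_sub (Dvd.intro _ h2.symm) (Dvd.intro _ h1.symm)
    rwa [Nat.add_sub_add_right, ← Nat.mul_sub_one] at this
  have h4 : (2 ^ c).Coprime (2 ^ a - 1) := (Nat.coprime_two_left.mpr
    (Nat.Even.sub_odd h0 ((Nat.even_pow' ha).mpr even_two) odd_one)).pow_left c
  rw [Nat.dvd_antisymm hac (h4.dvd_of_dvd_mul_right h3)] at h1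
  exact Nat.eq_zero_of_dvd_of_lt ((Nat.dvd_add_right dvd_rfl).mp (Dvd.intro _ h1.symm)) hv

theorem Tri.comm_of_w (h : T3 G) {p q : ℕ} (t : Tri G p q) [Fact (Nat.Prime 2)] [Fact p.Prime]
    [Fact q.Prime] (S : Sylow 2 G) (P : Sylow p G) (Q : Sylow q G)
    (hw : 𝐂((P : Subgroup G)).relIndex 𝐍((P : Subgroup G)) = 2)
    (hlt : 𝐨((Q : Subgroup G)) < 𝐨((P : Subgroup G))) : IsMulCommutative S := by
  classical
  have := h.simple
  obtain ⟨k, M, hT⟩ := h.abTI (t.ab h) P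
  obtain ⟨χ, hχ, Θ, hΘ, δ, hδ, χ1, Θ1, hv, he⟩ := hT.exc t.p2 (P.ne_bot_of_dvd_card t.pd)
    (by rw [← H1.card_mul_relIndex (centralizer_le_normalizer _), hw, mul_comm])
    (fun g hg hgC x hx => inv_of_w h.hna P hT.comm hw hg hgC hx) fun χ hχ => two_le_dg h.hna hχ
  have hsum : ∀ z ∈ M, ∑ y ∈ fs ((P : Subgroup G) : Set G), χ (y * z) =
      χ z + (𝐨((P : Subgroup G)) - 1) * δ := fun z hz => by
    have h1 := sum_fs_sharp (P : Subgroup G) fun _ => (δ : ℂ)
    rw [sum_fs_const, nsmul_eq_mul] at h1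
    rw [sum_fs_sharp, one_mul, sum_fs_congr fun u hu => hv u hu.1 hu.2 z hz]
    linear_combination -h1
  have he1 : (dg Θ : ℤ) = dg χ + δ := by
    have := he 1 (by simp)
    rw [irr_one_eq hχ, irr_one_eq hΘ] at this
    exact_mod_cast this
  have hdvd : (𝐨((P : Subgroup G)) : ℤ) ∣ dg χ - δ := by
    have h1 := PCl.ip_eq_mult hχ (cf1_mem_Irr (P : Subgroup G))
    have h2 := hsum 1 (one_mem M)
    simp only [mul_one] at h2
    rw [ip_cf1_right, h2, irr_one_eq hχ, inv_mul_eq_iff_eq_mul₀ (card_ne_zero_C _)] at h1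
    refine ⟨PCl.mult P χ (cf1 P) - δ, Int.cast_injective (α := ℂ) ?_⟩
    push_cast
    linear_combination h1
  have hpP : (p : ℤ) ∣ dg χ - δ := (Int.natCast_dvd_natCast.mpr (P.dvd_card_of_dvd_card t.pd)).trans
    hdvd
  have hp2 : ∀ n : ℤ, n = 1 ∨ n = -1 → ¬ (p : ℤ) ∣ 2 * n := fun n hn e => t.p2
    ((Nat.prime_dvd_prime_iff_eq t.hp Nat.prime_two).mp (Int.natCast_dvd_natCast.mp (by
      rcases hn with rfl | rfl <;> simpa using e)))
  have hpχ : ¬ p ∣ dg χ := fun e => hp2 δ hδ (Dvd.dvd.mul_left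
    ((dvd_sub_right (Int.natCast_dvd_natCast.mpr e)).mp hpP) 2)
  have hpΘ : ¬ p ∣ dg Θ := fun e => hp2 δ hδ (by
    have := dvd_sub (Int.natCast_dvd_natCast.mpr e) hpP
    rwa [he1, show (dg χ : ℤ) + δ - (dg χ - δ) = 2 * δ by ring] at this)
  have hdG : ∀ ψ ∈ Irr (⊤ : Subgroup G), dg ψ ∣ Nat.card G := fun ψ hψ =>
    card_top (G := G) ▸ irr_dg_dvd_card hψ
  have hodd : ∀ ψ ∈ Irr (⊤ : Subgroup G), ¬ p ∣ dg ψ → Odd (dg ψ) →
      dg ψ ≤ 𝐨((Q : Subgroup G)) := fun ψ hψ h1 h2 => by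
    refine Nat.le_of_dvd Nat.card_pos ((?_ : (dg ψ).Coprime (Q : Subgroup G).index)
      |>.dvd_of_dvd_mul_right (card_mul_index (Q : Subgroup G) ▸ hdG ψ hψ))
    refine Nat.coprime_of_dvd fun s hs a1 a2 => ?_
    rcases t.only s hs (a1.trans (hdG ψ hψ)) with rfl | rfl | rfl
    · exact Nat.not_even_iff_odd.mpr h2 (even_iff_two_dvd.mpr a1)
    · exact h1 a1
    · exact Q.not_dvd_index a2
  obtain ⟨b, hb⟩ := Q.isPGroup'.exists_card_eq
  obtain ⟨rfl, e1, e2, e3⟩ := arith_deg hδ (hT.card ▸ (t.hp.odd_of_ne_two t.p2).pow)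
    (hb ▸ (t.hq.odd_of_ne_two t.q2).pow) hlt (two_le_dg h.hna hχ χ1) he1 hdvd
    (hodd χ hχ hpχ) (hodd Θ hΘ hpΘ)
  have hqQ := Q.dvd_card_of_dvd_card t.qd
  obtain ⟨a, ha⟩ : ∃ a, dg χ = 2 ^ a := ⟨_, Nat.eq_prime_pow_of_unique_prime_dvd
    (irr_dg_pos hχ).ne' fun {s} hs hd => by
      rcases t.only s hs (hd.trans (hdG χ hχ)) with rfl | rfl | rfl
      · rfl
      · exact absurd hd hpχ
      · exact absurd (Nat.dvd_one.mp ((Nat.dvd_add_right hqQ).mp (e1 ▸ hd))) hs.ne_one⟩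
  have hSo : ∀ s ∈ (S : Subgroup G), (orderOf s).Coprime p := fun s hs => by
    obtain ⟨j, hj⟩ := exists_orderOf_eq_pow_of_mem S.isPGroup' hs
    exact hj ▸ ((Nat.coprime_primes Nat.prime_two t.hp).mpr t.p2.symm).pow_left j
  have hUp : ∀ s ∈ (S : Subgroup G), U p s → s = 1 := fun s hs hU => by
    obtain ⟨g, hg⟩ := exists_conj_mem_centralizer_sylow P hU
    have ho : orderOf (g⁻¹ * s * g) = orderOf s := by
      simpa using (MulAut.conj g⁻¹).orderOf_eq s
    have : (M.subgroupOf 𝐂((P : Subgroup G))).Normal :=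
      (normal_subgroupOf_iff_le_normalizer hT.normal.1).mpr hT.normal.2
    have hM : g⁻¹ * s * g ∈ M := H8.mem_of_coprime_index (N := M.subgroupOf 𝐂((P : Subgroup G)))
      (g := ⟨_, hg⟩) (by
        rw [orderOf_mk, ho, ← relIndex, hT.index]; exact (hSo s hs).pow_right k)
    have h1 := hsum 1 (one_mem M)
    simp only [mul_one] at h1
    have h2 := sum_coset_eq_zero (M := P) (A := 𝐂((P : Subgroup G)))
      ⟨have := hT.comm; le_centralizer _, centralizer_le_normalizer _⟩ hχ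
      (by rw [h1, irr_one_eq hχ, e1, e3]; push_cast; ring) hg
    rw [hsum _ hM, CF_conj' (irr_mem_CF hχ) (mem_top g), e3] at h2
    refine irr_ker hχ χ1 ?_
    rw [irr_one_eq hχ, e1]
    push_cast at h2 ⊢
    linear_combination h2
  have hval : ∀ s ∈ sharp (S : Subgroup G), χ s = if U 2 s then 0 else 1 := fun s hs => by
    split_ifs with h2
    · exact irr_vanish h.hna hχ χ1 hs.2 (ha ▸ (Nat.prime_two.coprime_iff_not_dvd.mpr h2).pow_left a)
    obtain ⟨l, hl, hl', hU⟩ := h.cover s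
    rcases t.only l hl hl' with rfl | rfl | rfl
    · exact absurd hU h2
    · exact absurd (hUp s hs.1 hU) hs.2
    · have h3 := he s (hSo s hs.1)
      rw [irr_vanish h.hna hΘ Θ1 hs.2 (by
        rw [e2, hb]; exact (hl.coprime_iff_not_dvd.mpr hU).pow_left b)] at h3
      push_cast at h3
      linear_combination -h3
  let T := (fs (sharp (S : Subgroup G))).filter fun s => ¬ U 2 s
  have hT1 : ∑ s ∈ fs (sharp (S : Subgroup G)), (if U 2 s then 0 else 1 : ℂ) = T.card := by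
    rw [Finset.sum_ite, Finset.sum_const_zero, zero_add, Finset.sum_const, nsmul_eq_mul, mul_one]
  obtain ⟨c, hc⟩ := S.isPGroup'.exists_card_eq
  have hres := (irr_isChar hχ).res (le_top (a := (S : Subgroup G)))
  obtain ⟨m, hm⟩ := hres.ip_nat (isChar_cf1 _)
  obtain ⟨n, hn⟩ := hres.ip_nat hres
  rw [ip_res_left, ip_cf1_right, inv_mul_eq_iff_eq_mul₀ (card_ne_zero_C _), sum_fs_sharp,
    sum_fs_congr hval, hT1, irr_one_eq hχ, ha, hc] at hm
  rw [ip_res_left, ip_res_right, ip_def, inv_mul_eq_iff_eq_mul₀ (card_ne_zero_C _), sum_fs_sharp,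
    sum_fs_congr (g := fun s => if U 2 s then 0 else 1) fun s hs => by
      rw [hval s hs]; split_ifs <;> simp, hT1, irr_one_eq hχ, ha, hc, map_natCast] at hn
  have h0 : T.card = 0 := by
    refine arith_two (a := a) (c := c) (m := m) (n := n) (fun e => ?_) ?_ ?_
      (by exact_mod_cast hm) (by exact_mod_cast hn)
    · have := two_le_dg h.hna hχ χ1
      rw [ha, e] at this
      omega
    · rw [← hc]
      exact ((Nat.prime_two.coprime_iff_not_dvd.mpr S.not_dvd_index).pow_left a).dvd_of_dvd_mul_right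
        (card_mul_index (S : Subgroup G) ▸ ha ▸ hdG χ hχ)
    · have h1 := sum_fs_sharp (S : Subgroup G) fun _ => 1
      rw [sum_fs_const, Finset.sum_const, hc] at h1
      have : T.card ≤ _ := Finset.card_filter_le _ _
      simp only [smul_eq_mul, mul_one] at h1
      omega
  refine h.comm_of_U (t.ab_odd h) S fun s hs hsC _ => by_contra fun e => ?_
  exact Finset.card_ne_zero_of_mem (s := T) (Finset.mem_filter.mpr
    ⟨mem_fs.mpr ⟨hs, fun e => hsC (e ▸ one_mem _)⟩, e⟩) h0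

theorem Tri.ab_two (h : T3 G) {p q : ℕ} (t : Tri G p q) : Ab 2 G := by
  have := h.simple
  have := Fact.mk t.hp
  have := Fact.mk t.hq
  have := Fact.mk Nat.prime_two
  obtain ⟨S⟩ : Nonempty (Sylow 2 G) := inferInstance
  obtain ⟨P⟩ : Nonempty (Sylow p G) := inferInstance
  obtain ⟨Q⟩ : Nonempty (Sylow q G) := inferInstance
  refine ab_of_sylow S (by_contra fun hc => ?_)
  obtain ⟨n, x, y, z, a1, a2, a3, a4⟩ := t.arith S P Q
    (not_lt.mp fun e => hc (h.comm_of_four (t.ab_odd h) S e)) le_rfl le_rfl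
  have h1 := two_le_w h.hna t.pd P
  have h2 := two_le_w h.hna t.qd Q
  have h3 := Nat.mul_le_mul_left y h1
  have h4 := Nat.mul_le_mul_left z h2
  rcases lt_trichotomy 𝐨((Q : Subgroup G)) 𝐨((P : Subgroup G)) with e | e | e
  · refine hc (t.comm_of_w h S P Q (by_contra fun e' => ?_) e)
    have := Nat.mul_le_mul_left y
      (show 3 ≤ 𝐂((P : Subgroup G)).relIndex 𝐍((P : Subgroup G)) by omega)
    omega
  · obtain ⟨b, hb⟩ := Q.isPGroup'.exists_card_eq
    exact t.pq ((Nat.prime_dvd_prime_iff_eq t.hp t.hq).mp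
      (t.hp.dvd_of_dvd_pow (hb ▸ e ▸ P.dvd_card_of_dvd_card t.pd)))
  · refine hc (t.symm.comm_of_w h S Q P (by_contra fun e' => ?_) e)
    have := Nat.mul_le_mul_left z
      (show 3 ≤ 𝐂((Q : Subgroup G)).relIndex 𝐍((Q : Subgroup G)) by omega)
    omega

end Cfsg.Agent.H7.Two
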