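/-
Groups whose class sizes have at most two prime divisors.
-/
import Cfsg.Agent.H7.TwoB

set_option autoImplicit false
set_option linter.unusedSectionVars false

namespace Cfsg.Agent.H7.Two

open Subgroup Cfsg Cfsg.Agent Cfsg.Agent.FT Cfsg.Agent.H7.CA
open scoped Pointwise

universe u

variable {G : Type u} [Group G] [Finite G]

theorem T3.ab (h : T3 G) {l : ℕ} (hl : l.Prime) : Ab l G := by
  obtain ⟨p, q, t⟩ := h.tri
  by_cases e : l = 2
  · exact e ▸ t.ab_two h
  · exact t.ab_odd h l hl e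

theorem T3.cag (h : T3 G) : CAG G := fun x hx => by
  obtain ⟨l, hl, hd, hU⟩ := h.cover x
  exact h.ab hl _ (h.isPGroup_cent hx hl hd hU fun b hb _ => h.ab hb)

theorem arith_psl {n p q : ℕ} (hn : 2 ≤ n)
    (h : ∀ s, s.Prime → s ∣ 2 ^ n * (2 ^ n - 1) * (2 ^ n + 1) → s = 2 ∨ s = p ∨ s = q) :
    (n = 2 ∨ n = 3) ∧ ((∃ b, 2 ^ n + 1 = p ^ b) ∨ ∃ b, 2 ^ n + 1 = q ^ b) := by
  have h4n : 4 ≤ 2 ^ n := by simpa using Nat.pow_le_pow_right (by omega : 0 < 2) hn
  have hev : 2 ∣ 2 ^ n := dvd_pow_self 2 (by omega)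
  obtain ⟨c, hc, hcd⟩ := Nat.exists_prime_and_dvd (n := 2 ^ n - 1) (by omega)
  obtain ⟨d, hd, hdd⟩ := Nat.exists_prime_and_dvd (n := 2 ^ n + 1) (by omega)
  have hcop : ∀ s : ℕ, s.Prime → s ∣ 2 ^ n - 1 → s ∣ 2 ^ n + 1 → False := by
    intro s hs h1 h2
    have h5 : s ∣ 2 := by
      have := Nat.dvd_sub h2 h1
      rwa [show 2 ^ n + 1 - (2 ^ n - 1) = 2 by omega] at this
    rw [(Nat.prime_dvd_prime_iff_eq hs Nat.prime_two).1 h5] at h2
    omega
  have hm : ∀ s : ℕ, s.Prime → s ∣ 2 ^ n - 1 → s = p ∨ s = q := fun s hs h1 =>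
    (h s hs (Dvd.dvd.mul_right (Dvd.dvd.mul_left h1 _) _)).resolve_left (by rintro rfl; omega)
  have hpl : ∀ s : ℕ, s.Prime → s ∣ 2 ^ n + 1 → s = p ∨ s = q := fun s hs h1 =>
    (h s hs (Dvd.dvd.mul_left h1 _)).resolve_left (by rintro rfl; omega)
  have hcd' : c ≠ d := fun e => hcop c hc hcd (e ▸ hdd)
  have h1 : 2 ^ n - 1 = c ^ _ := Nat.eq_prime_pow_of_unique_prime_dvd (by omega) fun {s} hs h1 => by
    have a1 := hm s hs h1
    have a2 := hm c hc hcd
    have a3 := hpl d hd hdd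
    have a4 : s ≠ d := fun e => hcop s hs h1 (e ▸ hdd)
    omega
  have h2 : 2 ^ n + 1 = d ^ _ := Nat.eq_prime_pow_of_unique_prime_dvd (by omega) fun {s} hs h1 => by
    have a1 := hpl s hs h1
    have a2 := hm c hc hcd
    have a3 := hpl d hd hdd
    have a4 : s ≠ c := fun e => hcop s hs (e ▸ hcd) h1
    omega
  refine ⟨?_, (hpl d hd hdd).imp (fun e => ⟨_, e ▸ h2⟩) fun e => ⟨_, e ▸ h2⟩⟩
  have h3n : ¬ 3 ∣ 2 ^ n := fun h => by
    have := Nat.prime_three.dvd_of_dvd_pow h; omega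
  by_cases h3m : 3 ∣ 2 ^ n - 1
  · obtain rfl := (Nat.prime_dvd_prime_iff_eq Nat.prime_three hc).mp
      (Nat.prime_three.dvd_of_dvd_pow (h1 ▸ h3m))
    exact Or.inl (L.two_pow_eq_three_pow_add_one hn (by rw [← h1]; omega))
  · have h3p : 3 ∣ 2 ^ n + 1 := by
      clear * - h3m h3n h4n
      generalize 2 ^ n = m at *
      obtain ⟨k, rfl⟩ : ∃ k, m = k + 1 := ⟨m - 1, by omega⟩
      rw [Nat.add_sub_cancel] at h3m
      omega
    obtain rfl := (Nat.prime_dvd_prime_iff_eq Nat.prime_three hd).mp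
      (Nat.prime_three.dvd_of_dvd_pow (h2 ▸ h3p))
    exact Or.inr (L.three_pow_eq_two_pow_add_one hn h2)

theorem T3.good (h : T3 G) [Fact (Nat.Prime 2)] :
    (Nonempty (G ≃* alternatingGroup (Fin 5)) ∨
      Nonempty (G ≃* Matrix.ProjectiveSpecialLinearGroup (Fin 2) (GaloisField 2 3))) ∧
    ∃ p q b, Tri G p q ∧ Nat.card (Sylow 2 G) = p ^ b := by
  have := h.simple
  obtain ⟨p, q, t⟩ := h.tri
  obtain ⟨s, s1, ss⟩ := exists_invol (even_card h.hna)
  obtain ⟨H, w, hz, e1, e2⟩ := h.cag.zt h.hna s1 ss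
  obtain ⟨n, hn, a1, a2, ⟨e⟩, a3⟩ := ZA.sl2_of_eq_Z hz e2
  have h1 := hz.card_G
  have h2 := hz.index_B
  rw [a1, a2] at h1
  rw [a1, e1] at h2
  have h3 := (hz.isPGroup.toSylow ((h.ab Nat.prime_two).U (k := 1) Nat.prime_two
    ((orderOf_eq_prime (by rw [sq, ss]) s1).trans (pow_one 2).symm))).card_eq_index_normalizer.trans h2
  obtain ⟨h4, h5⟩ := arith_psl hn (h1 ▸ t.only)
  refine ⟨?_, ?_⟩
  · rcases h4 with rfl | rfl
    · obtain ⟨e'⟩ := L.nonempty_SL2_equiv_alternating (F := GaloisField 2 2)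
        (GaloisField.card 2 2 two_ne_zero)
      exact Or.inl ⟨e.trans e'⟩
    · exact Or.inr a3
  · rcases h5 with ⟨b, hb⟩ | ⟨b, hb⟩
    · exact ⟨p, q, b, t, h3.trans hb⟩
    · exact ⟨q, p, b, t.symm, h3.trans hb⟩

theorem T3.inner_of_cent (h : T3 G) [Fact (Nat.Prime 2)] {p b : ℕ} [hp : Fact p.Prime]
    (hb : Nat.card (Sylow 2 G) = p ^ b) (P : Sylow p G) {σ : MulAut G}
    (hσ : ∀ y ∈ (P : Subgroup G), σ y = y) : ∃ u, σ = MulAut.conj u := by
  have := h.simple
  obtain ⟨T⟩ : Nonempty (Sylow 2 G) := inferInstance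
  have htr : ∀ T' : Sylow 2 G, ∃ y ∈ (P : Subgroup G), y • T = T' := fun T' => by
    obtain ⟨g, rfl⟩ := MulAction.exists_smul_eq G T T'
    obtain ⟨y, hy, n, hn, rfl⟩ := H9.exists_mul_eq_of_coprime_index (H := P)
      (K := 𝐍((T : Subgroup G))) (by
        rw [show 𝐍((T : Subgroup G)).index = p ^ b from T.card_eq_index_normalizer.symm.trans hb]
        exact (hp.out.coprime_iff_not_dvd.mpr P.not_dvd_index).symm.pow_right b) g
    exact ⟨y, hy, by rw [mul_smul, Sylow.smul_eq_iff_mem_normalizer.mpr hn]⟩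
  have hc : ∀ (τ : MulAut G) (x : G) (T' : Sylow 2 G), τ • x • T' = τ x • τ • T' := fun τ x T' => by
    rw [Sylow.smul_def, Sylow.smul_def, ← mul_smul, ← mul_smul]
    congr 1
    ext y
    simp
  obtain ⟨y, hy, e⟩ := htr (σ • T)
  let τ := MulAut.conj y⁻¹ * σ
  have h1 : ∀ T' : Sylow 2 G, τ • T' = T' := fun T' => by
    obtain ⟨z, hz, rfl⟩ := htr T'
    rw [hc, mul_smul, ← e, ← Sylow.smul_def, inv_smul_smul]
    congr 1
    change y⁻¹ * σ z * y⁻¹⁻¹ = z
    rw [hσ z hz, inv_inv, mul_assoc, (comm_iff.mp (h.ab hp.out _ P.isPGroup') z hz y hy).eq,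
      inv_mul_cancel_left]
  have h2 : (MulAction.toPermHom G (Sylow 2 G)).ker = ⊥ := by
    refine (MonoidHom.normal_ker _).eq_bot_or_eq_top.resolve_right fun e => ?_
    have hn : (T : Subgroup G).Normal := normalizer_eq_top_iff.mp (eq_top_iff.mpr fun g _ =>
      Sylow.smul_eq_iff_mem_normalizer.mp
        (DFunLike.congr_fun (MonoidHom.mem_ker.mp (e ▸ mem_top g)) T))
    rcases hn.eq_bot_or_eq_top with e | e
    · exact T.ne_bot_of_dvd_card (even_card h.hna).two_dvd e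
    · exact h.hna ⟨⟨fun a b => comm_iff.mp (h.ab Nat.prime_two _ T.isPGroup') a (e ▸ mem_top a)
        b (e ▸ mem_top b)⟩⟩
  refine ⟨y, MulEquiv.ext fun x => ?_⟩
  have h3 : x⁻¹ * τ x = 1 := mem_bot.mp (h2 ▸ MonoidHom.mem_ker.mpr (Equiv.ext fun T' => by
    change (x⁻¹ * τ x) • T' = T'
    rw [mul_smul, inv_smul_eq_iff, ← h1 (x • T'), hc, h1]))
  have h4 : x = y⁻¹ * σ x * y⁻¹⁻¹ := inv_mul_eq_one.mp h3
  rw [MulAut.conj_apply]
  conv_rhs => rw [h4]
  group

theorem ncard_twist_le {l a : ℕ} [Fact l.Prime] (σ : MulAut G)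
    (ha : ∀ R : Sylow l G, a ≤ 𝐂((R : Subgroup G)).relIndex 𝐍((R : Subgroup G))) :
    {u : G | ∃ R : Sylow l G, ∀ y ∈ (R : Subgroup G), u * σ y * u⁻¹ = y}.ncard * a ≤
      Nat.card G := by
  have := Fintype.ofFinite (Sylow l G)
  have h1 : ∀ R : Sylow l G, {u : G | ∀ y ∈ (R : Subgroup G), u * σ y * u⁻¹ = y}.ncard * a *
      Nat.card (Sylow l G) ≤ Nat.card G := fun R => by
    rw [R.card_eq_index_normalizer, ← card_mul_index 𝐍((R : Subgroup G)),
      ← H1.card_mul_relIndex (H := 𝐂((R : Subgroup G))) (K := 𝐍((R : Subgroup G)))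
        (centralizer_le_normalizer _)]
    refine Nat.mul_le_mul_right _ (Nat.mul_le_mul ?_ (ha R))
    rcases Set.eq_empty_or_nonempty {u : G | ∀ y ∈ (R : Subgroup G), u * σ y * u⁻¹ = y}
      with e | ⟨v, hv⟩
    · simp [e]
    refine Set.ncard_le_ncard_of_injOn (fun u => u * v⁻¹) (fun u hu y hy => ?_)
      (fun _ _ _ _ e => mul_right_cancel e)
    calc y * (u * v⁻¹) = u * σ y * u⁻¹ * (u * v⁻¹) := by rw [hu y hy]
      _ = u * v⁻¹ * (v * σ y * v⁻¹) := by group
      _ = _ := by rw [hv y hy]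
  refine Nat.le_of_mul_le_mul_right ?_ (Nat.card_pos (α := Sylow l G))
  rw [Set.ofPred_exists]
  refine (Nat.mul_le_mul_right _ (Nat.mul_le_mul_right _ (Set.ncard_iUnion_le_of_fintype _))).trans ?_
  rw [Finset.sum_mul, Finset.sum_mul, mul_comm, Nat.card_eq_fintype_card (α := Sylow l G)]
  exact Finset.sum_le_card_nsmul _ _ _ fun R _ => Nat.card_eq_fintype_card (α := Sylow l G) ▸ h1 R

theorem T3.inner (h : T3 G) {σ : MulAut G} (hσ : ∀ u, ∃ F : Subgroup G,
    F.index.primeFactors.card ≤ 2 ∧ ∀ y ∈ F, u * σ y * u⁻¹ = y) : ∃ u, σ = MulAut.conj u := by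
  have := h.simple
  have := Fact.mk Nat.prime_two
  obtain ⟨-, p, q, b, t, hb⟩ := h.good
  have := Fact.mk t.hp
  have := Fact.mk t.hq
  by_contra hc
  have h1 := ncard_twist_le σ (three_le_w h.hna)
  have h2 := ncard_twist_le σ (two_le_w h.hna t.qd)
  have h3 := (Set.ncard_le_ncard (s := Set.univ) fun u _ => ?_).trans (Set.ncard_union_le
    {u : G | ∃ R : Sylow 2 G, ∀ y ∈ (R : Subgroup G), u * σ y * u⁻¹ = y}
    {u : G | ∃ R : Sylow q G, ∀ y ∈ (R : Subgroup G), u * σ y * u⁻¹ = y})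
  · rw [Set.ncard_univ] at h3
    have := Nat.card_pos (α := G)
    omega
  obtain ⟨F, hF, hu⟩ := hσ u
  obtain ⟨l, h4, h5⟩ := Finset.exists_mem_notMem_of_card_lt_card
    (s := F.index.primeFactors) (t := (Nat.card G).primeFactors) (by have := h.three; omega)
  have hl := Nat.prime_of_mem_primeFactors h4
  have := Fact.mk hl
  obtain ⟨R, hR⟩ := H9.not_dvd_index_iff_exists_sylow_le.mp
    fun e => h5 (Nat.mem_primeFactors.mpr ⟨hl, e, index_ne_zero_of_finite⟩)
  rcases t.only l hl (Nat.dvd_of_mem_primeFactors h4) with rfl | rfl | rfl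
  · exact Or.inl ⟨R, fun y hy => hu y (hR hy)⟩
  · obtain ⟨v, hv⟩ := h.inner_of_cent hb R (σ := MulAut.conj u * σ) fun y hy => hu y (hR hy)
    exact absurd ⟨u⁻¹ * v, by rw [map_mul, ← hv, map_inv, inv_mul_cancel_left]⟩ hc
  · exact Or.inr ⟨R, fun y hy => hu y (hR hy)⟩

theorem T3.two_le (h : T3 G) {x : G} (hx : x ≠ 1) : 2 ≤ (𝐂[x]).index.primeFactors.card := by
  have := h.simple
  by_contra hc
  by_cases e : (𝐂[x]).index.primeFactors.card = 1
  · obtain ⟨l, k, hl, -, e⟩ :=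
      (isPrimePow_nat_iff _).mp (isPrimePow_iff_card_primeFactors_eq_one.mpr e)
    exact hx (H6.eq_one_of_isSimpleGroup_of_index_centralizer h.hna hl e.symm)
  · exact cent_ne_top h.hna hx (index_eq_one.mp ((Nat.primeFactors_eq_empty.mp
      (Finset.card_eq_zero.mp (by omega))).resolve_left index_ne_zero_of_finite))

theorem T3.exists_U (h : T3 G) {r : ℕ} (hr : r.Prime) : ∃ x : G, x ≠ 1 ∧ U r x := by
  have := h.simple
  have := Fact.mk hr
  by_cases hd : r ∣ Nat.card G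
  · obtain ⟨x, hx⟩ := exists_prime_orderOf_dvd_card' r hd
    exact ⟨x, fun e => hr.ne_one (by rw [← hx, e, orderOf_one]),
      (h.ab hr).U hr (hx.trans (pow_one r).symm)⟩
  · obtain ⟨x, hx⟩ := exists_ne (1 : G)
    exact ⟨x, hx, fun e => hd (e.trans (index_dvd_card _))⟩

/-- Class sizes have at most two prime divisors. -/
def H2 (G : Type u) [Group G] : Prop := ∀ x : G, (𝐂[x]).index.primeFactors.card ≤ 2

theorem H2.of_dvd (h : H2 G) (x : G) {m : ℕ} (hm : m ∣ (𝐂[x]).index) : m.primeFactors.card ≤ 2 :=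
  (Finset.card_le_card (Nat.primeFactors_mono hm index_ne_zero_of_finite)).trans (h x)

theorem H2.sub (h : H2 G) (N : Subgroup G) [N.Normal] : H2 N :=
  fun x => h.of_dvd x (H9.index_centralizer_subgroup_dvd N x)

theorem H2.quot (h : H2 G) (N : Subgroup G) [N.Normal] : H2 (G ⧸ N) := fun x => by
  obtain ⟨x, rfl⟩ := QuotientGroup.mk_surjective x
  exact h.of_dvd x (H9.index_centralizer_mk_dvd N x)

theorem H2.U (h : H2 G) {X : Type u} [Group X] [Finite X] (hX : T3 X) {g : G} {x : X} {r : ℕ}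
    (hr : r.Prime) (x1 : x ≠ 1) (hx : U r x) (hd : (𝐂[x]).index ∣ (𝐂[g]).index) : U r g := by
  intro e
  have h1 := Finset.card_le_card (Finset.insert_subset
    (Nat.mem_primeFactors.mpr ⟨hr, e, index_ne_zero_of_finite⟩)
    (Nat.primeFactors_mono hd index_ne_zero_of_finite))
  rw [Finset.card_insert_of_notMem fun e => hx (Nat.dvd_of_mem_primeFactors e)] at h1
  have := h g
  have := hX.two_le x1
  omega

theorem H2.split (h : H2 G) {S : Subgroup G} [S.Normal] (hS : T3 S) :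
    center G ⊓ S = ⊥ ∧ center G ⊔ S = ⊤ := by
  have := hS.simple
  have h1 : ∀ g : G, ∃ u ∈ S, u⁻¹ * g ∈ 𝐂(S) := fun g => by
    obtain ⟨u, hu⟩ := hS.inner (σ := MulAut.conjNormal g) fun u => ⟨(𝐂[u * g]).subgroupOf S,
      h.of_dvd _ (H9.relIndex_dvd_index_of_normal_right _ S), fun y hy => Subtype.ext (by
        change u * (g * y * g⁻¹) * (u : G)⁻¹ = y
        rw [show u * (g * y * g⁻¹) * (u : G)⁻¹ = u * g * y * (u * g)⁻¹ by group,
          (CA.mem_cent.mp (mem_subgroupOf.mp hy)).eq, mul_inv_cancel_right])⟩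
    refine ⟨u, u.2, fun y hy => ?_⟩
    have h2 := congrArg Subtype.val (DFunLike.congr_fun hu ⟨y, hy⟩)
    change g * y * g⁻¹ = u * y * (u : G)⁻¹ at h2
    calc y * ((u : G)⁻¹ * g) = (u : G)⁻¹ * (u * y * (u : G)⁻¹) * g := by group
      _ = _ := by rw [← h2]; group
  have h2 : 𝐂(S) ≤ center G := fun c hc => by
    have h3 : (𝐂[c]).relIndex 𝐂(S) = 1 := by
      by_contra e
      obtain ⟨r, hr, hd⟩ := Nat.exists_prime_and_dvd e
      obtain ⟨x, x1, hx⟩ := hS.exists_U hr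
      refine h.U hS (g := c * x) hr x1 hx ?_ (hd.trans ?_)
      · refine dvd_trans (Eq.dvd ?_) (H9.relIndex_dvd_index_of_normal_right _ S)
        congr 1
        ext y
        rw [mem_subgroupOf, CA.mem_cent, CA.mem_cent, commute_iff_eq, commute_iff_eq,
          Subtype.ext_iff, ← mul_assoc, hc y y.2, mul_assoc, mul_assoc, mul_right_inj]
        rfl
      · refine dvd_trans (Eq.dvd ?_) (H9.relIndex_dvd_index_of_normal_right _ 𝐂(S))
        unfold relIndex
        congr 1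
        ext y
        rw [mem_subgroupOf, mem_subgroupOf, CA.mem_cent, CA.mem_cent, commute_iff_eq,
          commute_iff_eq, mul_assoc, y.2 x x.2, ← mul_assoc, ← mul_assoc, mul_left_inj]
    refine mem_center_iff.mpr fun g => ?_
    obtain ⟨u, hu, hg⟩ := h1 g
    rw [← mul_inv_cancel_left u g]
    exact (Commute.mul_right (hc u hu).symm (CA.mem_cent.mp (relIndex_eq_one.mp h3 hg))).symm
  refine ⟨eq_bot_iff.mpr fun x hx => by_contra fun x1 => ?_, eq_top_iff.mpr fun g _ => ?_⟩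
  · exact cent_ne_top hS.hna (x := ⟨x, hx.2⟩) (fun e => x1 (congrArg Subtype.val e))
      (eq_top_iff.mpr fun y _ => CA.mem_cent.mpr (Subtype.ext (mem_center_iff.mp hx.1 y).symm))
  · obtain ⟨u, hu, hg⟩ := h1 g
    rw [← mul_inv_cancel_left u g]
    exact mul_mem (mem_sup_right hu) (mem_sup_left (h2 hg))

section Ext

variable {X : Type u} [Group X] [Finite X] {f : G →* X} {r : ℕ}

theorem H2.ker_le (h : H2 G) (hX : T3 X) (hf : Function.Surjective f) (hr : r.Prime)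
    (hp : IsPGroup r f.ker) (hc : IsMulCommutative f.ker) : f.ker ≤ center G := by
  have := hX.simple
  have := Fact.mk hr
  rcases (Normal.map (inferInstance : (𝐂(f.ker)).Normal) f hf).eq_bot_or_eq_top with e | e
  · obtain ⟨x, x1, hx⟩ := hX.exists_U hr
    obtain ⟨g, rfl⟩ := hf x
    obtain ⟨j, hj⟩ := hp.index ((𝐂[g]).subgroupOf f.ker)
    refine absurd (((dvd_pow_self r fun e' => x1 ?_).trans hj.symm.dvd).trans
      (H9.relIndex_dvd_index_of_normal_right _ _))
      (h.U hX hr x1 hx (H9.index_centralizer_map_dvd hf g))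
    rw [e', pow_zero] at hj
    exact mem_bot.mp (e ▸ mem_map_of_mem f fun y hy =>
      (CA.mem_cent.mp (relIndex_eq_one.mp hj hy)).symm)
  · intro v hv
    refine mem_center_iff.mpr fun g => ?_
    obtain ⟨c, hc', e'⟩ := (e ▸ mem_top (f g) : f g ∈ (𝐂(f.ker)).map f)
    rw [← mul_inv_cancel_left c g]
    exact (Commute.mul_right (hc' v hv) (comm_iff.mp hc v hv _ (by simp [e']))).symm

theorem H2.ab (h : H2 G) (hX : T3 X) (hf : Function.Surjective f) (hr : r.Prime)
    (hp : IsPGroup r f.ker) (hc : f.ker ≤ center G) : Ab r G := by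
  have := Fact.mk hr
  obtain ⟨R⟩ : Nonempty (Sylow r G) := inferInstance
  refine ab_of_sylow R (comm_iff.mpr fun x hx y hy => ?_)
  by_cases x1 : f x = 1
  · exact (mem_center_iff.mp (hc x1) y).symm
  obtain ⟨j, hj⟩ := exists_orderOf_eq_pow_of_mem (R.isPGroup'.map f) (mem_map_of_mem f hx)
  have h1 := (hX.ab hr).U hr hj
  have h2 := (hX.isPGroup_cent x1 hr ((hj ▸ dvd_pow_self r fun e => x1 (by
    rwa [e, pow_zero, orderOf_eq_one_iff] at hj) : r ∣ orderOf (f x)).trans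
    (orderOf_dvd_natCard _)) h1 fun b hb _ => hX.ab hb).comap_of_ker_isPGroup f hp
  have h3 := H1.sylow_maximal (H := ⊤) (P := 𝐂[x]) (Q := (𝐂[f x]).comap f) (by
    rw [relIndex_top_right]; exact h.U hX hr x1 h1 (H9.index_centralizer_map_dvd hf x))
    (fun y hy => CA.mem_cent.mpr ((CA.mem_cent.mp hy).map f)) le_top h2
  exact CA.mem_cent.mp (h3.le (CA.mem_cent.mpr (comm_iff.mp (hX.ab hr _ (R.isPGroup'.map f)) _
    (mem_map_of_mem f hx) _ (mem_map_of_mem f hy))))

theorem H2.der (h : H2 G) (hX : T3 X) (hf : Function.Surjective f) (hr : r.Prime)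
    (hp : IsPGroup r f.ker) (hc : IsMulCommutative f.ker) : Nonempty (commutator G ≃* X) := by
  have := hX.simple
  have := Fact.mk hr
  have h1 := h.ker_le hX hf hr hp hc
  obtain ⟨R, hR⟩ := hp.exists_le_sylow
  have := h.ab hX hf hr hp h1 _ R.isPGroup'
  refine ⟨MulEquiv.ofBijective (f.comp (commutator G).subtype)
    ⟨(injective_iff_map_eq_one _).mpr fun x hx => Subtype.ext (eq_one_of_transfer R (hR hx) x.2
      fun n _ => (mem_center_iff.mp (h1 hx) n).symm), fun x => ?_⟩⟩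
  have h2 : (commutator G).map f = ⊤ := by
    rw [commutator_def, map_commutator, ← MonoidHom.range_eq_map, MonoidHom.range_eq_top.mpr hf]
    exact H9.commutator_eq_top_of_simple hX.hna
  obtain ⟨y, hy, e⟩ := (h2 ▸ mem_top x : x ∈ (commutator G).map f)
  exact ⟨⟨y, hy⟩, e⟩

end Ext

theorem H2.t3 (h : H2 G) {S : Subgroup G} [S.Normal] {X : Type u} [Group X] [IsSimpleGroup X]
    (hX : ¬ IsMulCommutative X) (e : S ≃* X) : T3 S :=
  ⟨e.isSimpleGroup, fun hc => hX ⟨⟨fun a b => e.symm.injective (by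
    rw [map_mul, map_mul]; exact hc.is_comm.comm _ _)⟩⟩, h.sub S⟩

theorem exists_t3 (G : Type u) [Group G] [Finite G] :
    H2 G → ¬ Group.IsSolvable G → ∃ S : Subgroup G, S.Normal ∧ T3 S := by
  refine L.induction_on_card (P := fun G _ _ => H2 G → ¬ Group.IsSolvable G →
    ∃ S : Subgroup G, S.Normal ∧ T3 S) G fun G _ _ ih h hs => ?_
  have : Nontrivial G := by
    by_contra hn
    have := not_nontrivial_iff_subsingleton.mp hn
    exact hs inferInstance
  obtain ⟨V, hV⟩ := L.exists_isMinNormal (G := G)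
  have := hV.1
  by_cases hVs : Group.IsSolvable V
  · obtain ⟨r, hr, hp⟩ := hV.exists_isPGroup
    obtain ⟨T, hT, h3⟩ := ih _ (L.card_quotient_lt V hV.2.1) (h.quot V)
      fun e => hs (L.isSolvable_of_normal_of_quotient V hVs e)
    have := h3.simple
    let K := T.comap (QuotientGroup.mk' V)
    have hker : ((QuotientGroup.mk' V).subgroupComap T).ker = V.subgroupOf K := by
      ext x
      rw [MonoidHom.mem_ker, Subtype.ext_iff, mem_subgroupOf]
      exact QuotientGroup.eq_one_iff _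
    obtain ⟨e⟩ := (h.sub K).der h3 ((QuotientGroup.mk' V).subgroupComap_surjective_of_surjective T
      (QuotientGroup.mk'_surjective V)) hr (hker ▸ hp.comap_subtype) (hker ▸ comm_iff.mpr
        fun a ha b hb => Subtype.ext (comm_iff.mp hV.isMulCommutative_of_isSolvable _ ha _ hb))
    exact ⟨(commutator K).map K.subtype, inferInstance, h.t3 h3.hna
      (((commutator K).equivMapOfInjective _ K.subtype_injective).symm.trans e)⟩
  refine ⟨V, hV.1, ?_⟩
  have hna : ¬ IsMulCommutative V := fun e => hVs (Group.isSolvable_of_comm e.is_comm.comm)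
  by_cases e : V = ⊤
  · have : IsSimpleGroup G := ⟨fun N hN => e ▸ hV.2.2 N hN (e ▸ le_top)⟩
    subst e
    exact ⟨topEquiv.isSimpleGroup, hna, h.sub ⊤⟩
  obtain ⟨T, hT, h3⟩ := ih _ (L.card_lt_of_ne_top e) (h.sub V) hVs
  have h4 := ((h.sub V).split h3).2
  rcases hV.2.2 ((center V).map V.subtype) inferInstance (map_subtype_le _) with h5 | h5
  · rw [map_eq_bot_iff_of_injective _ V.subtype_injective] at h5
    rw [h5, bot_sup_eq] at h4
    subst h4
    have := h3.simple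
    exact ⟨topEquiv.symm.isSimpleGroup, hna, h.sub V⟩
  · refine absurd ⟨⟨fun a b => ?_⟩⟩ hna
    obtain ⟨c, hc, e⟩ := (h5.symm ▸ b.2 : (b : G) ∈ (center V).map V.subtype)
    exact (Subtype.ext e : c = b) ▸ mem_center_iff.mp hc a

end Cfsg.Agent.H7.Two
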