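/-
Simple groups whose nonabelian subgroups are self-normalizing.
-/
import Cfsg.Agent.H7.CA
import Cfsg.Agent.H2.Radical

set_option autoImplicit false
set_option linter.unusedSectionVars false

namespace Cfsg.Agent.H7.CA

open Subgroup Cfsg Cfsg.Agent Cfsg.Agent.FT
open scoped commutatorElement

universe u

variable {G : Type u} [Group G] [Finite G]

theorem card_prime_of_selfnorm [Nontrivial G] (h : ∀ K : Subgroup G, K ≠ ⊥ → 𝐍(K) ≤ K) :
    (Nat.card G).Prime := by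
  obtain ⟨p, hp, hd⟩ := Nat.exists_prime_and_dvd (Finite.one_lt_card (α := G)).ne'
  have := Fact.mk hp
  obtain ⟨P⟩ : Nonempty (Sylow p G) := inferInstance
  have hP : (P : Subgroup G) ≠ ⊥ := P.ne_bot_of_dvd_card hd
  have := P.isPGroup'.isNilpotent
  have h1 := L.inf_centralizer_ne_bot_of_isNilpotent (N := (P : Subgroup G))
    le_rfl le_normalizer hP
  obtain ⟨⟨x, hx⟩, x1⟩ := (ne_bot_iff_exists_ne_one).mp h1
  have x1 : x ≠ 1 := fun e => x1 (Subtype.ext e)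
  obtain ⟨k, hk⟩ := exists_pow_prime x1
  have hz : zpowers (x ^ k) ≠ ⊥ := fun e => by
    rw [zpowers_eq_bot.mp e, orderOf_one] at hk; exact Nat.not_prime_one hk
  have h2 : (P : Subgroup G) = zpowers (x ^ k) := le_antisymm
    (le_trans (fun y hy => centralizer_le_normalizer _ (by
      rintro _ ⟨j, rfl⟩
      exact (((show Commute y x from hx.2 y hy).pow_right k).zpow_right j).symm)) (h _ hz))
    (zpowers_le.mpr (pow_mem hx.1 k))
  obtain ⟨Q, N, hN, hc⟩ := H8.hasNPC_of_normalizer_le_centralizer P ((h _ hP).trans (by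
    rw [h2]; exact le_centralizer _))
  have h3 := hc.card_mul_card
  by_cases hb : N = ⊥
  · rw [hb, card_bot, one_mul, Sylow.card_eq_multiplicity, ← P.card_eq_multiplicity] at h3
    rw [← h3, h2, Nat.card_zpowers]
    exact hk
  · have h4 : N = ⊤ := top_le_iff.mp ((normalizer_eq_top N).ge.trans (h N hb))
    have h5 := hc.disjoint
    rw [h4, top_disjoint] at h5
    exact absurd h5 (Q.ne_bot_of_dvd_card hd)

theorem relIndex_prime {C N : Subgroup G} (hC : C ≤ N) (hn : N ≤ 𝐍(C)) (hne : ¬ N ≤ C)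
    (h : ∀ K : Subgroup G, C < K → K ≤ N → 𝐍(K) ≤ K) : (C.relIndex N).Prime := by
  have : (C.subgroupOf N).Normal := (normal_subgroupOf_iff_le_normalizer hC).mpr hn
  have : Nontrivial (N ⧸ C.subgroupOf N) := QuotientGroup.nontrivial_iff.mpr fun e =>
    hne (subgroupOf_eq_top.mp e)
  refine card_prime_of_selfnorm (G := N ⧸ C.subgroupOf N) fun K hK x hx => ?_
  obtain ⟨x, rfl⟩ := QuotientGroup.mk'_surjective _ x
  let K' := (K.comap (QuotientGroup.mk' (C.subgroupOf N))).map N.subtype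
  have h1 : C < K' := by
    refine lt_of_le_of_ne (fun c hc => ⟨⟨c, hC hc⟩, ?_, rfl⟩) fun e => hK ?_
    · change QuotientGroup.mk' _ _ ∈ K
      rw [show QuotientGroup.mk' (C.subgroupOf N) ⟨c, hC hc⟩ = 1 from
        (QuotientGroup.eq_one_iff _).mpr hc]
      exact K.one_mem
    · refine eq_bot_iff.mpr fun y hy => ?_
      obtain ⟨y, rfl⟩ := QuotientGroup.mk'_surjective _ y
      exact (QuotientGroup.eq_one_iff _).mpr
        (show (y : G) ∈ C from e ▸ (mem_map_of_mem N.subtype hy : (y : G) ∈ K'))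
  have h2 : (x : G) ∈ 𝐍(K') := mem_normalizer_fintype (by
    rintro _ ⟨y, hy, rfl⟩
    exact ⟨x * y * x⁻¹, (mem_normalizer_iff.mp hx _).mp hy, rfl⟩)
  obtain ⟨y, hy, e⟩ := h K' h1 (map_subtype_le _) h2
  rwa [← show y = x from Subtype.ext e]

theorem dvd_orderOf {C N : Subgroup G} (hC : C ≤ N) (hn : N ≤ 𝐍(C))
    (hp : (C.relIndex N).Prime) {y : G} (hy : y ∈ N) (hyC : y ∉ C) :
    C.relIndex N ∣ orderOf y := by
  have : (C.subgroupOf N).Normal := (normal_subgroupOf_iff_le_normalizer hC).mpr hn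
  have h1 : orderOf (QuotientGroup.mk' (C.subgroupOf N) ⟨y, hy⟩) ∣ C.relIndex N :=
    orderOf_dvd_natCard _
  rcases (Nat.dvd_prime hp).mp h1 with h2 | h2
  · exact absurd ((QuotientGroup.eq_one_iff _).mp (orderOf_eq_one_iff.mp h2)) hyC
  · rw [← h2, ← orderOf_mk (ha := hy)]
    exact orderOf_map_dvd _ _

/-- Nonabelian subgroups are self-normalizing. -/
def YG (G : Type u) [Group G] : Prop := ∀ H : Subgroup G, ¬ IsMulCommutative H → 𝐍(H) = H

theorem YG.comm (h : YG G) {C : Subgroup G} {y : G} (hy : y ∈ 𝐍(C)) (hyC : y ∉ C) :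
    IsMulCommutative C := by
  by_contra hc
  exact hyC (h C hc ▸ hy)

theorem YG.prime (h : YG G) {V : Subgroup G} (hV : IsMulCommutative V) (hne : ¬ 𝐍(V) ≤ 𝐂(V)) :
    (𝐂(V).relIndex 𝐍(V)).Prime :=
  relIndex_prime (centralizer_le_normalizer _) (H1.le_normalizer_centralizer le_rfl) hne
    fun K h1 _ => (h K fun hc => h1.not_ge fun x hx v hv =>
      comm_iff.mp hc v (h1.le (le_centralizer V hv)) x hx).le

theorem YG.asyl [IsSimpleGroup G] (hna : ¬ IsMulCommutative G) (h : YG G) : ASyl G := by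
  intro p P₀ hp hP₀
  have := Fact.mk hp
  obtain ⟨P, hP⟩ := hP₀.exists_le_sylow
  suffices hs : IsMulCommutative P from
    comm_iff.mpr fun a ha b hb => comm_iff.mp hs a (hP ha) b (hP hb)
  by_contra hc
  have hd : p ∣ Nat.card G := by
    by_contra hd
    refine hc (comm_iff.mpr fun a ha b _ => ?_)
    obtain ⟨k, hk⟩ := P.isPGroup' ⟨a, ha⟩
    rw [(orderOf_eq_one_iff (x := a)).mp (Nat.eq_one_of_dvd_coprimes (Nat.Coprime.pow_left k
      ((Nat.Prime.coprime_iff_not_dvd hp).mpr hd))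
      (orderOf_dvd_of_pow_eq_one (congrArg Subtype.val hk)) (orderOf_dvd_natCard a))]
    exact Commute.one_left b
  obtain ⟨X, hX, -, g, hg, q, k, hq, hqp, hgo, hgC⟩ :=
    H8.exists_primePow_not_centralizes (H9.not_hasNPC_of_simple hna hd) P
  have hXc : IsMulCommutative X := h.comm hg fun hgX => by
    obtain ⟨j, hj⟩ := P.isPGroup' ⟨g, hX hgX⟩
    refine hgC ?_
    rw [(orderOf_eq_one_iff (x := g)).mp (Nat.eq_one_of_dvd_coprimes
      (Nat.coprime_pow_primes j k hp hq hqp.symm)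
      (orderOf_dvd_of_pow_eq_one (congrArg Subtype.val hj)) hgo.dvd)]
    exact one_mem _
  have hgN : g ∈ 𝐍(𝐂(X)) := H1.le_normalizer_centralizer le_rfl hg
  have hC := comm_iff.mp (h.comm hgN hgC)
  let T : Subgroup G :=
    { carrier := {x | x ∈ 𝐂(X) ∧ ∃ n, x ^ p ^ n = 1}
      mul_mem' := by
        rintro a b ⟨ha, m, hm⟩ ⟨hb, n, hn⟩
        refine ⟨mul_mem ha hb, m + n, ?_⟩
        rw [(hC a ha b hb).mul_pow, pow_add, pow_mul, hm, one_pow, mul_comm, pow_mul, hn,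
          one_pow, one_mul]
      one_mem' := ⟨one_mem _, 0, one_pow _⟩
      inv_mem' := by
        rintro a ⟨ha, m, hm⟩
        exact ⟨inv_mem ha, m, by rw [inv_pow, hm, inv_one]⟩ }
  have hT : IsPGroup p T := fun ⟨x, _, n, hn⟩ => ⟨n, Subtype.ext hn⟩
  have hXT : X ≤ T := fun x hx => ⟨le_centralizer X hx, by
    obtain ⟨j, hj⟩ := P.isPGroup' ⟨x, hX hx⟩
    exact ⟨j, congrArg Subtype.val hj⟩⟩
  have hTc : IsMulCommutative T := comm_iff.mpr fun a ha b hb => hC a ha.1 b hb.1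
  have hgT : g ∈ 𝐍(T) := mem_normalizer_fintype (by
    rintro x ⟨hx, n, hn⟩
    exact ⟨(mem_normalizer_iff.mp hgN x).mp hx, n, by rw [conj_pow, hn]; group⟩)
  have hCT : 𝐂(T) ≤ 𝐂(X) := centralizer_le hXT
  have hpr := h.prime hTc fun e => hgC (hCT (e hgT))
  have hdv := fun y (hy : y ∈ 𝐍(T)) (hy' : y ∉ 𝐂(X)) => dvd_orderOf
    (centralizer_le_normalizer _) (H1.le_normalizer_centralizer le_rfl) hpr hy
    fun e => hy' (hCT e)
  obtain ⟨S, hS⟩ := hT.exists_le_sylow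
  rcases hS.eq_or_lt with e | hlt
  · obtain ⟨a, rfl⟩ := MulAction.exists_smul_eq G S P
    refine hc (comm_iff.mpr ?_)
    rintro _ ⟨x, hx, rfl⟩ _ ⟨y, hy, rfl⟩
    exact (comm_iff.mp hTc x (e ▸ hx) y (e ▸ hy)).map (MulAut.conj a)
  · have := S.isPGroup'.isNilpotent
    obtain ⟨y, ⟨hyS, hyN⟩, hyT⟩ :=
      SetLike.exists_of_lt (H8.lt_inf_normalizer_of_lt hlt)
    obtain ⟨j, hj⟩ := S.isPGroup' ⟨y, hyS⟩
    have hj : y ^ p ^ j = 1 := congrArg Subtype.val hj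
    have h1 := (hdv y hyN fun e => hyT ⟨e, j, hj⟩).trans (orderOf_dvd_of_pow_eq_one hj)
    have h2 := hdv g hgT hgC
    rw [hgo] at h2
    exact hqp (((Nat.prime_dvd_prime_iff_eq hpr hq).mp (hpr.dvd_of_dvd_pow h2)).symm.trans
      ((Nat.prime_dvd_prime_iff_eq hpr hp).mp (hpr.dvd_of_dvd_pow h1)))

theorem YG.cent_prime [IsSimpleGroup G] (hna : ¬ IsMulCommutative G) (h : YG G) {x : G}
    (hr : (orderOf x).Prime) : IsMulCommutative 𝐂[x] := by
  by_contra hc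
  have hA := h.asyl hna
  have := Fact.mk hr
  have x1 : x ≠ 1 := fun e => by rw [e, orderOf_one] at hr; exact Nat.not_prime_one hr
  set H := 𝐂[x] with hH
  have hxH : x ∈ H := mem_cent.mpr (Commute.refl x)
  have hDn : H ≤ 𝐍((⁅H, H⁆ : Subgroup G)) := H1.le_normalizer_commutator le_normalizer le_normalizer
  have hxD : ∀ n : ℕ, x ^ n ∈ ⁅H, H⁆ → x ^ n = 1 := fun n hn =>
    hA.eq_one hn fun y hy => (mem_cent.mp hy).pow_left n
  have hD := comm_iff.mp (h.comm (hDn hxH) fun e => x1 (by simpa using hxD 1 (by simpa using e)))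
  have h1 : ¬ H ≤ 𝐂((⁅H, H⁆ : Subgroup G)) := fun e => hc (comm_iff.mpr fun a ha b hb =>
    commutatorElement_eq_one_iff_commute.mp (hA.eq_one (commutator_mem_commutator ha hb)
      fun y hy => e hy _ (commutator_mem_commutator ha hb)))
  obtain ⟨y₀, hy₀, hy₀C⟩ := SetLike.not_le_iff_exists.mp h1
  obtain ⟨q, k, y, hq, hy, hyo, hyC⟩ := H8.exists_primePow_not_mem hy₀C
  have hy : y ∈ H := zpowers_le.mpr hy₀ hy
  have hK : H ≤ zpowers y ⊔ ⁅H, H⁆ := by
    have hle : zpowers y ⊔ ⁅H, H⁆ ≤ H := sup_le (zpowers_le.mpr hy) (commutator_le_self H)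
    rw [← h (zpowers y ⊔ ⁅H, H⁆) fun e => hyC fun d hd =>
      comm_iff.mp e d (mem_sup_right hd) y (mem_sup_left (mem_zpowers y))]
    refine fun a ha => mem_normalizer_fintype fun b hb => ?_
    rw [show a * b * a⁻¹ = ⁅a, b⁆ * b by group]
    exact mul_mem (mem_sup_right (commutator_mem_commutator ha (hle hb))) hb
  have dec : ∀ a ∈ H, ∃ j : ℤ, ∃ d ∈ ⁅H, H⁆, y ^ j * d = a := fun a ha => by
    obtain ⟨_, ⟨j, rfl⟩, d, hd, e⟩ := (H1.mem_sup_iff_of_le_normalizer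
      ((zpowers_le.mpr hy).trans hDn)).mp (hK ha)
    exact ⟨j, d, hd, e⟩
  have hcen : ∀ d ∈ ⁅H, H⁆, Commute d y → d = 1 := fun d hd hdy => hA.eq_one hd fun a ha => by
    obtain ⟨j, d', hd', rfl⟩ := dec a ha
    exact (hdy.zpow_right j).mul_right (hD d hd d' hd')
  have hxy : Commute x y := mem_cent.mp hy
  obtain ⟨i, d, hd, e⟩ := dec x hxH
  have hd1 : d = 1 := hcen d hd (by
    rw [eq_inv_mul_of_mul_eq e]
    exact ((Commute.refl y).zpow_left i).inv_left.mul_left hxy)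
  rw [hd1, mul_one] at e
  have hqr : orderOf x = q := (Nat.prime_dvd_prime_iff_eq hr hq).mp (hr.dvd_of_dvd_pow
    (hyo ▸ e ▸ orderOf_dvd_of_mem_zpowers (zpow_mem_zpowers y i)))
  obtain ⟨R, hR⟩ := (IsPGroup.of_card (p := orderOf x) (n := k) (G := zpowers y)
    (by rw [Nat.card_zpowers, hyo, hqr])).exists_le_sylow
  have hRc := hA _ _ hr R.isPGroup'
  have hxR : x ∈ (R : Subgroup G) := hR (e ▸ zpow_mem_zpowers y i)
  have hyR : y ∈ (R : Subgroup G) := hR (mem_zpowers y)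
  refine x1 (eq_one_of_transfer R hxR (H9.commutator_eq_top_of_simple hna ▸ mem_top x)
    fun n hn => mem_cent.mp ?_)
  rw [← hH, ← h H hc]
  have h2 : n * y * n⁻¹ ∈ (R : Subgroup G) := (mem_normalizer_iff.mp hn y).mp hyR
  obtain ⟨j, d', hd', e'⟩ := dec _ (mem_cent.mpr (comm_iff.mp hRc x hxR _ h2))
  rw [hcen d' hd' (by
    rw [eq_inv_mul_of_mul_eq e']
    exact ((Commute.refl y).zpow_left j).inv_left.mul_left
      (comm_iff.mp hRc _ h2 y hyR)), mul_one] at e'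
  have h3 : n ∈ 𝐍(zpowers x) := mem_normalizer_fintype (by
    rintro _ ⟨m, rfl⟩
    refine ⟨j * m, ?_⟩
    change x ^ (j * m) = n * x ^ m * n⁻¹
    rw [← e, ← zpow_mul, ← zpow_mul, ← conj_zpow, ← e', ← zpow_mul]
    congr 1
    ring)
  have h4 := H1.le_normalizer_centralizer le_rfl h3
  rwa [zpowers_eq_closure, centralizer_closure] at h4

theorem YG.cag [IsSimpleGroup G] (hna : ¬ IsMulCommutative G) (h : YG G) : CAG G := by
  intro x hx
  obtain ⟨k, hk⟩ := exists_pow_prime hx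
  exact comm_iff.mpr fun a ha b hb => comm_iff.mp (h.cent_prime hna hk)
    a (mem_cent.mpr ((mem_cent.mp ha).pow_left k)) b (mem_cent.mpr ((mem_cent.mp hb).pow_left k))

theorem YG.psl [IsSimpleGroup G] (hna : ¬ IsMulCommutative G) (h : YG G) :
    ∃ n : ℕ, 2 ≤ n ∧ (2 ^ n - 1).Prime ∧
      Nonempty (G ≃* Matrix.ProjectiveSpecialLinearGroup (Fin 2) (GaloisField 2 n)) := by
  obtain ⟨s, s1, ss⟩ := exists_invol (even_card hna)
  have hc := h.cag hna
  obtain ⟨H, t, hz, e1, e2⟩ := hc.zt hna s1 ss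
  obtain ⟨n, hn, -, h2, -, h3⟩ := ZA.sl2_of_eq_Z hz e2
  have h4 : 𝐂(𝐂[s]) = 𝐂[s] := le_antisymm (fun y hy => mem_cent.mpr
    (hy s (mem_cent.mpr (Commute.refl s)))) (have := hc s s1; le_centralizer _)
  have h5 := hz.relIndex_B
  rw [e1] at h5
  have h6 := h.prime (hc s s1) fun e => by
    rw [h4, ← relIndex_eq_one, h5] at e
    have := hz.three_le
    omega
  rw [h4, h5, h2] at h6
  exact ⟨n, hn, h6, h3⟩

section Conv

variable {Q H : Subgroup G} {t : G}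

theorem B_le (h : P2.ZT Q H t) (hQ : Q = h.Z) (hp : (𝐨(H)).Prime) {L : Subgroup G} {v y : G}
    (hv : v ∈ L) (hvQ : v ∈ Q) (v1 : v ≠ 1) (hy : y ∈ 𝐍((L ⊓ Q : Subgroup G))) (hyL : y ∈ L)
    (hyQ : y ∉ Q) : Q ⊔ H ≤ L := by
  have hsq : ∀ x ∈ Q, x * x = 1 := fun x hx => (h.mem_Z.mp (hQ ▸ hx)).2
  obtain ⟨u, hu, k, hk, rfl⟩ := h.mem_B.mp (h.ti hvQ v1
    (mem_sup_left ((mem_normalizer_iff.mp hy v).mp ⟨hv, hvQ⟩).2))
  have k1 : k ≠ 1 := fun e => hyQ (by rwa [e, mul_one])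
  have := Fact.mk hp
  have h1 : H ≤ zpowers k := fun a ha => by
    obtain ⟨j, e⟩ := mem_zpowers_of_prime_card (G := H) rfl (g := ⟨k, hk⟩) (g' := ⟨a, ha⟩)
      fun e => k1 (congrArg Subtype.val e)
    exact ⟨j, congrArg Subtype.val e⟩
  have h2 : u ∈ 𝐍((L ⊓ Q : Subgroup G)) := centralizer_le_normalizer _ fun a ha =>
    (h.central ha.2 (hsq a ha.2) hu).symm
  have h3 : H ≤ 𝐍((L ⊓ Q : Subgroup G)) :=
    h1.trans (zpowers_le.mpr ((mul_mem_cancel_left h2).mp hy))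
  have h4 : Q ≤ L := fun a ha => by
    by_cases a1 : a = 1
    · exact a1 ▸ L.one_mem
    obtain ⟨k', hk', rfl⟩ := h.trans hvQ v1 (hsq v hvQ) ha a1 (hsq a ha)
    exact ((mem_normalizer_iff.mp (h3 hk') v).mp ⟨hv, hvQ⟩).1
  exact sup_le h4 (h1.trans (zpowers_le.mpr ((mul_mem_cancel_left (h4 hu)).mp hyL)))

theorem B_max (h : P2.ZT Q H t) {M : Subgroup G} (hB : Q ⊔ H ≤ M) (hM : M ≠ ⊤) : M ≤ Q ⊔ H := by
  intro m hm
  refine (h.bruhat m).resolve_right ?_
  rintro ⟨x, hx, y, hy, rfl⟩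
  have ht : t ∈ M := (mul_mem_cancel_left (hB hx)).mp
    ((mul_mem_cancel_right (hB (mem_sup_left hy))).mp hm)
  refine hM (eq_top_iff.mpr fun g _ => ?_)
  rcases h.bruhat g with hg | ⟨a, ha, b, hb, rfl⟩
  · exact hB hg
  · exact mul_mem (mul_mem (hB ha) ht) (hB (mem_sup_left hb))

theorem pow_eq_of_card {m n : ℕ}
    (h : 2 ^ m * (2 ^ m - 1) * (2 ^ m + 1) = 2 ^ n * (2 ^ n - 1) * (2 ^ n + 1)) : m = n := by
  have key : ∀ a b : ℕ, a < b →
      2 ^ a * (2 ^ a - 1) * (2 ^ a + 1) < 2 ^ b * (2 ^ b - 1) * (2 ^ b + 1) := fun a b hab => by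
    have h1 : 2 ^ a < 2 ^ b := Nat.pow_lt_pow_right (by norm_num) hab
    have h2 : 0 < 2 ^ a := Nat.two_pow_pos a
    exact Nat.mul_lt_mul'' (Nat.mul_lt_mul'' h1 (by omega)) (by omega)
  rcases lt_trichotomy m n with e | e | e
  · exact absurd h (key _ _ e).ne
  · exact e
  · exact absurd h (key _ _ e).ne'

theorem yg_of_psl [IsSimpleGroup G] (hna : ¬ IsMulCommutative G) {n : ℕ} (hn : 2 ≤ n)
    (hp : (2 ^ n - 1).Prime)
    (e : G ≃* Matrix.ProjectiveSpecialLinearGroup (Fin 2) (GaloisField 2 n)) : YG G := by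
  obtain ⟨hc, hw⟩ := cag_of_psl e
  have := Fact.mk Nat.prime_two
  have hz : ∀ s : G, s ≠ 1 → s * s = 1 → ∃ (H : Subgroup G) (t : G) (hz : P2.ZT 𝐂[s] H t),
      𝐂[s] ⊔ H = 𝐍(𝐂[s]) ∧ 𝐂[s] = hz.Z ∧ (𝐨(H)).Prime := fun s s1 ss => by
    obtain ⟨H, t, hz, e1, e2⟩ := hc.zt hna s1 ss
    obtain ⟨m, -, a1, a2, -⟩ := ZA.sl2_of_eq_Z hz e2
    have h1 := hz.card_G
    rw [a1, a2, card_of_psl (by omega) e] at h1
    exact ⟨H, t, hz, e1, e2, by rwa [a2, ← pow_eq_of_card h1]⟩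
  intro K hK
  refine le_antisymm ?_ le_normalizer
  by_cases hT : K = ⊤
  · exact hT ▸ le_top
  have hK1 : K ≠ ⊥ := fun e => hK (e ▸ inferInstance)
  have hM : 𝐍(K) ≠ ⊤ := fun e =>
    (normalizer_eq_top_iff.mp e).eq_bot_or_eq_top.elim hK1 hT
  by_cases hN : HasNormalPComplement 2 K
  · have hs := isSolvable_of_hasNPC_two (fun G _ _ => feit_thompson G) hN
    obtain ⟨⟨x, hxF, hxC⟩, x1⟩ := ne_bot_iff_exists_ne_one.mp
      (L.inf_centralizer_ne_bot_of_isNilpotent le_rfl le_normalizer (H2.fittingOf_ne_bot hK1))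
    have x1 : x ≠ 1 := fun e => x1 (Subtype.ext e)
    have hMA : 𝐍(K) ≤ 𝐍(𝐂[x]) := fun m hm => hc.mem_norm x1 x1 (Commute.refl x)
      (Commute.symm (hxC _ ((mem_normalizer_iff.mp
        (H2.normalizer_le_normalizer_fittingOf K hm) x).mp hxF)))
    have hA := comm_iff.mp (hc x x1)
    obtain ⟨y, hy, hyA⟩ := SetLike.not_le_iff_exists.mp fun e : K ≤ 𝐂[x] =>
      hK (comm_iff.mpr fun a ha b hb => hA a (e ha) b (e hb))
    by_cases xx : x * x = 1
    · obtain ⟨H, t, hz, e1, e2, hp⟩ := hz x x1 xx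
      exact (hMA.trans e1.ge).trans (B_le hz e2 hp (H2.fittingOf_le K hxF)
        (mem_cent.mpr (Commute.refl x)) x1
        (H1.le_normalizer_inf le_normalizer (le_normalizer.trans hMA) hy) hy hyA)
    obtain ⟨s, s1, ss⟩ := exists_invol (even_card hna)
    obtain ⟨H, t, hz, -, e2, -⟩ := hz s s1 ss
    have hE := hz.eac e2
    obtain ⟨w, ww, hw⟩ := hw x
    have hI : L.InvBy w x := ⟨xx, fun e => xx (by
      rw [e, one_mul, mul_one] at hw; exact mul_eq_one_iff_eq_inv.mpr hw), ww, hw⟩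
    have ha := (hE.mem_or_of_mem_normalizer hI (hMA (le_normalizer hy))).resolve_left hyA
    have wi : w⁻¹ = w := inv_eq_of_mul_eq_one_right ww
    have key : ∀ m ∈ 𝐍(K), m ∈ 𝐂[x] → m ∈ K := fun m hm hmA => by
      have h1 : m * y * m⁻¹ * y⁻¹ = m ^ 2 := by
        have h2 := hE.inverts hI _ (inv_mem hmA)
        have h3 := (hA _ ha _ (inv_mem hmA)).eq
        rw [inv_inv] at h2
        calc m * y * m⁻¹ * y⁻¹ = m * (w⁻¹ * (w * y * m⁻¹) * (w * y)⁻¹ * w) := by group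
          _ = m * (w * m⁻¹ * w) := by rw [h3, wi]; group
          _ = m ^ 2 := by rw [h2, sq]
      have h4 : m ^ 2 ∈ K := h1 ▸ mul_mem ((mem_normalizer_iff.mp hm y).mp hy) (inv_mem hy)
      refine zpowers_le.mpr h4 (mem_zpowers_pow_iff.mpr (Nat.coprime_two_left.mpr ?_))
      exact (hE.odd_card xx).of_dvd_nat (Subgroup.orderOf_dvd_natCard _ hmA)
    intro m hm
    rcases hE.mem_or_of_mem_normalizer hI (hMA hm) with h1 | h1
    · exact key m hm h1
    · refine (mul_mem_cancel_left (inv_mem hy)).mp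
        (key _ (mul_mem (inv_mem (le_normalizer hy)) hm) ?_)
      rw [show y⁻¹ * m = (w * y)⁻¹ * (w * m) by group]
      exact mul_mem (inv_mem ha) h1
  · obtain ⟨S⟩ : Nonempty (Sylow 2 K) := inferInstance
    obtain ⟨y, hy, hyC⟩ := SetLike.not_le_iff_exists.mp
      fun e => hN (H8.hasNPC_of_normalizer_le_centralizer S e)
    rw [mem_centralizer_iff] at hyC
    push Not at hyC
    obtain ⟨a, ha, hay⟩ := hyC
    have := S.isPGroup'.isNilpotent
    obtain ⟨⟨z, hzS, hzC⟩, z1⟩ := ne_bot_iff_exists_ne_one.mp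
      (L.inf_centralizer_ne_bot_of_isNilpotent (N := (S : Subgroup K)) le_rfl le_normalizer
        fun e => hay (by rw [mem_bot.mp (e ▸ ha : a ∈ (⊥ : Subgroup K))]; simp))
    obtain ⟨k, hk⟩ := exists_pow_prime (x := (z : G))
      fun e => z1 (Subtype.ext (Subtype.ext e))
    obtain ⟨j, hj⟩ := S.isPGroup' ⟨z ^ k, pow_mem hzS k⟩
    have hj : ((z : G) ^ k) ^ 2 ^ j = 1 := congrArg (fun a : S => (a : G)) hj
    have h2 : orderOf ((z : G) ^ k) = 2 := (Nat.prime_dvd_prime_iff_eq hk Nat.prime_two).mp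
      (hk.dvd_of_dvd_pow (orderOf_dvd_of_pow_eq_one hj))
    have s1 : (z : G) ^ k ≠ 1 := fun e => by simp [e] at h2
    have hSQ : ∀ b ∈ (S : Subgroup K), Commute ((z : G) ^ k) b := fun b hb =>
      (Commute.symm (congrArg Subtype.val (hzC b hb))).pow_left k
    obtain ⟨H, t, hz, e1, e2, hp⟩ := hz _ s1 (by rw [← sq, ← h2]; exact pow_orderOf_eq_one _)
    have hyN : (y : G) ∈ 𝐍(𝐂[(z : G) ^ k]) := hc.mem_norm s1 s1 (Commute.refl _)
      (hSQ _ ((mem_normalizer_iff.mp hy _).mp (pow_mem hzS k)))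
    have hB := B_le hz e2 hp (pow_mem z.2 k) (mem_cent.mpr (Commute.refl _)) s1
      (H1.le_normalizer_inf (A := zpowers (y : G)) (zpowers_le.mpr (le_normalizer y.2))
        (zpowers_le.mpr hyN) (mem_zpowers _)) y.2
      fun e => hay (Subtype.ext (comm_iff.mp (hc _ s1) _ (mem_cent.mpr (hSQ a ha)) _ e))
    exact (B_max hz (hB.trans le_normalizer) hM).trans hB

end Conv

end Cfsg.Agent.H7.CA
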